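/-
Suzuki groups, part 16: binary actions.
-/
import Cfsg.Agent.Chev.SuzukiSol
import Cfsg.Agent.Chev.SuzukiAut

set_option autoImplicit false

namespace Cfsg.Lib.Chev

/-- Binary actions. -/
def IsBinary (G Ω : Type*) [Group G] [MulAction G Ω] : Prop :=
  ∀ (n : ℕ) (I J : Fin n → Ω), 2 ≤ n →
    (∀ i j : Fin n, i ≠ j → ∃ g : G, g • I i = J i ∧ g • I j = J j) → ∃ g : G, ∀ i, g • I i = J i

section General

variable {G Ω : Type*} [Group G] [MulAction G Ω]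

theorem IsBinary.of_finite (h : IsBinary G Ω) {ι : Type*} [Finite ι] (I J : ι → Ω)
    (hIJ : ∀ i j, ∃ g : G, g • I i = J i ∧ g • I j = J j) : ∃ g : G, ∀ i, g • I i = J i := by
  by_cases h2 : 2 ≤ Nat.card ι
  · let e := Finite.equivFin ι
    obtain ⟨g, hg⟩ := h _ (I ∘ e.symm) (J ∘ e.symm) h2 fun i j _ => hIJ _ _
    exact ⟨g, fun i => by simpa using hg (e i)⟩
  · have : Subsingleton ι := Finite.card_le_one_iff_subsingleton.mp (by omega)
    rcases isEmpty_or_nonempty ι with _ | ⟨⟨i⟩⟩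
    · exact ⟨1, fun i => isEmptyElim i⟩
    · obtain ⟨g, hg, -⟩ := hIJ i i
      exact ⟨g, fun j => Subsingleton.elim i j ▸ hg⟩

theorem IsBinary.dist [Finite Ω] (h : IsBinary G Ω) (A B C : Set Ω) {x y : G} (hx : ∀ a ∈ A, x • a = a)
    (hy : ∀ b ∈ B, y • b = b) (hxy : ∀ c ∈ C, x • c = y • c) :
    ∃ g : G, (∀ a ∈ A, g • a = a) ∧ (∀ b ∈ B, g • b = b) ∧ ∀ c ∈ C, g • c = x • c := by
  obtain ⟨g, hg⟩ := h.of_finite (ι := A ⊕ B ⊕ C) (Sum.elim Subtype.val (Sum.elim Subtype.val Subtype.val))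
    (Sum.elim Subtype.val (Sum.elim Subtype.val fun c => x • c.1)) (by
      rintro (a | b | c) (a' | b' | c')
      · exact ⟨1, one_smul _ _, one_smul _ _⟩
      · exact ⟨1, one_smul _ _, one_smul _ _⟩
      · exact ⟨x, hx _ a.2, rfl⟩
      · exact ⟨1, one_smul _ _, one_smul _ _⟩
      · exact ⟨1, one_smul _ _, one_smul _ _⟩
      · exact ⟨y, hy _ b.2, (hxy _ c'.2).symm⟩
      · exact ⟨x, rfl, hx _ a'.2⟩
      · exact ⟨y, (hxy _ c.2).symm, hy _ b'.2⟩
      · exact ⟨x, rfl, rfl⟩)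
  exact ⟨g, fun a ha => hg (Sum.inl ⟨a, ha⟩), fun b hb => hg (Sum.inr (Sum.inl ⟨b, hb⟩)),
    fun c hc => hg (Sum.inr (Sum.inr ⟨c, hc⟩))⟩

theorem ncard_fixedBy_of_isConj {g g' : G} (h : IsConj g g') :
    (MulAction.fixedBy Ω g).ncard = (MulAction.fixedBy Ω g').ncard := by
  obtain ⟨k, rfl⟩ := isConj_iff.mp h
  rw [← MulAction.smul_fixedBy, Set.ncard_smul_set]

/-- Commuting involutions have the same fixed points in a binary action of a group with one class of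
involutions. -/
theorem IsBinary.fixedBy_subset [Finite G] [Finite Ω] (h : IsBinary G Ω)
    (hconj : ∀ x y : G, x ≠ 1 → x ^ 2 = 1 → y ≠ 1 → y ^ 2 = 1 → IsConj x y) {u v : G} (hu1 : u ≠ 1)
    (hu : u ^ 2 = 1) (hv : v ^ 2 = 1) (huv : Commute u v) : MulAction.fixedBy Ω u ⊆ MulAction.fixedBy Ω v := by
  by_cases hv1 : v = 1
  · simp [hv1]
  by_cases h1 : u * v = 1
  · rw [eq_inv_of_mul_eq_one_left h1, MulAction.fixedBy_inv]
  have huv2 : (u * v) ^ 2 = 1 := by rw [huv.mul_pow, hu, hv, one_mul]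
  have huu : ∀ a : Ω, u • u • a = a := fun a => by rw [← mul_smul, ← sq, hu, one_smul]
  have key : ∀ {x y : G}, IsConj x y → MulAction.fixedBy Ω x ⊆ MulAction.fixedBy Ω y →
      MulAction.fixedBy Ω y ⊆ MulAction.fixedBy Ω x := fun hc hs =>
    (Set.eq_of_subset_of_ncard_le hs (ncard_fixedBy_of_isConj hc).ge).ge
  obtain ⟨a, ha1, ha2, ha3⟩ := h.dist (MulAction.fixedBy Ω u) (MulAction.fixedBy Ω v) (MulAction.fixedBy Ω (u * v))
    (x := u) (y := v) (fun _ h => h) (fun _ h => h) (fun c hc => by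
      conv_lhs => rw [← (hc : (u * v) • c = c), mul_smul, huu])
  have hb1 : ∀ c ∈ MulAction.fixedBy Ω u, (a⁻¹ * u) • c = c := fun c hc => by
    rw [mul_smul, hc, inv_smul_eq_iff, ha1 c hc]
  have hb3 : ∀ c ∈ MulAction.fixedBy Ω (u * v), (a⁻¹ * u) • c = c := fun c hc => by
    rw [mul_smul, inv_smul_eq_iff, ha3 c hc]
  rcases Nat.even_or_odd' (orderOf (a⁻¹ * u)) with ⟨n, hn | hn⟩
  · have hpos := orderOf_pos (a⁻¹ * u)
    have h2 : (a⁻¹ * u) ^ n ≠ 1 := pow_ne_one_of_lt_orderOf (by omega) (by omega)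
    have h3 : ((a⁻¹ * u) ^ n) ^ 2 = 1 := by rw [← pow_mul, mul_comm, ← hn, pow_orderOf_eq_one]
    have h4 := key (hconj _ _ hu1 hu h2 h3) fun c hc =>
      (MulAction.stabilizer G c).pow_mem (x := a⁻¹ * u) (hb1 c hc) n
    have h5 := key (hconj _ _ h1 huv2 hu1 hu) fun c hc =>
      h4 ((MulAction.stabilizer G c).pow_mem (x := a⁻¹ * u) (hb3 c hc) n)
    intro c hc
    have h6 : (u * v) • c = c := h5 hc
    rw [huv.eq, mul_smul, (hc : u • c = c)] at h6
    exact h6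
  · refine key (hconj _ _ hv1 hv hu1 hu) fun c hc => ?_
    have h2 : ∀ c ∈ MulAction.fixedBy Ω v, u • c ∈ MulAction.fixedBy Ω v := fun c hc => by
      rw [MulAction.mem_fixedBy, ← mul_smul, ← huv.eq, mul_smul, (hc : v • c = c)]
    have h3 : ∀ c ∈ MulAction.fixedBy Ω v, (a⁻¹ * u) • c = u • c := fun c hc => by
      rw [mul_smul, inv_smul_eq_iff, ha2 _ (h2 c hc)]
    have h4 : (a⁻¹ * u) ^ 2 ∈ MulAction.stabilizer G c := by
      rw [MulAction.mem_stabilizer_iff, sq, mul_smul, h3 c hc, h3 _ (h2 c hc), huu]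
    have h5 : ((a⁻¹ * u) ^ 2) ^ n • c = c := (MulAction.stabilizer G c).pow_mem h4 n
    have h6 : (a⁻¹ * u) ^ (2 * n + 1) = 1 := hn ▸ pow_orderOf_eq_one _
    rw [MulAction.mem_fixedBy, ← h3 c hc]
    conv_lhs => rw [← h5, ← mul_smul, ← pow_mul, ← pow_succ', h6, one_smul]

end General

namespace SzModel

variable {F : Type*} [Field F] [Fintype F] {τ : Tw F} {G : Type*} [Group G] (M : SzModel τ G)

omit [Fintype F] in
theorem D_conj_wTw (l : Fˣ) (e : F) :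
    (M.D l)⁻¹ * (M.w * M.T 0 e * M.w) * M.D l = M.w * M.T 0 (τ.θ l * (l : F) ^ 2 * e) * M.w := by
  have h := M.D_conj_T l 0 e
  rw [mul_zero] at h
  have h1 : (M.D l)⁻¹ = M.w * M.D l * M.w := by rw [w_D_w, map_inv]
  have h2 : M.w * M.D l = (M.D l)⁻¹ * M.w := by rw [w_mul_D, map_inv]
  rw [← h, mul_assoc, mul_assoc _ M.w, h2]
  conv_lhs => lhs; rw [h1]
  simp only [mul_assoc, ← mul_assoc M.w M.w, w_mul_w, one_mul]

theorem isConj_TwTw {a : F} (ha : a ≠ 0) (b : F) :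
    IsConj (M.T 0 a * (M.w * M.T 0 b * M.w)) (M.T 0 1 * (M.w * M.T 0 (a * b) * M.w)) := by
  obtain ⟨l, rfl⟩ := τ.exists_unit_θ_mul_sq ha
  have h := M.D_conj_T l 0 1
  rw [mul_zero, mul_one] at h
  exact isConj_iff.mpr ⟨(M.D l)⁻¹, by rw [← D_conj_wTw, ← h]; group⟩

omit [Fintype F] in
theorem exists_isConj_wTw {y : G} (hy : y ∈ M.P) (hy1 : y ≠ 1) : ∃ k : F, k ≠ 0 ∧ ∀ a b,
    IsConj (M.w * M.T 0 a * M.w * (y * (M.w * M.T 0 b * M.w) * y⁻¹)) (M.T 0 a * (M.w * M.T 0 (k * b) * M.w)) := by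
  obtain ⟨c, d, e, f, l, h⟩ := M.bruhat (g := M.w * y * M.w) (fun h => by
    rw [mul_smul, mul_smul, w_smul_inf, ← eq_inv_smul_iff, w_inv, w_smul_inf] at h
    exact hy1 (M.eq_one_of_mem_P hy (M.pt_ne_inf 0 0) h))
  refine ⟨τ.θ l * (l : F) ^ 2, by simp, fun a b => isConj_iff.mpr ⟨(M.T c d)⁻¹ * M.w, ?_⟩⟩
  have h1 : Commute (M.T 0 a) (M.T c d) := M.commute_T_iff'.mpr (Or.inl rfl)
  have h2 : y = M.w * (M.T c d * M.w * (M.T e f * M.D l)) * M.w := by
    rw [← h]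
    simp only [mul_assoc, ← mul_assoc M.w M.w, w_mul_w, one_mul, mul_one]
  rw [← M.TD_conj_T_zero e f, h2]
  generalize M.T e f * M.D l = z
  simp only [mul_assoc, mul_inv_rev, w_inv, inv_inv, ← mul_assoc M.w M.w, w_mul_w, one_mul, inv_mul_cancel, mul_one]
  rw [← mul_assoc (M.T 0 a), h1.eq, mul_assoc, inv_mul_cancel_left]

theorem exists_conj_pair {p p' : M.Pt} (h : p ≠ p') {u v : G} (hu : u ∈ M.Zat p) (hu1 : u ≠ 1) (hv : v ∈ M.Zat p')
    (hv1 : v ≠ 1) : ∃ (k : G) (c : F), c ≠ 0 ∧ u = (M.conjModel k).T 0 1 ∧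
      v = (M.conjModel k).w * (M.conjModel k).T 0 c * (M.conjModel k).w := by
  obtain ⟨k, rfl, rfl⟩ := M.exists_smul_pair h
  rw [Zat_smul, Zat_inf] at hu
  obtain ⟨_, ⟨b, rfl⟩, rfl⟩ := hu
  have hb0 : b ≠ 0 := by
    rintro rfl
    simp at hu1
  obtain ⟨l, rfl⟩ := τ.exists_unit_θ_mul_sq hb0
  rw [← M.D_smul_zero l, ← M.w_smul_inf, ← mul_smul, ← mul_smul, Zat_smul, Zat_inf] at hv
  obtain ⟨_, ⟨c, rfl⟩, rfl⟩ := hv
  refine ⟨k * M.D l, c, ?_, ?_, ?_⟩
  · rintro rfl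
    simp at hv1
  · have h2 := M.D_conj_T l 0 1
    rw [mul_zero, mul_one] at h2
    rw [conjModel_T, ← h2]
    simp [mul_assoc]
  · rw [conjModel_T, conjModel_w]
    simp [mul_assoc]

theorem exists_triangle {U : Subgroup G} (hU : M.IsTorus U) {c : F} (hc : c ≠ 0)
    (hs : M.T 0 1 ∈ Subgroup.normalizer (U : Set G)) :
    ∃ y ∈ M.P, y ∉ Subgroup.normalizer (U : Set G) ∧
      IsConj (M.w * M.T 0 c * M.w * (y * (M.w * M.T 0 c * M.w) * y⁻¹)) (M.T 0 1 * (M.w * M.T 0 c * M.w)) := by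
  have key : ∀ b, ∃ l : Fˣ, IsConj (M.w * M.T 0 c * M.w * (M.D l * M.T 1 b * (M.D l)⁻¹ * (M.w * M.T 0 c * M.w) *
      (M.D l * M.T 1 b * (M.D l)⁻¹)⁻¹)) (M.T 0 1 * (M.w * M.T 0 c * M.w)) := by
    intro b
    obtain ⟨k, hk, h⟩ := M.exists_isConj_wTw (M.T_mem_P 1 b) (by simp)
    obtain ⟨m, hm⟩ := τ.sq_surj (k * c)⁻¹
    have hm0 : m ≠ 0 := by
      rintro rfl
      exact inv_ne_zero (mul_ne_zero hk hc) (by simpa using hm.symm)
    obtain ⟨l, rfl⟩ := τ.exists_unit_θ_mul_sq hm0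
    refine ⟨l, ?_⟩
    have h1 := (h (τ.θ l * (l : F) ^ 2 * c) (τ.θ l * (l : F) ^ 2 * c)).trans (M.isConj_TwTw (mul_ne_zero hm0 hc) _)
    have h2 : τ.θ l * (l : F) ^ 2 * c * (k * (τ.θ l * (l : F) ^ 2 * c)) = c := by
      calc _ = (τ.θ l * (l : F) ^ 2) ^ 2 * (k * c) * c := by ring
        _ = c := by rw [show (τ.θ l * (l : F) ^ 2) ^ 2 = (k * c)⁻¹ from hm, inv_mul_cancel₀ (mul_ne_zero hk hc), one_mul]
    rw [h2, ← D_conj_wTw] at h1
    exact (isConj_iff.mpr ⟨(M.D l)⁻¹, by group⟩).trans h1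
  have hZ : ∀ b, b ≠ 0 → M.T 0 b ∈ Subgroup.normalizer (U : Set G) → b = 1 := fun b hb h =>
    (M.T_inj.mp (hU.eq_of_mem_Zat (p := M.inf) h hs (by simpa using hb) M.T_zero_one_ne_one
      (by rw [Zat_inf]; exact M.T_mem_Z _) (by rw [Zat_inf]; exact M.T_mem_Z _))).2
  have key2 : ∀ b, M.T 1 b ∉ Subgroup.normalizer (U : Set G) → ∃ y ∈ M.P, y ∉ Subgroup.normalizer (U : Set G) ∧
      IsConj (M.w * M.T 0 c * M.w * (y * (M.w * M.T 0 c * M.w) * y⁻¹)) (M.T 0 1 * (M.w * M.T 0 c * M.w)) := by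
    intro b hb
    obtain ⟨l, hl⟩ := key b
    refine ⟨_, M.conj_mem_P (M.H_le_B (M.D_mem_H l)) (M.T_mem_P 1 b), fun h => hb ?_, hl⟩
    have h1 := Subgroup.pow_mem _ h 2
    rw [D_conj_T, T_sq, mul_one] at h1
    have h2 := hZ _ (by simp) h1
    have h3 : τ.θ l = 1 := τ.θ_mul_inj (by rw [h2, map_one, mul_one])
    obtain rfl : l = 1 := Units.ext (τ.θ_inj (by rw [h3, Units.val_one, map_one]))
    simpa using h
  obtain ⟨l, hl⟩ := M.exists_unit_ne_one
  by_cases h0 : M.T 1 0 ∈ Subgroup.normalizer (U : Set G)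
  · refine key2 l fun h => hl (Units.ext (hZ _ l.ne_zero ?_))
    have := Subgroup.mul_mem _ h (Subgroup.inv_mem _ h0)
    rw [T_inv, T_mul, τ.add_self] at this
    convert this using 2
    have := τ.two
    rw [map_one]
    grind
  · exact key2 0 h0

variable {Ω : Type*} [MulAction G Ω] [Finite Ω]

theorem not_isBinary_of_odd (hb : IsBinary G Ω) {A : Set Ω} {U : Subgroup G} (hU : M.IsTorus U)
    (hA : ∀ g : G, (∀ a ∈ A, g • a = a) → g ∈ U) {h : G} (hh : ∀ a ∈ A, h • a = a) : h = 1 := by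
  by_contra h1
  have := M.finite
  have hhU := hA h hh
  obtain ⟨s, hs⟩ := exists_prime_orderOf_dvd_card' (G := Subgroup.normalizer (U : Set G)) 2
    (by rcases hU.card_normalizer with h | h <;> rw [h] <;> omega)
  obtain ⟨hs2, hs1⟩ := (orderOf_eq_prime_iff (p := 2)).mp hs
  obtain ⟨s, hsN⟩ := s
  replace hs2 : s ^ 2 = 1 := congrArg Subtype.val hs2
  replace hs1 : s ≠ 1 := by simpa using hs1
  have hss : s * s = 1 := by rw [← sq, hs2]
  have ht2 : (s * h) ^ 2 = 1 := by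
    have := hU.inverts hsN hs1 hs2 hhU
    rw [inv_eq_of_mul_eq_one_right hss] at this
    rw [sq, ← mul_assoc, this, inv_mul_cancel]
  have hst : s * (s * h) = h := by rw [← mul_assoc, hss, one_mul]
  obtain ⟨p, hp⟩ := M.exists_mem_Zat_of_sq hs2
  obtain ⟨p', hp'⟩ := M.exists_mem_Zat_of_sq ht2
  have hne : p ≠ p' := by
    rintro rfl
    exact h1 (hU.eq_one_of_pow hhU (k := 1) (hst ▸ (M.mem_Zat.mp ((M.Zat p).mul_mem hp hp')).2))
  have ht1 : s * h ≠ 1 := fun h2 => h1 (hU.eq_one_of_pow hhU (k := 1) (by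
    rw [← hst, h2, mul_one]; exact hs2))
  obtain ⟨k, c, hc, hsT, htT⟩ := M.exists_conj_pair hne hp hs1 hp' ht1
  have hU' : (M.conjModel k).IsTorus U := by
    rcases hU with ⟨a, b, hab, rfl⟩ | ⟨z, hz, rfl⟩
    · refine Or.inl ⟨(k⁻¹ • a : M.Pt), (k⁻¹ • b : M.Pt), fun h => hab (smul_left_cancel k⁻¹ h), ?_⟩
      have h3 := M.conjModel_stabilizer k (k⁻¹ • a)
      have h4 := M.conjModel_stabilizer k (k⁻¹ • b)
      rw [smul_inv_smul] at h3 h4
      exact congrArg₂ (· ⊓ ·) h3.symm h4.symm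
    · exact Or.inr ⟨z, (M.conjModel_fpf_iff k z).mpr hz, rfl⟩
  obtain ⟨y, hyP, hyN, hconj⟩ := (M.conjModel k).exists_triangle hU' hc (hsT ▸ hsN)
  rw [← htT, ← hsT, hst] at hconj
  have hys : Commute s y := (M.conjModel k).commute_of_mem_Zat_Pat (p := (M.conjModel k).inf)
    (by rw [Zat_inf, hsT]; exact (M.conjModel k).T_mem_Z 1) (by rwa [Pat_inf])
  obtain ⟨j, hj⟩ := isConj_iff.mp hconj.symm
  have hx : y * h * y⁻¹ = h * (j * h * j⁻¹) := by
    rw [hj]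
    calc y * h * y⁻¹ = y * (s * (s * h)) * y⁻¹ := by rw [hst]
      _ = y * s * (s * h) * y⁻¹ := by group
      _ = s * (s * h) ^ 2 * (y * (s * h) * y⁻¹) := by rw [← hys.eq, ht2]; group
      _ = s * (s * h) * (s * h * (y * (s * h) * y⁻¹)) := by simp only [sq, mul_assoc]
      _ = _ := by rw [hst]
  have hfix : ∀ (z g : G), (∀ a ∈ (z • ·) '' A, g • a = a) ↔ ∀ a ∈ A, (z⁻¹ * g * z) • a = a := fun z g => by
    simp [mul_smul, inv_smul_eq_iff]
  obtain ⟨g, hg1, hg2, hg3⟩ := hb.dist ((y • ·) '' A) A ((j • ·) '' A) (x := y * h * y⁻¹) (y := h)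
    ((hfix _ _).mpr (by simpa [mul_assoc] using hh)) hh (fun a ha => by
      rw [hx, mul_smul, (hfix j (j * h * j⁻¹)).mpr (by simpa [mul_assoc] using hh) a ha])
  have hg : g = 1 := by
    by_contra hg
    exact hyN (by simpa using Subgroup.inv_mem _ (hU.isPart.mem_normalizer (k := y⁻¹) (hA g hg2) hg
      (by simpa using hA _ ((hfix _ _).mp hg1))))
  have h2 : j⁻¹ * (y * h * y⁻¹) * j ∈ U := hA _ ((hfix _ _).mp fun a ha => by rw [← hg3 a ha, hg, one_smul])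
  have h3 : j⁻¹ * h * j ∈ U := by
    have := U.mul_mem h2 (U.inv_mem hhU)
    rw [hx] at this
    simpa [mul_assoc] using this
  have h4 := hU.isPart.mem_normalizer (k := j⁻¹) hhU h1 (by simpa using h3)
  exact hyN (hU.isPart.mem_normalizer hhU h1 ((Subgroup.mem_normalizer_iff.mp h4 _).mpr (by simpa using h2)))

omit [Fintype F] in
theorem T_w_pow_four : (M.T 1 0 * (M.w * M.T 1 0 * M.w)) ^ 2 = 1 := by
  have h2 := τ.two
  apply M.ρ_inj
  simp only [sq, map_mul, ρ_T, ρ_w, map_one]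
  ext i j
  fin_cases i <;> fin_cases j <;> simp [Tw.Tm, Tw.N, szJ, Matrix.mul_apply, Fin.sum_univ_four] <;> grind

/-- Point stabilisers in binary actions of Suzuki groups. -/
theorem stabilizer_of_isBinary (hb : IsBinary G Ω) (α : Ω) (hne : MulAction.stabilizer G α ≠ ⊤) :
    MulAction.stabilizer G α = ⊥ ∨ ∃ p, MulAction.stabilizer G α = M.Zat p := by
  have := M.finite
  by_cases h2 : ∃ u ∈ MulAction.stabilizer G α, u ≠ 1 ∧ u ^ 2 = 1
  · right
    obtain ⟨u, huK, hu1, hu2⟩ := h2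
    obtain ⟨p, hp⟩ := M.exists_mem_Zat_of_sq hu2
    have hZ : M.Zat p ≤ MulAction.stabilizer G α := fun v hv =>
      hb.fixedBy_subset (fun _ _ => M.isConj_of_sq_eq_one) hu1 hu2 (M.mem_Zat.mp hv).2
        (M.commute_of_mem_Zat_Pat hp (M.Zat_le_Pat p hv)) huK
    have hB : ∀ g ∈ MulAction.stabilizer G α, g • p = p := by
      intro g hg
      by_contra hgp
      obtain ⟨v, hv, hv1, hvu⟩ : ∃ v ∈ M.Zat p, v ≠ 1 ∧ u ≠ v := by
        by_contra h
        push Not at h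
        have h3 : M.Zat p ≤ Subgroup.zpowers u := fun v hv => by
          by_cases hv1 : v = 1
          · simp [hv1]
          · rw [← h v hv hv1]
            exact Subgroup.mem_zpowers u
        have h4 := Subgroup.card_le_of_le h3
        have h5 := M.eight_le_card
        rw [card_Zat, Nat.card_zpowers, orderOf_eq_prime hu2 hu1] at h4
        omega
      obtain ⟨k, E, rfl, -, -, h⟩ := M.exists_eq_sub huK (hZ hv) hp hv hu1 hv1 hvu hg hgp
      rw [← conjModel_Z, h] at hZ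
      refine hne (h.trans ((M.conjModel k).sub_eq_top_iff.mpr (eq_top_iff.mpr fun b _ => ?_)))
      exact ((M.conjModel k).T_mem_sub_iff.mp (hZ ((M.conjModel k).T_mem_Z b))).2
    have hP : MulAction.stabilizer G α ≤ M.Pat p := by
      intro g hg
      rcases M.mem_Pat_or_fix (hB g hg) with h | ⟨p', hp', h⟩
      · exact h
      · obtain ⟨s, hs1, hs2⟩ := M.two_transitive hp' hp'.symm
        have h3 := M.conj_eq_inv_of_swap hp' hs1 hs2 (M.mem_Hat.mpr ⟨h, hB g hg⟩)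
        refine (M.not_isBinary_of_odd hb (A := {α, s⁻¹ • α}) (Or.inl ⟨_, _, hp', rfl⟩) (fun x hx => ?_)
          (h := g) ?_).symm ▸ Subgroup.one_mem _
        · refine M.mem_Hat.mpr ⟨?_, hB x (hx α (by simp))⟩
          have h4 := hB (s * x * s⁻¹) (by
            rw [MulAction.mem_stabilizer_iff, mul_smul, mul_smul, hx _ (by simp), smul_inv_smul])
          rwa [← hs1, mul_smul, inv_smul_smul, mul_smul, smul_left_cancel_iff] at h4
        · rintro _ (rfl | rfl)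
          · exact hg
          · rw [eq_inv_smul_iff, ← mul_smul, ← mul_smul, h3]
            exact (MulAction.stabilizer G α).inv_mem hg
    refine ⟨p, le_antisymm (fun g hg => ?_) hZ⟩
    obtain ⟨k, rfl⟩ := M.exists_smul_inf p
    have hg' := hP hg
    rw [Pat_smul, Pat_inf] at hg'
    obtain ⟨_, ⟨a, b, rfl⟩, rfl⟩ := hg'
    rw [Zat_smul, Zat_inf]
    refine Subgroup.mem_map_of_mem _ (M.T_mem_Z_iff.mpr ?_)
    by_contra ha
    obtain ⟨l, rfl⟩ := τ.exists_unit_θ ha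
    have hP' : ∀ (z x : G), x • z • α = z • α → x ∈ M.Pat (z • k • M.inf) := fun z x hx => by
      have := (M.conj_mem_Pat_iff (k := z)).mpr (hP (x := z⁻¹ * x * z) (by
        rw [MulAction.mem_stabilizer_iff, mul_smul, mul_smul, hx, inv_smul_smul]))
      simpa [mul_assoc] using this
    have hT : M.T 1 0 • (k * M.D l)⁻¹ • α = (k * M.D l)⁻¹ • α := by
      have h3 := (MulAction.stabilizer G α).mul_mem (hZ (x := k * M.T 0 b * k⁻¹)
        (M.conj_mem_Zat_iff.mpr (by rw [Zat_inf]; exact M.T_mem_Z b))) hg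
      have h4 : k * M.T 0 b * k⁻¹ * (MulAut.conj k).toMonoidHom (M.T (τ.θ l) b) =
          (k * M.D l) * M.T 1 0 * (k * M.D l)⁻¹ := by
        have h5 := M.D_conj_T l 1 0
        have h6 : M.T 0 b * M.T (τ.θ l) b = M.T (τ.θ l) 0 := by simp [T_mul, τ.add_self]
        rw [mul_one, mul_zero, ← h6] at h5
        calc _ = k * (M.T 0 b * M.T (τ.θ l) b) * k⁻¹ := by simp [mul_assoc]
          _ = _ := by rw [← h5]; group
      rw [h4, MulAction.mem_stabilizer_iff, mul_smul, mul_smul, ← eq_inv_smul_iff] at h3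
      exact h3
    have hinf : (k * M.D l)⁻¹ • k • M.inf = M.inf := by
      rw [inv_smul_eq_iff, mul_smul, D_smul_inf]
    have hwT : M.w * M.T 1 0 * M.w ∈ M.Pat (M.pt 0 0) := by
      have := (M.conj_mem_Pat_iff (k := M.w) (p := M.inf)).mpr (by rw [Pat_inf]; exact M.T_mem_P 1 0)
      rwa [w_smul_inf, w_inv] at this
    have hT1 : M.T 1 0 ∈ M.Pat M.inf := by rw [Pat_inf]; exact M.T_mem_P 1 0
    have hwT1 : M.w * M.T 1 0 * M.w ≠ 1 := fun h => by
      rw [← M.w_mul_w, mul_left_inj, mul_eq_left] at h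
      simp at h
    obtain ⟨r, hr⟩ := M.exists_mem_Zat_of_sq M.T_w_pow_four
    obtain ⟨j, rfl⟩ := MulAction.exists_smul_eq G (k • M.inf) r
    have hr1 : j • k • M.inf ≠ M.inf := fun h => by
      have h3 := (M.mem_Zat.mp hr).1
      rw [h, mul_smul, ← eq_inv_smul_iff, T_inv, T_smul_inf] at h3
      exact M.inf_ne_pt _ _ (M.eq_of_mem_Pat hwT1 hwT h3)
    have hr2 : j • k • M.inf ≠ M.pt 0 0 := fun h => by
      have h3 := (M.mem_Zat.mp hr).1
      rw [h, mul_smul, (M.mem_Pat.mp hwT).1] at h3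
      simp at h3
    obtain ⟨x, hx1, hx2, hx3⟩ := hb.dist {j • α} {(k * M.D l)⁻¹ • α} {M.w • (k * M.D l)⁻¹ • α}
      (x := M.T 1 0 * (M.w * M.T 1 0 * M.w)) (y := M.T 1 0)
      (by
        rintro _ rfl
        have := hZ ((M.conj_mem_Zat_iff (k := j)
          (g := j⁻¹ * (M.T 1 0 * (M.w * M.T 1 0 * M.w)) * j)).mp (by simpa [mul_assoc] using hr))
        rwa [MulAction.mem_stabilizer_iff, mul_smul, mul_smul, inv_smul_eq_iff] at this)
      (by rintro _ rfl; exact hT)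
      (by
        rintro _ rfl
        rw [mul_smul, mul_smul, ← mul_smul M.w M.w, w_mul_w, one_smul, mul_smul, hT])
    have h3 := hP' _ _ (hx1 _ rfl)
    have h4 := hP' _ _ (hx2 _ rfl)
    rw [hinf] at h4
    obtain rfl := M.eq_one_of_mem_Pat h4 hr1 (M.mem_Pat.mp h3).1
    have h5 := hx3 _ rfl
    rw [one_smul, ← mul_smul M.w] at h5
    have h6 := hP' _ _ h5.symm
    rw [mul_smul, hinf, w_smul_inf] at h6
    have h7 := M.eq_one_of_mem_Pat (M.Zat_le_Pat _ hr) hr2.symm (M.mem_Pat.mp h6).1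
    rw [eq_inv_of_mul_eq_one_left h7] at hT1
    exact M.inf_ne_pt _ _ (M.eq_of_mem_Pat hwT1 hwT (M.mem_Pat.mp ((M.Pat _).inv_mem_iff.mp hT1)).1)
  · left
    by_contra hK
    push Not at h2
    have hodd : ∀ x ∈ MulAction.stabilizer G α, Odd (orderOf x) := fun x hx => by
      by_contra h
      obtain ⟨n, hn⟩ := Nat.not_odd_iff_even.mp h
      have hpos := orderOf_pos x
      exact h2 _ (Subgroup.pow_mem _ hx n) (pow_ne_one_of_lt_orderOf (by omega) (by omega))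
        (by rw [← pow_mul, mul_two, ← hn, pow_orderOf_eq_one])
    have h4 : ∀ x ∈ MulAction.stabilizer G α, x ^ 4 = 1 → x = 1 := fun x hx h =>
      orderOf_eq_one_iff.mp (Nat.Coprime.eq_one_of_dvd ((hodd x hx).coprime_two_right.pow_right 2)
        (orderOf_dvd_of_pow_eq_one h))
    have := M.isZGroup_of_forall (K := MulAction.stabilizer G α)
      fun p u hu _ _ hp _ hu1 _ => absurd (M.mem_Zat.mp hp).2 (h2 u hu hu1)
    obtain ⟨x, hx, hx1, hc⟩ := exists_commute_conj_of_isSolvable (K := MulAction.stabilizer G α) inferInstance hK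
    obtain ⟨U, ⟨hU, hxU⟩, -⟩ := M.existsUnique_part hx1
    have hU' : M.IsTorus U := hU.resolve_left (by
      rintro ⟨p, rfl⟩
      exact hx1 (h4 x hx (M.mem_Pat.mp hxU).2))
    refine hx1 (M.not_isBinary_of_odd hb (A := {α}) hU' (fun g hg => ?_) (by rintro _ rfl; exact hx))
    exact hU'.mem_of_odd (hU.mem_normalizer hxU hx1 (hU.centralizer_le hxU hx1
      (Subgroup.mem_centralizer_singleton_iff.mpr (hc g (hg α rfl))))) (hodd g (hg α rfl))

omit [Finite Ω] in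
theorem isBinary_of_stabilizer (h : ∀ α : Ω, ∃ p, MulAction.stabilizer G α = M.Zat p) : IsBinary G Ω := by
  choose π hπ using h
  intro n I J hn hIJ
  by_cases h1 : ∃ i j, π (I i) ≠ π (I j)
  · obtain ⟨i, j, hij⟩ := h1
    obtain ⟨g, hi, hj⟩ := hIJ i j (fun h => hij (h ▸ rfl))
    refine ⟨g, fun t => ?_⟩
    by_cases hti : i = t
    · exact hti ▸ hi
    by_cases htj : j = t
    · exact htj ▸ hj
    obtain ⟨x, hx1, hx2⟩ := hIJ i t hti
    obtain ⟨y, hy1, hy2⟩ := hIJ j t htj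
    have h2 : g⁻¹ * x ∈ M.Zat (π (I i)) := by
      rw [← hπ, MulAction.mem_stabilizer_iff, mul_smul, hx1, inv_smul_eq_iff, hi]
    have h3 : y⁻¹ * g ∈ M.Zat (π (I j)) := by
      rw [← hπ, MulAction.mem_stabilizer_iff, mul_smul, hj, inv_smul_eq_iff, hy1]
    have h4 : y⁻¹ * g * (g⁻¹ * x) ∈ M.Zat (π (I t)) := by
      rw [← hπ, MulAction.mem_stabilizer_iff, mul_assoc, mul_inv_cancel_left, mul_smul, hx2, inv_smul_eq_iff, hy2]
    by_cases h5 : g⁻¹ * x = 1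
    · rw [inv_mul_eq_one.mp h5, hx2]
    by_cases h6 : y⁻¹ * g = 1
    · rw [← inv_mul_eq_one.mp h6, hy2]
    have h7 := M.odd_orderOf_mul hij.symm h3 h6 h2 h5
    have h8 := orderOf_eq_one_iff.mp (Nat.Coprime.eq_one_of_dvd h7.coprime_two_right
      (orderOf_dvd_of_pow_eq_one (M.mem_Zat.mp h4).2))
    rw [eq_inv_of_mul_eq_one_left h8, Subgroup.inv_mem_iff] at h3
    exact absurd (M.eq_of_mem_Pat h5 (M.Zat_le_Pat _ h3) (M.mem_Zat.mp h2).1) hij
  · push Not at h1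
    obtain ⟨g, hg, hg'⟩ := hIJ ⟨0, by omega⟩ ⟨1, by omega⟩ (by simp)
    refine ⟨g, fun t => ?_⟩
    by_cases ht : (⟨0, by omega⟩ : Fin n) = t
    · exact ht ▸ hg
    obtain ⟨x, hx1, hx2⟩ := hIJ _ t ht
    have h2 : x⁻¹ * g ∈ MulAction.stabilizer G (I t) := by
      rw [hπ, h1 t ⟨0, by omega⟩, ← hπ, MulAction.mem_stabilizer_iff, mul_smul, hg, inv_smul_eq_iff, hx1]
    rwa [MulAction.mem_stabilizer_iff, mul_smul, inv_smul_eq_iff, hx2] at h2

end SzModel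

theorem isBinary_of_stabilizer_eq_bot {G Ω : Type*} [Group G] [MulAction G Ω]
    (h : ∀ α : Ω, MulAction.stabilizer G α = ⊥) : IsBinary G Ω := by
  intro n I J hn hIJ
  obtain ⟨g, hg, hg'⟩ := hIJ ⟨0, by omega⟩ ⟨1, by omega⟩ (by simp)
  refine ⟨g, fun t => ?_⟩
  by_cases ht : (⟨0, by omega⟩ : Fin n) = t
  · exact ht ▸ hg
  obtain ⟨x, hx1, hx2⟩ := hIJ _ t ht
  have h2 : x⁻¹ * g ∈ MulAction.stabilizer G (I ⟨0, by omega⟩) := by
    rw [MulAction.mem_stabilizer_iff, mul_smul, hg, inv_smul_eq_iff, hx1]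
  rw [h, Subgroup.mem_bot, inv_mul_eq_one] at h2
  rw [← h2, hx2]

end Cfsg.Lib.Chev
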