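/-
Binary actions: the family of pointwise stabilisers, strong embedding, rank-one groups.
-/
import Cfsg.Agent.Chev.SuzukiBinary
import Cfsg.Agent.Chev.RankOneNil
import Cfsg.Agent.Local.StronglyEmb

set_option autoImplicit false

namespace Cfsg.Lib.Chev

open Cfsg.Lib.Local RankOne MulAction
open scoped Pointwise

variable {G : Type*} [Group G]

/-- The conjugate `g X g⁻¹`. -/
abbrev cj (X : Subgroup G) (g : G) : Subgroup G := X.map (MulAut.conj g).toMonoidHom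

theorem mem_cj {X : Subgroup G} {g x : G} : x ∈ cj X g ↔ g⁻¹ * x * g ∈ X := mem_map_conj

/-- The properties of the family of pointwise stabilisers of a binary action. -/
structure Fam (𝓕 : Set (Subgroup G)) : Prop where
  inf : ∀ {X Y}, X ∈ 𝓕 → Y ∈ 𝓕 → X ⊓ Y ∈ 𝓕
  conj : ∀ {X}, X ∈ 𝓕 → ∀ g, cj X g ∈ 𝓕
  dist : ∀ {X Y W}, X ∈ 𝓕 → Y ∈ 𝓕 → W ∈ 𝓕 → ∀ {x y}, x ∈ X → y ∈ Y → x⁻¹ * y ∈ W →
    ∃ g ∈ X, g ∈ Y ∧ g⁻¹ * x ∈ W

/-- Members of the family contain the involutions commuting with their involutions. -/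
def InvClosed (𝓕 : Set (Subgroup G)) : Prop :=
  ∀ X ∈ 𝓕, ∀ u ∈ X, u ≠ 1 → u * u = 1 → ∀ v, v * v = 1 → u * v = v * u → v ∈ X

theorem Fam.comap {𝓕 : Set (Subgroup G)} (h : Fam 𝓕) {G' : Type*} [Group G'] (f : G' →* G)
    (hf : Function.Surjective f) : Fam {X' | ∃ X ∈ 𝓕, X' = X.comap f} where
  inf := by
    rintro _ _ ⟨X, hX, rfl⟩ ⟨Y, hY, rfl⟩
    exact ⟨_, h.inf hX hY, rfl⟩
  conj := by
    rintro _ ⟨X, hX, rfl⟩ g
    exact ⟨_, h.conj hX (f g), by ext x; simp [mem_cj, -Subgroup.mem_map]⟩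
  dist := by
    rintro _ _ _ ⟨X, hX, rfl⟩ ⟨Y, hY, rfl⟩ ⟨W, hW, rfl⟩ x y hx hy hw
    obtain ⟨g, h1, h2, h3⟩ := h.dist hX hY hW hx hy (by simpa using hw)
    obtain ⟨g, rfl⟩ := hf g
    exact ⟨g, h1, h2, by simpa using h3⟩

/-- If the intersection of the first two members lies in the third. -/
theorem Fam.mem {𝓕 : Set (Subgroup G)} (h : Fam 𝓕) {X Y W : Subgroup G} (hX : X ∈ 𝓕) (hY : Y ∈ 𝓕)
    (hW : W ∈ 𝓕) {x y : G} (hx : x ∈ X) (hy : y ∈ Y) (hw : x⁻¹ * y ∈ W) (hXY : ∀ g ∈ X, g ∈ Y → g ∈ W) :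
    x ∈ W := by
  obtain ⟨g, h1, h2, h3⟩ := h.dist hX hY hW hx hy hw
  simpa using W.mul_mem (hXY g h1 h2) h3

section Action

variable (G) (Ω : Type*) [MulAction G Ω]

/-- The pointwise stabilisers. -/
def fixFam : Set (Subgroup G) := {X | ∃ A : Set Ω, ∀ g, g ∈ X ↔ ∀ a ∈ A, g • a = a}

variable {G Ω}

theorem stabilizer_mem_fixFam (α : Ω) : stabilizer G α ∈ fixFam G Ω := ⟨{α}, by simp⟩

theorem IsBinary.fam [Finite Ω] (hb : IsBinary G Ω) : Fam (fixFam G Ω) where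
  inf := by
    rintro X Y ⟨A, hA⟩ ⟨B, hB⟩
    exact ⟨A ∪ B, fun g => by simp [hA, hB, or_imp, forall_and]⟩
  conj := by
    rintro X ⟨A, hA⟩ k
    exact ⟨(k • ·) '' A, fun g => by
      simp only [mem_cj, hA, mul_smul, inv_smul_eq_iff, Set.forall_mem_image]⟩
  dist := by
    rintro X Y W ⟨A, hA⟩ ⟨B, hB⟩ ⟨C, hC⟩ x y hx hy hw
    obtain ⟨g, h1, h2, h3⟩ := hb.dist A B C ((hA x).1 hx) ((hB y).1 hy) fun c hc => by
      have := (hC _).1 hw c hc
      rw [mul_smul, inv_smul_eq_iff] at this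
      exact this.symm
    exact ⟨g, (hA g).2 h1, (hB g).2 h2, (hC _).2 fun c hc => by rw [mul_smul, ← h3 c hc, inv_smul_smul]⟩

theorem IsBinary.invClosed [Finite G] [Finite Ω] (hb : IsBinary G Ω)
    (hconj : ∀ x y : G, x ≠ 1 → x ^ 2 = 1 → y ≠ 1 → y ^ 2 = 1 → IsConj x y) : InvClosed (fixFam G Ω) := by
  rintro X ⟨A, hA⟩ u hu hu1 hu2 v hv huv
  exact (hA v).2 fun a ha => hb.fixedBy_subset hconj hu1 (by rwa [sq]) (by rwa [sq]) huv ((hA u).1 hu a ha)

/-- A binary action with a point stabiliser of even order of a group with one class of involutions gives a strongly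
embedded subgroup. -/
theorem IsBinary.exists_se [Finite G] [Finite Ω] [IsSimpleGroup G] [IsPretransitive G Ω] (hb : IsBinary G Ω)
    (hconj : ∀ x y : G, x ≠ 1 → x ^ 2 = 1 → y ≠ 1 → y ^ 2 = 1 → IsConj x y) {α : Ω}
    (hne : stabilizer G α ≠ ⊤) (he : Even (Nat.card (stabilizer G α))) : ∃ M : Subgroup G, SE 2 M := by
  obtain ⟨u, hu, hu1, hu2⟩ := exists_invol_of_even he
  have key : ∀ s ∈ stabilizer G (fixedBy Ω u), s ≠ 1 → s * s = 1 → fixedBy Ω s = fixedBy Ω u := by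
    intro s hs hs1 hs2
    obtain ⟨w, hw, hw1, hw2, hws⟩ := exists_invol_comm (C := fixingSubgroup G (fixedBy Ω u))
      (even_card_of_invol ((mem_fixingSubgroup_iff G).2 fun _ h => h) hu1 hu2) hs2 fun x hx =>
        (mem_fixingSubgroup_iff G).2 fun y hy => by
          have h1 : s⁻¹ • y ∈ fixedBy Ω u := by
            rw [← Set.mem_smul_set_iff_inv_smul_mem, mem_stabilizer_iff.1 hs]
            exact hy
          rw [mul_smul, mul_smul, (mem_fixingSubgroup_iff G).1 hx _ h1, smul_inv_smul]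
    have h1 : fixedBy Ω u = fixedBy Ω w := Set.eq_of_subset_of_ncard_le
      (fun y hy => (mem_fixingSubgroup_iff G).1 hw y hy)
      (ncard_fixedBy_of_isConj (hconj _ _ hw1 (by rwa [sq]) hu1 (by rwa [sq]))).le
    rw [h1]
    exact (hb.fixedBy_subset hconj hs1 (by rwa [sq]) (by rwa [sq]) hws.symm).antisymm
      (hb.fixedBy_subset hconj hw1 (by rwa [sq]) (by rwa [sq]) hws)
  have huM : u ∈ stabilizer G (fixedBy Ω u) := by
    rw [mem_stabilizer_iff, smul_fixedBy, mul_inv_cancel_right]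
  refine ⟨stabilizer G (fixedBy Ω u), fun h => hne ?_, even_iff_two_dvd.1 (even_card_of_invol huM hu1 hu2),
    fun x hx ho g hg => ?_⟩
  · rcases (toPermHom G Ω).normal_ker.eq_bot_or_eq_top with h1 | h1
    · refine absurd (Subgroup.mem_bot.1 (h1 ▸ (Equiv.ext fun β => ?_ : u ∈ (toPermHom G Ω).ker))) hu1
      obtain ⟨g, rfl⟩ := exists_smul_eq G α β
      have h2 : g ∈ stabilizer G (fixedBy Ω u) := h ▸ Subgroup.mem_top g
      have h3 : g • α ∈ fixedBy Ω u := mem_stabilizer_iff.1 h2 ▸ Set.smul_mem_smul_set hu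
      exact h3
    · exact eq_top_iff.2 fun g _ => DFunLike.congr_fun (h1 ▸ Subgroup.mem_top g : g ∈ (toPermHom G Ω).ker) α
  · obtain ⟨h2, h1⟩ := (orderOf_eq_prime_iff (p := 2)).1 ho
    rw [sq] at h2
    rw [mem_stabilizer_iff, ← key x hx h1 h2, smul_fixedBy, key _ hg (conj_ne_one h1) (conj_sq_eq_one h2),
      key x hx h1 h2]

/-- An action without triangles is binary. -/
theorem isBinary_of_no_triangle (h : ∀ (α β γ : Ω) (x y : G), x • α = α → y • β = β → (x * y) • γ = γ →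
    x ≠ 1 → y ≠ 1 → stabilizer G α = stabilizer G β) : IsBinary G Ω := by
  intro n I J hn hIJ
  by_cases h1 : ∃ i j, stabilizer G (I i) ≠ stabilizer G (I j)
  · obtain ⟨i, j, hij⟩ := h1
    obtain ⟨g, hi, hj⟩ := hIJ i j (fun h => hij (h ▸ rfl))
    refine ⟨g, fun t => ?_⟩
    by_cases hti : i = t
    · exact hti ▸ hi
    by_cases htj : j = t
    · exact htj ▸ hj
    obtain ⟨x, hx1, hx2⟩ := hIJ i t hti
    obtain ⟨y, hy1, hy2⟩ := hIJ j t htj
    by_cases h5 : g⁻¹ * x = 1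
    · rw [inv_mul_eq_one.mp h5, hx2]
    by_cases h6 : y⁻¹ * g = 1
    · rw [← inv_mul_eq_one.mp h6, hy2]
    exact absurd (h _ _ (I t) _ _ (by rw [mul_smul, hj, inv_smul_eq_iff, hy1])
      (by rw [mul_smul, hx1, inv_smul_eq_iff, hi])
      (by rw [mul_assoc, mul_inv_cancel_left, mul_smul, hx2, inv_smul_eq_iff, hy2]) h6 h5).symm hij
  · push Not at h1
    obtain ⟨g, hg, hg'⟩ := hIJ ⟨0, by omega⟩ ⟨1, by omega⟩ (by simp)
    refine ⟨g, fun t => ?_⟩
    by_cases ht : (⟨0, by omega⟩ : Fin n) = t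
    · exact ht ▸ hg
    obtain ⟨x, hx1, hx2⟩ := hIJ _ t ht
    have h2 : x⁻¹ * g ∈ stabilizer G (I t) := by
      rw [h1 t ⟨0, by omega⟩, mem_stabilizer_iff, mul_smul, hg, inv_smul_eq_iff, hx1]
    rwa [mem_stabilizer_iff, mul_smul, inv_smul_eq_iff, hx2] at h2

theorem stabilizer_mk (H : Subgroup G) (g : G) : stabilizer G (g : G ⧸ H) = cj H g := by
  rw [show ((g : G) : G ⧸ H) = g • ((1 : G) : G ⧸ H) by simp, stabilizer_smul_eq_stabilizer_map_conj,
    stabilizer_quotient]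

/-- The coset version. -/
theorem isBinary_quotient_of_no_triangle {H : Subgroup G} (h : ∀ (a b c x y : G), x ∈ cj H a → y ∈ cj H b →
    x * y ∈ cj H c → x ≠ 1 → y ≠ 1 → cj H a = cj H b) : IsBinary G (G ⧸ H) := by
  refine isBinary_of_no_triangle fun α β γ x y hx hy hxy => ?_
  obtain ⟨a, rfl⟩ := QuotientGroup.mk_surjective α
  obtain ⟨b, rfl⟩ := QuotientGroup.mk_surjective β
  obtain ⟨c, rfl⟩ := QuotientGroup.mk_surjective γ
  rw [stabilizer_mk, stabilizer_mk]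
  exact h a b c x y (stabilizer_mk H a ▸ hx) (stabilizer_mk H b ▸ hy) (stabilizer_mk H c ▸ hxy)

theorem mem_fixFam_quotient (H : Subgroup G) : H ∈ fixFam G (G ⧸ H) := by
  simpa only [stabilizer_quotient] using stabilizer_mem_fixFam (G := G) ((1 : G) : G ⧸ H)

end Action

theorem commute_of_sq {x y : G} (hx : x * x = 1) (hy : y * y = 1) (h : x * y * (x * y) = 1) : x * y = y * x := by
  rw [← inv_eq_self h, mul_inv_rev, inv_eq_self hx, inv_eq_self hy]

/-- Groups in which the centralisers of involutions have exponent `2`. -/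
def InvCent (G : Type*) [Group G] : Prop := ∀ s x : G, s ≠ 1 → s * s = 1 → s * x = x * s → x * x = 1

theorem InvCent.of_equiv {G' : Type*} [Group G'] (h : InvCent G') (e : G ≃* G') : InvCent G := fun s x h1 h2 h3 =>
  e.injective (by
    rw [map_mul, map_one]
    exact h (e s) _ (by simpa using h1) (by rw [← map_mul, h2, map_one]) (by rw [← map_mul, h3, map_mul]))

theorem InvCent.sq_eq_one [Finite G] (h : InvCent G) {P : Subgroup G} (hP : IsPGroup 2 P) {x : G} (hx : x ∈ P) :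
    x * x = 1 := by
  by_cases h1 : P = ⊥
  · rw [h1, Subgroup.mem_bot] at hx
    rw [hx, one_mul]
  obtain ⟨z, -, hz, hc⟩ := exists_central_orderOf_eq hP h1
  obtain ⟨h2, h3⟩ := (orderOf_eq_prime_iff (p := 2)).1 hz
  exact h z x h3 (by rwa [sq] at h2) (hc x hx)

theorem InvCent.centralizer_eq [Finite G] (h : InvCent G) (P : Sylow 2 G) {x : G} (hx : x ∈ (P : Subgroup G))
    (hx1 : x ≠ 1) : Subgroup.centralizer {x} = (P : Subgroup G) := by
  have h1 := fun y (hy : y ∈ (P : Subgroup G)) => h.sq_eq_one P.isPGroup' hy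
  refine P.is_maximal' (fun g => ⟨1, Subtype.ext ?_⟩) fun y hy => Subgroup.mem_centralizer_singleton_iff.2
    (commute_of_sq (h1 y hy) (h1 x hx) (h1 _ (Subgroup.mul_mem _ hy hx)))
  exact (sq _).trans (h x g hx1 (h1 x hx) (Subgroup.mem_centralizer_singleton_iff.1 g.2).symm)

theorem InvCent.isBinary [Finite G] (h : InvCent G) (P : Sylow 2 G) : IsBinary G (G ⧸ (P : Subgroup G)) := by
  refine isBinary_quotient_of_no_triangle fun a b c x y hx hy hxy hx1 hy1 => ?_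
  have h1 : x * y = y * x := commute_of_sq (h.sq_eq_one (a • P).isPGroup' hx) (h.sq_eq_one (b • P).isPGroup' hy)
    (h.sq_eq_one (c • P).isPGroup' hxy)
  have h2 : y ∈ ((a • P : Sylow 2 G) : Subgroup G) :=
    h.centralizer_eq (a • P) hx hx1 ▸ Subgroup.mem_centralizer_singleton_iff.2 h1.symm
  exact (h.centralizer_eq (a • P) h2 hy1).symm.trans (h.centralizer_eq (b • P) hy hy1)

/-- An element acting without fixed points is conjugate to all elements of its coset. -/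
theorem exists_conj_eq_mul {Q : Subgroup G} [Finite Q] {k : G} (hn : ∀ x ∈ Q, k⁻¹ * x * k ∈ Q)
    (hf : ∀ x ∈ Q, k * x = x * k → x = 1) {y : G} (hy : y ∈ Q) : ∃ f ∈ Q, f * k * f⁻¹ = k * y := by
  let φ : Q → Q := fun x => ⟨k⁻¹ * x * k * (x : G)⁻¹, Q.mul_mem (hn x x.2) (Q.inv_mem x.2)⟩
  obtain ⟨f, h⟩ := Finite.surjective_of_injective (f := φ) (fun x x' e => by
    have e' : k⁻¹ * x * k * (x : G)⁻¹ = k⁻¹ * x' * k * (x' : G)⁻¹ := congrArg Subtype.val e
    refine Subtype.ext (inv_mul_eq_one.1 (hf _ (Q.mul_mem (Q.inv_mem x'.2) x.2) ?_)).symm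
    calc k * ((x' : G)⁻¹ * x) = (x' : G)⁻¹ * k * (k⁻¹ * x' * k * (x' : G)⁻¹) * x := by group
      _ = _ := by rw [← e']; group) ⟨y, hy⟩
  exact ⟨f, f.2, by rw [← show k⁻¹ * f * k * (f : G)⁻¹ = y from congrArg Subtype.val h]; group⟩

section RankOne

variable {Ω : Type*} [MulAction G Ω] {a : Ω} {t : G} {Q : Subgroup G} [Finite G]

theorem isBinary_of_setup (hS : IsRankOneSetup G Ω a t Q) {H : Subgroup G} {p : Ω}
    (hH : ∀ g, g ∈ H ↔ g • p = p ∧ g * g = 1) : IsBinary G (G ⧸ H) := by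
  have key : ∀ k g, g ∈ cj H k ↔ g • k • p = k • p ∧ g * g = 1 := fun k g => by
    rw [mem_cj, hH, mul_smul, mul_smul, inv_smul_eq_iff]
    exact and_congr_right' ⟨fun h => by simpa [mul_assoc] using conj_sq_eq_one (g := k) h, conj_sq_eq_one'⟩
  refine isBinary_quotient_of_no_triangle fun a b c x y hx hy hxy hx1 hy1 => ?_
  rw [key] at hx hy hxy
  have h1 := commute_of_sq hx.2 hy.2 hxy.2
  have h2 : x • b • p = b • p := fix_unique hS hy1 hy.2 (by rw [← mul_smul y x, ← h1, mul_smul, hy.1]) hy.1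
  ext g
  rw [key, key, fix_unique hS hx1 hx.2 hx.1 h2]

/-- A subgroup containing all involutions of a simple group is everything. -/
theorem eq_top_of_invol [IsSimpleGroup G] {X : Subgroup G} {s : G} (hs : s ≠ 1) (h : ∀ g, g * s * g⁻¹ ∈ X) :
    X = ⊤ :=
  top_le_iff.1 ((X.normalCore_normal.eq_bot_or_eq_top.resolve_left fun e =>
    hs (Subgroup.mem_bot.1 (e ▸ h))).ge.trans X.normalCore_le)

/-- The linear case. -/
theorem Fam.exists_sylow_of_invCent [IsSimpleGroup G] {𝓕 : Set (Subgroup G)} (hF : Fam 𝓕) (hI : InvClosed 𝓕)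
    (hC : InvCent G) (hS : IsRankOneSetup G Ω a t Q) (hQ : IsPGroup 2 Q) {X : Subgroup G} (hX : X ∈ 𝓕)
    (hne : X ≠ ⊤) (he : Even (Nat.card X)) : ∃ P : Sylow 2 G, X = P := by
  obtain ⟨P, hP⟩ := exists_sylow_le hS
  obtain rfl : Q = P := P.is_maximal' hQ hP
  have hsq := fun x (hx : x ∈ (P : Subgroup G)) => hC.sq_eq_one hQ hx
  suffices key : ∀ X ∈ 𝓕, X ≠ ⊤ → (P : Subgroup G) ≤ X → X = P by
    obtain ⟨u, hu, hu1, hu2⟩ := exists_invol_of_even he
    obtain ⟨g, hg⟩ := exists_conj_mem_Q hS hu2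
    have h1 := key _ (hF.conj hX g) (fun h => hne (eq_top_iff.2 fun x _ => by
      have := mem_cj.1 (h.ge (Subgroup.mem_top (g * x * g⁻¹)))
      simpa [mul_assoc] using this)) fun y hy =>
        hI _ (hF.conj hX g) _ (conj_mem_map_conj hu) (conj_ne_one hu1) (conj_sq_eq_one hu2) y (hsq y hy)
          (commute_of_sq (hsq _ hg) (hsq y hy) (hsq _ (Subgroup.mul_mem _ hg hy)))
    refine ⟨g⁻¹ • P, Subgroup.ext fun x => ?_⟩
    change _ ↔ x ∈ cj P g⁻¹
    rw [← h1, mem_cj, mem_cj]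
    simp [mul_assoc]
  intro X hX hne hle
  obtain ⟨f, hf, hf1, -⟩ := exists_invol_Q hS
  have hB : ∀ g ∈ X, g • a = a := by
    intro g hg
    by_contra h
    refine hne (eq_top_of_invol hf1 fun k => ?_)
    by_cases hk : k • a = a
    · exact hle (hS.conj_mem k hk f hf)
    · obtain ⟨y, hy, e⟩ := exists_Q_smul hS h hk
      have h2 := X.mul_mem (hle hy) hg
      have h3 := hle (hS.conj_mem ((y * g)⁻¹ * k) (by
        rw [mem_stabilizer_iff, mul_smul, ← e, ← mul_smul y, inv_smul_smul]) f hf)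
      simpa [mul_assoc] using X.mul_mem (X.mul_mem h2 h3) (X.inv_mem h2)
  refine le_antisymm (fun g hg => ?_) hle
  obtain ⟨y, hy, k, hk, rfl⟩ := exists_QD hS (hB g hg)
  have hkX : k ∈ X := (X.mul_mem_cancel_left (hle hy)).1 hg
  suffices k = 1 by rwa [this, mul_one]
  by_contra hk1
  have hK : ∀ d ∈ DD a t, d ∈ KK a t := fun d hd => by
    obtain ⟨v, hv, hvt, k, hk, rfl⟩ := exists_VK hS hd
    rwa [eq_one_of_sq_of_odd (odd_orderOf_DD hS hv) (hC t v hS.ne_one hS.mul_self hvt), one_mul]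
  have hD : ∀ g ∈ X ⊓ cj X t, g ∈ DD a t := fun g hg => mem_DD.2 ⟨hB g hg.1, by
    have := hB _ (mem_cj.1 hg.2)
    rwa [mul_smul, mul_smul, inv_smul_eq_iff] at this⟩
  have hk' : k ∈ X ⊓ cj X t := ⟨hkX, mem_cj.2 (by rw [t_inv hS, KK_tkt hS (hK k hk)]; exact X.inv_mem hkX)⟩
  have hfix : ∀ y ∈ (P : Subgroup G), ∀ d ∈ DD a t, d ∈ cj (X ⊓ cj X t) y → d = 1 ∨ y = 1 := by
    intro y hy d hd h
    refine or_iff_not_imp_left.2 fun hd1 => KK_fpf hS (hK d hd) hd1 hy ?_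
    have h1 := (mem_DD.1 (hD _ (mem_cj.1 h))).2
    have h2 := eq_one_of_fix_ta hS (x := y⁻¹ * (d * y * d⁻¹)) ((P : Subgroup G).mul_mem (Subgroup.inv_mem _ hy)
      (hS.conj_mem d hd.1 y hy)) (by
        rw [← mul_assoc, ← mul_assoc, mul_smul, (mem_DD.1 ((DD a t).inv_mem hd)).2, h1])
    rw [inv_mul_eq_one] at h2
    exact eq_mul_of_mul_inv_eq h2.symm
  obtain ⟨f', hf', e⟩ := exists_conj_eq_mul (Q := P) (fun x hx => conj_mem' hS hk.1 hx)
    (fun x hx => KK_fpf hS (hK k hk) hk1 hx) (y := (k * k)⁻¹ * f * (k * k) * f⁻¹)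
    (Subgroup.mul_mem _ (conj_mem' hS ((stabilizer G a).mul_mem hk.1 hk.1) hf) (Subgroup.inv_mem _ hf))
  have hXX := hF.inf hX (hF.conj hX t)
  have e' : k⁻¹ * (f * (k * k) * f⁻¹) = f' * k * f'⁻¹ := by rw [e]; group
  have h1 := hF.mem hXX (hF.conj hXX f) (hF.conj hXX f') hk' (conj_mem_map_conj (Subgroup.mul_mem _ hk' hk'))
    (e' ▸ conj_mem_map_conj hk') fun g hg hg' => by
      rw [(hfix f hf g (hD g hg) hg').resolve_right hf1]
      exact Subgroup.one_mem _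
  obtain rfl := (hfix f' hf' k hk h1).resolve_left hk1
  have h2 : f * (k * k) * f⁻¹ = k * k := by rw [inv_mul_eq_iff_eq_mul] at e'; simpa using e'
  rcases hfix f hf (k * k) (Subgroup.mul_mem _ hk hk) (h2 ▸ conj_mem_map_conj (Subgroup.mul_mem _ hk' hk')) with
    h | h
  · exact hk1 (eq_one_of_sq_of_odd (odd_orderOf_DD hS hk) h)
  · exact hf1 h

end RankOne

end Cfsg.Lib.Chev
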