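/-
Binary actions of `PSU₃(2 ^ n)` with point stabilisers of even order.
-/
import Cfsg.Agent.Chev.Binary
import Cfsg.Agent.Gold.KBender

set_option autoImplicit false

namespace Cfsg.Lib.Chev

open Cfsg.Lib.Local RankOne MulAction Cfsg.Lib.Suz

/-- Coordinates on `PSU₃(q)`, `q > 2` even. -/
structure U3D {E : Type*} [Field E] (σ : E →+* E) {G Ω : Type*} [Group G] [MulAction G Ω] (a : Ω) (t : G)
    (Q : Subgroup G) (u : E → E → G) (d : Eˣ →* G) : Prop where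
  setup : IsRankOneSetup G Ω a t Q
  invol : ∀ x, σ (σ x) = x
  pow : ∃ q : ℕ, ∀ x, σ x = x ^ q
  big : ∃ l, σ l ^ 3 ≠ l ^ 3
  mem : ∀ g, g ∈ Q ↔ ∃ x y, y + σ y = x * σ x ∧ u x y = g
  inj : ∀ {x y x' y'}, y + σ y = x * σ x → y' + σ y' = x' * σ x' → u x y = u x' y' → x = x' ∧ y = y'
  mul : ∀ {x y x' y'}, y + σ y = x * σ x → y' + σ y' = x' * σ x' →
    u x y * u x' y' = u (x + x') (y + y' + x * σ x')
  memD : ∀ g, g ∈ DD a t ↔ ∃ l, d l = g
  act : ∀ (l : Eˣ) {x y}, y + σ y = x * σ x → d l * u x y * (d l)⁻¹ = u (l * l / σ l * x) (l * σ l * y)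
  tdt : ∀ l, t * d l * t = (d (Units.map σ l))⁻¹
  tut : ∀ {x y}, y + σ y = x * σ x → ∀ l : Eˣ, l * σ y = 1 →
    t * u x y * t = u (x / σ y) y⁻¹ * d l * t * u (x / y) y⁻¹
  d_one : ∀ l : Eˣ, l * l / σ l = 1 → d l = 1

namespace U3D

variable {E : Type*} [Field E] [CharP E 2] {σ : E →+* E} {G Ω : Type*} [Group G] [MulAction G Ω] {a : Ω}
  {t : G} {Q : Subgroup G} {u : E → E → G} {d : Eˣ →* G} (U : U3D σ a t Q u d)

omit [CharP E 2] in
theorem cond_t1 (hσ : ∀ x, σ (σ x) = x) {x y : E} (h : y + σ y = x * σ x) (hy : y ≠ 0) :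
    y⁻¹ + σ y⁻¹ = x / σ y * σ (x / σ y) := by
  have := (map_ne_zero σ).2 hy
  simp only [map_div₀, map_inv₀, hσ]
  field_simp
  linear_combination h

omit [CharP E 2] in
theorem cond_t2 {x y : E} (h : y + σ y = x * σ x) (hy : y ≠ 0) : y⁻¹ + σ y⁻¹ = x / y * σ (x / y) := by
  have := (map_ne_zero σ).2 hy
  simp only [map_div₀, map_inv₀]
  field_simp
  linear_combination h

theorem cond_zero {c : E} (hc : σ c = c) : c + σ c = 0 * σ 0 := by rw [hc, CharTwo.add_self_eq_zero, zero_mul]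

theorem add_ne_zero {l : E} (h : σ l ≠ l) : l + σ l ≠ 0 := fun e => h (CharTwo.add_eq_zero.1 e).symm

/-- `g` is an element of `Q` with first coordinate `x`. -/
def R (_ : U3D σ a t Q u d) (g : G) (x : E) : Prop := ∃ y, y + σ y = x * σ x ∧ u x y = g

/-- `X` contains the involutions fixing `a`. -/
def ZZ (a : Ω) (X : Subgroup G) : Prop := ∀ s, s • a = a → s * s = 1 → s ∈ X

omit [CharP E 2] in
theorem ZZ.cj {X : Subgroup G} (h : ZZ a X) {g : G} (hg : g • a = a) : ZZ a (cj X g) := fun s h1 h2 =>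
  mem_cj.2 (h _ (by rw [mul_smul, mul_smul, hg, h1, inv_smul_eq_iff, hg]) (conj_sq_eq_one' h2))

include U

omit [CharP E 2] in
theorem exists_ne : ∃ l, σ l ≠ l := U.big.imp fun _ h e => h (by rw [e])

theorem exists_fixed : ∃ c, σ c = c ∧ c ≠ 0 ∧ c ≠ 1 := by
  have two : (2 : E) = 0 := CharTwo.two_eq_zero
  obtain ⟨l, hl⟩ := U.big
  by_contra! h
  have h0 : l ≠ 0 := by rintro rfl; simp at hl
  have h1 := h (l * σ l) (by rw [map_mul, U.invol, mul_comm]) (by simpa using h0)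
  have h2 := h (l + σ l) (by rw [map_add, U.invol, add_comm]) (add_ne_zero fun e => hl (by rw [e]))
  apply hl
  grind

omit [CharP E 2] in
theorem u_zero : u 0 0 = 1 := by simpa using U.mul (x := 0) (y := 0) (x' := 0) (y' := 0) (by simp) (by simp)

omit [CharP E 2] in
theorem d_mem (l : Eˣ) : d l ∈ DD a t := (U.memD _).2 ⟨l, rfl⟩

omit [CharP E 2] in
theorem R_iff {g : G} : g ∈ Q ↔ ∃ x, U.R g x := U.mem g

theorem exists_R (x : E) : ∃ g, U.R g x := by
  obtain ⟨l, hl⟩ := U.exists_ne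
  have := add_ne_zero hl
  refine ⟨_, x * σ x * l / (l + σ l), ?_, rfl⟩
  simp only [map_div₀, map_mul, map_add, U.invol, add_comm (σ l)]
  field_simp

variable {U}

omit [CharP E 2] in
theorem R.mem {g : G} {x : E} (h : U.R g x) : g ∈ Q := U.R_iff.2 ⟨x, h⟩

omit [CharP E 2] in
theorem R.fix {g : G} {x : E} (h : U.R g x) : g • a = a := Q_fix U.setup h.mem

omit [CharP E 2] in
theorem R.unique {g : G} {x x' : E} (h : U.R g x) (h' : U.R g x') : x = x' := by
  obtain ⟨y, h, rfl⟩ := h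
  obtain ⟨y', h', e⟩ := h'
  exact (U.inj h h' e.symm).1

omit [CharP E 2] in
theorem R.one : U.R 1 0 := ⟨0, by simp, U.u_zero⟩

omit [CharP E 2] in
theorem R.mul {g g' : G} {x x' : E} (h : U.R g x) (h' : U.R g' x') : U.R (g * g') (x + x') := by
  obtain ⟨y, h, rfl⟩ := h
  obtain ⟨y', h', rfl⟩ := h'
  exact ⟨_, uJ_mul_cond U.invol h h', (U.mul h h').symm⟩

theorem R.inv {g : G} {x : E} (h : U.R g x) : U.R g⁻¹ x := by
  obtain ⟨x', h'⟩ := U.R_iff.1 (Q.inv_mem h.mem)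
  have h1 := h.mul h'
  rw [mul_inv_cancel] at h1
  rwa [CharTwo.add_eq_zero.1 (h1.unique R.one)]

omit [CharP E 2] in
theorem R.act {g : G} {x : E} (h : U.R g x) (l : Eˣ) : U.R (d l * g * (d l)⁻¹) (l * l / σ l * x) := by
  obtain ⟨y, h, rfl⟩ := h
  exact ⟨_, Gold.dJ_cond U.invol l h, (U.act l h).symm⟩

theorem R.sq_iff {g : G} {x : E} (h : U.R g x) : g * g = 1 ↔ x = 0 := by
  obtain ⟨y, h, rfl⟩ := h
  rw [U.mul h h, CharTwo.add_self_eq_zero, CharTwo.add_self_eq_zero, zero_add, ← U.u_zero]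
  refine ⟨fun e => ?_, fun e => by rw [e, zero_mul]⟩
  simpa using (U.inj (cond_zero (by rw [map_mul, U.invol, mul_comm])) (by simp) e).2

theorem R.mem_of_zero {X : Subgroup G} (hX : ZZ a X) {g : G} {x : E} (h : U.R g x) (hx : x = 0) : g ∈ X :=
  hX g h.fix (h.sq_iff.2 hx)

theorem R.mem_of {X : Subgroup G} (hX : ZZ a X) {g g' : G} {x x' : E} (h : U.R g x) (h' : U.R g' x')
    (hx : x = x') (hg : g ∈ X) : g' ∈ X := by
  simpa using X.mul_mem hg ((h.inv.mul h').mem_of_zero hX (by rw [hx, CharTwo.add_self_eq_zero]))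

variable (U)

theorem le_of_forall {X : Subgroup G} (hX : ZZ a X) (h : ∀ x, x ≠ 0 → ∃ g ∈ X, U.R g x) : Q ≤ X := fun g hg => by
  obtain ⟨x, hx⟩ := U.R_iff.1 hg
  by_cases h0 : x = 0
  · exact hx.mem_of_zero hX h0
  · obtain ⟨g', h1, h2⟩ := h x h0
    exact h2.mem_of hX hx rfl h1

theorem d_eq_one {l : Eˣ} {x : E} (hx : x ≠ 0) (h : x + l * l / σ l * x = 0) : d l = 1 :=
  U.d_one l (mul_right_cancel₀ hx ((CharTwo.add_eq_zero.1 h).symm.trans (one_mul x).symm))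

omit [CharP E 2] in
theorem exists_decomp {g : G} (hg : g • a = a) : ∃ y x l, U.R y x ∧ g = y * d l := by
  obtain ⟨y, hy, k, hk, rfl⟩ := exists_QD U.setup hg
  obtain ⟨x, hx⟩ := U.R_iff.1 hy
  obtain ⟨l, rfl⟩ := (U.memD k).1 hk
  exact ⟨y, x, l, hx, rfl⟩

omit [CharP E 2] in
theorem t_smul {x y : E} (h : y + σ y = x * σ x) (hy : y ≠ 0) :
    t • u x y • t • a = u (x / σ y) y⁻¹ • t • a := by
  have hy' := (map_ne_zero σ).2 hy
  rw [← mul_smul, ← mul_smul, U.tut h (Units.mk0 _ hy')⁻¹ (by simp [hy']), mul_smul, mul_smul, mul_smul,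
    R.fix (U := U) ⟨_, cond_t2 h hy, rfl⟩, (mem_DD.1 (U.d_mem _)).2]

variable {𝓕 : Set (Subgroup G)} (hF : Fam 𝓕)
include hF

/-- The Frobenius group `(Q / Z) ⟨k⟩`. -/
theorem le_of_d {X H : Subgroup G} (hX : X ∈ 𝓕) (hH : H ∈ 𝓕) {l : Eˣ} (hl : d l ≠ 1) (hlX : d l ∈ X)
    (hlH : d l ∈ H) (hZ : ZZ a H)
    (h : ∀ f x, U.R f x → x ≠ 0 → ∀ g ∈ X, g ∈ cj X f → g • a = a ∧ g * g = 1) : Q ≤ H := by
  have two : (2 : E) = 0 := CharTwo.two_eq_zero
  refine U.le_of_forall hZ fun x hx => ?_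
  have hκ : (l * l / σ l : E) + 1 ≠ 0 := fun e => hl (U.d_one l (CharTwo.add_eq_zero.1 e))
  obtain ⟨w, rfl⟩ : ∃ w, x = (l * l / σ l + 1) * ((l * l / σ l + 1) * w) :=
    ⟨x / (l * l / σ l + 1) ^ 2, by generalize (l * l / σ l + 1 : E) = k at hκ; field_simp⟩
  obtain ⟨f, hf⟩ := U.exists_R w
  obtain ⟨f', hf'⟩ := U.exists_R ((l * l / σ l + 1) * w)
  have h1 := ((hf'.inv.act l).mul (((hf.act l).act l).mul hf.inv)).mul hf'
  have h2 := hF.mem hX (hF.conj hX f) (hF.conj hH f') (X.inv_mem hlX)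
    (conj_mem_map_conj (X.inv_mem (X.mul_mem hlX hlX))) (mem_cj.2 (by
      convert H.mul_mem (H.inv_mem hlH) (h1.mem_of_zero hZ (by grind)) using 1
      group)) fun g hg hg' => by
    obtain ⟨h3, h4⟩ := h f w hf (by rintro rfl; simp at hx) g hg hg'
    exact hZ.cj hf'.fix g h3 h4
  refine ⟨_, ?_, by convert (hf'.inv.act l).mul hf' using 1; ring⟩
  convert H.mul_mem hlH (mem_cj.1 h2) using 1
  group

theorem tri {X : Subgroup G} (hX : X ∈ 𝓕) (hQ : Q ≤ X) (hB : ∀ g ∈ X, g • a = a) {c e c' : E} {γ : Eˣ}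
    (h : e + σ e = c * σ c) (h' : γ * e + σ (γ * e) = c' * σ c') (he : e ≠ 0) (hγ : d γ ∈ X) :
    ∃ m, d m ∈ X ∧ c' = m * m / σ m * c ∧ γ * e = m * σ m * e := by
  have hS := U.setup
  have he' : γ * e ≠ 0 := mul_ne_zero γ.ne_zero he
  have hσe := (map_ne_zero σ).2 he
  have hu : ∀ {x y}, y + σ y = x * σ x → u x y ∈ Q := fun h => (U.mem _).2 ⟨_, _, h, rfl⟩
  have e1 := U.tut h (Units.mk0 _ hσe)⁻¹ (by simp [hσe])
  have e2 := U.tut h' ((Units.mk0 _ hσe)⁻¹ * (Units.map σ γ)⁻¹) (by simp; field_simp)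
  have e3 := U.tdt (Units.map σ γ)
  rw [show Units.map (σ : E →* E) (Units.map (σ : E →* E) γ) = γ from Units.ext (U.invol _)] at e3
  have ht := t_inv hS
  obtain ⟨g, h1, h2, h3⟩ := hF.dist hX (hF.conj hX t) (hF.conj hX (u c e * t))
    (hQ (Q.mul_mem (hu h') (Q.inv_mem (hu h))))
    (conj_mem_map_conj (hQ (Q.mul_mem (hu (cond_t1 U.invol h' he')) (Q.inv_mem (hu (cond_t1 U.invol h he))))))
    (mem_cj.2 (by
      have h4 := X.mul_mem (X.mul_mem (X.inv_mem (hQ (hu (cond_t2 h' he')))) (X.inv_mem hγ))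
        (hQ (hu (cond_t2 h he)))
      rw [← e3] at h4
      convert h4 using 1
      calc _ = (t * u c' (γ * e) * t)⁻¹ * (u (c' / σ (γ * e)) (γ * e)⁻¹ * (u (c / σ e) e⁻¹)⁻¹) *
            (t * u c e * t) := by simp only [mul_inv_rev, ht, inv_inv, mul_assoc, inv_mul_cancel_left]
        _ = _ := by
          rw [e1, e2, map_mul d, map_inv d (Units.map _ _)]
          simp only [mul_inv_rev, ht, inv_inv, mul_assoc, inv_mul_cancel_left]))
  obtain ⟨m, rfl⟩ := (U.memD g).1 (mem_DD.2 ⟨hB g h1, by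
    have := hB _ (mem_cj.1 h2)
    rwa [mul_smul, mul_smul, inv_smul_eq_iff] at this⟩)
  have h4 := hB _ (mem_cj.1 h3)
  have h5 : ((d m * u c e * (d m)⁻¹)⁻¹ * u c' (γ * e)) • t • a = t • a := by
    simp only [mul_smul, mul_inv_rev, inv_smul_eq_iff, inv_smul_smul, inv_inv] at h4 ⊢
    rw [h4, inv_smul_smul, inv_smul_smul, (mem_DD.1 (U.d_mem m)).2]
  rw [U.act m h] at h5
  have h6 := Gold.dJ_cond U.invol m h
  exact ⟨m, h1, U.inj h' h6
    (inv_mul_eq_one.1 (eq_one_of_fix_ta hS (Q.mul_mem (Q.inv_mem (hu h6)) (hu h')) h5)).symm⟩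

theorem not_le [Finite E] {X : Subgroup G} (hX : X ∈ 𝓕) (hB : ∀ g ∈ X, g • a = a) : ¬ Q ≤ X := by
  intro hQ
  have two : (2 : E) = 0 := CharTwo.two_eq_zero
  have h1 : ∀ γ : Eˣ, d γ ∈ X → σ γ = γ := fun γ hγ => by
    obtain ⟨r, hr⟩ := (frobenius E 2).injective.surjective_of_finite (Equiv.refl _) (γ + σ γ)
    have hr' : σ r = r := (frobenius E 2).injective (by
      rw [hr, frobenius_def, ← map_pow, ← frobenius_def, hr, map_add, U.invol, add_comm])
    obtain ⟨m, -, -, h⟩ := U.tri hF hX hQ hB (c := 0) (e := 1) (c' := r) (cond_zero (map_one σ))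
      (by rw [mul_one, ← hr, hr', frobenius_def, sq]) one_ne_zero hγ
    rw [mul_one, mul_one] at h
    rw [h, map_mul, U.invol, mul_comm]
  obtain ⟨l, hl⟩ := U.exists_ne
  have h0 : l ≠ 0 := by rintro rfl; simp at hl
  have h0' := (map_ne_zero σ).2 h0
  have h2 := add_ne_zero hl
  have h3 : l / (l + σ l) + σ (l / (l + σ l)) = 1 := by
    simp only [map_div₀, map_add, U.invol, add_comm (σ l)]
    field_simp
  obtain ⟨m, hm, h4, h5⟩ := U.tri hF hX hQ hB (c := 1) (e := l / (l + σ l)) (c' := σ l / l) (γ := 1)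
    (by simpa using h3) (by
      rw [Units.val_one, one_mul, h3, map_div₀, U.invol]
      field_simp) (div_ne_zero h0 h2) (by simp)
  rw [h1 m hm] at h4 h5
  have h6 : (m : E) = 1 := (frobenius E 2).injective (by
    rw [map_one, frobenius_def, sq]
    exact (mul_right_cancel₀ (div_ne_zero h0 h2) h5).symm)
  rw [h6, mul_one, div_one, mul_one, div_eq_one_iff_eq h0] at h4
  exact hl h4

theorem sq_or_le [Finite G] {X : Subgroup G} (hX : X ∈ 𝓕) (hZ : ZZ a X) (hQ : X ≤ Q) :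
    (∀ g ∈ X, g * g = 1) ∨ Q ≤ X := by
  have two : (2 : E) = 0 := CharTwo.two_eq_zero
  induction hn : Nat.card X using Nat.strong_induction_on generalizing X with
  | _ n ih =>
  have hd := fun l => (mem_DD.1 (U.d_mem l)).1
  have dich : ∀ l, X = cj X (d l) ∨ ∀ g ∈ X, g ∈ cj X (d l) → g * g = 1 := fun l => by
    have h1 : X ≤ cj X (d l) → X = cj X (d l) := fun h =>
      Subgroup.eq_of_le_of_card_ge h (card_map_conj _ _).le
    refine or_iff_not_imp_left.2 fun h g hg hg' => ?_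
    rcases ih _ (hn ▸ lt_of_le_of_ne (Subgroup.card_le_of_le inf_le_left) fun e =>
        h (h1 (inf_eq_left.1 (Subgroup.eq_of_le_of_card_ge inf_le_left e.ge))))
      (hF.inf hX (hF.conj hX (d l))) (fun s h1 h2 => ⟨hZ s h1 h2, hZ.cj (hd l) s h1 h2⟩)
      (inf_le_left.trans hQ) rfl with h2 | h2
    · exact h2 g ⟨hg, hg'⟩
    · exact absurd (h1 (hQ.trans (h2.trans inf_le_right))) h
  let A : E → Prop := fun x => ∃ g ∈ X, U.R g x
  have key : ∀ (l m : Eˣ) x x', A x → A x' → x ≠ 0 → x' ≠ 0 →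
      x + l * l / σ l * x' = m * m / σ m * x' → A (l * l / σ l * x') := by
    rintro l m x x' ⟨g, hg, h⟩ ⟨g', hg', h'⟩ hx hx' e
    refine ⟨_, ?_, h'.act l⟩
    rcases dich l with h1 | h1
    · exact h1 ▸ conj_mem_map_conj hg'
    have h2 : g⁻¹ * (d l * g' * (d l)⁻¹) ∈ cj X (d m) :=
      (h'.act m).mem_of (hZ.cj (hd m)) (h.inv.mul (h'.act l)) e.symm (conj_mem_map_conj hg')
    have h3 := hF.mem hX (hF.conj hX _) (hF.conj hX _) hg (conj_mem_map_conj hg') h2 fun s hs hs' =>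
      hZ.cj (hd m) s (Q_fix U.setup (hQ hs)) (h1 s hs hs')
    rw [← (dich m).resolve_right fun h4 => hx (h.sq_iff.1 (h4 g hg h3))] at h2
    exact (X.mul_mem_cancel_left (X.inv_mem hg)).1 h2
  have step1 : ∀ c x, σ c = c → A x → A (c * x) := fun c x hc hx => by
    by_cases h0 : c * x = 0
    · exact ⟨1, X.one_mem, h0 ▸ R.one⟩
    by_cases h1 : c = 1
    · rwa [h1, one_mul]
    have h2 := left_ne_zero_of_mul h0
    have h3 : 1 + c ≠ 0 := fun e => h1 (CharTwo.add_eq_zero.1 e).symm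
    have := key (Units.mk0 c h2) (Units.mk0 _ h3) x x hx hx (right_ne_zero_of_mul h0) (right_ne_zero_of_mul h0)
      (by simp [hc, h2, h3]; ring)
    simpa [hc, h2] using this
  refine or_iff_not_imp_left.2 fun h => U.le_of_forall hZ fun x _ => ?_
  push Not at h
  obtain ⟨g, hg, h⟩ := h
  obtain ⟨w, hw⟩ := U.R_iff.1 (hQ hg)
  have hw0 : w ≠ 0 := fun e => h (hw.sq_iff.2 e)
  have hA : A w := ⟨g, hg, hw⟩
  obtain ⟨l, hl⟩ := U.big
  have h0 : l ≠ 0 := by rintro rfl; simp at hl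
  have h0' := (map_ne_zero σ).2 h0
  have h1 : σ (l * l / σ l) = σ l * σ l / l := by rw [map_div₀, map_mul, U.invol]
  have h2 := add_ne_zero (σ := σ) (l := l * l / σ l) fun e => hl (by
    rw [h1] at e
    field_simp at e
    exact e)
  have h3 : σ (l * l / σ l + σ (l * l / σ l)) = l * l / σ l + σ (l * l / σ l) := by
    rw [map_add, U.invol, add_comm]
  have h4 : A (l * l / σ l * w) := key (Units.mk0 l h0) (Units.mk0 _ h0') _ w (step1 _ w h3 hA) hA
    (mul_ne_zero h2 hw0) hw0 (by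
      simp only [Units.val_mk0, U.invol, h1]
      linear_combination l * l / σ l * w * two)
  generalize l * l / σ l = k at h2 h3 h4
  obtain ⟨v, rfl⟩ : ∃ v, x = v * w := ⟨x / w, by field_simp⟩
  have h5 : σ ((v + σ v) / (k + σ k)) = (v + σ v) / (k + σ k) := by
    rw [map_div₀, h3, map_add, U.invol, add_comm]
  obtain ⟨g1, h6, h7⟩ := step1 _ _ h5 h4
  obtain ⟨g2, h8, h9⟩ := step1 (v + (v + σ v) / (k + σ k) * k) w (by
    rw [map_add, map_mul, h5]
    field_simp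
    grind) hA
  refine ⟨_, X.mul_mem h6 h8, ?_⟩
  convert h7.mul h9 using 1
  linear_combination -(v + σ v) / (k + σ k) * k * w * two

theorem sq_of_fix [Finite G] [Finite E] {X : Subgroup G} (hX : X ∈ 𝓕) (hZ : ZZ a X) (hB : ∀ g ∈ X, g • a = a) :
    ∀ g ∈ X, g * g = 1 := by
  have two : (2 : E) = 0 := CharTwo.two_eq_zero
  have hS := U.setup
  refine (U.sq_or_le hF hX hZ fun g hg => ?_).resolve_right (U.not_le hF hX hB)
  obtain ⟨y, x, l, hy, rfl⟩ := U.exists_decomp (hB g hg)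
  suffices d l = 1 by rw [this, mul_one]; exact hy.mem
  by_contra hl
  have hκ : (l * l / σ l : E) + 1 ≠ 0 := fun e => hl (U.d_one l (CharTwo.add_eq_zero.1 e))
  obtain ⟨w, rfl⟩ : ∃ w, x = (l * l / σ l + 1) * w :=
    ⟨x / (l * l / σ l + 1), by generalize (l * l / σ l + 1 : E) = k at hκ; field_simp⟩
  obtain ⟨f, hf⟩ := U.exists_R w
  have hX' := hF.conj hX f⁻¹
  have hZ' := hZ.cj hf.inv.fix
  have hB' : ∀ g ∈ cj X f⁻¹, g • a = a := fun g hg => by
    have := hB _ (mem_cj.1 hg)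
    rwa [mul_smul, mul_smul, hf.inv.fix, inv_smul_eq_iff, hf.inv.fix] at this
  have h1 : d l ∈ cj X f⁻¹ := by
    have h2 := ((hf.inv.mul hy).mul (hf.act l)).mem_of_zero hZ' (by grind)
    convert Subgroup.mul_mem _ (Subgroup.inv_mem _ h2) (conj_mem_map_conj (g := f⁻¹) hg) using 1
    group
  generalize cj X f⁻¹ = Y at hX' hZ' hB' h1
  have hD : ∀ g ∈ Y ⊓ cj Y t, g ∈ DD a t := fun g hg => mem_DD.2 ⟨hB' g hg.1, by
    have := hB' _ (mem_cj.1 hg.2)
    rwa [mul_smul, mul_smul, inv_smul_eq_iff] at this⟩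
  refine U.not_le hF hX' hB' (U.le_of_d hF (hF.inf hX' (hF.conj hX' t)) hX' hl ⟨h1, mem_cj.2 ?_⟩ h1 hZ'
    fun f x hf hx g hg hg' => ?_)
  · obtain ⟨q, hq⟩ := U.pow
    rw [t_inv hS, U.tdt, show Units.map (σ : E →* E) l = l ^ q from Units.ext (hq l), map_pow]
    exact Y.inv_mem (Y.pow_mem h1 q)
  · obtain ⟨m, rfl⟩ := (U.memD g).1 (hD g hg)
    have h2 := hf.inv.mul (hf.act m)
    rw [eq_one_of_fix_ta hS h2.mem (by
      rw [← mul_assoc, ← mul_assoc, mul_smul, (mem_DD.1 ((DD a t).inv_mem (U.d_mem m))).2]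
      exact (mem_DD.1 (hD _ (mem_cj.1 hg'))).2)] at h2
    simp [U.d_eq_one hx (h2.unique R.one)]

omit hF in
theorem isPGroup : IsPGroup 2 Q := fun g => ⟨2, Subtype.ext (by
  obtain ⟨x, hx⟩ := U.R_iff.1 g.2
  have := (hx.mul hx).sq_iff.2 (CharTwo.add_self_eq_zero x)
  simpa [pow_succ, mul_assoc] using this)⟩

theorem eq_top [Finite G] [IsSimpleGroup G] (hI : InvClosed 𝓕) {X : Subgroup G} (hX : X ∈ 𝓕) (hZ : ZZ a X)
    (hZ' : ZZ (t • a) X) : X = ⊤ := by
  have hS := U.setup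
  have hnil : Group.IsNilpotent Q := U.isPGroup.isNilpotent
  have hΔ : ∀ g ∈ X, ∀ p : Ω, ZZ p X → ZZ (g • p) X := fun g hg p hp s h1 h2 => by
    have := hp (g⁻¹ * s * g) (by rw [mul_smul, mul_smul, h1, inv_smul_smul]) (conj_sq_eq_one' h2)
    simpa [mul_assoc] using X.mul_mem (X.mul_mem hg this) (X.inv_mem hg)
  have hR : ∀ {c}, σ c = c → U.R (u 0 c) 0 := fun hc => ⟨_, cond_zero hc, rfl⟩
  have htt : ∀ {c}, σ c = c → t * u 0 c * t ∈ X := fun hc => hZ' _
    (by rw [mul_smul, mul_smul, t_ta hS, (hR hc).fix])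
    (by simpa only [t_inv hS] using conj_sq_eq_one (g := t) ((hR hc).sq_iff.2 rfl))
  let A : E → Prop := fun x => ∀ g, U.R g x → ZZ (g • t • a) X
  have hA : ∀ g x, U.R g x → ZZ (g • t • a) X → A x := fun g x h1 h2 g' h3 => by
    simpa [mul_smul] using hΔ _ ((h3.mul h1.inv).mem_of_zero hZ (CharTwo.add_self_eq_zero x)) _ h2
  by_cases h : ∃ x, x ≠ 0 ∧ A x
  · have step : ∀ x μ, x ≠ 0 → σ μ ≠ μ → A x → A (x / μ) := by
      intro x μ hx hμ h
      have h1 := add_ne_zero hμ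
      have h2 : x * σ x ≠ 0 := by simpa using hx
      have hμ1 : μ + 1 ≠ 0 := fun e => hμ (by rw [CharTwo.add_eq_zero.1 e, map_one])
      have hμ0 : μ ≠ 0 := by rintro rfl; simp at hμ
      obtain ⟨c, hc, hc0, hc1⟩ : ∃ c, σ c = c ∧ c ≠ 0 ∧ c * (x * σ x) = μ + σ μ :=
        ⟨(μ + σ μ) / (x * σ x), by simp only [map_div₀, map_add, map_mul, U.invol, add_comm, mul_comm],
          div_ne_zero h1 h2, div_mul_cancel₀ _ h2⟩
      have hy0 : σ ((μ + 1) / c) ≠ 0 := (map_ne_zero σ).2 (div_ne_zero hμ1 hc0)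
      have hy : σ ((μ + 1) / c) + σ (σ ((μ + 1) / c)) = x * σ x := by
        have two : (2 : E) = 0 := CharTwo.two_eq_zero
        simp only [U.invol, map_div₀, map_add, map_one, hc]
        field_simp
        linear_combination two - hc1
      have e : c + (σ ((μ + 1) / c))⁻¹ = σ (μ * c / (μ + 1)) := by
        have two : (2 : E) = 0 := CharTwo.two_eq_zero
        have := (map_ne_zero σ).2 hμ1
        simp only [map_div₀, map_add, map_one, map_mul, hc] at this ⊢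
        field_simp
        linear_combination two
      have h3 := hΔ _ (htt hc) _ (h _ ⟨_, hy, rfl⟩)
      have h4 := cond_t1 U.invol hy hy0
      have h5 := uJ_mul_cond U.invol (cond_zero hc) h4
      rw [mul_smul, mul_smul, U.t_smul hy hy0, ← mul_smul (u 0 c), U.mul (cond_zero hc) h4] at h3
      rw [zero_add, zero_mul, add_zero, e] at h3 h5
      have h6 : σ (μ * c / (μ + 1)) ≠ 0 := (map_ne_zero σ).2 (div_ne_zero (mul_ne_zero hμ0 hc0) hμ1)
      rw [U.t_smul h5 h6] at h3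
      convert hA _ _ ⟨_, cond_t1 U.invol h5 h6, rfl⟩ h3 using 1
      simp only [U.invol]
      field_simp
    obtain ⟨x, hx, h⟩ := h
    obtain ⟨l, hl⟩ := U.exists_ne
    have h0 : l ≠ 0 := by rintro rfl; simp at hl
    have all : ∀ y, A y := fun y => by
      by_cases hy : y = 0
      · exact hy ▸ hA 1 0 R.one (by rwa [one_smul])
      by_cases h1 : σ (x / y) = x / y
      · convert step _ (x / y / l) (div_ne_zero hx h0) (fun e => hl ?_) (step x l hx hl h) using 1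
        · field_simp
        · rw [map_div₀, h1] at e
          exact inv_injective (mul_left_cancel₀ (div_ne_zero hx hy) (by simpa only [div_eq_mul_inv] using e))
      · convert step x _ hx h1 h using 1
        field_simp
    refine eq_top_of_invol hS.ne_one fun g => ?_
    have h2 := conj_sq_eq_one (g := g) hS.mul_self
    obtain ⟨p, hp⟩ := exists_fix hS h2
    by_cases hpa : p = a
    · exact hZ _ (hpa ▸ hp) h2
    · obtain ⟨y, hy, rfl⟩ := exists_Q_smul_ta hS hpa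
      obtain ⟨w, hw⟩ := U.R_iff.1 hy
      exact all w y hw _ hp h2
  exfalso
  have h0 : ∀ g x, U.R g x → ZZ (g • t • a) X → x = 0 := fun g x h1 h2 =>
    by_contra fun h3 => h ⟨x, h3, hA g x h1 h2⟩
  have h1 : ∀ y x l, U.R y x → y * d l ∈ X → x = 0 := fun y x l h2 h3 => h0 y x h2 (by
    simpa only [mul_smul, (mem_DD.1 (U.d_mem l)).2] using hΔ _ h3 _ hZ')
  have h2 : ∀ l : Eˣ, σ l = l → d l * t ∈ X := fun l hl => by
    have hc : σ (l : E)⁻¹ = (l : E)⁻¹ := by rw [map_inv₀, hl]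
    have h3 := htt hc
    rw [U.tut (cond_zero hc) l (by simp [hc]), zero_div, zero_div, inv_inv, mul_assoc (u 0 _)] at h3
    have h4 := (hR hl).mem_of_zero hZ rfl
    exact (X.mul_mem_cancel_left h4).1 ((X.mul_mem_cancel_right h4).1 h3)
  obtain ⟨c, hc, hc0, hc1⟩ := U.exists_fixed
  have h3 : d (Units.mk0 c hc0) ∈ X :=
    (X.mul_mem_cancel_right (by simpa using h2 1 (map_one σ))).1 (h2 _ hc)
  obtain ⟨f, hf⟩ := U.exists_R 1
  refine one_ne_zero (h1 f 1 1 hf (by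
    rw [map_one, mul_one]
    refine U.le_of_d hF hX hX (fun e => hc1 ?_) h3 h3 hZ (fun f x hf hx g hg hg' => ?_) hf.mem
    · have := (hf.act (Units.mk0 c hc0)).unique (by rw [e]; simpa using hf)
      simpa [hc, hc0] using this
    have h4 : g • a = a := by
      by_contra h4
      obtain ⟨y, hy, e⟩ := exists_Q_smul_ta hS h4
      obtain ⟨w, hw⟩ := U.R_iff.1 hy
      have h5 := h0 y w hw (e ▸ hΔ g hg a hZ)
      have h6 := h0 _ _ (hf.inv.mul hw) (by
        simpa only [mul_smul, hf.fix, e] using hΔ _ (mem_cj.1 hg') a hZ)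
      exact hx (by simpa [h5] using h6)
    obtain ⟨y, w, l, hy, rfl⟩ := U.exists_decomp h4
    obtain rfl := h1 y w l hy hg
    have h5 := h1 _ _ l ((hf.inv.mul hy).mul (hf.act l)) (by simpa [mul_assoc] using mem_cj.1 hg')
    rw [add_zero] at h5
    rw [U.d_eq_one hx h5, mul_one]
    exact ⟨hy.fix, hy.sq_iff.2 rfl⟩))

theorem exists_point [Finite G] [Finite E] [IsSimpleGroup G] (hI : InvClosed 𝓕) {X : Subgroup G} (hX : X ∈ 𝓕)
    (hne : X ≠ ⊤) (he : Even (Nat.card X)) : ∃ p : Ω, ∀ g, g ∈ X ↔ g • p = p ∧ g * g = 1 := by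
  have hS := U.setup
  have hnil : Group.IsNilpotent Q := U.isPGroup.isNilpotent
  have htop : ∀ {X : Subgroup G} {g}, cj X g = ⊤ → X = ⊤ := fun {X g} h => eq_top_iff.2 fun x _ => by
    have := mem_cj.1 (h.ge (Subgroup.mem_top (g * x * g⁻¹)))
    simpa [mul_assoc] using this
  suffices key : ∀ X ∈ 𝓕, X ≠ ⊤ → ZZ a X → ∀ g, g ∈ X ↔ g • a = a ∧ g * g = 1 by
    obtain ⟨s, hs, hs1, hs2⟩ := exists_invol_of_even he
    obtain ⟨k, hk⟩ := exists_conj_mem_Q hS hs2
    have h1 := key _ (hF.conj hX k) (fun h => hne (htop h)) fun y h1 h2 =>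
      hI _ (hF.conj hX k) _ (conj_mem_map_conj hs) (conj_ne_one hs1) (conj_sq_eq_one hs2) y h2
        (comm_of_fix hS hnil (conj_ne_one hs1) (conj_sq_eq_one hs2) h2 (Q_fix hS hk) h1)
    refine ⟨k⁻¹ • a, fun g => ?_⟩
    have h2 := h1 (k * g * k⁻¹)
    rw [mem_cj, mul_smul, mul_smul, smul_eq_iff_eq_inv_smul] at h2
    simp only [mul_assoc, inv_mul_cancel_left, inv_mul_cancel, mul_one] at h2
    rw [h2, mul_eq_one_iff_eq_inv', ← mul_assoc, mul_eq_right]
  intro X hX hne hZ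
  have hB : ∀ g ∈ X, g • a = a := fun g hg => by
    by_contra h
    obtain ⟨y, hy, e⟩ := exists_Q_smul_ta hS h
    refine hne (htop (U.eq_top hF hI (hF.conj hX y⁻¹) (hZ.cj (Q_fix hS (Q.inv_mem hy))) fun s h1 h2 => ?_))
    have := hZ (g⁻¹ * (y * s * y⁻¹) * g) (by
      simp only [mul_smul, ← e, inv_smul_smul, h1]
      rw [e, inv_smul_smul]) (conj_sq_eq_one' (conj_sq_eq_one h2))
    simpa [mem_cj, mul_assoc, -Subgroup.mem_map] using X.mul_mem (X.mul_mem hg this) (X.inv_mem hg)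
  exact fun g => ⟨fun hg => ⟨hB g hg, U.sq_of_fix hF hX hZ hB g hg⟩, fun h => hZ g h.1 h.2⟩

omit hF in
theorem mem_center_iff [Finite G] {P : Subgroup G} {k : G} (hP : P = cj Q k) (g : G) :
    g ∈ (Subgroup.center P).map P.subtype ↔ g • k • a = k • a ∧ g * g = 1 := by
  have hS := U.setup
  have hnil : Group.IsNilpotent Q := U.isPGroup.isNilpotent
  subst hP
  constructor
  · rintro ⟨⟨_, g, hg, rfl⟩, h, rfl⟩
    obtain ⟨x, y, hx, rfl⟩ := (U.mem g).1 hg
    obtain ⟨l, hl⟩ := U.exists_ne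
    obtain ⟨_, y', hy', rfl⟩ := U.exists_R (x * l)
    have h1 := (MulAut.conj k).injective (by
      rw [map_mul, map_mul]
      exact congrArg Subtype.val (Subgroup.mem_center_iff.1 h
        ⟨_, conj_mem_map_conj ((U.mem _).2 ⟨_, _, hy', rfl⟩)⟩) :
      MulAut.conj k (u (x * l) y' * u x y) = MulAut.conj k (u x y * u (x * l) y'))
    rw [U.mul hx hy', U.mul hy' hx] at h1
    have h2 := (U.inj (uJ_mul_cond U.invol hy' hx) (uJ_mul_cond U.invol hx hy') h1).2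
    have h3 : x * σ x * (σ l - l) = 0 := by rw [map_mul] at h2; linear_combination -h2
    have h4 : x = 0 := by simpa [sub_eq_zero, hl] using h3
    exact ⟨by simp [mul_smul, Q_fix hS hg], conj_sq_eq_one ((R.sq_iff (U := U) ⟨y, hx, rfl⟩).2 h4)⟩
  · rintro ⟨h1, h2⟩
    have h3 : (k⁻¹ * g * k) • a = a := by rw [mul_smul, mul_smul, h1, inv_smul_smul]
    refine ⟨⟨g, mem_cj.2 (mem_Q_of_sq hS h3 (conj_sq_eq_one' h2))⟩, Subgroup.mem_center_iff.2 ?_, rfl⟩
    rintro ⟨_, x, hx, rfl⟩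
    by_cases hg : g = 1
    · simp [hg, Subtype.ext_iff]
    have := II_central hS hnil ⟨h3, conj_ne_one' hg, conj_sq_eq_one' h2⟩ hx
    refine Subtype.ext ?_
    change k * x * k⁻¹ * g = g * (k * x * k⁻¹)
    calc _ = k * (x * (k⁻¹ * g * k)) * k⁻¹ := by group
      _ = _ := by rw [← this]; group

omit hF in
theorem isBinary_iff [Finite G] [Finite E] [IsSimpleGroup G] {H : Subgroup G} (hne : H ≠ ⊤)
    (he : Even (Nat.card H)) : IsBinary G (G ⧸ H) ↔
      ∃ P : Sylow 2 G, H = (Subgroup.center (P : Subgroup G)).map (P : Subgroup G).subtype := by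
  have hS := U.setup
  obtain ⟨P, hP⟩ := Bender.exists_sylow_eq_Q hS U.isPGroup
  constructor
  · intro hb
    obtain ⟨p, hp⟩ := U.exists_point hb.fam (hb.invClosed fun x y h1 h2 h3 h4 =>
      isConj_iff.2 (invol_conj hS h1 (by rwa [← sq]) h3 (by rwa [← sq]))) (mem_fixFam_quotient H) hne he
    have := pretrans hS
    obtain ⟨k, rfl⟩ := exists_smul_eq G a p
    exact ⟨k • P, Subgroup.ext fun g => (hp g).trans (U.mem_center_iff (hP ▸ rfl) g).symm⟩
  · rintro ⟨P', rfl⟩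
    obtain ⟨k, rfl⟩ := exists_smul_eq G P P'
    exact isBinary_of_setup hS (U.mem_center_iff (k := k) (hP ▸ rfl))

end U3D

open Cfsg.Lib.Gold Matrix in
theorem exists_u3d_of_hom {E : Type*} [Field E] [CharP E 2] [Fintype E] {σ : E →+* E} (hσ : ∀ x, σ (σ x) = x)
    (hq : ∃ q : ℕ, ∀ x, σ x = x ^ q) (hbig : ∃ l, σ l ^ 3 ≠ l ^ 3) {G : Type*} [Group G] [Finite G]
    (f : SJ σ →* G) (hf : Function.Surjective f) (hker' : ∀ g, f g = 1 ↔ g ∈ Subgroup.center (SJ σ)) :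
    ∃ (H Q : Subgroup G) (t : G) (u : E → E → G) (d : Eˣ →* G), U3D σ ((1 : G) : G ⧸ H) t Q u d := by
  classical
  have two : (2 : E) = 0 := CharTwo.two_eq_zero
  have hker : f.ker ≤ HJ σ := fun g hg => center_SJ_le hσ ((hker' g).1 hg)
  have hS := setup_of_bruhat_map f hf
    hker tJ_mul_self (by simp [mem_HJ, m_tJ]) (QJ_le hσ) (fun h hh x hx => QJ_conj hσ hh hx)
    (fun x hx => tut_mem_HJ hσ hx) (fun h hh => HJ_decomp hσ hh) (bruhat_SJ hσ)
    ⟨uJ hσ 0 1 (by simp [CharTwo.add_self_eq_zero]), ⟨_, _, _, rfl⟩,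
      fun h => one_ne_zero (uJ_inj hσ (h.trans (uJ_zero hσ (by simp)).symm)).2, by
        rw [uJ_mul hσ _ _ (uJ_mul_cond hσ (by simp [CharTwo.add_self_eq_zero])
          (by simp [CharTwo.add_self_eq_zero])), ← uJ_zero hσ (by simp)]
        exact uJ_congr hσ _ _ (by simp) (by simp [CharTwo.add_self_eq_zero])⟩
    (fun d hd hd' => odd_orderOf_DJ hd hd')
  have hm : ∀ g, f g ∈ (HJ σ).map f ↔ g ∈ HJ σ := fun g => by
    rw [← Subgroup.mem_comap, Subgroup.comap_map_eq_self hker]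
  let u : E → E → G := fun x y => if h : y + σ y = x * σ x then f (uJ hσ x y h) else 1
  have hu : ∀ x y h, u x y = f (uJ hσ x y h) := fun x y h => dif_pos h
  have hdiag : ∀ l : Eˣ, SJ.m (dJ hσ l) = !![(l : E), 0, 0; 0, σ l / l, 0; 0, 0, (σ l)⁻¹] := fun l => by
    rw [m_dJ]
    ext i j
    fin_cases i <;> fin_cases j <;> simp
  have htdt : ∀ l, tJ σ * dJ hσ l * tJ σ = (dJ hσ (Units.map σ l))⁻¹ := fun l => by
    rw [← map_inv]
    refine SJ.ext ?_
    rw [SJ.m_mul, SJ.m_mul, hdiag, hdiag, m_tJ, mul_fin_three, mul_fin_three]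
    simp [hσ, div_eq_mul_inv, mul_comm]
  have hd : ∀ l, dJ hσ l ∈ HJ σ := fun l => by simp [mem_HJ, m_dJ]
  refine ⟨_, _, _, u, f.comp (dJ hσ), hS, hσ, hq, hbig, fun g => ⟨?_, ?_⟩, fun h h' e => ?_,
    fun h h' => ?_, fun g => ⟨fun hg => ?_, ?_⟩, fun l x y h => ?_, fun l => ?_, fun {x y} h l hl => ?_,
    fun l hl => ?_⟩
  · rintro ⟨_, ⟨x, y, h, rfl⟩, rfl⟩
    exact ⟨x, y, h, hu x y h⟩
  · rintro ⟨x, y, h, rfl⟩
    exact ⟨_, ⟨x, y, h, rfl⟩, (hu x y h).symm⟩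
  · rw [hu _ _ h, hu _ _ h', ← inv_mul_eq_one, ← map_inv, ← map_mul] at e
    refine uJ_inj hσ (inv_mul_eq_one.1 (tut_mem_HJ hσ
      ((QJ hσ).mul_mem ((QJ hσ).inv_mem ⟨_, _, h, rfl⟩) ⟨_, _, h', rfl⟩) (hker ?_)))
    rw [MonoidHom.mem_ker, map_mul, map_mul, e, mul_one, ← map_mul, tJ_mul_self, map_one]
  · rw [hu _ _ h, hu _ _ h', hu _ _ (uJ_mul_cond hσ h h'), ← map_mul, uJ_mul]
  · obtain ⟨⟨k, hk, rfl⟩, h⟩ := (mem_DD_quotient hS.mul_self).1 hg
    rw [← map_mul, ← map_mul, hm] at h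
    obtain ⟨l, rfl⟩ := exists_dJ hσ hk h
    exact ⟨l, rfl⟩
  · rintro ⟨l, rfl⟩
    refine (mem_DD_quotient hS.mul_self).2 ⟨⟨_, hd l, rfl⟩, ?_⟩
    rw [MonoidHom.comp_apply, ← map_mul, ← map_mul, hm, htdt]
    exact Subgroup.inv_mem _ (hd _)
  · rw [hu _ _ h, hu _ _ (dJ_cond hσ l h), MonoidHom.comp_apply, ← map_inv, ← map_mul, ← map_mul, dJ_conj]
  · rw [MonoidHom.comp_apply, MonoidHom.comp_apply, ← map_mul, ← map_mul, htdt, map_inv]
  · have hy' := right_ne_zero_of_mul_eq_one hl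
    have hy := (map_ne_zero σ).1 hy'
    rw [hu _ _ h, hu _ _ (U3D.cond_t1 hσ h hy), hu _ _ (U3D.cond_t2 h hy), MonoidHom.comp_apply,
      ← map_mul, ← map_mul, ← map_mul, ← map_mul, ← map_mul]
    refine congrArg f (SJ.ext ?_)
    simp only [SJ.m_mul, hdiag, m_tJ, m_uJ, eq_inv_of_mul_eq_one_left hl, mul_fin_three]
    ext i j
    fin_cases i <;> fin_cases j <;> simp [hσ] <;> field_simp <;> grind
  · refine (hker' _).2 (Subgroup.mem_center_iff.2 fun g => SJ.ext ?_)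
    have h0 := l.ne_zero
    have h1 := (map_ne_zero σ).2 h0
    have h2 : σ l = l * l := by field_simp at hl; rw [← hl, sq]
    have h3 := congrArg σ h2
    rw [hσ, map_mul, h2] at h3
    have h4 : diagonal ![(l : E), σ l / l, (σ l)⁻¹] = (l : E) • (1 : Matrix (Fin 3) (Fin 3) E) := by
      ext i j
      fin_cases i <;> fin_cases j <;> simp [h2]
      field_simp
      grind
    rw [SJ.m_mul, SJ.m_mul, m_dJ, h4, Matrix.mul_smul, Matrix.smul_mul, mul_one, one_mul]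

open Cfsg.Lib.Class Cfsg.Lib.Class.Form in
/-- Binary actions of `PSU₃(2 ^ n)` with stabilisers of even order. -/
theorem isBinary_psu_iff {E : Type*} [Field E] [Fintype E] {n : ℕ} (hn : 2 ≤ n)
    (hE : Fintype.card E = (2 ^ n) ^ 2) {G : Type*} [Group G] [Finite G] [IsSimpleGroup G]
    (e : G ≃* PSU 3 E (2 ^ n)) {H : Subgroup G} (hne : H ≠ ⊤) (he : Even (Nat.card H)) : IsBinary G (G ⧸ H) ↔
      ∃ P : Sylow 2 G, H = (Subgroup.center (P : Subgroup G)).map (P : Subgroup G).subtype := by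
  have : CharP E 2 := charP_of_card_eq_prime_pow (f := n * 2) (by rw [hE, pow_mul])
  obtain ⟨φ⟩ := nonempty_SJ_equiv hE
  obtain ⟨_, _, _, _, _, U⟩ := exists_u3d_of_hom (frobq_frobq hE) ⟨_, frobq_apply hE⟩ (by
      by_contra! h
      obtain ⟨g, hg⟩ := IsCyclic.exists_generator (α := Eˣ)
      have h1 : g ^ (3 * 2 ^ n) = g ^ 3 := Units.ext (by
        have := h g
        rw [frobq_apply, ← pow_mul, mul_comm] at this
        simpa using this)
      rw [pow_eq_pow_iff_modEq, orderOf_eq_card_of_forall_mem_zpowers hg, Nat.card_units,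
        Nat.card_eq_fintype_card, hE] at h1
      have h2 := Bender.four_le_two_pow hn
      have h3 := Nat.le_of_dvd (by omega) ((Nat.modEq_iff_dvd' (by omega)).1 h1.symm)
      have h4 : 4 * 2 ^ n ≤ (2 ^ n) ^ 2 := by rw [sq]; exact Nat.mul_le_mul_right _ h2
      omega)
    (e.symm.toMonoidHom.comp ((QuotientGroup.mk' _).comp φ.toMonoidHom))
    (e.symm.surjective.comp ((QuotientGroup.mk'_surjective _).comp φ.surjective)) fun g =>
      (map_eq_one_iff _ e.symm.injective).trans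
        ((QuotientGroup.eq_one_iff _).trans (mem_center_mulEquiv_iff φ g))
  exact U.isBinary_iff hne he

end Cfsg.Lib.Chev
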