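/-
Binary actions of simple groups with one class of involutions.
-/
import Cfsg.Agent.Chev.BinaryU3
import Cfsg.Agent.Inst.BenderCore
import Cfsg.Agent.Known.PSL2Basic

set_option autoImplicit false

namespace Cfsg.Lib.Chev

open Cfsg.Lib.Known.GL2 Cfsg.Lib.Bender RankOne

theorem invCent_SL2 {F : Type*} [Field F] (h2 : (2 : F) = 0) : InvCent (SL2 F) := fun s x hs1 hs hx => by
  have h1 := neg_one_eq_one_SL.2 h2
  obtain ⟨a, b, h⟩ := (commute_iff (m := (slLin F).ρ s) fun h => hs1 ((mem_Z_SL_iff_of_char_two h2).1 h)) _ |>.1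
    ((slLin F).commute_iff_ρ.1 hx.symm)
  rw [← h1, mul_self_eq_neg_one_iff_SL] at hs ⊢
  rw [h, trace_smul_add, h2, hs, zero_mul, mul_zero, add_zero]

universe u

/-- A binary action with stabilisers of even order of a simple group with one class of involutions. -/
theorem IsBinary.exists_setup {G : Type u} [Group G] [Finite G] [IsSimpleGroup G]
    (hone : ∀ s t : G, orderOf s = 2 → orderOf t = 2 → IsConj s t) {H : Subgroup G} (hH : H ≠ ⊤)
    (he : Even (Nat.card H)) (hb : IsBinary G (G ⧸ H)) : InvClosed (fixFam G (G ⧸ H)) ∧ IsBender G ∧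
      ∃ (M : Subgroup G) (t : G) (Q : Subgroup G), IsRankOneSetup G (G ⧸ M) ((1 : G) : G ⧸ M) t Q ∧ IsPGroup 2 Q := by
  have h1 : ∀ x y : G, x ≠ 1 → x ^ 2 = 1 → y ≠ 1 → y ^ 2 = 1 → IsConj x y := fun x y h1 h2 h3 h4 =>
    hone x y (orderOf_eq_prime h2 h1) (orderOf_eq_prime h4 h3)
  obtain ⟨M, hM⟩ := hb.exists_se h1 (α := ((1 : G) : G ⧸ H)) (by rwa [MulAction.stabilizer_quotient])
    (by rwa [MulAction.stabilizer_quotient])
  exact ⟨hb.invClosed h1, ((core_of_gate G).simple hM).1, M, ((core_of_gate G).simple hM).2⟩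

theorem IsBinary.exists_sylow {G : Type u} [Group G] [Finite G] [IsSimpleGroup G] (hC : InvCent G)
    (hone : ∀ s t : G, orderOf s = 2 → orderOf t = 2 → IsConj s t) {H : Subgroup G} (hH : H ≠ ⊤)
    (he : Even (Nat.card H)) (hb : IsBinary G (G ⧸ H)) : ∃ P : Sylow 2 G, H = P := by
  obtain ⟨hI, -, M, t, Q, hS, hQ⟩ := hb.exists_setup hone hH he
  exact hb.fam.exists_sylow_of_invCent hI hC hS hQ (mem_fixFam_quotient H) hH he

end Cfsg.Lib.Chev
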