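/-
Binary actions of `PSL₂(q)`.
-/
import Cfsg.Agent.Chev.BinaryMain
import Cfsg.Agent.Known.SL2Sylow
import Cfsg.Agent.Known.SL2Prod
import Cfsg.Agent.S0205

set_option autoImplicit false

namespace Cfsg.Lib.Chev

open Cfsg.Lib.Known.GL2 Cfsg.Lib.Local RankOne Matrix

variable {F : Type*} [Field F] {𝓕 : Set (Subgroup (SL2 F))}

/-- `x` is central in a member of the family. -/
def Good {G : Type*} [Group G] (𝓕 : Set (Subgroup G)) (x : G) : Prop :=
  ∃ X ∈ 𝓕, x ∈ X ∧ X ≤ Subgroup.centralizer {x}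

theorem Good.conj {G : Type*} [Group G] {𝓕 : Set (Subgroup G)} (hF : Fam 𝓕) {x y : G} (h : Good 𝓕 x)
    (hc : IsConj x y) : Good 𝓕 y := by
  obtain ⟨k, rfl⟩ := isConj_iff.1 hc
  obtain ⟨X, hX, hx, hle⟩ := h
  refine ⟨_, hF.conj hX k, conj_mem_map_conj hx, ?_⟩
  rintro _ ⟨g, hg, rfl⟩
  have := Subgroup.mem_centralizer_singleton_iff.1 (hle hg)
  refine Subgroup.mem_centralizer_singleton_iff.2 ?_
  change k * g * k⁻¹ * _ = _ * (k * g * k⁻¹)
  calc _ = k * (g * x) * k⁻¹ := by group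
    _ = _ := by rw [this]; group

theorem Good.inv {G : Type*} [Group G] {𝓕 : Set (Subgroup G)} {x : G} (h : Good 𝓕 x) : Good 𝓕 x⁻¹ := by
  obtain ⟨X, hX, hx, hle⟩ := h
  exact ⟨X, hX, X.inv_mem hx, fun g hg => Subgroup.mem_centralizer_singleton_iff.2
    (Commute.inv_right (Subgroup.mem_centralizer_singleton_iff.1 (hle hg)))⟩

theorem trace_eq_one (h2 : (2 : F) = 0) {g : SL2 F} (h1 : g ≠ 1) (h3 : g ^ 3 = 1) : ((slLin F).ρ g).trace = 1 := by
  have h4 : g * g = (slLin F).bar g := by rw [bar_SL, eq_inv_iff_mul_eq_one, ← h3, pow_three']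
  have h5 := congrArg (fun x => ((slLin F).ρ x).trace) h4
  simp only [mul_self_SL, Lin2.ρ_bar, trace_adjugate, trace_sub, trace_smul, trace_one, Fintype.card_fin,
    smul_eq_mul] at h5
  by_contra h
  have h6 : ((slLin F).ρ g).trace = 0 := mul_right_cancel₀ (sub_ne_zero.2 h) (by
    push_cast at h5
    linear_combination h5 + h2)
  rw [← mul_self_eq_neg_one_iff_SL, neg_one_eq_one_SL.2 h2] at h6
  exact h1 (by rwa [pow_three', h6, one_mul] at h3)

theorem eq_of_trace_one (h2 : (2 : F) = 0) (hω : ∀ c : F, c ^ 2 + c + 1 ≠ 0) {x y : SL2 F}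
    (hx : ((slLin F).ρ x).trace = 1) (hy : ((slLin F).ρ y).trace = 1) (h : ((slLin F).ρ (x * y)).trace = 1) :
    x = y := by
  have h3 := det_SL' x
  have h4 := det_SL' y
  rw [map_mul] at h
  simp only [trace_fin_two, mul00, mul11] at hx hy h
  refine (slLin F).inj ?_
  generalize (slLin F).ρ x = m at *
  generalize (slLin F).ρ y = n at *
  have h5 : n 1 0 = m 1 0 := by
    by_contra h5
    have h6 := sub_ne_zero.2 h5
    refine hω (m 1 0 ^ 2 * (n 0 1 - m 0 1) / (n 1 0 - m 1 0) + m 0 0 ^ 2) ?_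
    field_simp
    grind
  have h6 : m 1 0 ≠ 0 := fun e => hω (m 0 0) (by grind)
  have h7 : n 0 1 = m 0 1 := mul_left_cancel₀ h6 (by
    refine sub_eq_zero.1 (pow_eq_zero_iff two_ne_zero |>.1 ?_)
    grind)
  exact m2_ext (by grind) h7.symm h5.symm (by grind)

section Good

variable (hF : Fam 𝓕) (hZ : ∀ X ∈ 𝓕, (slLin F).Z ≤ X)
include hZ

theorem Good.Z_mul {x z : SL2 F} (h : Good 𝓕 x) (hz : z ∈ (slLin F).Z) : Good 𝓕 (z * x) := by
  obtain ⟨X, hX, hx, hle⟩ := h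
  refine ⟨X, hX, X.mul_mem (hZ X hX hz) hx, fun g hg => Subgroup.mem_centralizer_singleton_iff.2 ?_⟩
  rw [← mul_assoc, ← (slLin F).Z_comm hz, mul_assoc, Subgroup.mem_centralizer_singleton_iff.1 (hle hg), mul_assoc]

include hF

theorem Good.comm {x y : SL2 F} (hx : Good 𝓕 x) (hy : Good 𝓕 y) (h : Good 𝓕 (x * y)) : x * y = y * x := by
  obtain ⟨X, hX, hx, h1⟩ := hx
  obtain ⟨W, hW, hy, h2⟩ := hy
  obtain ⟨Y, hY, h, h3⟩ := h
  by_contra hc
  refine hc (Subgroup.mem_centralizer_singleton_iff.1 (h2 (hF.mem hX hY hW hx h (by simpa using hy)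
    fun g hg hg' => hZ W hW (by_contra fun hgZ => hc ?_))))
  have := (slLin F).centralizer_comm hgZ
    (Subgroup.mem_centralizer_singleton_iff.2 (Subgroup.mem_centralizer_singleton_iff.1 (h1 hg)).symm)
    (Subgroup.mem_centralizer_singleton_iff.2 (Subgroup.mem_centralizer_singleton_iff.1 (h3 hg')).symm)
  rw [mul_assoc x y x] at this
  exact mul_left_cancel this

theorem Good.pow_three [Finite F] {h z : SL2 F} (hh : Good 𝓕 h) (hd : disc ((slLin F).ρ h) ≠ 0)
    (hz : z ∈ (slLin F).Z) : h ^ 3 = z := by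
  have hT := (slLin F).isTorus_centralizer hd
  have hhZ : h ∉ (slLin F).Z := not_isScal_of_disc hd
  have hS : h ∈ Subgroup.centralizer {h} := Subgroup.mem_centralizer_singleton_iff.2 rfl
  have hzh : z * h ∉ (slLin F).Z := fun e => hhZ ((Subgroup.mul_mem_cancel_left _ hz).1 e)
  have hzS : z * h ∈ Subgroup.centralizer {h} := Subgroup.mul_mem _ (hT.Z_le hz) hS
  obtain ⟨x, y, hx, hy, e⟩ := exists_mul_of_disc (hT.disc_ne _ hzS hzh) ((slLin F).ρ h).trace ((slLin F).ρ h).trace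
  have hx' := (slLin F).isConj_of_trace_det hd hx.symm (by rw [det_SL, det_SL])
  have hy' := (slLin F).isConj_of_trace_det hd hy.symm (by rw [det_SL, det_SL])
  have h1 := (hh.conj hF hx').comm hF hZ (hh.conj hF hy') (e ▸ hh.Z_mul hZ hz)
  have h2 : x ∈ Subgroup.centralizer {h} := by
    rw [← hT.cent _ hzS hzh, Subgroup.mem_centralizer_singleton_iff, e, mul_assoc, ← h1]
  have h3 : y ∈ Subgroup.centralizer {h} := (Subgroup.mul_mem_cancel_left _ h2).1 (e ▸ hzS)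
  have h4 := mul_self_of_mem_Z_SL hz
  rcases hT.eq_or_eq_bar hS hhZ h2 hx' with h5 | h5 <;> rcases hT.eq_or_eq_bar hS hhZ h3 hy' with h6 | h6 <;>
    rw [h5, h6] at e
  · exact absurd (mul_right_cancel e ▸ hz) hhZ
  · exact absurd (by rw [e, bar_SL, mul_inv_cancel]; exact Subgroup.one_mem _) hzh
  · exact absurd (by rw [e, bar_SL, inv_mul_cancel]; exact Subgroup.one_mem _) hzh
  · rw [bar_SL] at e
    calc h ^ 3 = z * (z * h) * h * h := by rw [← mul_assoc z, h4, one_mul, pow_three']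
      _ = z := by rw [e]; group

theorem Good.false_of_disc [Finite F] (h2 : (2 : F) ≠ 0) {h : SL2 F} (hh : Good 𝓕 h)
    (hd : disc ((slLin F).ρ h) ≠ 0) : False :=
  h2 (neg_one_eq_one_SL.1 ((hh.pow_three hF hZ hd neg_one_mem_Z_SL).symm.trans
    (hh.pow_three hF hZ hd (Subgroup.one_mem _))))

theorem Good.false_of_u (h2 : (2 : F) ≠ 0) {b : F} (hb : b ≠ 0) (hh : Good 𝓕 ((slLin F).u b)) : False := by
  have h4 : (4 : F) ≠ 0 := by simpa only [show (2 : F) * 2 = 4 by norm_num] using mul_ne_zero h2 h2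
  let y := (slLin F).mk1 !![1, 0; -(4 / b), 1] (by simp [det_fin_two])
  have h1 := hh.comm hF hZ (y := y) (hh.conj hF ((slLin F).isConj_of_det_one (x := !![0, -(b / 2); 2 / b, 0])
    (by simp [det_fin_two, hb, h2]) (by
      ext i j
      fin_cases i <;> fin_cases j <;> simp [y]
      field_simp
      norm_num))) (by
      have := (hh.inv.conj hF (y := -((slLin F).u b * y)) ((slLin F).isConj_of_det_one (x := !![1, 0; 2 / b, 1])
        (by simp [det_fin_two]) (by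
          rw [← Lin2.u_neg, ρ_neg_SL, map_mul]
          ext i j
          fin_cases i <;> fin_cases j <;> simp [y] <;> field_simp <;> norm_num))).Z_mul hZ neg_one_mem_Z_SL
      simpa using this)
  have h3 := congrArg (fun g => (slLin F).ρ g 0 0) h1
  simp [y, hb, h4] at h3

theorem Good.ne_zero [Finite F] (h2 : (2 : F) = 0) {h : SL2 F} (hh : Good 𝓕 h) (ht : ((slLin F).ρ h).trace = 1)
    (c : F) : c ^ 2 + c + 1 ≠ 0 := fun hc => by
  have h0 : c ≠ 0 := by rintro rfl; simp at hc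
  have h1 : ∀ g, ((slLin F).ρ g).trace = 1 → Good 𝓕 g := fun g hg => hh.conj hF
    (isConj_of_trace_SL (by rw [ht]; intro e; exact one_ne_zero (by linear_combination e + 2 * h2 : (1 : F) = 0))
      (ht.trans hg.symm))
  have h3 := (h1 (dSL (Units.mk0 c h0)) (by simp [ρ_dSL]; field_simp; grind)).comm hF hZ
    (h1 (dSL (Units.mk0 c h0) * (slLin F).u 1) (by simp [ρ_dSL]; field_simp; grind))
    (h1 _ (by simp [ρ_dSL]; field_simp; grind))
  have h4 := congrArg (fun g => (slLin F).ρ g 0 1) h3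
  simp [ρ_dSL, h0] at h4
  grind

theorem exists_good [Finite F] {X : Subgroup (SL2 F)} (hX : X ∈ 𝓕)
    (ht : ∀ k ∈ X, ((slLin F).ρ k).trace = 0 → k ∈ (slLin F).Z) {h : SL2 F} (hh : h ∈ X) (hhZ : h ∉ (slLin F).Z)
    (hc : ∀ k ∈ X, k * h * k⁻¹ ∈ Subgroup.centralizer {h}) :
    (2 : F) = 0 ∧ disc ((slLin F).ρ h) ≠ 0 ∧ X ≤ Subgroup.centralizer {h} := by
  have hS : h ∈ Subgroup.centralizer {h} := Subgroup.mem_centralizer_singleton_iff.2 rfl
  by_cases hd : disc ((slLin F).ρ h) = 0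
  · exfalso
    have h2 : (2 : F) ≠ 0 := fun h2 => hhZ (ht h hh (pow_eq_zero_iff two_ne_zero |>.1 (by
      rw [disc_SL] at hd
      linear_combination hd + 2 * h2)))
    obtain ⟨z, hz, b, hb, h1⟩ := exists_isConj_Z_mul_u (slLin F) hhZ hd
    obtain ⟨j, rfl⟩ := isConj_iff.1 h1
    have hP := (slLin F).Z_mul_u_mem_P hz b
    have hP' := ((slLin F).Z_mul_u_mem_Z_iff hz b).not.2 hb
    have hY := hF.conj hX j⁻¹
    have hB : cj X j⁻¹ ≤ (slLin F).B := fun k hk => by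
      rw [← Subgroup.inv_mem_iff, ← (slLin F).conj_mem_B_iff_of_mem_P hP hP', inv_inv]
      refine (slLin F).P_le_B ((slLin F).centralizer_of_mem_P hP hP' ▸ Subgroup.mem_centralizer_singleton_iff.2 ?_)
      have := Subgroup.mem_centralizer_singleton_iff.1 (hc _ (mem_cj.1 hk))
      generalize z * (slLin F).u b = g at this
      calc _ = j⁻¹ * (j⁻¹⁻¹ * k * j⁻¹ * (j * g * j⁻¹) * (j⁻¹⁻¹ * k * j⁻¹)⁻¹ * (j * g * j⁻¹)) * j := by group
        _ = _ := by rw [this]; group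
    have hu : z * (slLin F).u b ∈ cj X j⁻¹ := mem_cj.2 (by rwa [inv_inv])
    generalize cj X j⁻¹ = Y at hY hB hu
    by_cases h3 : Y ≤ (slLin F).P
    · refine Good.false_of_u hF hZ h2 hb ?_
      have := Good.Z_mul hZ ⟨Y, hY, hu, (slLin F).centralizer_of_mem_P hP hP' ▸ h3⟩ hz
      rwa [← mul_assoc, mul_self_of_mem_Z_SL hz, one_mul] at this
    obtain ⟨k, hk, hkP⟩ := SetLike.not_le_iff_exists.1 h3
    have h4 : (slLin F).ρ k 0 0 ≠ (slLin F).ρ k 1 1 := fun e => hkP ⟨hB hk, e⟩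
    obtain ⟨c, hc1, hc2, -, -, hc3⟩ := exists_conj_diag (hB hk) h4
    obtain ⟨c, rfl⟩ := (slLin F).exists_of_det_one hc1
    have h5 : (slLin F).ρ (c⁻¹ * k * c) = !![(slLin F).ρ k 0 0, 0; 0, (slLin F).ρ k 1 1] := by
      rw [mul_assoc, map_mul, map_mul, ← hc3, ← mul_assoc, ← map_mul, inv_mul_cancel, map_one, one_mul]
    have h6 : c⁻¹ * k * c ∈ (slLin F).T := by simp [Lin2.mem_T, h5, -map_mul]
    have h7 : c⁻¹ * k * c ∉ (slLin F).Z := fun e => h4 (by simpa [h5, -map_mul] using e.2.2)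
    have h8 : c⁻¹ * k * c ∈ cj Y c⁻¹ := by simpa using conj_mem_map_conj (g := c⁻¹) hk
    have hB' : cj Y c⁻¹ ≤ (slLin F).B := fun g hg => by
      have := hB (mem_cj.1 hg)
      rwa [Subgroup.mul_mem_cancel_right _ (Subgroup.inv_mem _ hc2), inv_inv,
        Subgroup.mul_mem_cancel_left _ hc2] at this
    refine Good.false_of_disc hF hZ h2 ⟨_, hF.inf (hF.conj hY c⁻¹) (hF.conj (hF.conj hY c⁻¹) (slLin F).w),
      ⟨h8, mem_cj.2 ?_⟩, fun g hg => ?_⟩ ((slLin F).disc_ne_zero_of_mem_T h6 h7)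
    · rw [(slLin F).w_conj_of_mem_T h6, bar_SL]
      exact Subgroup.inv_mem _ h8
    · rw [(slLin F).centralizer_of_mem_T h6 h7]
      refine ⟨?_, hB' hg.1⟩
      have := hB' (mem_cj.1 hg.2)
      simpa [Lin2.mem_B, Lin2.ρ_w_inv, mul10, mul11, vecMul, dotProduct, -map_inv] using this
  · have hT := (slLin F).isTorus_centralizer hd
    have h1 : X ≤ Subgroup.centralizer {h} := fun k hk => by_contra fun e => e (hT.Z_le (ht k hk
      (hT.trace_eq_zero_of_mem_normalizer ⟨h, hS, hhZ⟩ (hT.mem_normalizer_of_conj_mem hS hhZ (hc k hk)) e)))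
    exact ⟨by_contra fun h2 => Good.false_of_disc hF hZ h2 ⟨X, hX, hh, h1⟩ hd, hd, h1⟩

end Good

theorem eq_zpowers_of_card {G : Type*} [Group G] {K : Subgroup G} (hK : Nat.card K = 3) {y : G} (hy : y ∈ K)
    (hy1 : y ≠ 1) : K = Subgroup.zpowers y := by
  have : Finite K := Nat.finite_of_card_ne_zero (by omega)
  refine (Subgroup.eq_of_le_of_card_ge (Subgroup.zpowers_le_of_mem hy) ?_).symm
  rw [Nat.card_zpowers, hK, (Nat.dvd_prime Nat.prime_three).1 (hK ▸ K.orderOf_dvd_natCard hy) |>.resolve_left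
    (mt orderOf_eq_one_iff.1 hy1)]

variable [Fintype F]

theorem no_root_iff {a : ℕ} (hF : Fintype.card F = 2 ^ a) : (∀ c : F, c ^ 2 + c + 1 ≠ 0) ↔ Odd a := by
  have ha : a ≠ 0 := by
    rintro rfl
    exact Fintype.one_lt_card.ne' hF
  have h2 : (2 : F) = 0 := two_eq_zero_of_even_card (hF ▸ Nat.even_pow.2 ⟨even_two, ha⟩)
  have h4 : ∀ n, 3 ∣ 2 ^ (2 * n) - 1 := fun n => by simpa [pow_mul] using Nat.sub_dvd_pow_sub_pow 4 1 n
  constructor
  · intro h
    by_contra h1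
    obtain ⟨n, rfl⟩ := even_iff_two_dvd.1 (Nat.not_odd_iff_even.1 h1)
    obtain ⟨c, hc⟩ := exists_prime_orderOf_dvd_card' (G := Fˣ) 3
      (by rw [Nat.card_units, Nat.card_eq_fintype_card, hF]; exact h4 n)
    obtain ⟨h5, h6⟩ := (orderOf_eq_prime_iff (p := 3)).1 hc
    have h7 : (c : F) ^ 3 = 1 := congrArg Units.val h5
    exact h c (mul_left_cancel₀ (sub_ne_zero.2 fun e => h6 (Units.ext e) : (c : F) - 1 ≠ 0)
      (by linear_combination h7))
  · rintro ⟨n, rfl⟩ c hc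
    have h5 := FiniteField.pow_card c
    obtain ⟨k, hk⟩ := h4 n
    have h6 : c ^ 3 = 1 := by linear_combination (c - 1) * hc
    rw [hF, pow_succ, pow_mul, show 2 ^ (2 * n) = 3 * k + 1 by have := Nat.one_le_two_pow (n := 2 * n); omega,
      pow_succ c, pow_mul, h6, one_pow, one_mul] at h5
    exact one_ne_zero (by linear_combination hc - h5 - c * h2 : (1 : F) = 0)

theorem isBinary_of_card_three (h2 : (2 : F) = 0) (hω : ∀ c : F, c ^ 2 + c + 1 ≠ 0) {H : Subgroup (PSL2 F)}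
    (hH : Nat.card H = 3) : IsBinary (PSL2 F) (PSL2 F ⧸ H) := by
  have key : ∀ a, ∀ g, piSL F g ∈ cj H a → piSL F g ≠ 1 → ((slLin F).ρ g).trace = 1 := fun a g hg h1 =>
    trace_eq_one h2 (by rintro rfl; simp at h1) (piSL_injective h2 (by
      rw [map_pow, map_one, ← hH, ← card_map_conj H a]
      exact orderOf_dvd_iff_pow_eq_one.1 (Subgroup.orderOf_dvd_natCard _ hg)))
  refine isBinary_quotient_of_no_triangle fun a b c x y hx hy hxy hx1 hy1 => ?_
  refine (eq_zpowers_of_card ((card_map_conj H a).trans hH) ?_ hy1).trans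
    (eq_zpowers_of_card ((card_map_conj H b).trans hH) hy hy1).symm
  by_cases h : x * y = 1
  · rw [eq_inv_of_mul_eq_one_right h]
    exact Subgroup.inv_mem _ hx
  obtain ⟨x, rfl⟩ := piSL_surjective x
  obtain ⟨y, rfl⟩ := piSL_surjective y
  rwa [← eq_of_trace_one h2 hω (key a x hx hx1) (key b y hy hy1) (key c _ hxy h)]

theorem IsBinary.card_eq_three {H : Subgroup (PSL2 F)} (hb : IsBinary (PSL2 F) (PSL2 F ⧸ H)) (hne : H ≠ ⊥)
    (ho : Odd (Nat.card H)) : (2 : F) = 0 ∧ (∀ c : F, c ^ 2 + c + 1 ≠ 0) ∧ Nat.card H = 3 := by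
  have := finite_PSL2 (F := F)
  have hF := hb.fam.comap _ piSL_surjective
  have hZ : ∀ X ∈ {X' | ∃ X ∈ fixFam (PSL2 F) (PSL2 F ⧸ H), X' = X.comap (piSL F)}, (slLin F).Z ≤ X := by
    rintro _ ⟨X, -, rfl⟩
    rw [← ker_piSL]
    exact Subgroup.ker_le_comap _ _
  have ht : ∀ k ∈ H.comap (piSL F), ((slLin F).ρ k).trace = 0 → k ∈ (slLin F).Z := fun k hk h =>
    piSL_eq_one_iff.1 (eq_one_of_sq_of_odd (odd_orderOf_of_mem ho hk) (piSL_mul_self_eq_one_iff.2 (Or.inr h)))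
  obtain ⟨x, hx, hx1, hc⟩ := exists_commute_conj_of_isSolvable (Agent.S0205.result ho) hne
  obtain ⟨h, rfl⟩ := piSL_surjective x
  have hhZ := piSL_eq_one_iff.not.1 hx1
  have hX : H.comap (piSL F) ∈ {X' | ∃ X ∈ fixFam (PSL2 F) (PSL2 F ⧸ H), X' = X.comap (piSL F)} :=
    ⟨H, mem_fixFam_quotient H, rfl⟩
  obtain ⟨h2, hd, hle⟩ := exists_good hF hZ hX ht hx hhZ fun k hk => by
    rw [← comap_centralizer_piSL_of_trace (Or.inr fun e => hhZ (ht h hx e)), Subgroup.mem_comap,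
      Subgroup.mem_centralizer_singleton_iff, map_mul, map_mul, map_inv]
    exact hc _ hk
  have hT := (slLin F).isTorus_centralizer hd
  have h3 : ∀ k ∈ H.comap (piSL F), k ∉ (slLin F).Z → k ^ 3 = 1 := fun k hk hkZ =>
    Good.pow_three hF hZ ⟨_, hX, hk, hT.cent k (hle hk) hkZ ▸ hle⟩ (hT.disc_ne k (hle hk) hkZ) (Subgroup.one_mem _)
  have h4 : ∀ k ∈ H.comap (piSL F), k ∉ (slLin F).Z → ((slLin F).ρ k).trace = 1 := fun k hk hkZ =>
    trace_eq_one h2 (by rintro rfl; exact hkZ (Subgroup.one_mem _)) (h3 k hk hkZ)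
  refine ⟨h2, Good.ne_zero hF hZ h2 ⟨_, hX, hx, hle⟩ (h4 h hx hhZ), ?_⟩
  have h5 : H = Subgroup.zpowers (piSL F h) := by
    refine le_antisymm (fun k hk => ?_) (Subgroup.zpowers_le_of_mem hx)
    obtain ⟨k, rfl⟩ := piSL_surjective k
    by_cases hkZ : k ∈ (slLin F).Z
    · rw [piSL_eq_one_iff.2 hkZ]
      exact Subgroup.one_mem _
    rcases hT.eq_or_eq_bar (hle hx) hhZ (hle hk) ((slLin F).isConj_of_trace_det hd
      ((h4 h hx hhZ).trans (h4 k hk hkZ).symm) (by rw [det_SL, det_SL])) with rfl | rfl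
    · exact Subgroup.mem_zpowers _
    · rw [bar_SL, map_inv]
      exact Subgroup.inv_mem _ (Subgroup.mem_zpowers _)
  rw [h5, Nat.card_zpowers]
  exact orderOf_eq_prime (by rw [← map_pow, h3 h hx hhZ, map_one]) hx1

theorem two_eq_zero_of_setup (h4 : 4 ≤ Fintype.card F) (h5 : Fintype.card F ≠ 5) {Ω : Type*}
    [MulAction (PSL2 F) Ω] {a : Ω} {t : PSL2 F} {Q : Subgroup (PSL2 F)} (hS : IsRankOneSetup (PSL2 F) Ω a t Q)
    (hQ : IsPGroup 2 Q) : (2 : F) = 0 := by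
  by_contra h2
  have := finite_PSL2 (F := F)
  have hi := trace_w_SL (F := F)
  generalize (slLin F).w = i at hi
  have hT := isTorus_of_trace h2 hi
  have hex := exists_not_mem_Z_of_trace h2 hi
  have hsq : ∀ g, ((slLin F).ρ g).trace = 0 → piSL F g * piSL F g = 1 := fun g h =>
    piSL_mul_self_eq_one_iff.2 (Or.inr h)
  have hne : ∀ g, ((slLin F).ρ g).trace = 0 → piSL F g ≠ 1 := fun g h =>
    piSL_eq_one_iff.not.2 (not_mem_Z_of_trace_SL h2 h)
  obtain ⟨p, hp⟩ := exists_fix hS (hsq i hi)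
  have hfix : ∀ y ∈ Subgroup.normalizer (Subgroup.centralizer ({i} : Set (SL2 F)) : Set (SL2 F)),
      piSL F y • p = p := fun y hy => fix_unique hS (hne i hi) (hsq i hi) (by
    rw [← comap_centralizer_piSL_of_trace_zero h2 hi] at hy
    rw [← mul_smul, ← Subgroup.mem_centralizer_singleton_iff.1 hy, mul_smul, hp]) hp
  obtain ⟨y, hy, hy'⟩ := hT.exists_mem_normalizer hex
  have key : ∀ c ∈ Subgroup.centralizer ({i} : Set (SL2 F)), c ^ 4 = 1 := fun c hc => by
    have h1 := Subgroup.mul_mem _ (Subgroup.le_normalizer hc) hy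
    have h3 := hT.trace_eq_zero_of_mem_normalizer hex hy hy'
    have h6 := comm_of_fix hS hQ.isNilpotent (hne y h3) (hsq y h3) (hsq _ (hT.trace_eq_zero_of_mem_normalizer hex h1
      fun e => hy' ((Subgroup.mul_mem_cancel_left _ hc).1 e))) (hfix y hy) (hfix _ h1)
    have h7 : piSL F (y⁻¹ * c * y) = piSL F c := by
      rw [map_mul, ← mul_assoc, mul_left_inj] at h6
      rw [map_mul, map_mul, map_inv, mul_assoc, ← h6, inv_mul_cancel_left]
    rw [IsTorus_conj_eq_inv hT hex hy hy' hc, map_inv, inv_eq_iff_mul_eq_one, ← map_mul, piSL_eq_one_iff] at h7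
    rw [← mul_self_of_mem_Z_SL h7, ← sq, ← sq, ← pow_mul]
  have := isCyclic_centralizer_of_trace h2 hi
  have h6 : Nat.card (Subgroup.centralizer ({i} : Set (SL2 F))) ≤ 4 := Nat.le_of_dvd four_pos (by
    rw [← IsCyclic.exponent_eq_card]
    exact Monoid.exponent_dvd_of_forall_pow_eq_one fun c => Subtype.ext (key c c.2))
  rcases card_centralizer_of_trace h2 hi with h | h <;> omega

end Cfsg.Lib.Chev
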