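import Cfsg.Agent.Chev.E8SCls

/-! Invariant coweights of `E₈` modulo `31`. -/

set_option autoImplicit false
set_option maxRecDepth 100000

namespace Cfsg.Lib.Chev.E8S

variable {μ : Fin 8 → ℤ}

theorem thirtyone_cases (h : Fr 31 3 μ) : nz 31 μ = 0 ∨ nz 31 μ = 240 := by
  obtain ⟨w, m, h1, h2, h4⟩ := cls (P := fun _ V => [0, 120].contains (sumT 31 1 V))
    (by omega) (by omega) (by decide +kernel) h
  rw [nz_of_cg h1 (fun i => (h2 i).trans (by omega)) dvd_rfl (by omega)]
  simp only [List.contains_iff_mem, List.mem_cons, List.not_mem_nil, or_false] at h4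
  omega

end Cfsg.Lib.Chev.E8S
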