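import Cfsg.Agent.Chev.E8SFix

/-! Subgroups `L₂(q)` of `E₈(3)`: generalities. -/

set_option autoImplicit false

namespace Cfsg.Lib.Chev.E8S

open Cfsg.Lie Matrix Module L2F Cfsg.Lib.Known.GL2

variable {F : Type*} [Field F]

theorem exists_hom {G : Type*} [Group G] (H : Subgroup G)
    (e : H ≃* ProjectiveSpecialLinearGroup (Fin 2) F) :
    ∃ f : SL2 F →* G, ∀ g, f g = 1 ↔ g = 1 ∨ g = -1 :=
  ⟨H.subtype.comp (e.symm.toMonoidHom.comp (QuotientGroup.mk' _)), fun g => by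
    rw [← mem_center_SL, ← QuotientGroup.eq_one_iff]
    exact OneMemClass.coe_eq_one.trans (map_eq_one_iff _ e.symm.injective)⟩

/-- The diagonal embedding. -/
noncomputable def dH : Fˣ →* SL2 F := (slLin F).T.subtype.comp equivT_SL.toMonoidHom

theorem dH_eq_1' : type_of% @dH.eq_1 := @dH.eq_1

theorem dH_apply (a : Fˣ) : dH a = dSL a := rfl

theorem dSL_pow (a : Fˣ) (n : ℕ) : dSL a ^ n = dSL (a ^ n) := (map_pow dH a n).symm

theorem orderOf_dSL (a : Fˣ) : orderOf (dSL a) = orderOf a :=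
  orderOf_injective dH (Subtype.val_injective.comp equivT_SL.injective) a

theorem zpowers_eq_of_orderOf [Finite F] {a b : Fˣ} (h : orderOf a = orderOf b) :
    Subgroup.zpowers a = Subgroup.zpowers b := by
  have key : ∀ {a b : Fˣ}, orderOf a = orderOf b → Subgroup.zpowers a ≤ Subgroup.zpowers b :=
    fun {a b} h => by
      have : NeZero (orderOf b) := ⟨(orderOf_pos b).ne'⟩
      obtain ⟨i, -, hi⟩ := (IsPrimitiveRoot.orderOf b).eq_pow_of_mem_rootsOfUnity
        ((mem_rootsOfUnity _ a).2 (h ▸ pow_orderOf_eq_one a))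
      exact Subgroup.zpowers_le_of_mem (hi ▸ Subgroup.npow_mem_zpowers b i)
  exact le_antisymm (key h) (key h.symm)

variable {k V : Type*} [Field k] [AddCommGroup V] [Module k V] (ρ : Representation k (SL2 F) V)

theorem fx_dSL [Finite F] {a b : Fˣ} (h : orderOf a = orderOf b) : fx ρ (dSL a) = fx ρ (dSL b) :=
  fx_of_zpowers ρ (by
    rw [← dH_apply, ← dH_apply, ← MonoidHom.map_zpowers, zpowers_eq_of_orderOf h,
      MonoidHom.map_zpowers])

theorem fx_split [Fintype F] (p : ℕ) [CharP F p] {g : SL2 F} {a : Fˣ} (h : orderOf g = orderOf a)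
    (h1 : ¬ p ∣ orderOf g) (h2 : ¬ orderOf g ∣ 2) (h3 : ¬ orderOf g ∣ Fintype.card F + 1) :
    fx ρ g = fx ρ (dSL a) := by
  rcases (slLin F).isConj_T_or_isEll ((slLin F).disc_ne_zero_of_not_dvd p h1 fun hz =>
    h2 (orderOf_dvd_of_pow_eq_one ((pow_two g).trans (mul_self_of_mem_Z_SL hz)))) with
    ⟨t, ht, -, hc⟩ | hc
  · obtain ⟨b, hb⟩ := equivT_SL.surjective ⟨t, ht⟩
    obtain rfl : dSL b = t := congrArg Subtype.val hb
    rw [← fx_isConj ρ hc]
    exact fx_dSL ρ (by rw [← orderOf_dSL, orderOf_eq_of_isConj hc, h])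
  · exact (h3 (orderOf_dvd_of_pow_eq_one (pow_card_add_one_of_isEll_SL hc))).elim

theorem fx_dihedral [Finite F] [FiniteDimensional k V] (h2 : (2 : F) ≠ 0) {z : SL2 F}
    (hz : z * z = -1) (a : Fˣ) : 2 * fx ρ z ≤ finrank k V + fx ρ (dSL a) := by
  have h0 := mul_self_eq_neg_one_iff_SL.1 hz
  have h1 : ∀ g : SL2 F, ((slLin F).ρ g).trace = 0 → fx ρ z = fx ρ g := fun g hg =>
    fx_isConj ρ (isConj_of_trace_SL (by
      rw [h0, show (4 : F) = 2 * 2 by norm_num, zero_pow two_ne_zero]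
      exact (mul_ne_zero h2 h2).symm) (h0.trans hg.symm))
  let u : SL2 F := ⟨!![0, (a : F); -(a : F)⁻¹, 0], by simp [det_fin_two]⟩
  let v : SL2 F := ⟨!![0, -1; 1, 0], by simp [det_fin_two]⟩
  have h3 : u * v = dSL a := Subtype.ext (by
    change !![_, _; _, _] * !![_, _; _, _] = !![_, _; _, _]; simp)
  rw [two_mul, ← h3]
  nth_rewrite 1 [h1 u (by change Matrix.trace !![_, _; _, _] = 0; simp)]
  rw [h1 v (by change Matrix.trace !![_, _; _, _] = 0; simp)]
  exact fx_mul ρ u v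

variable {G : Type*} [Group G] {f : SL2 F →* G} (hf : ∀ g, f g = 1 ↔ g = 1 ∨ g = -1)
include hf

theorem pow_eq_one_of (h2 : (2 : F) ≠ 0) {g : SL2 F} {n : ℕ} (h : orderOf g = n * 2) :
    f g ^ n = 1 := by
  rw [← map_pow, hf, ← mem_Z_SL, ← mul_self_eq_one_iff_SL h2, ← pow_two, ← pow_mul, ← h,
    pow_orderOf_eq_one]

theorem dvd_of_pow_eq_one {g : SL2 F} {n : ℕ} (h : f g ^ n = 1) : orderOf g ∣ n * 2 := by
  rw [← map_pow, hf, ← mem_Z_SL] at h
  exact orderOf_dvd_of_pow_eq_one (by rw [pow_mul, pow_two, mul_self_of_mem_Z_SL h])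


end Cfsg.Lib.Chev.E8S
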