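import Cfsg.Agent.Chev.E8SGen
import Cfsg.Agent.Chev.E8SL2
import Cfsg.Agent.Chev.E8S31

/-! `E₈(3)` has no subgroups `L₂(41)`, `L₂(32)`. -/

set_option autoImplicit false
set_option maxRecDepth 100000

namespace Cfsg.Lib.Chev.E8S

open Cfsg.Lie Cfsg.Lie.ChevalleyDatum Matrix Finset Module L2F Cfsg.Lib.Known.GL2 Cfsg.Lib.Chev.Core

theorem fx_one : fx ad8 1 = 248 := by
  rw [fx, map_one, sub_self, LinearMap.ker_zero, finrank_top, finrank_ad]

theorem fx_two {g : G8} (h : g * g = 1) : fx ad8 g = 120 ∨ fx ad8 g = 136 ∨ fx ad8 g = 248 := by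
  obtain ⟨μ, -, h1, -⟩ := exists_cw g (n := 2) (by norm_num) ((pow_two g).trans h)
  have := h1 1 2 rfl
  have := two_cases μ
  rw [pow_one] at *
  omega

theorem fx_eight {g : G8} (h : g ^ 8 = 1) : ∃ x ∈ L8, fx ad8 (g ^ 4) = 8 + 2 * x.1 ∧
    fx ad8 (g ^ 2) = 8 + 2 * x.2.1 ∧ fx ad8 g = 8 + 2 * x.2.2 := by
  obtain ⟨μ, h0, h1, -⟩ := exists_cw g (n := 8) (by norm_num) h
  obtain ⟨x, hx, a1, a2, a3⟩ := eight_cases h0
  exact ⟨x, hx, a1 ▸ h1 4 2 rfl, a2 ▸ h1 2 4 rfl, a3 ▸ (pow_one g ▸ h1 1 8 rfl :)⟩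

theorem fx_eleven {g : G8} (h : g ^ 11 = 1) : 28 ≤ fx ad8 g := by
  obtain ⟨μ, h0, h1, -⟩ := exists_cw g (n := 11) (by norm_num) h
  have h2 := h1 1 11 rfl
  rw [pow_one] at h2
  rcases eleven_cases h0 with h3 | ⟨w, h3⟩
  · omega
  · rw [h2, nz_of_cg h3 (by decide) dvd_rfl (by omega)]
    decide +kernel

theorem fx_thirtyone {g : G8} (h : g ^ 31 = 1) (h1 : g ≠ 1) : fx ad8 g = 8 := by
  obtain ⟨μ, h0, h2, -⟩ := exists_cw g (n := 31) (by norm_num) h
  have h3 := h2 1 31 rfl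
  have := mt eq_one_of_fx h1
  have := thirtyone_cases h0
  rw [pow_one] at h3
  omega

theorem eq_one_of_mem_ker {a : Fin 8 → K3ˣ} (ha : a ∈ (cartanHom chevE8 K3ˣ).ker) : a = 1 := by
  have hC : ∀ i, w8.C i = evL (cartanE8.getD i []) := fun i => by rw [w8_hasC i, evL_ofFn]
  have h1 : ∀ i j, w8.C i j = w8.C j i := by simp only [hC]; decide
  have h2 : ∀ v ∈ w8.coL, chr a v = 1 := fun v hv => by
    induction hv using Submodule.span_induction with
    | mem v hv =>
      obtain ⟨j, rfl⟩ := hv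
      rw [funext (h1 j)]
      exact congrFun ha j
    | zero => exact chr_zero _
    | add u v _ _ hu hv => rw [chr_add, hu, hv, one_mul]
    | smul c v _ hv => rw [chr_smul, hv, _root_.one_zpow]
  exact funext fun i => (chr_single a i).symm.trans (h2 _ (coL_top _))

theorem fx_three {g u : G8} (hg : g ^ 11 = 1) (hg1 : g ≠ 1) (hu : u ^ 3 = 1) (h : g * u = u * g) :
    101 ≤ fx ad8 u := by
  obtain ⟨z, μ, y, hy, hz, e⟩ := exists_tz g (n := 11) (by norm_num) hg
  obtain ⟨w, hw⟩ := (eleven_cases (fr_three hy hz e)).resolve_left fun h0 => hg1 (eq_one_of_fx (by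
    rw [← pow_one g, fx_pow (a := 1) (d := 11) (by omega) hz e, h0]))
  obtain ⟨x, hx⟩ := exists_order (n := 40) (by norm_num)
  have h1 := Core.certE8.mem_cent0_of_commute rootE8 (Core.certE8.hSub_eq_range (k := K3) rootE8 hs8)
    (m := 1) (n := 11) (by omega) (by norm_num) (fun a ha => (pow_one a).trans (eq_one_of_mem_ker ha)) (c := fun i => z ^ μ i) (funext fun i => by
      rw [Pi.pow_apply, ← zpow_natCast, zpow_comm, zpow_natCast, ← hz, pow_orderOf_eq_one,
        _root_.one_zpow]; rfl) (g := y⁻¹ * e8 u * y)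
    ((Core.certE8.Yhat_G0_eq rootE8 hs8).ge (mul_mem (mul_mem (inv_mem hy) (e8_mem u)) hy)) (by
      change tz z μ * _ = _ * tz z μ
      rw [← e]
      calc _ = y⁻¹ * e8 (g * u) * y := by rw [map_mul]; group
        _ = _ := by rw [h, map_mul]; group)
  have h2 : ∀ r < 240, (11 : ℤ) ∣ cw ![1, 1, 0, 0, 0, 0, 1, 1] ⬝ᵥ w8.rc r →
      cw ![7, 3, 0, 0, 0, 0, 18, 8] ⬝ᵥ w8.rc r = 0 := by decide +kernel
  let ν := w8.co w⁻¹ (cw ![7, 3, 0, 0, 0, 0, 18, 8])
  have h3' : rootE8.weyl.psi {fun i => z ^ μ i} ⊆ rootE8.weyl.psi {fun i => x ^ ν i} :=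
    fun r hr => ⟨hr.1, by
      rintro _ rfl
      have hr1 : r ∈ w8.Φ := hr.1
      have a1 := (chr_tz z μ (w8.rc r)).symm.trans (hr.2 _ rfl)
      rw [← orderOf_dvd_iff_zpow_eq_one, hz, ← w8.co_dot_smul w μ hr1] at a1
      refine (chr_tz x ν (w8.rc r)).trans ?_
      rw [w8.co_dot_rc _ _ hr1, inv_inv, h2 _ (w8_mem.1 (w8.smul_mem w hr1))
        ((hw.dot _).dvd_iff.1 a1), zpow_zero]⟩
  have h3 := Core.certE8.commute_of_mem_cent0 rootE8 (S := {fun i => x ^ ν i})
    (sup_le_sup_right (spanX_mono _ h3') _ h1) rfl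
  have : Nonempty chevE8.Idx := ⟨.inl ⟨0, by decide⟩⟩
  have h4 := rank_le_of_commute (ι := chevE8.Idx) (N := 1 - (y⁻¹ * e8 u * y).1) (n := 40)
    (d := Sum.elim (fun _ => 1) fun r : Fin chevE8.nroots => (chr (fun i => x ^ ν i) (w8.rc r)).1)
    (c := Sum.elim (fun _ => 0) fun r : Fin chevE8.nroots => res 40 (ν ⬝ᵥ w8.rc r)) (by
      have := conj_pow (a := y⁻¹) (b := e8 u) (i := 3)
      rw [inv_inv, ← map_pow, hu, map_one, mul_one, inv_mul_cancel] at this
      rw [← pow_three', sub_pow_char_of_commute 3 (Commute.one_left _), one_pow,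
        ← Units.val_pow_eq_pow_val, this, Units.val_one, sub_self])
    (by rw [mul_sub, sub_mul, mul_one, one_mul]; exact congrArg _ (congrArg Units.val h3))
    (by rintro (i | i); exacts [by simp, res_lt (by omega) _]) (by
      have a1 : ∀ i : chevE8.Idx, Sum.elim (fun _ => 1) (fun r : Fin chevE8.nroots =>
          (chr (fun i => x ^ ν i) (w8.rc r)).1) i = (x ^ Sum.elim (fun _ => 0)
            (fun r : Fin chevE8.nroots => res 40 (ν ⬝ᵥ w8.rc r)) i).1 := by
        rintro (i | i)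
        · simp
        · refine congrArg Units.val ((chr_tz x ν _).trans ?_)
          rw [← zpow_natCast, zpow_eq_zpow_iff_modEq, hx]
          exact res_modEq (by omega) _
      intro i j e
      rw [a1, a1, Units.val_inj] at e
      refine pow_injOn_Iio_orderOf (x := x) ?_ ?_ e <;> rw [hx]
      · rcases i with i | i; exacts [by simp, res_lt (by omega) _]
      · rcases j with i | i; exacts [by simp, res_lt (by omega) _])
  have h5 : ∀ t, (∑ i : chevE8.Idx, if Sum.elim (fun _ => 0) (fun r : Fin chevE8.nroots =>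
      res 40 (ν ⬝ᵥ w8.rc r)) i = t then 1 else 0) = (∑ _ : Fin 8, if 0 = t then 1 else 0) +
      smN 40 (fun s => if s = t then 1 else 0) ν := fun t => by
    rw [Fintype.sum_sum_type]
    exact congrArg₂ (· + ·) rfl
      (Fin.sum_univ_eq_sum_range (fun r => if res 40 (ν ⬝ᵥ w8.rc r) = t then 1 else 0) 240)
  simp only [h5, ν, smN_co, smN_eq (show 0 < 40 by omega)] at h4
  have h6 := h4.trans (show _ ≤ 147 by decide +kernel)
  have := fx_add_rank' u y
  omega

variable {F : Type*} [Field F] [Fintype F] {f : SL2 F →* G8} (hf : ∀ g, f g = 1 ↔ g = 1 ∨ g = -1)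
include hf

theorem no41 (h : Fintype.card F = 41) : False := by
  have : Fact (Nat.Prime 41) := ⟨by norm_num⟩
  have : CharP F 41 := charP_of_card_eq_prime h
  have h0 : (41 : F) = 0 := CharP.cast_eq_zero F 41
  have h2 : (2 : F) ≠ 0 := two_ne_zero_of_charP 41 (by norm_num)
  obtain ⟨μ, a1, a2, a3⟩ := exists_cw (f ((slLin F).u 1)) (n := 41) (by norm_num) (by
    rw [← map_pow, Lin2.u_pow_char, map_one])
  have a4 := a3 2 (by
    rw [← map_pow, Lin2.u_pow]
    exact f.map_isConj ((isConj_u_iff_SL one_ne_zero (by simpa using h2)).2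
      ⟨17, by push_cast; linear_combination -7 * h0⟩))
  have a5 := a2 1 41 rfl
  rw [fortyone (a1.mul a4), pow_one] at a5
  have := dvd_of_pow_eq_one hf ((pow_one _).trans (eq_one_of_fx a5))
  rw [Lin2.orderOf_u _ 41 one_ne_zero] at this
  norm_num at this

omit hf in
theorem exists_root32 (h : Fintype.card F = 32) (h2 : (2 : F) = 0) :
    ∃ b : F, b ^ 5 + b ^ 2 + 1 = 0 := by
  by_contra! hb
  open Polynomial in
  have h1 : (X ^ 27 + X ^ 24 + X ^ 22 + X ^ 21 + X ^ 18 + X ^ 17 + X ^ 16 + X ^ 15 + X ^ 14 + X ^ 10 +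
      X ^ 9 + X ^ 7 + X ^ 6 + X ^ 5 + X ^ 3 + X : F[X]).IsMonicOfDegree 27 :=
    ⟨by compute_degree!, by monicity!⟩
  refine h1.monic.ne_zero (Polynomial.eq_zero_of_natDegree_lt_card_of_eval_eq_zero _
    Function.injective_id (fun x => ?_) (by rw [h1.natDegree_eq, h]; norm_num))
  have h3 := FiniteField.pow_card x
  rw [h] at h3
  refine (mul_eq_zero.1 ?_).resolve_left (hb x)
  simp only [Polynomial.eval_add, Polynomial.eval_pow, Polynomial.eval_X, id]
  linear_combination h3 + (x + x ^ 3 + x ^ 5 + x ^ 6 + x ^ 7 + x ^ 8 + x ^ 9 + x ^ 10 + x ^ 11 + x ^ 12 + x ^ 14 + x ^ 15 + x ^ 16 + x ^ 17 + x ^ 18 + x ^ 19 + x ^ 20 + x ^ 21 + x ^ 22 + x ^ 23 + x ^ 24 + x ^ 26 + x ^ 27 + x ^ 29) * h2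

theorem no32 (h : Fintype.card F = 32) : False := by
  have : CharP F 2 := charP_of_card_eq_prime_pow (f := 5) h
  have h2 : (2 : F) = 0 := CharP.cast_eq_zero F 2
  obtain ⟨b, hb⟩ := exists_root32 h h2
  have hi : ∀ g, f g = 1 → g = 1 := fun g hg =>
    ((hf g).1 hg).elim id fun e => e.trans (neg_one_eq_one_SL.2 h2)
  have m2 : ∀ {a b c d a' b' c' d' : F}, a = a' → b = b' → c = c' → d = d' →
      !![a, b; c, d] = !![a', b'; c', d'] := by rintro _ _ _ _ _ _ _ _ rfl rfl rfl rfl; rfl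
  let t : SL2 F := ⟨!![1, b; 0, 1], by simp [det_fin_two]⟩
  let u : SL2 F := ⟨!![0, -1; 1, -1], by simp [det_fin_two]⟩
  let v : SL2 F := ⟨!![1, 0; -b, 1], by simp [det_fin_two]⟩
  let y : SL2 F := ⟨!![-1, 1 + b; -1, b], by simp [det_fin_two]⟩
  let y' : SL2 F := ⟨!![b ^ 4 + b ^ 2, 1 - b; b - 1, b ^ 4 + b ^ 2 + 1 - b], by
    rw [det_fin_two_of]; grind⟩
  have b0 : b ≠ 0 := by grind
  have b1 : b - 1 ≠ 0 := by grind
  have e1 : t * t = 1 := Subtype.ext (by
    change !![_, _; _, _] * !![_, _; _, _] = 1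
    rw [mul_fin_two, one_fin_two]; exact m2 (by ring) (by grind) (by ring) (by ring))
  have e2 : t * u * y = 1 := Subtype.ext (by
    change !![_, _; _, _] * !![_, _; _, _] * !![_, _; _, _] = 1
    rw [mul_fin_two, mul_fin_two, one_fin_two]; exact m2 (by ring) (by ring) (by ring) (by ring))
  have e3 : u * t * u⁻¹ = v := mul_inv_eq_of_eq_mul (Subtype.ext (by
    change !![_, _; _, _] * !![_, _; _, _] = !![_, _; _, _] * !![_, _; _, _]
    rw [mul_fin_two, mul_fin_two]; exact m2 (by ring) (by ring) (by ring) (by ring)))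
  have e4 : u ^ 3 = 1 := Subtype.ext (by
    rw [pow_three']
    change !![_, _; _, _] * !![_, _; _, _] * !![_, _; _, _] = 1
    rw [mul_fin_two, mul_fin_two, one_fin_two]; exact m2 (by ring) (by ring) (by ring) (by ring))
  have e5 : y' * u = u * y' := Subtype.ext (by
    change !![_, _; _, _] * !![_, _; _, _] = !![_, _; _, _] * !![_, _; _, _]
    rw [mul_fin_two, mul_fin_two]; exact m2 (by ring) (by ring) (by ring) (by ring))
  have t1 : ((slLin F).ρ y).trace = b - 1 := by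
    change Matrix.trace !![_, _; _, _] = _; rw [trace_fin_two_of]; ring
  have t2 : ((slLin F).ρ y').trace = b - 1 := by
    change Matrix.trace !![_, _; _, _] = _; rw [trace_fin_two_of]; grind
  have t3 : ((slLin F).ρ (t * v)).trace = b ^ 2 := by
    change Matrix.trace ((!![_, _; _, _] : Matrix _ _ F) * (!![_, _; _, _] : Matrix _ _ F)) = _
    rw [mul_fin_two, trace_fin_two_of]; grind
  have e6 : y ^ 11 = 1 := Subtype.ext (by
    have a1 : y.1 * y.1 = (b - 1) • y.1 - (1 : F) • 1 := by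
      rw [← t1, one_smul]; exact mul_self_SL y
    have a2 : ∀ p q : F, (p • y.1 - q • 1) * y.1 = (p * (b - 1) - q) • y.1 - p • 1 := fun p q => by
      rw [sub_mul, smul_mul_assoc, a1, smul_mul_assoc, one_mul]; module
    change y.1 ^ 11 = 1
    simp only [pow_succ, pow_zero, one_mul]
    rw [a1, a2, a2, a2, a2, a2, a2, a2, a2, a2]
    refine (congrArg₂ (fun p q : F => p • y.1 - q • (1 : Matrix _ _ F)) (?_ : _ = (0 : F))
      (?_ : _ = (-1 : F))).trans (by rw [zero_smul, neg_one_smul, zero_sub, neg_neg]) <;> grind)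
  have e7 : y' ^ 11 = 1 := (pow_eq_one_iff_of_isConj (isConj_of_trace_SL (by rw [t1]; grind)
    (t1.trans t2.symm)) 11).1 e6
  let l : Fˣ := ⟨b ^ 4 + b ^ 3 + b + 1, b ^ 4 + b ^ 3 + b ^ 2 + b + 1, by grind, by grind⟩
  have e8 : (t * v) ^ 31 = 1 := (pow_eq_one_iff_of_isConj (isConj_of_trace_SL (h := dSL l)
    (by rw [t3]; grind) (by
      rw [t3, ρ_dSL, trace_fin_two_of, ← Units.val_inv_eq_inv_val]
      change _ = b ^ 4 + b ^ 3 + b + 1 + (b ^ 4 + b ^ 3 + b ^ 2 + b + 1); grind)) 31).2 (by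
    have := pow_card_sub_one_of_mem_T_SL (dSL_mem_T l)
    rwa [h] at this)
  have n1 : f (t * v) ≠ 1 := fun e => by
    rw [hi _ e, map_one, trace_one] at t3
    exact pow_ne_zero 2 b0 (t3.symm.trans (by simpa using h2))
  have n2 : f y' ≠ 1 := fun e => by
    rw [hi _ e, map_one, trace_one] at t2
    exact b1 (t2.symm.trans (by simpa using h2))
  have a1 := fx_thirtyone (by rw [← map_pow, e8, map_one]) n1
  have a2 := fx_three (u := f u) (by rw [← map_pow, e7, map_one]) n2 (by rw [← map_pow, e4, map_one])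
    (by rw [← map_mul, e5, map_mul])
  have a3 := fx_eleven (g := f y) (by rw [← map_pow, e6, map_one])
  have a4 := fx_scott (ad8.comp f) (by decide) e1 e2
  have a5 := fx_mul (ad8.comp f) t v
  have a6 := fx_conj (ad8.comp f) u t
  have a7 := fx_two (g := f t) (by rw [← map_mul, e1, map_one])
  rw [e3] at a4 a6
  rw [finrank_ad, a6] at a5
  change fx ad8 (f _) + fx ad8 (f _) ≤ fx ad8 (f _) + fx ad8 (f _) at a4
  change fx ad8 (f _) + fx ad8 (f _) ≤ _ + fx ad8 (f _) at a5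
  omega

end Cfsg.Lib.Chev.E8S
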