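import Cfsg.Agent.FT.Lift
import Cfsg.Agent.Known.SL2Orders
import Cfsg.Agent.Fus.LinSylow

/-!
# Fixed spaces of the two tori of `SL₂(q)` on a module in the defining characteristic
-/

set_option autoImplicit false
set_option linter.unusedSectionVars false

namespace Cfsg.Lib.Chev.L2F

open Module Cfsg.Lib.FT MulAction Finset

section General

variable {k G V : Type*} [Field k] [Group G] [AddCommGroup V] [Module k V]
  (ρ : Representation k G V)

/-- Equivariant functions. -/
def Eqv (Ω : Type*) [MulAction G Ω] : Submodule k (Ω → V) where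
  carrier := {f | ∀ (g : G) x, f (g • x) = ρ g (f x)}
  add_mem' hf hg g x := by simp [hf g x, hg g x]
  zero_mem' g x := by simp
  smul_mem' c f hf g x := by simp [hf g x]

theorem mem_Eqv {Ω : Type*} [MulAction G Ω] {f : Ω → V} :
    f ∈ Eqv ρ Ω ↔ ∀ (g : G) x, f (g • x) = ρ g (f x) := Iff.rfl

/-- A matrix acting on vector valued functions. -/
def mapM {Ω Ω' : Type*} [Fintype Ω] (M : Matrix Ω' Ω k) : (Ω → V) →ₗ[k] (Ω' → V) where
  toFun f a := ∑ b, M a b • f b
  map_add' f g := by ext a; simp [sum_add_distrib]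
  map_smul' c f := by ext a; simp [smul_sum, smul_comm c]

theorem mapM_mul {A B C : Type*} [Fintype A] [Fintype B] (M : Matrix C B k) (N : Matrix B A k)
    (f : A → V) : mapM M (mapM N f) = mapM (M * N) f := by
  ext c
  change ∑ b, M c b • ∑ a, N b a • f a = ∑ a, (∑ b, M c b * N b a) • f a
  simp only [smul_sum, sum_smul, smul_smul]
  exact sum_comm

theorem mapM_one {A : Type*} [Fintype A] [DecidableEq A] (f : A → V) :
    mapM (1 : Matrix A A k) f = f := by
  ext a
  change ∑ b, (1 : Matrix A A k) a b • f b = f a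
  simp [Matrix.one_apply]

theorem finrank_Eqv_le [FiniteDimensional k V] {Ω Ω' : Type*} [Fintype Ω] [Fintype Ω']
    [DecidableEq Ω] [MulAction G Ω] [MulAction G Ω'] (M : Matrix Ω' Ω k)
    (hM : ∀ (g : G) a b, M (g • a) (g • b) = M a b) {N : Matrix Ω Ω' k} (h : N * M = 1) :
    finrank k (Eqv ρ Ω) ≤ finrank k (Eqv ρ Ω') := by
  refine LinearMap.finrank_le_finrank_of_injective (f := (mapM M).restrict
    (p := Eqv ρ Ω) (q := Eqv ρ Ω') fun f hf g a => ?_) fun f f' e => Subtype.ext ?_
  · change ∑ b, M (g • a) b • f b = ρ g (∑ b, M a b • f b)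
    rw [← Equiv.sum_comp (MulAction.toPerm g), map_sum]
    exact sum_congr rfl fun b _ => by rw [MulAction.toPerm_apply, hM, hf, map_smul]
  · have : mapM N (mapM M f.1) = mapM N (mapM M f'.1) := congrArg (mapM N) (congrArg Subtype.val e)
    simpa only [mapM_mul, h, mapM_one] using this

theorem finrank_Eqv_eq [FiniteDimensional k V] {Ω Ω' : Type*} [Fintype Ω] [Fintype Ω']
    [MulAction G Ω] [MulAction G Ω'] (hc : Fintype.card Ω = Fintype.card Ω') (M : Matrix Ω' Ω k)
    (hM : ∀ (g : G) a b, M (g • a) (g • b) = M a b) (hi : ∀ v, M.mulVec v = 0 → v = 0) :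
    finrank k (Eqv ρ Ω) = finrank k (Eqv ρ Ω') := by
  classical
  obtain ⟨L, hL⟩ := (Matrix.toLin' M).exists_leftInverse_of_injective
    (LinearMap.ker_eq_bot'.2 hi)
  have h1 : LinearMap.toMatrix' L * M = 1 := by
    rw [← LinearMap.toMatrix'_toLin' M, ← LinearMap.toMatrix'_comp, hL, LinearMap.toMatrix'_id]
  have h2 := (Matrix.mul_eq_one_comm_of_card_eq _ _ k hc).1 h1
  refine (finrank_Eqv_le ρ M hM h1).antisymm (finrank_Eqv_le ρ _ (fun g a b => ?_) h2)
  have h3 : (LinearMap.toMatrix' L).submatrix (MulAction.toPerm g) (MulAction.toPerm g) * M = 1 := by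
    have : M = M.submatrix (MulAction.toPerm g) (MulAction.toPerm g) := by
      ext a b; exact (hM g a b).symm
    rw [this, Matrix.submatrix_mul_equiv, h1, Matrix.submatrix_one_equiv]
  have h4 := congrArg (· * LinearMap.toMatrix' L) h3
  simp only [Matrix.mul_assoc, h2, Matrix.mul_one, Matrix.one_mul] at h4
  exact congrFun (congrFun h4 a) b

theorem finrank_Eqv_orb [FiniteDimensional k V] {Ω ι : Type*} [MulAction G Ω] [Fintype ι]
    (orb : Ω → ι) (b : ι → Ω) (h1 : ∀ i, orb (b i) = i) (h2 : ∀ (g : G) x, orb (g • x) = orb x)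
    (h3 : ∀ x, ∃ g : G, g • b (orb x) = x) :
    finrank k (Eqv ρ Ω) = ∑ i, fixDim ρ (stabilizer G (b i)) := by
  choose γ hγ using h3
  let L : Eqv ρ Ω →ₗ[k] ∀ i, fixSp ρ (stabilizer G (b i)) := LinearMap.pi fun i =>
    ((LinearMap.proj (b i)).comp (Eqv ρ Ω).subtype).codRestrict _ fun f =>
      mem_fixSp.2 fun h hh => by
        have := f.2 h (b i)
        rw [mem_stabilizer_iff.1 hh] at this
        exact this.symm
  have hL : Function.Bijective L := by
    refine ⟨(injective_iff_map_eq_zero L).2 fun f hf => Subtype.ext (funext fun x => ?_),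
      fun v => ⟨⟨fun x => ρ (γ x) (v (orb x)), fun g x => ?_⟩, funext fun i => Subtype.ext ?_⟩⟩
    · have h4 : f.1 (b (orb x)) = 0 := congrArg Subtype.val (congrFun hf (orb x))
      rw [← hγ x, f.2, h4, map_zero]; rfl
    · have h4 := hγ (g • x)
      have h5 : (γ (g • x))⁻¹ * (g * γ x) ∈ stabilizer G (b (orb x)) := by
        rw [h2] at h4
        rw [mem_stabilizer_iff, mul_smul, mul_smul, hγ, inv_smul_eq_iff, h4]
      have h6 := mem_fixSp.1 (v (orb x)).2 _ h5
      have h7 : (v (orb (g • x)) : V) = v (orb x) := by rw [h2]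
      beta_reduce
      rw [h7]
      conv_lhs => rw [← h6]
      rw [← Module.End.mul_apply, ← Module.End.mul_apply, ← map_mul, ← map_mul, mul_inv_cancel_left]
    · have h4 := hγ (b i)
      have h7 : (v (orb (b i)) : V) = v i := by rw [h1]
      rw [h1] at h4
      change ρ (γ (b i)) (v (orb (b i))) = v i
      rw [h7]
      exact mem_fixSp.1 (v i).2 _ h4
  rw [(LinearEquiv.ofBijective L hL).finrank_eq, Module.finrank_pi_fintype]
  rfl

/-- The dimension of the fixed space of an element. -/
noncomputable def fx (g : G) : ℕ := finrank k (LinearMap.ker (1 - ρ g))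

theorem fixSp_zpowers (g : G) : fixSp ρ (Subgroup.zpowers g) = LinearMap.ker (1 - ρ g) := by
  ext v
  rw [mem_fixSp, LinearMap.mem_ker, LinearMap.sub_apply, sub_eq_zero, eq_comm]
  refine ⟨fun h => h g (Subgroup.mem_zpowers g), fun h x hx => ?_⟩
  rw [Subgroup.zpowers_eq_closure] at hx
  induction hx using Subgroup.closure_induction with
  | mem x hx => exact hx ▸ h
  | one => simp
  | mul x y _ _ hx hy => rw [map_mul, Module.End.mul_apply, hy, hx]
  | inv x _ hx => rw [← hx, Representation.inv_self_apply, hx]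

theorem fixDim_zpowers (g : G) : fixDim ρ (Subgroup.zpowers g) = fx ρ g := by
  rw [fixDim, fixSp_zpowers, fx]

theorem rank_map {ι F K : Type*} [Fintype ι] [DecidableEq ι] [Field F] [Field K] (f : F →+* K)
    (A : Matrix ι ι F) : (A.map f).rank = A.rank := by
  classical
  obtain ⟨L, L', D, hA⟩ := Matrix.Pivot.exists_list_transvec_mul_diagonal_mul_list_transvec A
  have hU := Matrix.TransvectionStruct.det_toMatrix_prod L
  have hV := Matrix.TransvectionStruct.det_toMatrix_prod L'
  set U := (L.map Matrix.TransvectionStruct.toMatrix).prod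
  set V := (L'.map Matrix.TransvectionStruct.toMatrix).prod
  have hU' : (U.map f).det = 1 := by
    rw [← RingHom.mapMatrix_apply, ← RingHom.map_det, hU, map_one]
  have hV' : (V.map f).det = 1 := by
    rw [← RingHom.mapMatrix_apply, ← RingHom.map_det, hV, map_one]
  rw [hA, Matrix.map_mul, Matrix.map_mul,
    Matrix.rank_mul_eq_left_of_isUnit_det (V.map f) _ (hV' ▸ isUnit_one),
    Matrix.rank_mul_eq_left_of_isUnit_det V _ (hV ▸ isUnit_one),
    Matrix.rank_mul_eq_right_of_isUnit_det (U.map f) _ (hU' ▸ isUnit_one),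
    Matrix.rank_mul_eq_right_of_isUnit_det U _ (hU ▸ isUnit_one),
    Matrix.diagonal_map (map_zero f), Matrix.rank_diagonal, Matrix.rank_diagonal]
  exact Fintype.card_congr (Equiv.subtypeEquivRight fun i => by simp)

theorem fx_add_rank {ι : Type*} [Fintype ι] [DecidableEq ι] (b : Basis ι k V) (g : G) :
    fx ρ g + (1 - LinearMap.toMatrix b b (ρ g)).rank = Fintype.card ι := by
  have := b.finiteDimensional_of_finite
  rw [← finrank_eq_card_basis b, ← (1 - ρ g).finrank_range_add_finrank_ker, add_comm, fx,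
    Matrix.rank_eq_finrank_range_toLin _ b b, ← LinearMap.toMatrix_one b, ← map_sub,
    Matrix.toLin_toMatrix]

theorem exists_baseChange [FiniteDimensional k V] {K : Type*} [Field K] (f : k →+* K) :
    ∃ τ : Representation K G (Fin (finrank k V) → K), ∀ g, fx τ g = fx ρ g := by
  refine ⟨Lift.matRep (f.mapMatrix.toMonoidHom.comp
    ((LinearMap.toMatrixAlgEquiv (finBasis k V)).toMonoidHom.comp ρ)), fun g => ?_⟩
  refine Nat.add_right_cancel ((fx_add_rank _ (Pi.basisFun K _) g).trans ?_)
  rw [← fx_add_rank ρ (finBasis k V) g, ← rank_map f]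
  congr 2
  ext i j
  simp [LinearMap.toMatrix_apply, Lift.matRep_apply, Matrix.one_apply,
    LinearMap.toMatrixAlgEquiv_apply]

end General

section Line

open Cfsg.Lib.Known.GL2 Matrix Polynomial

variable {F K : Type*} [Field F] [Field K] [Algebra F K]

/-- A representative vector of a point of the projective line. -/
def rp : Option K → Fin 2 → K
  | none => ![1, 0]
  | some a => ![a, 1]

open Classical in
/-- The point of a vector. -/
noncomputable def pt (v : Fin 2 → K) : Option K := if v 1 = 0 then none else some (v 0 / v 1)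

theorem rp_ne_zero (x : Option K) : rp x ≠ 0 := fun h => by
  cases x
  · simpa [rp] using congrFun h 0
  · simpa [rp] using congrFun h 1

theorem pt_rp (x : Option K) : pt (rp x) = x := by cases x <;> simp [pt, rp]

theorem pt_smul {c : K} (hc : c ≠ 0) (v : Fin 2 → K) : pt (c • v) = pt v := by
  by_cases h : v 1 = 0 <;> simp [pt, hc, h, mul_div_mul_left]

theorem exists_rp_pt {v : Fin 2 → K} (hv : v ≠ 0) : ∃ c : K, c ≠ 0 ∧ v = c • rp (pt v) := by
  by_cases h : v 1 = 0
  · refine ⟨v 0, fun h0 => hv ?_, ?_⟩ <;> ext i <;> fin_cases i <;> simp [pt, rp, *]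
  · refine ⟨v 1, h, ?_⟩
    ext i; fin_cases i <;> simp [pt, rp, h, mul_div_cancel₀]

variable (K) in
/-- The matrix over the larger field. -/
def mat (g : SL2 F) : Matrix (Fin 2) (Fin 2) K := g.1.map (algebraMap F K)

theorem mat_one : mat K (1 : SL2 F) = 1 := Matrix.map_one _ (map_zero _) (map_one _)

theorem mat_mul (g h : SL2 F) : mat K (g * h) = mat K g * mat K h := Matrix.map_mul

theorem det_mat (g : SL2 F) : (mat K g).det = 1 := by
  rw [mat, ← RingHom.mapMatrix_apply, ← RingHom.map_det, g.2, map_one]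

theorem mat_ne_zero (g : SL2 F) {v : Fin 2 → K} (hv : v ≠ 0) : mat K g *ᵥ v ≠ 0 := fun h => by
  have := congrArg (mat K g⁻¹ *ᵥ ·) h
  simp only [mulVec_mulVec, ← mat_mul, inv_mul_cancel, mat_one, one_mulVec, mulVec_zero] at this
  exact hv this

/-- The projective line over `K` with the action of `SL₂(F)`. -/
noncomputable scoped instance instAct : MulAction (SL2 F) (Option K) where
  smul g x := pt (mat K g *ᵥ rp x)
  one_smul x := by
    change pt (mat K 1 *ᵥ rp x) = x
    rw [mat_one, one_mulVec, pt_rp]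
  mul_smul g h x := by
    change pt (mat K (g * h) *ᵥ rp x) = pt (mat K g *ᵥ rp (pt (mat K h *ᵥ rp x)))
    obtain ⟨c, hc, e⟩ := exists_rp_pt (mat_ne_zero h (rp_ne_zero x))
    rw [mat_mul, ← mulVec_mulVec]
    conv_lhs => rw [e]
    rw [mulVec_smul, pt_smul hc]

theorem exists_smul_rp (g : SL2 F) (x : Option K) :
    ∃ c : K, c ≠ 0 ∧ mat K g *ᵥ rp x = c • rp (g • x) :=
  exists_rp_pt (mat_ne_zero g (rp_ne_zero x))

theorem smul_eq_iff {g : SL2 F} {x y : Option K} :
    g • x = y ↔ ∃ c : K, mat K g *ᵥ rp x = c • rp y := by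
  refine ⟨fun h => h ▸ (exists_smul_rp g x).imp fun _ h => h.2, fun ⟨c, h⟩ => ?_⟩
  change pt (mat K g *ᵥ rp x) = y
  rw [h, pt_smul (fun e => mat_ne_zero g (rp_ne_zero x) (by rw [h, e, zero_smul])), pt_rp]

/-- The determinant of two vectors. -/
def dt (u v : Fin 2 → K) : K := u 0 * v 1 - u 1 * v 0

theorem dt_mat (g : SL2 F) (u v : Fin 2 → K) : dt (mat K g *ᵥ u) (mat K g *ᵥ v) = dt u v := by
  have := det_mat (K := K) g
  rw [det_fin_two] at this
  simp only [dt, mulVec, dotProduct, Fin.sum_univ_two]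
  linear_combination (u 0 * v 1 - u 1 * v 0) * this

theorem dt_smul (c d : K) (u v : Fin 2 → K) : dt (c • u) (d • v) = c * d * dt u v := by
  simp only [dt, Pi.smul_apply, smul_eq_mul]; ring

theorem mat_comp (g : SL2 F) (v : Fin 2 → F) :
    mat K g *ᵥ (algebraMap F K ∘ v) = algebraMap F K ∘ (mat F g *ᵥ v) := by
  ext i; fin_cases i <;> simp [mat, mulVec, dotProduct]

variable [Fintype F] [Fintype K]

/-- The basic kernel. -/
def dl (z : Option K) (x : Option F) : K := dt (rp z) (algebraMap F K ∘ rp x) ^ (Fintype.card F - 1)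

theorem dl_smul {g : SL2 F} {z : Option K} {c : K} (h : mat K g *ᵥ rp z = c • rp (g • z))
    (x : Option F) : dl z x = c ^ (Fintype.card F - 1) * dl (g • z) (g • x) := by
  obtain ⟨d, hd, e⟩ := exists_smul_rp g x
  have : algebraMap F K ∘ (d • rp (g • x)) =
      algebraMap F K d • (algebraMap F K ∘ rp (g • x)) := by ext i; simp
  rw [dl, dl, ← dt_mat g, h, mat_comp, e, this, dt_smul, mul_pow, mul_pow, ← map_pow,
    FiniteField.pow_card_sub_one_eq_one d hd, map_one, mul_one]

/-- The kernel. -/
def kp (z : Option K) (x y : Option F) : K := dl z x * dl z y ^ Fintype.card F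

theorem kp_smul (hK : Fintype.card K = Fintype.card F ^ 2) (g : SL2 F) (z : Option K)
    (x y : Option F) : kp (g • z) (g • x) (g • y) = kp z x y := by
  obtain ⟨c, hc, e⟩ := exists_smul_rp g z
  have h1 := FiniteField.pow_card_sub_one_eq_one c hc
  have h2 : Fintype.card K - 1 = (Fintype.card F - 1) + (Fintype.card F - 1) * Fintype.card F := by
    obtain ⟨n, hn⟩ : ∃ n, Fintype.card F = n + 1 := ⟨_, (Nat.sub_add_cancel Fintype.card_pos).symm⟩
    rw [hK, hn]
    exact Nat.sub_eq_of_eq_add (by simp only [Nat.add_sub_cancel]; ring)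
  rw [h2, pow_add, pow_mul] at h1
  rw [kp, kp, dl_smul e x, dl_smul e y, mul_pow]
  linear_combination -(dl (g • z) (g • x) * dl (g • z) (g • y) ^ Fintype.card F) * h1

variable (K) in
/-- The polynomial attached to a point. -/
noncomputable def ep : Option F → K[X]
  | none => 1
  | some a => (X - C (algebraMap F K a)) ^ (Fintype.card F - 1)

theorem natDegree_ep (x : Option F) : (ep K x).natDegree ≤ Fintype.card F - 1 := by
  cases x
  · simp [ep]
  · exact natDegree_pow_le.trans (by simp)

theorem dl_some (c : K) (x : Option F) : dl (F := F) (some c) x = (ep K x).eval c := by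
  cases x
  · have := congrArg (algebraMap F K) (FiniteField.pow_card_sub_one_eq_one (-1 : F) (by simp))
    simpa [dl, dt, rp, ep] using this
  · simp [dl, dt, rp, ep]

theorem eval_ep_pow (c : K) (x : Option F) :
    (ep K x).eval c ^ Fintype.card F = (ep K x).eval (c ^ Fintype.card F) := by
  cases x with
  | none => simp [ep]
  | some a =>
    have := map_sub (FiniteField.frobeniusAlgHom F K) c (algebraMap F K a)
    rw [AlgHom.commutes, FiniteField.frobeniusAlgHom_apply, FiniteField.frobeniusAlgHom_apply] at this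
    simp only [ep, eval_pow, eval_sub, eval_X, eval_C]
    rw [← pow_mul, mul_comm, pow_mul, this]

open Classical in
theorem eval_ep (c : F) (x : Option F) :
    (ep K x).eval (algebraMap F K c) = 1 - if x = some c then 1 else 0 := by
  have := Fintype.one_lt_card (α := F)
  cases x with
  | none => simp [ep]
  | some a =>
    simp only [ep, eval_pow, eval_sub, eval_X, eval_C, Option.some.injEq]
    split_ifs with h
    · rw [h, sub_self, sub_self, zero_pow (by omega)]
    · rw [← map_sub, ← map_pow, FiniteField.pow_card_sub_one_eq_one _ (sub_ne_zero.2 (Ne.symm h)),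
        map_one, sub_zero]

theorem kernel_eq (hK : Fintype.card K = Fintype.card F ^ 2) {f : Option F × Option F → K} {s : K}
    (h : ∀ c : K, ∑ p, kp (F := F) (some c) p.1 p.2 * f p + s = 0) (c c' : F) :
    ∑ p, f p * (ep K p.2).eval (algebraMap F K c') * (ep K p.1).eval (algebraMap F K c) + s = 0 := by
  have hq := Fintype.one_lt_card (α := F)
  have h1 : ∑ p, C (f p) * ep K p.1 * expand K (Fintype.card F) (ep K p.2) + C s = 0 := by
    refine eq_zero_of_natDegree_lt_card_of_eval_eq_zero _ Function.injective_id (fun z => ?_) ?_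
    · rw [← h z, eval_add, eval_C, eval_finsetSum]
      congr 1
      refine sum_congr rfl fun p _ => ?_
      rw [kp, dl_some, dl_some, eval_ep_pow, eval_mul, eval_mul, eval_C, expand_eval]
      simp only [id]; ring
    · refine lt_of_le_of_lt (b := (Fintype.card F - 1) + (Fintype.card F - 1) * Fintype.card F)
        ((natDegree_add_C).trans_le (natDegree_sum_le_of_forall_le _ _ fun p _ =>
          natDegree_mul_le.trans (add_le_add ((natDegree_C_mul_le _ _).trans (natDegree_ep _))
            ?_))) ?_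
      · rw [natDegree_expand]
        exact Nat.mul_le_mul_right _ (natDegree_ep _)
      · obtain ⟨n, hn⟩ : ∃ n, Fintype.card F = n + 1 := ⟨_, (Nat.sub_add_cancel hq.le).symm⟩
        rw [hK, hn, Nat.add_sub_cancel]
        nlinarith
  have h2 : ∑ p, C (f p * (ep K p.2).eval (algebraMap F K c')) * ep K p.1 + C s = 0 := by
    refine eq_zero_of_dvd_of_natDegree_lt (p := X ^ Fintype.card F - C (algebraMap F K c')) ?_ ?_
    · rw [← dvd_neg, ← zero_sub, ← h1, add_sub_add_right_eq_sub, ← sum_sub_distrib]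
      refine dvd_sum fun p _ => ?_
      have := map_dvd (expand K (Fintype.card F))
        (X_sub_C_dvd_sub_C_eval (a := algebraMap F K c') (p := ep K p.2))
      simp only [map_sub, expand_X, expand_C] at this
      convert this.mul_left (C (f p) * ep K p.1) using 1
      rw [C_mul]; ring
    · rw [natDegree_X_pow_sub_C]
      exact lt_of_le_of_lt ((natDegree_add_C).trans_le (natDegree_sum_le_of_forall_le _ _ fun p _ =>
        (natDegree_C_mul_le _ _).trans (natDegree_ep _))) (by omega)
  simpa only [eval_add, eval_finsetSum, eval_mul, eval_C, eval_zero] using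
    congrArg (eval (algebraMap F K c)) h2

open Classical in
/-- The intertwining matrix. -/
noncomputable def itw : Matrix (Option K ⊕ Option F ⊕ Option F)
    ((Option F × Option F) ⊕ PUnit.{1} ⊕ PUnit.{1}) K
  | .inl z, .inl p => kp z p.1 p.2
  | .inl _, .inr (.inl _) => 1
  | .inr (.inl x), .inl p => if p.1 = x then 1 else 0
  | .inr (.inr y), .inl p => if p.2 = y then 1 else 0
  | .inr (.inr _), .inr (.inr _) => 1
  | _, _ => 0

theorem itw_smul (hK : Fintype.card K = Fintype.card F ^ 2) (g : SL2 F) :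
    ∀ a b, itw (F := F) (K := K) (g • a) (g • b) = itw a b := by
  classical
  rintro (z | x | y) (p | _ | _)
  · exact kp_smul hK g z p.1 p.2
  all_goals simp only [itw, Sum.smul_inl, Sum.smul_inr, Prod.smul_fst, Prod.smul_snd]
  all_goals exact if_congr (smul_left_cancel_iff g) rfl rfl

theorem itw_inj (hK : Fintype.card K = Fintype.card F ^ 2) (v)
    (h : (itw (F := F) (K := K)).mulVec v = 0) : v = 0 := by
  classical
  have hq : (Fintype.card F : K) = 0 := by
    rw [← map_natCast (algebraMap F K), FiniteField.cast_card_eq_zero, map_zero]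
  set f : Option F × Option F → K := fun p => v (.inl p) with hf
  have h1 : ∀ z, ∑ p, kp (F := F) z p.1 p.2 * f p + v (.inr (.inl ())) = 0 := fun z => by
    simpa [mulVec, dotProduct, itw] using congrFun h (.inl z)
  have h2 : ∀ x, ∑ y, f (x, y) = 0 := fun x => by
    simpa [-Fintype.sum_option, mulVec, dotProduct, itw, Fintype.sum_prod_type_right] using
      congrFun h (.inr (.inl x))
  have h3 : ∀ y, ∑ x, f (x, y) + v (.inr (.inr ())) = 0 := fun y => by
    simpa [mulVec, dotProduct, itw, Fintype.sum_prod_type] using congrFun h (.inr (.inr y))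
  have h4 : v (.inr (.inr ())) = 0 := by
    have := sum_eq_zero (s := univ) fun y _ => h3 y
    rw [sum_add_distrib, sum_comm, sum_eq_zero fun x _ => h2 x] at this
    simpa [hq] using this
  simp only [h4, add_zero] at h3
  have h5 : ∀ c c' : F, f (some c, some c') + v (.inr (.inl ())) = 0 := fun c c' => by
    have := kernel_eq hK (fun c => h1 (some c)) c c'
    simp only [eval_ep, mul_sub, mul_one, sum_sub_distrib, Fintype.sum_prod_type, h2,
      mul_ite, mul_zero, sum_ite_eq', mem_univ, if_true, h3,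
      sum_ite_irrel, sum_const_zero] at this
    simpa using this
  have h6 : v (.inr (.inl ())) = 0 := by
    have := h1 none
    have h0 := Fintype.one_lt_card (α := F)
    simp only [Fintype.sum_prod_type, Fintype.sum_option, eq_neg_of_add_eq_zero_left (h5 _ _)] at this
    simpa [kp, dl, dt, rp, hq, show Fintype.card F - 1 ≠ 0 by omega] using this
  simp only [h6, add_zero] at h5
  have h7 : ∀ x c, f (x, some c) = 0 := fun x c => by
    cases x
    · simpa [h5] using h3 (some c)
    · exact h5 _ _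
  ext (⟨x, _ | c⟩ | _ | _)
  · simpa [h7] using h2 x
  · exact h7 _ _
  · exact h6
  · exact h4

omit [Fintype F] [Fintype K]

theorem smul_none {g : SL2 F} : g • (none : Option K) = none ↔ g ∈ (slLin F).B := by
  rw [smul_eq_iff]
  change _ ↔ g.1 1 0 = 0
  refine ⟨fun ⟨c, h⟩ => by simpa [mat, rp] using congrFun h 1, fun h => ⟨mat K g 0 0, ?_⟩⟩
  ext i; fin_cases i <;> simp [mat, rp, h]

theorem smul_zero' {g : SL2 F} : g • (some 0 : Option F) = some 0 ↔ g.1 0 1 = 0 := by
  rw [smul_eq_iff]
  refine ⟨fun ⟨c, h⟩ => by simpa [mat, rp] using congrFun h 0, fun h => ⟨g.1 1 1, ?_⟩⟩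
  ext i; fin_cases i <;> simp [mat, rp, h]

/-- An element moving the point at infinity to `a`. -/
def mv (a : F) : SL2 F := ⟨!![a, -1; 1, 0], by simp [det_fin_two]⟩

theorem mv_smul (a : F) : mv a • (none : Option K) = some (algebraMap F K a) :=
  smul_eq_iff.2 ⟨1, by ext i; fin_cases i <;> simp [mat, rp, mv]⟩

theorem exists_smul_none (x : Option F) :
    ∃ g : SL2 F, g • (none : Option K) = x.map (algebraMap F K) := by
  cases x
  exacts [⟨1, one_smul _ _⟩, ⟨_, mv_smul _⟩]

theorem exists_smul_pair {x y : Option F} (h : x ≠ y) :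
    ∃ g : SL2 F, g • (none : Option F) = x ∧ g • (some 0 : Option F) = y := by
  have h1 : dt (rp x) (rp y) ≠ 0 := by
    cases x <;> cases y <;> simp [dt, rp, sub_eq_zero] at h ⊢
    exact h
  refine ⟨⟨!![(dt (rp x) (rp y))⁻¹ * rp x 0, rp y 0; (dt (rp x) (rp y))⁻¹ * rp x 1, rp y 1], ?_⟩,
    smul_eq_iff.2 ⟨(dt (rp x) (rp y))⁻¹, ?_⟩, smul_eq_iff.2 ⟨1, ?_⟩⟩
  · rw [det_fin_two_of, ← inv_mul_cancel₀ h1]
    generalize (dt (rp x) (rp y))⁻¹ = c
    rw [dt]; ring
  · ext i; fin_cases i <;> simp [mat, show rp (none : Option F) = ![1, 0] from rfl]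
  · ext i; fin_cases i <;> simp [mat, show rp (some 0 : Option F) = ![0, 1] from rfl]

theorem smul_map (g : SL2 F) (x : Option F) :
    g • x.map (algebraMap F K) = (g • x).map (algebraMap F K) := by
  have h : ∀ x : Option F, rp (x.map (algebraMap F K)) = algebraMap F K ∘ rp x := fun x => by
    ext i; cases x <;> fin_cases i <;> simp [rp]
  obtain ⟨d, -, e⟩ := exists_smul_rp g x
  refine smul_eq_iff.2 ⟨algebraMap F K d, ?_⟩
  rw [h, h, mat_comp, e]
  ext i; simp

theorem smul_mem_range (g : SL2 F) {z : Option K} :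
    g • z ∈ Set.range (Option.map (algebraMap F K)) ↔
      z ∈ Set.range (Option.map (algebraMap F K)) :=
  ⟨fun ⟨x, h⟩ => ⟨g⁻¹ • x, by rw [← smul_map, h, inv_smul_smul]⟩,
    fun ⟨x, h⟩ => ⟨g • x, by rw [← smul_map, h]⟩⟩

variable [Fintype F] [Fintype K]

theorem exists_nonsplit (hK : Fintype.card K = Fintype.card F ^ 2) : ∃ θ : K,
    some θ ∉ Set.range (Option.map (algebraMap F K)) ∧
    (∀ z ∉ Set.range (Option.map (algebraMap F K)), ∃ g : SL2 F, g • some θ = z) ∧
    ∃ s : SL2 F, orderOf s = Fintype.card F + 1 ∧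
      stabilizer (SL2 F) (some θ) = Subgroup.zpowers s := by
  classical
  have hq := Fintype.one_lt_card (α := F)
  obtain ⟨θ, hθ⟩ : ∃ θ : K, θ ^ Fintype.card F ≠ θ := by
    by_contra! h
    have := eq_zero_of_natDegree_lt_card_of_eval_eq_zero (X ^ Fintype.card F - X : K[X])
      Function.injective_id (by simp [h])
      (by rw [FiniteField.X_pow_card_sub_X_natDegree_eq _ hq, hK]; nlinarith)
    exact FiniteField.X_pow_card_sub_X_ne_zero _ hq this
  let φ := FiniteField.frobeniusAlgHom F K
  have hφ : φ θ ≠ θ := hθ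
  have h0 : some θ ∉ Set.range (Option.map (algebraMap F K)) := by
    rintro ⟨_ | a, h⟩
    · simp at h
    · exact hφ (by rw [← Option.some.inj h]; exact φ.commutes a)
  have h1 : ∀ g : stabilizer (SL2 F) (some θ), mat K g.1 *ᵥ rp (some θ) =
      (mat K g.1 *ᵥ rp (some θ)) 1 • rp (some θ) := fun g => by
    obtain ⟨c, h⟩ := smul_eq_iff.1 (mem_stabilizer_iff.1 g.2)
    rw [h]; simp [rp]
  let l : stabilizer (SL2 F) (some θ) →* K :=
    { toFun g := (mat K g.1 *ᵥ rp (some θ)) 1
      map_one' := by simp [mat_one, rp]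
      map_mul' g h := by
        rw [Subgroup.coe_mul, mat_mul, ← mulVec_mulVec, h1 h, mulVec_smul]
        simp [rp, mul_comm] }
  have ind : ∀ a b : F, algebraMap F K a * θ + algebraMap F K b = 0 → a = 0 ∧ b = 0 := by
    intro a b h
    have h2 := congrArg φ h
    rw [map_add, map_mul, φ.commutes, φ.commutes, map_zero] at h2
    have h3 : algebraMap F K a * (φ θ - θ) = 0 := by linear_combination h2 - h
    have h4 := (mul_eq_zero.1 h3).resolve_right (sub_ne_zero.2 hφ)
    rw [h4, zero_mul, zero_add] at h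
    exact ⟨(map_eq_zero _).1 h4, (map_eq_zero _).1 h⟩
  have hl : Function.Injective l := (injective_iff_map_eq_one l).2 fun g hg => by
    have h2 := h1 g
    rw [show (mat K g.1 *ᵥ rp (some θ)) 1 = 1 from hg, one_smul] at h2
    have h3 := ind (g.1.1 0 0 - 1) (g.1.1 0 1) (by
      have := congrFun h2 0
      simp [mat, rp] at this ⊢
      linear_combination this)
    have h4 := ind (g.1.1 1 0) (g.1.1 1 1 - 1) (by
      have := congrFun h2 1
      simp [mat, rp] at this ⊢
      linear_combination this)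
    exact Subtype.ext (Subtype.ext (m2_ext (sub_eq_zero.1 h3.1) h3.2 h4.1 (sub_eq_zero.1 h4.2)))
  have hp : ∀ g, l g ^ (Fintype.card F + 1) = 1 := fun g => by
    have h2 : mat K g.1 *ᵥ rp (some (φ θ)) = φ (l g) • rp (some (φ θ)) := by
      ext i
      have := congrArg φ (congrFun (h1 g) i)
      fin_cases i
      · simpa [mat, rp, l] using this
      · simp [mat, rp, l]
    have h3 := dt_mat (g : SL2 F) (rp (some θ)) (rp (some (φ θ)))
    rw [h1, h2, dt_smul, mul_eq_right₀ (by simpa [dt, rp, sub_eq_zero] using hφ.symm)] at h3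
    rw [pow_succ']
    exact h3
  have h2 : Nat.card (stabilizer (SL2 F) (some θ)) ≤ Fintype.card F + 1 :=
    (Nat.card_le_card_of_injective (fun g => (⟨l.toHomUnits g, (mem_rootsOfUnity' _ _).2 (hp g)⟩ :
      rootsOfUnity (Fintype.card F + 1) K)) fun g h e =>
        hl (congrArg (fun x => (x.1 : K)) e)).trans (card_rootsOfUnity _ _)
  have h3 : orbit (SL2 F) (some θ) ⊆ (Set.range (Option.map (algebraMap F K)))ᶜ := by
    rintro _ ⟨g, rfl⟩
    exact fun h => h0 ((smul_mem_range g).1 h)
  have h4 : (Set.range (Option.map (algebraMap F K)))ᶜ.ncard =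
      Fintype.card F * (Fintype.card F - 1) := by
    rw [Set.ncard_compl, Set.ncard_range_of_injective (Option.map_injective
      (algebraMap F K).injective)]
    simp [hK, Nat.mul_sub, sq]
  have h5 := (stabilizer (SL2 F) (some θ)).card_mul_index
  rw [index_stabilizer, card_SL_two, ← h4, mul_comm _ (_ + 1)] at h5
  have h6 := Set.ncard_le_ncard h3
  have h7 : 0 < (Set.range (Option.map (algebraMap F K)))ᶜ.ncard := by
    rw [h4]; exact Nat.mul_pos (by omega) (by omega)
  have h8 : Nat.card (stabilizer (SL2 F) (some θ)) = Fintype.card F + 1 :=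
    h2.antisymm (Nat.le_of_mul_le_mul_right (h5.ge.trans (Nat.mul_le_mul_left _ h6)) h7)
  rw [h8] at h5
  have h9 := Set.eq_of_subset_of_ncard_le h3 (Nat.eq_of_mul_eq_mul_left (by omega) h5).ge
  have := isCyclic_of_injective_ringHom l hl
  obtain ⟨s, hs⟩ := IsCyclic.exists_generator (α := stabilizer (SL2 F) (some θ))
  refine ⟨θ, h0, fun z hz => (h9.ge hz :), s, ?_, le_antisymm (fun g hg => ?_)
    ((Subgroup.zpowers_le).2 s.2)⟩
  · rw [Subgroup.orderOf_coe, orderOf_eq_card_of_forall_mem_zpowers hs, h8]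
  · obtain ⟨n, hn⟩ := hs ⟨g, hg⟩
    exact ⟨n, congrArg Subtype.val hn⟩

variable {V : Type*} [AddCommGroup V] [Module K V] [FiniteDimensional K V]

theorem fix_eq (hK : Fintype.card K = Fintype.card F ^ 2) : ∃ s : SL2 F,
    orderOf s = Fintype.card F + 1 ∧ ∀ {V : Type*} [AddCommGroup V] [Module K V]
      [FiniteDimensional K V] (ρ : Representation K (SL2 F) V),
      fixDim ρ (slLin F).T + 2 * fixDim ρ ⊤ =
        fixDim ρ (Subgroup.zpowers s) + 2 * fixDim ρ (slLin F).B := by
  classical
  obtain ⟨θ, h0, h1, s, h2, h3⟩ := exists_nonsplit hK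
  refine ⟨s, h2, fun ρ => ?_⟩
  have h4 := finrank_Eqv_eq ρ (by simp [hK]; ring) itw (itw_smul hK) (itw_inj hK)
  rw [finrank_Eqv_orb ρ (Sum.map (fun p => decide (p.1 = p.2)) id)
      (Sum.map (fun b => (none, cond b none (some 0))) id) (by rintro ((_ | _) | _) <;> simp)
      (by rintro g (_ | _ | _) <;> simp) ?_,
    finrank_Eqv_orb ρ (Sum.map (fun z => decide (z ∈ Set.range (Option.map (algebraMap F K))))
      (Sum.map (fun _ => ()) fun _ => ()))
      (Sum.map (fun b => cond b none (some θ)) (Sum.map (fun _ => none) fun _ => none))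
      ?_ ?_ ?_] at h4
  · have e1 : stabilizer (SL2 F) (Sum.inl (none, none) :
        (Option F × Option F) ⊕ PUnit.{1} ⊕ PUnit.{1}) = (slLin F).B := by
      ext g; simp [smul_none]
    have e2 : stabilizer (SL2 F) (Sum.inl (none, some 0) :
        (Option F × Option F) ⊕ PUnit.{1} ⊕ PUnit.{1}) = (slLin F).T := by
      ext g; simp only [mem_stabilizer_iff, Sum.smul_inl, Sum.inl.injEq, Prod.smul_mk,
        Prod.mk.injEq, smul_none, smul_zero']; exact and_comm
    have e3 : ∀ x, stabilizer (SL2 F) (Sum.inr x :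
        (Option F × Option F) ⊕ PUnit.{1} ⊕ PUnit.{1}) = ⊤ := by
      rintro (_ | _) <;> ext g <;> simp
    have e4 : stabilizer (SL2 F) (Sum.inl none : Option K ⊕ Option F ⊕ Option F) =
      (slLin F).B := by ext g; simp [smul_none]
    have e5 : stabilizer (SL2 F) (Sum.inl (some θ) : Option K ⊕ Option F ⊕ Option F) =
      Subgroup.zpowers s := by rw [← h3]; ext g; simp
    have e6 : stabilizer (SL2 F) (Sum.inr (.inl none) : Option K ⊕ Option F ⊕ Option F) =
      (slLin F).B := by ext g; simp [smul_none]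
    have e7 : stabilizer (SL2 F) (Sum.inr (.inr none) : Option K ⊕ Option F ⊕ Option F) =
      (slLin F).B := by ext g; simp [smul_none]
    simp [e1, e2, e3, e4, e5, e6, e7] at h4
    omega
  · rintro ((_ | _) | _ | _)
    · simpa using h0
    · simp
    all_goals rfl
  · rintro g (_ | _ | _)
    · simp only [Sum.smul_inl, Sum.map_inl, smul_mem_range]
    all_goals rfl
  · rintro (z | x | x)
    · by_cases h : z ∈ Set.range (Option.map (algebraMap F K))
      · obtain ⟨x, rfl⟩ := h
        simpa using exists_smul_none x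
      · simpa only [Sum.map_inl, decide_eq_false h, cond_false, Sum.smul_inl, Sum.inl.injEq] using
          h1 z h
    all_goals simpa using exists_smul_none (K := F) x
  · rintro (⟨x, y⟩ | x)
    · by_cases h : x = y
      · simpa [h] using exists_smul_none (K := F) y
      · simpa [h] using exists_smul_pair h
    · exact ⟨1, one_smul _ _⟩

omit [Fintype F] [Fintype K] in
theorem u_smul (t a : F) : (slLin F).u t • (some a : Option F) = some (a + t) :=
  smul_eq_iff.2 ⟨1, by
    have : ((slLin F).u t).1 = !![1, t; 0, 1] := (slLin F).ρ_u t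
    ext i; fin_cases i <;> simp [mat, rp, this]⟩

omit [Fintype F] [Fintype K] in
theorem d_smul (c : Fˣ) (a : F) : dSL c • (some a : Option F) = some (c ^ 2 * a) :=
  smul_eq_iff.2 ⟨(c : F)⁻¹, by
    ext i; fin_cases i <;> simp [mat, rp, dSL]
    field_simp⟩

theorem fix_bound (ρ : Representation K (SL2 F) V) : ∃ m,
    fixDim ρ (slLin F).B = fixDim ρ ⊤ + m ∧ Fintype.card F * m ≤ finrank K V ∧
      fixDim ρ (slLin F).T + Fintype.card F * m ≤ finrank K V + 3 * m := by
  classical
  obtain ⟨p, hp⟩ := CharP.exists F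
  obtain ⟨n, hpp, hn⟩ := FiniteField.card F p
  have := Fact.mk hpp
  have hq : (Fintype.card F : K) = 0 := by
    rw [← map_natCast (algebraMap F K), FiniteField.cast_card_eq_zero, map_zero]
  obtain ⟨W, hW⟩ := ((fixSp ρ ⊤).comap (fixSp ρ (slLin F).B).subtype).exists_isCompl
  let ψ : fixSp ρ (slLin F).B → Option F → V := fun w x => x.elim w fun a => ρ (mv a) w
  have h0 : ∀ w (g : SL2 F), ψ w (g • none) = ρ g w := fun w g => by
    cases e : g • (none : Option F) with
    | none => exact (mem_fixSp.1 w.2 g (smul_none.1 e)).symm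
    | some a =>
      have := mem_fixSp.1 w.2 ((mv a)⁻¹ * g) ((smul_none (K := F)).1 (by
        rw [mul_smul, e, inv_smul_eq_iff, mv_smul]; rfl))
      change ρ (mv a) w = _
      conv_lhs => rw [← this]
      rw [← Module.End.mul_apply, ← map_mul, mul_inv_cancel_left]
  have h1 : ∀ w (g : SL2 F) x, ψ w (g • x) = ρ g (ψ w x) := fun w g x => by
    obtain ⟨h, e⟩ := exists_smul_none (K := F) x
    rw [show x = h • none by rw [e]; simp, ← mul_smul, h0, h0, map_mul, Module.End.mul_apply]
  let Θ : (F → W) →ₗ[K] V := ∑ a, (ρ (mv a) - 1) ∘ₗ (fixSp ρ (slLin F).B).subtype ∘ₗ W.subtype ∘ₗ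
    LinearMap.proj a
  have hΘ : ∀ f, Θ f = ∑ a, (ψ (f a) (some a) - (f a).1) := fun f => by simp [Θ, ψ]
  have h2 : ∀ g ∈ (slLin F).B, ∀ e : F ≃ F, (∀ a, g • (some a : Option F) = some (e a)) →
      ∀ f, ρ g (Θ (f ∘ e)) = Θ f := fun g hg e he f => by
    rw [hΘ, hΘ, map_sum, ← Equiv.sum_comp e fun a => ψ (f a) (some a) - (f a).1]
    exact sum_congr rfl fun a _ => by
      rw [map_sub, ← h1, he, mem_fixSp.1 ((f ∘ e) a).1.2 g hg]; rfl
  have hi : Function.Injective Θ := LinearMap.ker_eq_bot.1 (by
    by_contra h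
    have : Finite V := Module.finite_of_finite K
    obtain ⟨f, hf, hf0, hc⟩ := Fus.Grp.exists_fixed_ne_of_act (p := p) (P := Multiplicative F)
      (IsPGroup.of_card (by simpa using hn)) (fun t (f : F → W) => f ∘ Equiv.addRight t.toAdd)
      (fun f => by ext; simp) (fun s t f => by ext; simp [add_assoc])
      (LinearMap.ker Θ) (Set.toFinite _) (fun t f hf => by
        have := h2 ((slLin F).u t.toAdd) (by simp [Lin2.mem_B]) (Equiv.addRight t.toAdd) (u_smul _) f
        rw [show Θ f = 0 from hf] at this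
        simpa using congrArg (ρ ((slLin F).u t.toAdd)⁻¹) this) (by
        rw [← Nat.card_coe_set_eq]
        change p ∣ Nat.card (LinearMap.ker Θ)
        rw [Module.natCard_eq_pow_finrank (K := K)]
        refine dvd_pow ?_ fun e => h (Submodule.finrank_eq_zero.1 e)
        have := charP_of_injective_algebraMap (algebraMap F K).injective p
        rw [Nat.card_eq_fintype_card, ← CharP.cast_eq_zero_iff K p]
        exact FiniteField.cast_card_eq_zero K) (zero_mem _) fun _ => rfl
    have h3 : ∀ a, f a = f 0 := fun a => by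
      simpa using congrFun (hc (Multiplicative.ofAdd a)) 0
    have h4 : ∑ x, ψ (f 0) x = (f 0).1 := by
      have := hΘ f
      rw [show Θ f = 0 from hf, sum_sub_distrib] at this
      simp only [h3, sum_const, card_univ, ← Nat.cast_smul_eq_nsmul K, hq, zero_smul,
        sub_zero] at this
      rw [Fintype.sum_option, ← this, add_zero]; rfl
    have h5 : (f 0).1 ∈ (fixSp ρ ⊤).comap (fixSp ρ (slLin F).B).subtype :=
      mem_fixSp.2 fun g _ => by
        change ρ g (f 0).1 = (f 0).1
        rw [← h4, map_sum, ← Equiv.sum_comp (MulAction.toPerm g) (ψ (f 0))]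
        exact sum_congr rfl fun x _ => (h1 _ _ _).symm
    exact hf0 (funext fun a => (h3 a).trans (Subtype.ext
      (Submodule.disjoint_def.1 hW.disjoint _ h5 (f 0).2))))
  have h6 : finrank K (LinearMap.range Θ) = Fintype.card F * finrank K W := by
    rw [LinearMap.finrank_range_of_inj hi, Module.finrank_pi_fintype]; simp
  refine ⟨finrank K W, ?_, h6 ▸ Submodule.finrank_le _, ?_⟩
  · rw [fixDim, ← Submodule.finrank_add_eq_of_isCompl hW,
      (Submodule.comapSubtypeEquivOfLe (fixSp_anti ρ le_top)).finrank_eq]; rfl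
  obtain ⟨γ, hγ⟩ := IsCyclic.exists_monoid_generator (α := Fˣ)
  have h7 : finrank K ((fixSp ρ (slLin F).T).comap Θ) ≤ 3 * finrank K W := by
    refine (LinearMap.finrank_le_finrank_of_injective
      (f := (LinearMap.funLeft K W ![0, 1, (γ : F)]).domRestrict _) ((injective_iff_map_eq_zero _).2
        fun f hf => Subtype.ext (funext fun a => ?_))).trans_eq (by
          rw [Module.finrank_pi_fintype]; simp)
    have h8 : ∀ (c : Fˣ) a, f.1 (c ^ 2 * a) = f.1 a := fun c a => by
      have := h2 _ ((slLin F).T_le_B (dSL_mem_T c)) (Equiv.mulLeft₀ ((c : F) ^ 2) (by simp))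
        (d_smul c) f.1
      have h9 := congrArg (ρ (dSL c)⁻¹)
        (this.trans (mem_fixSp.1 (Submodule.mem_comap.1 f.2) _ (dSL_mem_T c)).symm)
      rw [Representation.inv_self_apply, Representation.inv_self_apply] at h9
      exact congrFun (hi h9) a
    have hf : ∀ i, f.1 (![0, 1, (γ : F)] i) = 0 := fun i => congrFun hf i
    by_cases ha : a = 0
    · exact ha.symm ▸ hf 0
    obtain ⟨j, hj⟩ := hγ (Units.mk0 a ha)
    have h9 : a = γ ^ j := by simpa using (congrArg Units.val hj).symm
    obtain ⟨i, rfl | rfl⟩ := j.even_or_odd'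
    · rw [h9, show (γ : F) ^ (2 * i) = (γ ^ i : Fˣ) ^ 2 * 1 by simp [← pow_mul, mul_comm], h8]
      exact hf 1
    · rw [h9, show (γ : F) ^ (2 * i + 1) = (γ ^ i : Fˣ) ^ 2 * γ by
        rw [Units.val_pow_eq_pow_val]; ring, h8]
      exact hf 2
  have h8 := Submodule.finrank_sup_add_finrank_inf_eq (LinearMap.range Θ) (fixSp ρ (slLin F).T)
  rw [← Submodule.map_comap_eq, ← (Submodule.equivMapOfInjective _ hi _).finrank_eq, h6] at h8
  have := Submodule.finrank_le (LinearMap.range Θ ⊔ fixSp ρ (slLin F).T)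
  rw [fixDim]
  omega

/-- The fixed spaces of the two tori. -/
theorem exists_tori (F : Type*) [Field F] [Fintype F] (p : ℕ) [Fact p.Prime] [CharP F p] :
    ∃ (γ : Fˣ) (s : SL2 F), orderOf γ = Fintype.card F - 1 ∧ orderOf s = Fintype.card F + 1 ∧
      ∀ {V : Type*} [AddCommGroup V] [Module (ZMod p) V] [FiniteDimensional (ZMod p) V]
        (ρ : Representation (ZMod p) (SL2 F) V), ∃ m, fx ρ (dSL γ) = fx ρ s + 2 * m ∧
          Fintype.card F * m ≤ finrank (ZMod p) V ∧
          fx ρ (dSL γ) + Fintype.card F * m ≤ finrank (ZMod p) V + 3 * m := by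
  classical
  have := Fintype.ofFinite (FiniteField.Extension F p 2)
  obtain ⟨s, h1, h2⟩ := fix_eq (F := F) (K := FiniteField.Extension F p 2) (by
    rw [← Nat.card_eq_fintype_card, FiniteField.natCard_extension, Nat.card_eq_fintype_card])
  obtain ⟨γ, hγ⟩ := IsCyclic.exists_generator (α := Fˣ)
  refine ⟨γ, s, by rw [orderOf_eq_card_of_forall_mem_zpowers hγ, Nat.card_eq_fintype_card,
    Fintype.card_units], h1, fun ρ => ?_⟩
  have := charP_of_injective_algebraMap (algebraMap F (FiniteField.Extension F p 2)).injective p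
  obtain ⟨τ, h3⟩ := exists_baseChange ρ (ZMod.castHom (dvd_refl p) (FiniteField.Extension F p 2))
  obtain ⟨m, h4, h5, h6⟩ := fix_bound τ
  have h7 : (slLin F).T = Subgroup.zpowers (dSL γ) := by
    refine le_antisymm (fun t ht => ?_) (Subgroup.zpowers_le.2 (dSL_mem_T γ))
    obtain ⟨a, ha⟩ := equivT_SL.surjective ⟨t, ht⟩
    obtain ⟨n, rfl⟩ := hγ a
    exact ⟨n, by simpa [coe_equivT_SL] using congrArg Subtype.val ha⟩
  have h8 := h2 τ
  rw [h7, fixDim_zpowers, h3] at h6 h8
  rw [fixDim_zpowers, h3] at h8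
  rw [finrank_fintype_fun_eq_card, Fintype.card_fin] at h5 h6
  exact ⟨m, by omega, h5, h6⟩

end Line

theorem Eqv_eq_1' : type_of% @Eqv.eq_1 := @Eqv.eq_1
theorem mapM_eq_1' : type_of% @mapM.eq_1 := @mapM.eq_1
theorem fx_eq_1' : type_of% @fx.eq_1 := @fx.eq_1
theorem rp_eq_1' : type_of% @rp.eq_1 := @rp.eq_1
theorem pt_eq_1' : type_of% @pt.eq_1 := @pt.eq_1
theorem mat_eq_1' : type_of% @mat.eq_1 := @mat.eq_1
theorem dt_eq_1' : type_of% @dt.eq_1 := @dt.eq_1
theorem dl_eq_1' : type_of% @dl.eq_1 := @dl.eq_1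
theorem kp_eq_1' : type_of% @kp.eq_1 := @kp.eq_1
theorem ep_eq_1' : type_of% @ep.eq_1 := @ep.eq_1
theorem itw_eq_1' : type_of% @itw.eq_1 := @itw.eq_1
theorem mv_eq_1' : type_of% @mv.eq_1 := @mv.eq_1

end Cfsg.Lib.Chev.L2F
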