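import Cfsg.Agent.Chev.E8SLat
import Cfsg.Agent.Chev.L2Fix
import Cfsg.Agent.Chev.CentTwo
import Cfsg.Agent.Chev.CoreCertE8
import Cfsg.Agent.Known.ChevSpec

/-! Fixed spaces of semisimple elements of `E₈(3)` on the adjoint module. -/

set_option autoImplicit false
set_option maxRecDepth 100000

namespace Cfsg.Lib.Chev

open Cfsg.Lie Cfsg.Lie.ChevalleyDatum Matrix Finset Module Cfsg.Lib.Chev.Core

namespace L2F

variable {k G V : Type*} [Field k] [Group G] [AddCommGroup V] [Module k V]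
  (ρ : Representation k G V)

theorem mem_ker_fx {g : G} {v : V} : v ∈ LinearMap.ker (1 - ρ g) ↔ ρ g v = v := by
  rw [LinearMap.mem_ker, LinearMap.sub_apply, End.one_apply, sub_eq_zero, eq_comm]

theorem fx_conj (h g : G) : fx ρ (h * g * h⁻¹) = fx ρ g := by
  refine (LinearEquiv.finrank_eq (LinearEquiv.ofSubmodules (LinearMap.GeneralLinearGroup.toLinearEquiv (ρ.asGroupHom h))
    _ _ ?_)).symm
  ext v
  simp only [Submodule.mem_map, mem_ker_fx]
  constructor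
  · rintro ⟨u, hu, rfl⟩
    change ρ _ (ρ h u) = ρ h u
    rw [← End.mul_apply, ← map_mul, inv_mul_cancel_right, map_mul, End.mul_apply, hu]
  · intro hv
    refine ⟨ρ h⁻¹ v, ?_, ρ.self_inv_apply h v⟩
    conv_rhs => rw [← hv]
    simp only [← End.mul_apply, ← map_mul, ← mul_assoc, inv_mul_cancel, one_mul]

theorem fx_isConj {g g' : G} (h : IsConj g g') : fx ρ g = fx ρ g' := by
  obtain ⟨c, rfl⟩ := isConj_iff.1 h
  exact (fx_conj ρ c g).symm

theorem fx_of_zpowers {g g' : G} (h : Subgroup.zpowers g = Subgroup.zpowers g') :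
    fx ρ g = fx ρ g' := by
  rw [← fixDim_zpowers, h, fixDim_zpowers]

theorem fx_mul [FiniteDimensional k V] (g h : G) :
    fx ρ g + fx ρ h ≤ finrank k V + fx ρ (g * h) := by
  rw [fx, fx, ← Submodule.finrank_sup_add_finrank_inf_eq]
  refine add_le_add (Submodule.finrank_le _) (Submodule.finrank_mono fun v hv => ?_)
  rw [mem_ker_fx, map_mul, End.mul_apply, (mem_ker_fx ρ).1 hv.2, (mem_ker_fx ρ).1 hv.1]

theorem fx_eq_finrank [FiniteDimensional k V] {g : G} (h : fx ρ g = finrank k V) : ρ g = 1 :=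
  LinearMap.ext fun v => (mem_ker_fx ρ).1
    ((Submodule.eq_top_of_finrank_eq h).ge (Submodule.mem_top (x := v)))

end L2F

namespace E8S

open L2F

/-- The group. -/
abbrev G8 : Type := chevE8.group (ZMod 3)

/-- The algebraic closure. -/
abbrev K3 : Type := AlgebraicClosure (ZMod 3)

/-- The adjoint representation. -/
noncomputable def ad8 : Representation (ZMod 3) G8 (chevE8.Idx → ZMod 3) where
  toFun g := Matrix.toLin' (g.1 : Matrix chevE8.Idx chevE8.Idx (ZMod 3))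
  map_one' := Matrix.toLin'_one
  map_mul' _ _ := Matrix.toLin'_mul _ _

theorem card_idx : Fintype.card chevE8.Idx = 248 := by
  rw [Fintype.card_sum, Fintype.card_fin, Fintype.card_fin]; rfl

theorem finrank_ad : finrank (ZMod 3) (chevE8.Idx → ZMod 3) = 248 := by
  rw [finrank_fintype_fun_eq_card, card_idx]

theorem eq_one_of_fx {g : G8} (h : fx ad8 g = 248) : g = 1 :=
  Subtype.ext (Units.ext (Matrix.toLin'.injective
    ((fx_eq_finrank ad8 (h.trans finrank_ad.symm)).trans Matrix.toLin'_one.symm)))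

/-- The embedding over the algebraic closure. -/
noncomputable def e8 : G8 →* GL chevE8.Idx K3 :=
  (mapGL chevE8 (algebraMap (ZMod 3) K3)).comp (chevE8.group (ZMod 3)).subtype

theorem e8_mem (g : G8) : e8 g ∈ chevE8.group K3 := mapGL_mem_group _ g.2

theorem fx_add_rank' (g : G8) (y : GL chevE8.Idx K3) :
    fx ad8 g + (1 - (y⁻¹ * e8 g * y).1).rank = 248 := by
  have h := fx_add_rank ad8 (Pi.basisFun _ _) g
  rw [card_idx, ← rank_map (algebraMap (ZMod 3) K3)] at h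
  rw [show 1 - (y⁻¹ * e8 g * y).1 = y⁻¹.1 * (1 - (e8 g).1) * y.1 by
      rw [mul_sub, sub_mul, mul_one, Units.inv_mul]; rfl,
    rank_mul_eq_left_of_isUnit_det _ _ (isUnits_det_units y),
    rank_mul_eq_right_of_isUnit_det _ _ (isUnits_det_units _), ← h]
  congr 2
  rw [Matrix.map_sub _ (map_sub _), Matrix.map_one _ (map_zero _) (map_one _),
    LinearMap.toMatrix_eq_toMatrix']
  rw [show LinearMap.toMatrix' (ad8 g) = g.1.1 from LinearMap.toMatrix'_toLin' _]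
  rfl

/-- Torus elements. -/
noncomputable def tz (z : K3ˣ) (μ : Fin 8 → ℤ) : GL chevE8.Idx K3 :=
  torGL rootE8 K3 fun i => z ^ μ i

theorem chr_tz (z : K3ˣ) (μ v : Fin 8 → ℤ) : chr (fun i => z ^ μ i) v = z ^ (μ ⬝ᵥ v) :=
  chr_zpow z μ v

theorem tz_pow (z : K3ˣ) (μ : Fin 8 → ℤ) (a : ℕ) : tz z μ ^ a = tz (z ^ a) μ := by
  rw [tz, ← map_pow]
  exact congrArg _ (funext fun i => by rw [Pi.pow_apply, ← zpow_natCast, ← zpow_natCast, ← _root_.zpow_mul,
    ← _root_.zpow_mul, mul_comm])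

theorem rank_tz {z : K3ˣ} {d : ℕ} (hd : 0 < d) (hz : orderOf z = d) (μ : Fin 8 → ℤ) :
    (1 - (tz z μ).1).rank + nz d μ = 240 := by
  classical
  rw [tz, coe_torGL, charDiag, ← diagonal_one, diagonal_sub, rank_diagonal, Fintype.card_subtype,
    card_filter, Fintype.sum_sum_type, nz_eq hd]
  simp only [Sum.elim_inl, Sum.elim_inr, sub_self, ne_eq, not_true, if_false, sum_const_zero,
    zero_add]
  rw [← Fin.sum_univ_eq_sum_range (fun r => if (d : ℤ) ∣ μ ⬝ᵥ w8.rc r then 1 else 0) 240]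
  refine (sum_add_distrib (s := univ) (ι := Fin 240)).symm.trans
    ((sum_congr rfl fun r _ => ?_ : _ = ∑ _ : Fin 240, 1).trans (by simp))
  have : (d : ℤ) ∣ μ ⬝ᵥ w8.rc r ↔ 1 - (chr (fun i => z ^ μ i) (w8.rc r)).1 = 0 := by
    rw [chr_tz, ← hz, orderOf_dvd_iff_zpow_eq_one, sub_eq_zero, eq_comm (a := (1 : K3)),
      Units.val_eq_one]
  by_cases h : (d : ℤ) ∣ μ ⬝ᵥ w8.rc r
  · exact congrArg₂ (· + ·) (if_neg (not_not.2 (this.1 h))) (if_pos h)
  · exact congrArg₂ (· + ·) (if_pos (mt this.2 h)) (if_neg h)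

theorem hs8 : ∃ d, CartanSNF chevE8 d ∧ ∀ i, 0 < d.getD i 1 := snf_of_mem (by simp)

theorem fr_of_conj {z : K3ˣ} {n j : ℕ} (hz : orderOf z = n) {μ : Fin 8 → ℤ} {a : GL chevE8.Idx K3}
    (ha : a ∈ chevE8.group K3) (h : a * tz z μ * a⁻¹ = tz z μ ^ j) : Fr n j μ := by
  rw [tz, ← map_pow] at h
  obtain ⟨w, hw⟩ := Known.exists_tor_eq_of_conj Core.certE8 rootE8
    ((Core.certE8.Yhat_G0_eq rootE8 hs8).ge ha) h
  refine ⟨w, fun i => ?_⟩
  have h1 : z ^ (w8.co w μ i) = (z ^ μ i) ^ j := (chr_tz z μ _).symm.trans (congrFun hw i)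
  rwa [← zpow_natCast, ← _root_.zpow_mul, zpow_eq_zpow_iff_modEq, hz, mul_comm] at h1

theorem exists_order {n : ℕ} (h3 : ¬ 3 ∣ n) : ∃ z : K3ˣ, orderOf z = n := by
  have : NeZero (n : K3) := ⟨fun h => h3 ((CharP.cast_eq_zero_iff K3 3 n).1 h)⟩
  have : NeZero n := ⟨fun h => h3 (h ▸ dvd_zero _)⟩
  obtain ⟨z, hz⟩ := HasEnoughRootsOfUnity.exists_primitiveRoot K3 n
  exact ⟨(hz.isUnit (NeZero.ne n)).unit, (hz.isUnit_unit (NeZero.ne n)).eq_orderOf.symm⟩

theorem exists_tz (g : G8) {n : ℕ} (h3 : ¬ 3 ∣ n) (hn : g ^ n = 1) : ∃ (z : K3ˣ) (μ : Fin 8 → ℤ),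
    ∃ y ∈ chevE8.group K3, orderOf z = n ∧ y⁻¹ * e8 g * y = tz z μ := by
  have : NeZero n := ⟨fun h => h3 (h ▸ dvd_zero _)⟩
  have h1 : e8 g ^ n = 1 := by rw [← map_pow, hn, map_one]
  obtain ⟨y, hy, c, hc⟩ := Core.certE8.exists_conj_torGL rootE8 (p := 3)
    (alg_of_finite (ZMod 3) 3) (Core.certE8.hSub_eq_range (k := K3) rootE8 hs8) (e8_mem g)
    fun h => h3 (h.trans (orderOf_dvd_of_pow_eq_one h1))
  obtain ⟨z, hz⟩ := exists_order h3
  have h2 : c ^ n = 1 := torGL_injective rootE8 (by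
    have := conj_pow (a := y⁻¹) (b := e8 g) (i := n)
    rw [inv_inv, h1, hc] at this
    rw [map_pow, this, map_one, mul_one, inv_mul_cancel])
  choose μ _ hμ using fun i => (hz ▸ IsPrimitiveRoot.orderOf z).eq_pow_of_mem_rootsOfUnity
    ((mem_rootsOfUnity n (c i)).2 (congrFun h2 i))
  exact ⟨z, fun i => μ i, y, hy, hz, hc.trans (congrArg _ (funext fun i => by
    rw [← hμ i]; exact (zpow_natCast _ _).symm))⟩

theorem fx_pow {g : G8} {z : K3ˣ} {μ : Fin 8 → ℤ} {y : GL chevE8.Idx K3} {a d : ℕ}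
    (h0 : 0 < a * d) (hz : orderOf z = a * d) (h : y⁻¹ * e8 g * y = tz z μ) :
    fx ad8 (g ^ a) = 8 + nz d μ := by
  have h1 := fx_add_rank' (g ^ a) y
  have h2 := conj_pow (a := y⁻¹) (b := e8 g) (i := a)
  rw [inv_inv, h, tz_pow, ← map_pow] at h2
  have ha : 0 < a := Nat.pos_of_mul_pos_right h0
  have h3 := rank_tz (Nat.pos_of_mul_pos_left h0) (z := z ^ a) (by
    rw [orderOf_pow_of_dvd ha.ne' (hz ▸ dvd_mul_right _ _), hz, Nat.mul_div_cancel_left _ ha]) μ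
  rw [← h2] at h1
  omega

theorem fr_three {g : G8} {z : K3ˣ} {μ : Fin 8 → ℤ} {y : GL chevE8.Idx K3} {n : ℕ}
    (hy : y ∈ chevE8.group K3) (hz : orderOf z = n) (h : y⁻¹ * e8 g * y = tz z μ) : Fr n 3 μ := by
  let φ := iterateFrobenius K3 3 1
  have h8 : mapGL chevE8 φ (e8 g) = e8 g := by
    refine (mapGL_comp (algebraMap (ZMod 3) K3) φ g.1).trans ?_
    rw [RingHom.ext_zmod (φ.comp _) (algebraMap (ZMod 3) K3)]
    rfl
  have h9 := congrArg (mapGL chevE8 φ) h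
  rw [map_mul, map_mul, map_inv, h8, tz, Cert.mapGL_torGL_pow (p := 3) (e := 1) rootE8 fun _ => rfl,
    map_pow] at h9
  refine fr_of_conj hz (mul_mem (inv_mem (mapGL_mem_group φ hy)) hy) (Eq.trans ?_ h9)
  rw [← h]; group

theorem exists_cw (g : G8) {n : ℕ} (h3 : ¬ 3 ∣ n) (hn : g ^ n = 1) : ∃ μ : Fin 8 → ℤ, Fr n 3 μ ∧
    (∀ a d, a * d = n → fx ad8 (g ^ a) = 8 + nz d μ) ∧ ∀ j, IsConj g (g ^ j) → Fr n j μ := by
  obtain ⟨z, μ, y, hy, hz, h⟩ := exists_tz g h3 hn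
  refine ⟨μ, fr_three hy hz h, fun a d e => fx_pow (Nat.pos_of_ne_zero fun h => h3 ?_)
    (hz.trans e.symm) h, fun j hj => ?_⟩
  · rw [← e, h]; exact dvd_zero _
  · obtain ⟨c, hc⟩ := isConj_iff.1 hj
    refine fr_of_conj hz (a := y⁻¹ * e8 c * y) (mul_mem (mul_mem (inv_mem hy) (e8_mem c)) hy) ?_
    have h2 := conj_pow (a := y⁻¹) (b := e8 g) (i := j)
    rw [inv_inv, ← map_pow, ← hc, map_mul, map_mul, map_inv] at h2
    rw [← h, h2]; group

end E8S

theorem E8S.G8_eq_1' : type_of% @E8S.G8.eq_1 := @E8S.G8.eq_1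
theorem E8S.K3_eq_1' : type_of% @E8S.K3.eq_1 := @E8S.K3.eq_1
theorem E8S.ad8_eq_1' : type_of% @E8S.ad8.eq_1 := @E8S.ad8.eq_1
theorem E8S.e8_eq_1' : type_of% @E8S.e8.eq_1 := @E8S.e8.eq_1
theorem E8S.tz_eq_1' : type_of% @E8S.tz.eq_1 := @E8S.tz.eq_1

end Cfsg.Lib.Chev
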