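import Cfsg.Agent.Chev.E8SFix

/-! Inequalities and congruences for fixed spaces. -/

set_option autoImplicit false

namespace Cfsg.Lib.Chev.L2F

open Module Finset Cfsg.Lib.FT

section Lin

variable {K V : Type*} [Field K] [AddCommGroup V] [Module K V] [FiniteDimensional K V]

theorem scott (a b c : End K V) (h : a * b * c = 1) :
    finrank K V + finrank K ↥(LinearMap.range (1 - a) ⊔ LinearMap.range (1 - b)) ≤
      finrank K ↥(LinearMap.ker (1 - a) ⊓ LinearMap.ker (1 - b)) +
        (finrank K (LinearMap.range (1 - a)) + finrank K (LinearMap.range (1 - b)) +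
          finrank K (LinearMap.range (1 - c))) := by
  let β := ((1 - a).rangeRestrict.prod (1 - b).rangeRestrict).prod (1 - c).rangeRestrict
  let δ := ((LinearMap.range (1 - a)).subtype.coprod (a ∘ₗ (LinearMap.range (1 - b)).subtype)).coprod
    ((a * b) ∘ₗ (LinearMap.range (1 - c)).subtype)
  have h1 : LinearMap.range β ≤ LinearMap.ker δ := by
    rintro _ ⟨v, rfl⟩
    have := LinearMap.congr_fun h v
    simp only [Module.End.mul_apply, Module.End.one_apply] at this
    simp [β, δ, this]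
  have h2 : LinearMap.range (1 - a) ⊔ LinearMap.range (1 - b) ≤ LinearMap.range δ := sup_le
    (fun v hv => ⟨((⟨v, hv⟩, 0), 0), by simp [δ]⟩)
    fun v hv => ⟨((⟨(1 - a) v, v, rfl⟩, ⟨v, hv⟩), 0), by simp [δ]⟩
  have h3 : LinearMap.ker β ≤ LinearMap.ker (1 - a) ⊓ LinearMap.ker (1 - b) := fun v hv => by
    have : β v = 0 := hv
    exact ⟨Subtype.ext_iff.1 (Prod.ext_iff.1 (Prod.ext_iff.1 this).1).1,
      Subtype.ext_iff.1 (Prod.ext_iff.1 (Prod.ext_iff.1 this).1).2⟩
  have h4 := β.finrank_range_add_finrank_ker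
  have h5 := δ.finrank_range_add_finrank_ker
  rw [finrank_prod, finrank_prod] at h5
  have := Submodule.finrank_mono h1
  have := Submodule.finrank_mono h2
  have := Submodule.finrank_mono h3
  omega

theorem finrank_map_add (φ : End K V) (E : Submodule K V) :
    finrank K (E.map φ) + finrank K ↥(E ⊓ LinearMap.ker φ) = finrank K E := by
  rw [← (φ.domRestrict E).finrank_range_add_finrank_ker, LinearMap.range_domRestrict,
    LinearMap.ker_domRestrict, ← Submodule.finrank_map_subtype_eq, Submodule.map_comap_subtype]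

theorem three_mul_finrank_map {φ : End K V} (h : φ * φ * φ = 0) {E : Submodule K V}
    (hE : E.map φ ≤ E) : 3 * finrank K (E.map φ) ≤ 2 * finrank K E := by
  have h1 := finrank_map_add φ E
  have h2 := finrank_map_add φ (E.map φ)
  have h3 : (E.map φ).map φ ≤ E ⊓ LinearMap.ker φ := by
    rintro _ ⟨_, ⟨v, hv, rfl⟩, rfl⟩
    exact ⟨hE ⟨_, hE ⟨v, hv, rfl⟩, rfl⟩, LinearMap.congr_fun h v⟩
  have := Submodule.finrank_mono h3
  have := Submodule.finrank_mono (inf_le_inf_right (LinearMap.ker φ) hE)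
  omega

theorem rank_add_le' {ι : Type*} [Fintype ι] (A B : Matrix ι ι K) :
    (A + B).rank ≤ A.rank + B.rank := by
  refine le_trans (Submodule.finrank_mono ?_) (Submodule.finrank_add_le_finrank_add_finrank _ _)
  rintro _ ⟨v, rfl⟩
  rw [Matrix.mulVecLin_add]
  exact Submodule.add_mem_sup ⟨v, rfl⟩ ⟨v, rfl⟩

theorem rank_le_of_commute {ι : Type*} [Fintype ι] [DecidableEq ι] {N : Matrix ι ι K} {d : ι → K}
    (hN : N * N * N = 0) (hc : Matrix.diagonal d * N = N * Matrix.diagonal d) {n : ℕ} {c : ι → ℕ}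
    (hn : ∀ i, c i < n) (hd : ∀ i j, d i = d j → c i = c j) :
    N.rank ≤ ∑ t ∈ range n, 2 * (∑ i, if c i = t then 1 else 0) / 3 := by
  let P : ℕ → Matrix ι ι K := fun t => Matrix.diagonal fun i => if c i = t then 1 else 0
  have h1 : ∀ t, N * P t = P t * N := fun t => by
    ext i j
    have := congrFun (congrFun hc i) j
    simp only [P, Matrix.diagonal_mul, Matrix.mul_diagonal] at this ⊢
    by_cases h : N i j = 0
    · simp [h]
    · rw [hd i j (mul_right_cancel₀ h (this.trans (mul_comm _ _))), mul_comm]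
  have h2 : ∀ k, (N * ∑ t ∈ range k, P t).rank ≤
      ∑ t ∈ range k, 2 * (∑ i, if c i = t then 1 else 0) / 3 := fun k => by
    induction k with
    | zero => simp
    | succ k ih =>
      rw [sum_range_succ, sum_range_succ, mul_add]
      refine (rank_add_le' _ _).trans (add_le_add ih ?_)
      have h3 := three_mul_finrank_map (φ := N.mulVecLin) (E := LinearMap.range (P k).mulVecLin)
        (by rw [End.mul_eq_comp, End.mul_eq_comp, ← Matrix.mulVecLin_mul, ← Matrix.mulVecLin_mul,
          hN, Matrix.mulVecLin_zero])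
        (by rw [← LinearMap.range_comp, ← Matrix.mulVecLin_mul, h1, Matrix.mulVecLin_mul]
            exact LinearMap.range_comp_le_range _ _)
      rw [← LinearMap.range_comp, ← Matrix.mulVecLin_mul] at h3
      have h4 : (P k).rank = ∑ i, if c i = k then 1 else 0 := by
        classical
        rw [Matrix.rank_diagonal, Fintype.card_subtype, card_filter]
        exact sum_congr rfl fun i _ => by by_cases h : c i = k <;> simp [h]
      change 3 * Matrix.rank _ ≤ 2 * Matrix.rank _ at h3
      omega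
  have h3 : ∑ t ∈ range n, P t = 1 := by
    ext i j
    rw [Matrix.sum_apply]
    by_cases h : i = j
    · subst h; simp [P, hn]
    · simp [P, h]
  simpa [h3] using h2 n

end Lin

variable {k G V : Type*} [Field k] [Group G] [AddCommGroup V] [Module k V] [FiniteDimensional k V]
  (ρ : Representation k G V)

theorem fx_scott (h2 : (2 : k) ≠ 0) {t u c : G} (ht : t * t = 1) (h : t * u * c = 1) :
    fx ρ u + fx ρ c ≤ fx ρ t + fx ρ (t * (u * t * u⁻¹)) := by
  have h1 := scott (ρ t) (ρ u) (ρ c) (by rw [← map_mul, ← map_mul, h, map_one])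
  have r := fun g => (1 - ρ g).finrank_range_add_finrank_ker
  have hm : ∀ g g' v, ρ g (ρ g' v) = ρ (g * g') v := fun g g' v => by rw [map_mul]; rfl
  have hn : ∀ {g}, g * g = 1 → ∀ v ∈ LinearMap.range (1 - ρ g), ρ g v = -v := by
    rintro g hg _ ⟨v, rfl⟩
    simp [hm, hg]
  have ht' : u * t * u⁻¹ * (u * t * u⁻¹) = 1 := by
    rw [show u * t * u⁻¹ * (u * t * u⁻¹) = u * (t * t) * u⁻¹ by group, ht]; group
  have h3 : LinearMap.range (1 - ρ t) ⊔ LinearMap.range (1 - ρ (u * t * u⁻¹)) ≤
      LinearMap.range (1 - ρ t) ⊔ LinearMap.range (1 - ρ u) := by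
    refine sup_le le_sup_left ?_
    rintro _ ⟨v, rfl⟩
    have : (1 - ρ (u * t * u⁻¹)) v = (1 - ρ t) (ρ u⁻¹ v) +
        (1 - ρ u) (ρ (t * u⁻¹) v - ρ u⁻¹ v) := by
      simp only [LinearMap.sub_apply, End.one_apply, map_sub, hm, mul_inv_cancel, map_one, mul_assoc]
      abel
    rw [this]
    exact Submodule.add_mem_sup ⟨_, rfl⟩ ⟨_, rfl⟩
  have h4 : (LinearMap.ker (1 - ρ t) ⊓ LinearMap.ker (1 - ρ u)) ⊔ (LinearMap.range (1 - ρ t) ⊓
      LinearMap.range (1 - ρ (u * t * u⁻¹))) ≤ LinearMap.ker (1 - ρ (t * (u * t * u⁻¹))) := by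
    refine sup_le (fun v hv => ?_) fun v hv => ?_
    · have a1 := (mem_ker_fx ρ).1 hv.1
      have a2 := (mem_ker_fx ρ).1 hv.2
      have a3 : ρ u⁻¹ v = v := by
        conv_lhs => rw [← a2]
        rw [hm, inv_mul_cancel, map_one]; rfl
      rw [mem_ker_fx, ← hm, ← hm, ← hm, a3, a1, a2, a1]
    · rw [mem_ker_fx, ← hm, hn ht' v hv.2, map_neg, hn ht v hv.1, neg_neg]
  have h5 : (LinearMap.ker (1 - ρ t) ⊓ LinearMap.ker (1 - ρ u)) ⊓ (LinearMap.range (1 - ρ t) ⊓
      LinearMap.range (1 - ρ (u * t * u⁻¹))) = ⊥ := by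
    refine eq_bot_iff.2 fun v hv => ?_
    have a1 := ((mem_ker_fx ρ).1 hv.1.1).symm.trans (hn ht v hv.2.1)
    rw [eq_neg_iff_add_eq_zero, ← two_smul k, smul_eq_zero] at a1
    exact a1.resolve_left h2
  have h6 := Submodule.finrank_sup_add_finrank_inf_eq (LinearMap.ker (1 - ρ t) ⊓
    LinearMap.ker (1 - ρ u)) (LinearMap.range (1 - ρ t) ⊓ LinearMap.range (1 - ρ (u * t * u⁻¹)))
  have h7 := Submodule.finrank_sup_add_finrank_inf_eq (LinearMap.range (1 - ρ t))
    (LinearMap.range (1 - ρ (u * t * u⁻¹)))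
  rw [h5, finrank_bot] at h6
  have := Submodule.finrank_mono h3
  have := Submodule.finrank_mono h4
  have := r t
  have := r u
  have := r c
  have := r (u * t * u⁻¹)
  have := fx_conj ρ u t
  unfold fx at *
  omega

omit [FiniteDimensional k V] in
theorem fx_sub {H : Type*} [Group H] (f : H →* G) (S : Subgroup G)
    (h : ∀ x, fixSp ρ S ≤ (fixSp ρ S).comap ((ρ.comp f) x)) (x : H) :
    fx (Representation.subrepresentation (ρ.comp f) _ h) x =
      fixDim ρ (S ⊔ Subgroup.zpowers (f x)) := by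
  rw [fx, ← Submodule.finrank_map_subtype_eq, fixDim]
  refine congrArg (fun W : Submodule k V => finrank k W) (Submodule.ext fun v => ?_)
  simp only [Submodule.mem_map, mem_ker_fx]
  constructor
  · rintro ⟨⟨v, hv⟩, h1, rfl⟩
    have h2 : v ∈ fixSp ρ (Subgroup.zpowers (f x)) := by
      rw [fixSp_zpowers, mem_ker_fx]; exact congrArg Subtype.val h1
    refine mem_fixSp.2 fun g hg => ?_
    rw [Subgroup.sup_eq_closure] at hg
    induction hg using Subgroup.closure_induction with
    | mem g hg => exact hg.elim (mem_fixSp.1 hv g) (mem_fixSp.1 h2 g)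
    | one => rw [map_one]; rfl
    | mul a b _ _ ha hb => rw [map_mul, End.mul_apply, hb, ha]
    | inv a _ ha =>
      conv_lhs => rw [← ha]
      exact ρ.inv_self_apply _ _
  · exact fun hv => ⟨⟨v, fixSp_anti ρ le_sup_left hv⟩, Subtype.ext
      (mem_fixSp.1 hv _ (Subgroup.mem_sup_right (Subgroup.mem_zpowers _))), rfl⟩

omit [FiniteDimensional k V] in
theorem fixSp_le_comap {S : Subgroup G} {g : G} (h : ∀ s ∈ S, g⁻¹ * s * g ∈ S) :
    fixSp ρ S ≤ (fixSp ρ S).comap (ρ g) := fun v hv => mem_fixSp.2 fun s hs => by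
  conv_rhs => rw [← mem_fixSp.1 hv _ (h s hs)]
  simp only [← End.mul_apply, ← map_mul, ← mul_assoc, mul_inv_cancel, one_mul]

section Three

variable {V : Type*} [AddCommGroup V] [Module (ZMod 3) V] [FiniteDimensional (ZMod 3) V]
  (ρ : Representation (ZMod 3) G V)

theorem fx_five {g : G} (h : ρ g ^ 5 = 1) : fx ρ g % 4 = finrank (ZMod 3) V % 4 := by
  have : Fact (Nat.Prime 5) := ⟨by norm_num⟩
  have : Finite V := Module.finite_of_finite (ZMod 3)
  let a := ρ.asGroupHom g
  have hp : IsPGroup 5 (Subgroup.zpowers a) := IsPGroup.of_card_dvd_pow (n := 1) (by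
    rw [Nat.card_zpowers]
    exact orderOf_dvd_of_pow_eq_one (Units.ext h))
  have h1 := hp.card_modEq_card_fixedPoints V
  have h2 : Nat.card (MulAction.fixedPoints (Subgroup.zpowers a) V) =
      Nat.card (LinearMap.ker (1 - ρ g)) := Nat.card_congr (Equiv.subtypeEquivRight fun v => by
    rw [mem_ker_fx]
    exact ⟨fun h => h ⟨a, Subgroup.mem_zpowers a⟩, fun h b =>
      (Subgroup.zpowers_le_of_mem (H := MulAction.stabilizer _ v) (g := a) h) b.2⟩)
  rw [h2, Module.natCard_eq_pow_finrank (K := ZMod 3) (V := V), Module.natCard_eq_pow_finrank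
    (K := ZMod 3) (V := LinearMap.ker _), Nat.card_zmod] at h1
  have key : ∀ n, 3 ^ n ≡ 3 ^ (n % 4) [MOD 5] := fun n => by
    conv_lhs => rw [← Nat.div_add_mod n 4, pow_add, pow_mul]
    simpa using ((show 3 ^ 4 ≡ 1 [MOD 5] by decide).pow (n / 4)).mul_right (3 ^ (n % 4))
  have h3 : ∀ a < 4, ∀ b < 4, 3 ^ a ≡ 3 ^ b [MOD 5] → b = a := by decide
  exact h3 _ (Nat.mod_lt _ (by omega)) _ (Nat.mod_lt _ (by omega))
    ((key _).symm.trans (h1.trans (key _)))

/-- Sums over the list are invariant under left multiplication. -/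
def LInv (L : List G) : Subgroup G where
  carrier := {s | (L.map (s * ·)).Perm L}
  one_mem' := by simp
  mul_mem' {a b} ha hb := by
    have := (List.Perm.map (a * ·) hb).trans ha
    rw [List.map_map] at this
    simpa only [Function.comp_def, ← mul_assoc, Set.mem_ofPred_eq] using this
  inv_mem' {a} ha := by
    have := (List.Perm.map (a⁻¹ * ·) ha).symm
    rw [List.map_map] at this
    simpa [Function.comp_def] using this

theorem sum_unif {S : Subgroup G} [Fintype S] {L : List G} (hL : ∀ a ∈ L, a ∈ S) (hS : S ≤ LInv L)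
    (φ : G → ℂ) : Nat.card S * (L.map φ).sum = L.length * ∑ s : S, φ s := by
  have h1 : ∀ M : List G, (∀ a ∈ M, a ∈ S) →
      ∑ s : S, (M.map fun a => φ (s * a)).sum = M.length * ∑ s : S, φ s := fun M hM => by
    induction M with
    | nil => simp
    | cons a M ih =>
      simp only [List.map_cons, List.sum_cons, sum_add_distrib, List.length_cons, Nat.cast_succ]
      rw [ih fun b hb => hM b (by simp [hb]), add_mul, one_mul, add_comm]
      congr 1
      exact Fintype.sum_equiv (Equiv.mulRight (⟨a, hM a (by simp)⟩ : S)) _ _ fun _ => rfl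
  rw [← h1 L hL, sum_congr rfl fun (s : S) _ => (show (L.map fun a => φ (s * a)).sum = (L.map φ).sum by
    have := ((hS s.2 : List.Perm _ _).map φ).sum_eq
    rwa [List.map_map] at this)]
  simp

theorem sum_two [Finite G] {S : Subgroup G} {L : List G} (h1 : 1 ∈ L) (hL : ∀ a ∈ L, a ∈ S)
    (hS : S ≤ LInv L) (h8 : ∀ a ∈ L, a ^ 8 = 1) :
    L.length * fixDim ρ S + (L.map fun a => fx ρ (a ^ 2)).sum = 2 * (L.map (fx ρ)).sum := by
  classical
  have : Fact (Nat.Prime 3) := ⟨by norm_num⟩
  have : Fact (Nat.Prime 2) := ⟨by norm_num⟩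
  have := Fintype.ofFinite S
  have h9 : ∀ s : S, s ^ 8 = 1 := fun s => Subtype.ext (h8 _ ((hS s.2 : List.Perm _ _).subset
    (List.mem_map.2 ⟨1, h1, mul_one _⟩)))
  obtain ⟨e, he⟩ := IsPGroup.iff_card.1 (show IsPGroup 2 S from fun s => ⟨3, h9 s⟩)
  obtain ⟨n, τ, hτ⟩ := exists_complex_lift (p := 3) (G := S) (by
    rw [he]; exact fun h => absurd (Nat.prime_three.dvd_of_dvd_pow h) (by norm_num))
    (ρ.comp S.subtype)
  have h2 : ∀ (s : S) (N : ℕ), 0 < N → s ^ N = 1 →
      (N : ℂ) * fx ρ s = ∑ j ∈ range N, τ.character (s ^ j) := fun s N hN hs => by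
    have := Fintype.ofFinite (Subgroup.zpowers s)
    have h3 := sum_unif (S := Subgroup.zpowers s) (L := (List.range N).map (s ^ ·))
      (fun a ha => by obtain ⟨j, -, rfl⟩ := List.mem_map.1 ha; exact Subgroup.npow_mem_zpowers _ _)
      (Subgroup.zpowers_le_of_mem (by
        obtain ⟨N, rfl⟩ : ∃ M, N = M + 1 := ⟨N - 1, by omega⟩
        change List.Perm _ _
        conv_lhs => rw [List.range_succ]
        rw [List.range_succ_eq_map]
        simp only [List.map_append, List.map_map, List.map_cons, List.map_nil, Function.comp_def,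
          ← pow_succ', hs, pow_zero]
        exact List.perm_append_singleton _ _)) τ.character
    rw [← card_mul_fixDim, hτ, fixDim_zpowers, mul_left_comm, mul_right_inj'
      (Nat.cast_ne_zero.2 Nat.card_pos.ne'), List.map_map, List.length_map, List.length_range] at h3
    exact h3.symm
  have h3 : ∀ j, j * j % 8 = 1 → ∑ s : S, τ.character (s ^ j) = ∑ s : S, τ.character s :=
    fun j hj => Fintype.sum_bijective (· ^ j) (Function.Involutive.bijective fun s => by
      rw [← pow_mul, pow_eq_pow_mod _ (h9 s), hj, pow_one]) _ _ fun _ => rfl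
  have h4 : ∑ s : S, (2 * (fx ρ (s : G) : ℂ) - fx ρ ((s : G) ^ 2)) = Nat.card S * fixDim ρ S := by
    have h5 := card_mul_fixDim τ ⊤
    rw [hτ, fixDim_comp, ← MonoidHom.range_eq_map, Subgroup.range_subtype, Subgroup.card_top,
      Fintype.sum_equiv Subgroup.topEquiv.toEquiv (fun s => τ.character s.1) (fun s => τ.character s)
        fun _ => rfl] at h5
    refine mul_left_cancel₀ (show (4 : ℂ) ≠ 0 by norm_num) ?_
    rw [h5, mul_sum, sum_congr rfl fun s _ => show _ = τ.character (s ^ 1) + τ.character (s ^ 3) +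
      τ.character (s ^ 5) + τ.character (s ^ 7) from ?_]
    · simp only [sum_add_distrib]
      rw [h3 1 rfl, h3 3 rfl, h3 5 rfl, h3 7 rfl]; ring
    · have a1 := h2 s 8 (by omega) (h9 s)
      have a2 := h2 (s ^ 2) 4 (by omega) (by rw [← pow_mul, h9])
      simp only [sum_range_succ, ← pow_mul, range_zero, sum_empty, Subgroup.coe_pow] at a1 a2
      push_cast at a1 a2
      linear_combination a1 - a2
  have h5 := sum_unif hL hS fun a => 2 * (fx ρ a : ℂ) - fx ρ (a ^ 2)
  rw [h4, mul_left_comm, mul_right_inj' (Nat.cast_ne_zero.2 Nat.card_pos.ne')] at h5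
  have h6 : ∀ M : List G, (M.map fun a => 2 * (fx ρ a : ℂ) - fx ρ (a ^ 2)).sum =
      2 * ((M.map (fx ρ)).sum : ℕ) - ((M.map fun a => fx ρ (a ^ 2)).sum : ℕ) := fun M => by
    induction M with
    | nil => simp
    | cons a M ih => simp only [List.map_cons, List.sum_cons, ih]; push_cast; ring
  rw [h6] at h5
  exact_mod_cast (show ((L.length : ℂ) * fixDim ρ S + ((L.map fun a => fx ρ (a ^ 2)).sum : ℕ)) =
    2 * ((L.map (fx ρ)).sum : ℕ) by linear_combination -h5)

end Three

theorem LInv_eq_1' : type_of% @LInv.eq_1 := @LInv.eq_1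

end Cfsg.Lib.Chev.L2F
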