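import Cfsg.Agent.Chev.E8SGen

/-! Packed `6 × 6` matrices over the field with three elements, modulo sign. -/

set_option autoImplicit false
set_option maxRecDepth 100000

namespace Cfsg.Lib.Chev.M6

open Matrix Finset Module L2F E8S Cfsg.Lib.FT Cfsg.Lib.Known.WE

/-- The matrices. -/
abbrev Mat : Type := Matrix (Fin 6) (Fin 6) (ZMod 3)

/-- An entry. -/
def en (A t : ℕ) : ℕ := Nat.mod (Nat.shiftRight A (Nat.mul 2 t)) 4

/-- Packing. -/
noncomputable def pk (f : ℕ → ℕ) : ℕ :=
  Nat.rec 0 (fun t acc => Nat.add acc (Nat.mul (f t) (Nat.pow 4 t))) 36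

/-- An entry of the product. -/
def dt (A B i j : ℕ) : ℕ := Nat.mod (Nat.add (Nat.add (Nat.add (Nat.add (Nat.add
  (Nat.mul (en A i) (en B j)) (Nat.mul (en A (Nat.add i 1)) (en B (Nat.add 6 j))))
  (Nat.mul (en A (Nat.add i 2)) (en B (Nat.add 12 j))))
  (Nat.mul (en A (Nat.add i 3)) (en B (Nat.add 18 j))))
  (Nat.mul (en A (Nat.add i 4)) (en B (Nat.add 24 j))))
  (Nat.mul (en A (Nat.add i 5)) (en B (Nat.add 30 j)))) 3

/-- The product. -/
noncomputable def mu (A B : ℕ) : ℕ := pk fun t => dt A B (Nat.mul 6 (Nat.div t 6)) (Nat.mod t 6)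

/-- The transpose. -/
noncomputable def tp (A : ℕ) : ℕ := pk fun t => en A (6 * (t % 6) + t / 6)

/-- The identity. -/
def one : ℕ := 1180663682709764194305

/-- Minus the identity. -/
def ng : ℕ := 2361327365419528388610

/-- The matrix of a code. -/
def toM (A : ℕ) : Mat := Matrix.of fun i j => (en A (6 * i + j) : ZMod 3)

theorem en_pk {f : ℕ → ℕ} (hf : ∀ t, f t < 4) {t : ℕ} (ht : t < 36) : en (pk f) t = f t := by
  have h : ∀ n, Nat.rec 0 (fun t acc => Nat.add acc (Nat.mul (f t) (Nat.pow 4 t))) n = pack 4 f n :=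
    fun n => by
      induction n with
      | zero => rfl
      | succ n ih => rw [pack, sum_range_succ, ← pack, ← ih]; rfl
  rw [← pack_digit (fun t _ => hf t) ht, ← h]
  change pk f >>> (2 * t) % 4 = _
  rw [Nat.shiftRight_eq_div_pow, pow_mul]; rfl

theorem toM_mu (A B : ℕ) : toM (mu A B) = toM A * toM B := by
  ext i j
  have h1 : (6 * i + j : ℕ) / 6 = i := by omega
  have h2 : (6 * i + j : ℕ) % 6 = j := by omega
  rw [toM, of_apply, mu, en_pk (f := fun t => dt A B (Nat.mul 6 (Nat.div t 6)) (Nat.mod t 6))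
    (fun t => (Nat.mod_lt _ (by omega)).trans (by omega)) (by omega)]
  change ((dt A B (6 * ((6 * i + j) / 6)) ((6 * i + j) % 6) : ℕ) : ZMod 3) = _
  rw [h1, h2, mul_apply, Fin.sum_univ_six]
  refine (ZMod.natCast_mod _ 3).trans ?_
  simp only [Nat.add_eq, Nat.mul_eq, Nat.cast_add, Nat.cast_mul]
  simp [toM]

theorem toM_tp (A : ℕ) : toM (tp A) = (toM A)ᵀ := by
  ext i j
  have h1 : (6 * i + j : ℕ) / 6 = i := by omega
  have h2 : (6 * i + j : ℕ) % 6 = j := by omega
  rw [toM, of_apply, tp, en_pk (f := fun t => en A (6 * (t % 6) + t / 6))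
    (fun t => Nat.mod_lt _ (by omega)) (by omega), h1, h2]
  rfl

theorem toM_one : toM one = 1 := by decide +kernel

theorem toM_ng : toM ng = -1 := by decide +kernel

/-- Normal form modulo sign. -/
noncomputable def nm (A : ℕ) : ℕ := min A (mu ng A)

/-- The value of a word. -/
noncomputable def wd (tab w : List ℕ) : ℕ := w.foldr (fun i c => mu (tab.getD i one) c) one

theorem wd_cons (tab w : List ℕ) (i : ℕ) : wd tab (i :: w) = mu (tab.getD i one) (wd tab w) :=
  List.foldr_cons ..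

/-- The products of a polycyclic sequence. -/
noncomputable def pc (l : List ℕ) : List ℕ :=
  List.rec [one] (fun g _ L => L ++ L.map (mu · g)) l

/-- Evaluate a list before passing it on. -/
noncomputable def forceLN (v : List ℕ) : (List ℕ → Bool) → Bool :=
  List.rec (fun f => f []) (fun a _ ih f => forceN a fun a => ih fun t => f (a :: t)) v

theorem forceLN_eq (v : List ℕ) (f : List ℕ → Bool) : forceLN v f = f v := by
  induction v generalizing f with
  | nil => rfl
  | cons a v ih => exact (forceN_eq a fun a => forceLN v fun t => f (a :: t)).trans (ih _)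

/-- Conjugacy certificates. -/
noncomputable def clsK (tab reps L : List ℕ) : List (ℕ × List ℕ) → Bool :=
  List.rec (fun C => C.isEmpty) (fun a _ ih C => List.rec false (fun p C _ =>
    forceN (wd tab p.2) (fun c => nm (mu c a) == nm (mu (reps.getD p.1 one) c)) && ih C) C) L

/-- The whole check. -/
noncomputable def chk (tab reps pcs gens cnt : List ℕ) (C : List (ℕ × List ℕ)) : Bool :=
  forceLN (pc pcs) fun L => forceLN (L.map nm) (fun L' => gens.all fun g =>
    forceLN (L.map fun a => nm (mu g a)) (·.isPerm L')) && clsK tab reps L C &&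
    (C.map Prod.fst).all (· < cnt.length) &&
    (List.range cnt.length).all fun k => (C.map Prod.fst).count k == cnt.getD k 0

theorem sum_cnt {l : List ℕ} {m : ℕ} (h : ∀ k ∈ l, k < m) (F : ℕ → ℕ) :
    (l.map F).sum = ∑ k ∈ range m, l.count k * F k := by
  rw [sum_list_map_count]
  exact sum_subset (fun k hk => mem_range.2 (h k (List.mem_toFinset.1 hk))) fun k _ hk => by
    rw [List.count_eq_zero_of_not_mem fun h => hk (List.mem_toFinset.2 h), zero_smul]

/-- A matrix group with a homomorphism killing the sign. -/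
structure Model (X G : Type*) [Group X] [Group G] where
  μ : X →* Mat
  f : X →* G
  inj : Function.Injective μ
  neg : ∃ x, μ x = -1 ∧ f x = 1
  cen : ∀ x, f x = 1 → ∀ y, μ x * μ y = μ y * μ x

namespace Model

variable {X G : Type*} [Group X] [Group G] (M : Model X G) {A B : ℕ}

/-- The code belongs to the group. -/
def Ok (A : ℕ) : Prop := ∃ x, M.μ x = toM A

open Classical in
/-- The image of a code. -/
noncomputable def val (A : ℕ) : G := if h : M.Ok A then M.f h.choose else 1

variable {M}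

theorem val_eq {x : X} (h : M.μ x = toM A) : M.val A = M.f x := by
  have h1 : M.Ok A := ⟨x, h⟩
  rw [val, dif_pos h1, M.inj (h1.choose_spec.trans h.symm)]

theorem ok_one : M.Ok one := ⟨1, by rw [map_one, toM_one]⟩

theorem val_one : M.val one = 1 := (val_eq (x := 1) (by rw [map_one, toM_one])).trans (map_one _)

theorem Ok.mu (h : M.Ok A) (h' : M.Ok B) : M.Ok (mu A B) := by
  obtain ⟨x, hx⟩ := h
  obtain ⟨y, hy⟩ := h'
  exact ⟨x * y, by rw [map_mul, hx, hy, toM_mu]⟩

theorem val_mu (h : M.Ok A) (h' : M.Ok B) : M.val (mu A B) = M.val A * M.val B := by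
  obtain ⟨x, hx⟩ := h
  obtain ⟨y, hy⟩ := h'
  rw [val_eq hx, val_eq hy, val_eq (x := x * y) (by rw [map_mul, hx, hy, toM_mu]), map_mul]

theorem ok_ng : M.Ok ng := let ⟨x, h, _⟩ := M.neg; ⟨x, h.trans toM_ng.symm⟩

theorem val_nm (h : M.Ok A) : M.val (nm A) = M.val A := by
  obtain ⟨x, h1, h2⟩ := M.neg
  rcases min_choice A (mu ng A) with e | e <;> rw [nm, e]
  rw [val_mu ok_ng h, val_eq (h1.trans toM_ng.symm), h2, one_mul]

theorem val_of_nm (h : M.Ok A) (h' : M.Ok B) (e : nm A = nm B) : M.val A = M.val B := by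
  rw [← val_nm h, e, val_nm h']

theorem val_mul (h : M.Ok A) (h' : M.Ok B) {C : ℕ} (h'' : M.Ok C) (e : nm (mu A B) = nm C) :
    M.val A * M.val B = M.val C := by
  rw [← val_mu h h', val_of_nm (h.mu h') h'' e]

theorem val_ne_one (h : M.Ok A) (h' : M.Ok B) (e : toM (mu A B) ≠ toM (mu B A)) : M.val A ≠ 1 := by
  obtain ⟨x, hx⟩ := h
  obtain ⟨y, hy⟩ := h'
  exact fun h => e (by rw [toM_mu, toM_mu, ← hx, ← hy, M.cen x ((val_eq hx).symm.trans h)])

theorem ok_getD {tab : List ℕ} (h : ∀ A ∈ tab, M.Ok A) (i : ℕ) : M.Ok (tab.getD i one) := by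
  rw [List.getD_eq_getElem?_getD]
  cases e : tab[i]? with
  | none => exact ok_one
  | some a => exact h a (List.mem_of_getElem? e)

theorem ok_wd {tab : List ℕ} (h : ∀ A ∈ tab, M.Ok A) (w : List ℕ) : M.Ok (wd tab w) := by
  induction w with
  | nil => exact ok_one
  | cons i w ih => rw [wd_cons]; exact (ok_getD h i).mu ih

theorem pc_spec {S : Subgroup G} {l : List ℕ} (h : ∀ A ∈ l, M.Ok A ∧ M.val A ∈ S) :
    one ∈ pc l ∧ (pc l).length = 2 ^ l.length ∧ ∀ A ∈ pc l, M.Ok A ∧ M.val A ∈ S := by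
  induction l with
  | nil =>
    exact ⟨List.mem_singleton_self _, rfl, fun A hA => List.mem_singleton.1 hA ▸
      ⟨ok_one, val_one (M := M) ▸ one_mem _⟩⟩
  | cons g l ih =>
    obtain ⟨a1, a2, a3⟩ := ih fun A hA => h A (by simp [hA])
    have hg := h g (by simp)
    rw [show pc (g :: l) = pc l ++ (pc l).map (mu · g) from rfl]
    refine ⟨List.mem_append_left _ a1, by simp [a2, pow_succ, mul_two], fun A hA => ?_⟩
    rcases List.mem_append.1 hA with hA | hA
    · exact a3 A hA
    · obtain ⟨B, hB, rfl⟩ := List.mem_map.1 hA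
      exact ⟨(a3 B hB).1.mu hg.1, val_mu (a3 B hB).1 hg.1 ▸ mul_mem (a3 B hB).2 hg.2⟩

theorem clsK_spec {tab reps L : List ℕ} {C : List (ℕ × List ℕ)} (ht : ∀ A ∈ tab, M.Ok A)
    (hr : ∀ A ∈ reps, M.Ok A) (hL : ∀ A ∈ L, M.Ok A) (h : clsK tab reps L C = true) {α : Type*}
    {φ : G → α} (hφ : ∀ a b, IsConj a b → φ a = φ b) :
    (L.map M.val).map φ = (C.map Prod.fst).map fun k => φ (M.val (reps.getD k one)) := by
  induction L generalizing C with
  | nil => rw [List.isEmpty_iff.1 h]; rfl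
  | cons a L ih =>
    cases C with
    | nil => exact absurd h Bool.false_ne_true
    | cons p C =>
      obtain ⟨h1, h2⟩ := Bool.and_eq_true_iff.1 (show (forceN (wd tab p.2) (fun c => nm (mu c a) ==
        nm (mu (reps.getD p.1 one) c)) && clsK tab reps L C) = true from h)
      rw [forceN_eq, beq_iff_eq] at h1
      have h3 := val_of_nm ((ok_wd ht _).mu (hL a (by simp))) ((ok_getD hr _).mu (ok_wd ht _)) h1
      rw [val_mu (ok_wd ht _) (hL a (by simp)), val_mu (ok_getD hr _) (ok_wd ht _)] at h3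
      simp only [List.map_cons]
      rw [ih (fun A hA => hL A (by simp [hA])) h2,
        hφ _ _ (isConj_iff.2 ⟨_, mul_inv_eq_of_eq_mul h3⟩)]

theorem main [Finite G] {V : Type*} [AddCommGroup V] [Module (ZMod 3) V]
    [FiniteDimensional (ZMod 3) V] (ρ : Representation (ZMod 3) G V)
    {tab reps pcs gens cnt : List ℕ} {C : List (ℕ × List ℕ)} (ht : ∀ A ∈ tab, M.Ok A)
    (hr : ∀ A ∈ reps, M.Ok A ∧ M.val A ^ 8 = 1) {T : Set G}
    (hp : ∀ A ∈ pcs, M.Ok A ∧ M.val A ∈ Subgroup.closure T)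
    (hT : ∀ s ∈ T, ∃ A ∈ gens, M.Ok A ∧ M.val A = s) (h : chk tab reps pcs gens cnt C = true) :
    2 ^ pcs.length * fixDim ρ (Subgroup.closure T) +
      ∑ k ∈ range cnt.length, cnt.getD k 0 * fx ρ (M.val (reps.getD k one) ^ 2) =
      2 * ∑ k ∈ range cnt.length, cnt.getD k 0 * fx ρ (M.val (reps.getD k one)) := by
  rw [chk, forceLN_eq, forceLN_eq] at h
  simp only [Bool.and_eq_true, List.all_eq_true, forceLN_eq, decide_eq_true_eq, beq_iff_eq,
    List.isPerm_iff] at h
  obtain ⟨⟨⟨h1, h2⟩, h3⟩, h4⟩ := h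
  obtain ⟨a1, a2, a3⟩ := pc_spec hp
  have h5 := fun {α : Type} {φ : G → α} =>
    clsK_spec ht (fun A hA => (hr A hA).1) (fun A hA => (a3 A hA).1) h2 (φ := φ)
  have h6 := sum_two ρ (S := Subgroup.closure T) (L := (pc pcs).map M.val)
    (List.mem_map.2 ⟨_, a1, val_one⟩) (fun a ha => by
      obtain ⟨A, hA, rfl⟩ := List.mem_map.1 ha
      exact (a3 A hA).2) ((Subgroup.closure_le _).2 fun s hs => by
      obtain ⟨g, hg, b1, rfl⟩ := hT s hs
      have := (h1 g hg).map M.val
      rw [List.map_map, List.map_map, List.map_congr_left (f := M.val ∘ fun a => nm (mu g a))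
        (g := (M.val g * ·) ∘ M.val) fun A hA =>
        (val_nm (b1.mu (a3 A hA).1)).trans (val_mu b1 (a3 A hA).1),
        List.map_congr_left (f := M.val ∘ nm) (g := M.val) fun A hA => val_nm (a3 A hA).1,
        ← List.map_map] at this
      exact this) (fun a ha => by
      have := List.mem_map_of_mem (f := fun a => a ^ 8 = 1) ha
      rw [h5 fun a b hab => propext (Known.GL2.pow_eq_one_iff_of_isConj hab 8)] at this
      obtain ⟨k, -, hk⟩ := List.mem_map.1 this
      rw [← hk, List.getD_eq_getElem?_getD]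
      cases e : reps[k]? with
      | none => exact (congrArg (· ^ 8) val_one).trans (one_pow 8)
      | some a => exact (hr a (List.mem_of_getElem? e)).2)
  rw [h5 fun a b hab => fx_isConj ρ hab, h5 fun a b hab => fx_isConj ρ (hab.pow 2), sum_cnt h3,
    sum_cnt h3, List.length_map, a2] at h6
  rw [sum_congr rfl fun k hk => by rw [← h4 k (List.mem_range.2 (mem_range.1 hk))], h6,
    sum_congr rfl fun k hk => by rw [h4 k (List.mem_range.2 (mem_range.1 hk))]]

end Model

theorem Mat_eq_1' : type_of% @Mat.eq_1 := @Mat.eq_1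
theorem en_eq_1' : type_of% @en.eq_1 := @en.eq_1
theorem pk_eq_1' : type_of% @pk.eq_1 := @pk.eq_1
theorem dt_eq_1' : type_of% @dt.eq_1 := @dt.eq_1
theorem mu_eq_1' : type_of% @mu.eq_1 := @mu.eq_1
theorem tp_eq_1' : type_of% @tp.eq_1 := @tp.eq_1
theorem one_eq_1' : type_of% @one.eq_1 := @one.eq_1
theorem ng_eq_1' : type_of% @ng.eq_1 := @ng.eq_1
theorem toM_eq_1' : type_of% @toM.eq_1 := @toM.eq_1
theorem nm_eq_1' : type_of% @nm.eq_1 := @nm.eq_1
theorem wd_eq_1' : type_of% @wd.eq_1 := @wd.eq_1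
theorem pc_eq_1' : type_of% @pc.eq_1 := @pc.eq_1
theorem forceLN_eq_1' : type_of% @forceLN.eq_1 := @forceLN.eq_1
theorem clsK_eq_1' : type_of% @clsK.eq_1 := @clsK.eq_1
theorem chk_eq_1' : type_of% @chk.eq_1 := @chk.eq_1
theorem Model.Ok_eq_1' : type_of% @Model.Ok.eq_1 := @Model.Ok.eq_1
theorem Model.val_eq_1' : type_of% @Model.val.eq_1 := @Model.val.eq_1

end Cfsg.Lib.Chev.M6
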