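import Cfsg.Agent.Chev.E8SM6
import Cfsg.Agent.Chev.E8S32

/-! `E₈(3)` has no subgroup `PSp₆(3)`. -/

set_option autoImplicit false
set_option maxRecDepth 100000

namespace Cfsg.Lib.Chev.M6

open Matrix Finset Module L2F E8S Cfsg.Lib.FT

theorem exists_hom_center {X G : Type*} [Group X] [Group G] (H : Subgroup G)
    (e : H ≃* X ⧸ Subgroup.center X) : ∃ f : X →* G, ∀ x, f x = 1 ↔ x ∈ Subgroup.center X :=
  ⟨H.subtype.comp (e.symm.toMonoidHom.comp (QuotientGroup.mk' _)), fun g => by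
    rw [← QuotientGroup.eq_one_iff]
    exact OneMemClass.coe_eq_one.trans (map_eq_one_iff _ e.symm.injective)⟩

theorem fx_four {g : G8} (h : g ^ 4 = 1) (h2 : fx ad8 (g ^ 2) = 120) :
    fx ad8 g = 60 ∨ fx ad8 g = 64 ∨ fx ad8 g = 92 := by
  obtain ⟨x, hx, a1, a2, a3⟩ := fx_eight (g := g) (by rw [show 8 = 4 * 2 from rfl, pow_mul, h, one_pow])
  rw [h, fx_one] at a1
  have : ∀ x ∈ L8, x.1 = 120 → x.2.1 = 56 → x.2.2 = 26 ∨ x.2.2 = 28 ∨ x.2.2 = 42 := by decide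
  have := this x hx (by omega) (by omega)
  omega

namespace Sp

/-- The group. -/
abbrev X : Type := symplecticGroup (Fin 3) (ZMod 3)

/-- The coordinates. -/
def e6 : Fin 3 ⊕ Fin 3 ≃ Fin 6 := finSumFinEquiv

/-- The matrices. -/
def μ : X →* Mat := (reindexAlgEquiv (ZMod 3) (ZMod 3) e6).toMonoidHom.comp (Submonoid.subtype _)

/-- The model. -/
def model {G : Type*} [Group G] (f : X →* G) (hf : ∀ x, f x = 1 ↔ x ∈ Subgroup.center X) :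
    Model X G where
  μ := μ
  f := f
  inj := (reindexAlgEquiv (ZMod 3) (ZMod 3) e6).injective.comp Subtype.val_injective
  neg := ⟨⟨-1, SymplecticGroup.neg_mem (one_mem _)⟩, (map_neg (reindexAlgEquiv (ZMod 3) (ZMod 3) e6) 1).trans
    (by rw [map_one]), (hf _).2 (Subgroup.mem_center_iff.2 fun _ => Subtype.ext (by simp))⟩
  cen x h y := by rw [← map_mul, ← map_mul, Subgroup.mem_center_iff.1 ((hf x).1 h)]

/-- The form. -/
def J6 : ℕ := 18447870076697706624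

theorem toM_J6 : toM J6 = reindexAlgEquiv (ZMod 3) (ZMod 3) e6 (J (Fin 3) (ZMod 3)) := by
  decide +kernel

theorem ok_of {A : ℕ} (h : mu (mu A J6) (tp A) = J6) : ∃ x, μ x = toM A := by
  refine ⟨⟨(reindexAlgEquiv (ZMod 3) (ZMod 3) e6).symm (toM A), SymplecticGroup.mem_iff.2
    ((reindexAlgEquiv (ZMod 3) (ZMod 3) e6).injective ?_)⟩,
    (reindexAlgEquiv (ZMod 3) (ZMod 3) e6).apply_symm_apply (toM A)⟩
  rw [map_mul, map_mul, AlgEquiv.apply_symm_apply, ← toM_J6]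
  conv_rhs => rw [← h, toM_mu, toM_mu, toM_tp]
  simp

/-- Conjugating elements. -/
def tab : List ℕ :=
  [1180663678380437160064, 1180592751015635189761, 18518806100153745409, 1180663687176530182209,
  1180736866203710013441, 2379702047518064918529, 1180663682709764194369, 1180663682709765242881,
  1180663682726944063489, 1180609652708375269380, 295436139953618223105, 73859104257637105680,
  1180699751089201778693]

/-- Class representatives. -/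
def reps : List ℕ :=
  [1180663682709764194305, 2361327361021481877505, 18447878804071251970, 295152408847775170688,
  18447870076697706624, 1180663678380437160064, 2361255299098116898944]

/-- A subgroup of order `64`. -/
def G1 : List ℕ :=
  [2398221975102900158465, 37037603490113814592, 2398078981554123571264, 36967806491984691329,
  1199039490846185488448, 2398077855654217777216]

/-- A subgroup of order `128`. -/
def G2 : List ℕ :=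
  [2398113321913598611712, 1180664813145157566593, 37039864017303126081, 2398095342424583315716,
  36966680523357323329, 18591994129585029249, 37038738186114711681]

/-- Certificates. -/
def C1 : List (ℕ × List ℕ) :=
  [(0, []), (4, [4, 8]), (4, [3, 8]), (1, [11]), (4, [6, 7, 7]), (4, [5, 6, 6, 7, 8, 8]), (4, [6,
  6, 7, 8, 8]), (4, [5, 6, 7, 7]), (4, [8]), (1, [9]), (1, []), (4, [5, 8]), (4, [3, 6, 6, 7, 8,
  8]), (4, [4, 6, 7, 7]), (4, [3, 6, 7, 7]), (4, [4, 6, 6, 7, 8, 8]), (2, [4, 5, 9]), (2, [4, 8,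
  8]), (2, [4, 5, 8, 8]), (2, [4, 9]), (2, [7, 7, 8, 8, 11]), (4, [3, 6, 7, 8]), (4, [4, 6, 7,
  8]), (2, [4, 5, 7, 7, 8, 8, 11]), (2, [8, 8]), (2, [9]), (2, [5, 9]), (2, [5, 8, 8]), (4, [5,
  6, 7, 8]), (2, [4, 7, 7, 8, 8, 11]), (2, [5, 7, 7, 8, 8, 11]), (4, [6, 7, 8]), (2, [4, 7, 7,
  8]), (2, [5, 7, 11]), (2, [4, 7, 11]), (2, [4, 5, 7, 7, 8]), (2, [7, 8, 8, 9]), (4, [4, 6, 6]),
  (4, [3, 6, 6]), (2, [5, 7, 8, 8, 9]), (2, [4, 5, 7, 11]), (2, [7, 7, 8]), (2, [5, 7, 7, 8]),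
  (2, [7, 11]), (4, [6, 6]), (2, [4, 5, 7, 8, 8, 9]), (2, [4, 7, 8, 8, 9]), (4, [5, 6, 6]), (4,
  [7, 7, 8, 8]), (2, [4, 5, 7]), (2, [4, 7]), (4, [5, 7, 7, 8, 8]), (2, [7, 7, 8, 9]), (2, [8,
  11]), (2, [4, 5, 8, 11]), (2, [5, 7, 7, 8, 9]), (2, [5, 7]), (4, [4, 7, 7, 8, 8]), (4, [3, 7,
  7, 8, 8]), (2, [7]), (2, [4, 8, 11]), (2, [4, 5, 7, 7, 8, 9]), (2, [4, 7, 7, 8, 9]), (2, [5, 8,
  11])]

/-- Certificates. -/
def C2 : List (ℕ × List ℕ) :=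
  [(0, []), (4, [4, 6, 7, 7]), (4, [3, 6, 7, 7]), (1, [11]), (4, [5, 6, 6, 7]), (2, [11]), (2,
  [4, 5, 11]), (4, [6, 6, 7]), (6, [11, 12, 4, 8]), (3, [2, 6, 6, 11]), (3, [1, 6, 6, 11]), (6,
  [11, 12, 3, 8]), (3, [4, 5, 6, 6, 11]), (6, [11, 12, 0, 3, 8]), (6, [11, 12, 1, 3, 8]), (3, [3,
  4, 5, 6, 6, 11]), (4, [3, 6, 6, 7]), (2, [4, 11]), (2, [5, 11]), (4, [4, 6, 6, 7]), (1, [9]),
  (4, [6, 7, 7]), (4, [5, 6, 7, 7]), (1, []), (3, [1, 4, 5, 6, 6, 11]), (4, [3, 12, 0, 3, 8]),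
  (4, [3, 12, 0, 4, 8]), (3, [2, 4, 5, 6, 6, 11]), (4, [3, 12, 3, 5, 8]), (3, [3, 6, 6, 11]), (3,
  [6, 6, 11]), (4, [3, 12, 3, 8]), (2, [4, 7, 8, 11]), (2, [5]), (2, []), (2, [5, 7, 8, 11]), (2,
  [4, 5, 9]), (2, [4, 7, 7, 8, 8, 11]), (2, [5, 7, 7, 8, 8, 11]), (2, [4, 9]), (4, [3, 12, 5,
  8]), (3, [4, 6, 6, 11]), (3, [3, 4, 6, 6, 11]), (4, [3, 12, 8]), (3, [1, 4, 6, 6, 11]), (6,
  [11, 12, 8]), (6, [11, 12, 5, 8]), (3, [2, 4, 6, 6, 11]), (2, [9]), (2, [7, 7, 8, 8, 11]), (2,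
  [4, 5, 7, 7, 8, 8, 11]), (2, [5, 9]), (2, [7, 8, 11]), (2, [4, 5]), (2, [4]), (2, [4, 5, 7, 8,
  11]), (3, [3, 5, 6, 6, 11]), (6, [11, 12, 1, 8]), (6, [11, 12, 0, 8]), (3, [5, 6, 6, 11]), (4,
  [3, 12, 0, 8]), (3, [2, 5, 6, 6, 11]), (3, [1, 5, 6, 6, 11]), (4, [3, 12, 1, 8]), (3, [1, 5, 6,
  7, 7, 8, 8, 11]), (3, [2, 4, 6, 6, 7, 8, 11]), (3, [6, 6, 7, 4, 8, 11]), (3, [6, 7, 7, 8, 5, 8,
  11]), (3, [2, 6, 6, 7, 8, 11]), (3, [6, 7, 7, 8, 8, 11]), (3, [3, 6, 7, 7, 8, 8, 11]), (3, [1,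
  6, 6, 7, 8, 11]), (2, [4, 5, 7, 11]), (4, [4, 6, 6]), (4, [3, 6, 6]), (2, [7, 11]), (2, [4, 5,
  7, 9]), (5, [6, 6, 9]), (6, [6, 6, 9]), (2, [4, 7, 9]), (3, [5, 6, 6, 7, 4, 8, 11]), (3, [4, 5,
  6, 7, 7, 8, 8, 11]), (3, [1, 5, 6, 7, 4, 7, 8, 8, 11]), (3, [4, 6, 6, 7, 8, 5, 11]), (3, [6, 7,
  4, 7, 8, 8, 11]), (3, [6, 6, 7, 8, 5, 11]), (3, [1, 5, 6, 6, 7, 8, 11]), (3, [2, 4, 6, 7, 7, 8,
  8, 11]), (4, [6, 6]), (2, [5, 7, 11]), (2, [4, 7, 11]), (4, [5, 6, 6]), (6, [3, 6, 6, 9]), (2,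
  [5, 7, 9]), (2, [7, 9]), (5, [3, 6, 6, 9]), (3, [2, 6, 7, 7, 8, 8, 11]), (3, [1, 6, 6, 7, 4, 8,
  11]), (3, [4, 6, 6, 7, 8, 11]), (3, [1, 6, 7, 7, 8, 8, 11]), (3, [4, 5, 6, 6, 7, 8, 11]), (3,
  [4, 6, 7, 7, 8, 8, 11]), (3, [1, 6, 7, 4, 7, 8, 8, 11]), (3, [1, 5, 6, 6, 7, 4, 8, 11]), (6,
  [6, 6]), (4, [7, 7]), (4, [5, 7, 7]), (5, [6, 6]), (2, [7]), (2, [4, 5, 8, 11]), (2, [8, 11]),
  (2, [5, 7]), (3, [6, 6, 7, 8, 11]), (3, [2, 6, 7, 7, 8, 5, 8, 11]), (3, [5, 6, 7, 7, 8, 8,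
  11]), (3, [3, 6, 6, 7, 8, 11]), (3, [5, 6, 7, 4, 7, 8, 8, 11]), (3, [5, 6, 6, 7, 8, 11]), (3,
  [2, 6, 6, 7, 8, 5, 11]), (3, [4, 6, 7, 7, 8, 5, 8, 11]), (4, [4, 7, 7]), (5, [3, 6, 6]), (6,
  [3, 6, 6]), (4, [3, 7, 7]), (2, [4, 8, 11]), (2, [4, 5, 7]), (2, [4, 7]), (2, [5, 8, 11])]

theorem ok_all : ∀ A ∈ tab ++ reps ++ G1 ++ G2, mu (mu A J6) (tp A) = J6 := by decide +kernel

theorem chk1 : chk tab reps G1 G1 [1, 3, 36, 0, 24] C1 = true := by decide +kernel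

theorem chk2 : chk tab reps G2 G2 [1, 3, 36, 48, 24, 4, 12] C2 = true := by decide +kernel

theorem arith0 {z C D t A B d1 d2 : ℕ} {x : ℕ × ℕ × ℕ} (hx : x ∈ L8) (a1 : z = 8 + 2 * x.1)
    (a2 : C = 8 + 2 * x.2.1) (a3 : D = 8 + 2 * x.2.2) (a4 : t = 120 ∨ t = 136 ∨ t = 248)
    (a5 : z = 120 → A = 60 ∨ A = 64 ∨ A = 92) (a6 : z = 120 → B = 60 ∨ B = 64 ∨ B = 92)
    (n1 : z ≠ 248) (n4 : t ≠ 248)
    (h1 : 64 * d1 + (0 + 1 * 248 + 3 * 248 + 36 * z + 0 * C + 24 * 248) =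
      2 * (0 + 1 * 248 + 3 * z + 36 * C + 0 * D + 24 * t))
    (h2 : 128 * d2 + (0 + 1 * 248 + 3 * 248 + 36 * z + 48 * C + 24 * 248 +
      4 * z + 12 * z) = 2 * (0 + 1 * 248 + 3 * z + 36 * C +
        48 * D + 24 * t + 4 * A + 12 * B)) : False := by
  have k : ∀ x ∈ L8, ∀ t ∈ [120, 136], x.1 ≠ 120 →
      (2 * (248 + 3 * (8 + 2 * x.1) + 36 * (8 + 2 * x.2.1) + 24 * t)) % 64 =
        (28 * 248 + 36 * (8 + 2 * x.1)) % 64 → x = (56, 28, 12) := by decide +kernel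
  have e1 : t ∈ [120, 136] := by
    rcases a4 with h | h | h
    exacts [by simp [h], by simp [h], absurd h n4]
  have e2 : x.1 ≠ 120 := fun h => n1 (by rw [a1, h])
  have e3 : (2 * (248 + 3 * z + 36 * C + 24 * t)) % 64 = (28 * 248 + 36 * z) % 64 := by
    clear a4 a5 a6 h2 e1 e2 n1 n4 a1 a2 a3
    omega
  have e4 := k x hx t e1 e2 (by rw [← a1, ← a2]; exact e3)
  rw [e4] at a1 a2 a3
  simp only at a1 a2 a3
  clear k h1 e1 e2 e3 e4 hx n1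
  subst a1 a2 a3
  rcases a4 with rfl | rfl | rfl <;> rcases a5 rfl with rfl | rfl | rfl <;>
    rcases a6 rfl with rfl | rfl | rfl <;> omega

theorem arith {z C D t A B : G8} {d1 d2 : ℕ} (s1 : z ^ 2 = 1) (s2 : C ^ 2 = z) (s3 : D ^ 2 = C)
    (s4 : t ^ 2 = 1) (s5 : A ^ 2 = z) (s6 : B ^ 2 = z) (n1 : fx ad8 z ≠ 248) (n4 : fx ad8 t ≠ 248)
    (h1 : 64 * d1 + (0 + 1 * 248 + 3 * 248 + 36 * fx ad8 z + 0 * fx ad8 C + 24 * 248) =
      2 * (0 + 1 * 248 + 3 * fx ad8 z + 36 * fx ad8 C + 0 * fx ad8 D + 24 * fx ad8 t))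
    (h2 : 128 * d2 + (0 + 1 * 248 + 3 * 248 + 36 * fx ad8 z + 48 * fx ad8 C + 24 * 248 +
      4 * fx ad8 z + 12 * fx ad8 z) = 2 * (0 + 1 * 248 + 3 * fx ad8 z + 36 * fx ad8 C +
        48 * fx ad8 D + 24 * fx ad8 t + 4 * fx ad8 A + 12 * fx ad8 B)) : False := by
  have p4 : ∀ {a : G8}, a ^ 2 = z → a ^ 4 = 1 := fun h => by
    rw [show 4 = 2 * 2 from rfl, pow_mul, h, s1]
  have d4 : D ^ 4 = z := by rw [show 4 = 2 * 2 from rfl, pow_mul, s3, s2]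
  obtain ⟨x, hx, a1, a2, a3⟩ := fx_eight (g := D)
    (by rw [show 8 = 4 * 2 from rfl, pow_mul, d4, s1])
  have a4 := fx_two (g := t) (by rw [← pow_two, s4])
  have a5 := fx_four (p4 s5)
  have a6 := fx_four (p4 s6)
  rw [d4] at a1
  rw [s3] at a2
  rw [s5] at a5
  rw [s6] at a6
  exact arith0 hx a1 a2 a3 a4 a5 a6 n1 n4 h1 h2

theorem no_sp {f : X →* G8} (hf : ∀ x, f x = 1 ↔ x ∈ Subgroup.center X) : False := by
  obtain ⟨M, ok⟩ : ∃ M : Model X G8, ∀ A ∈ tab ++ reps ++ G1 ++ G2, M.Ok A :=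
    ⟨model f hf, fun A hA => ok_of (ok_all A hA)⟩
  have o : ∀ i, M.Ok (reps.getD i one) := Model.ok_getD fun A hA => ok A (by simp [hA])
  have sq : ∀ i j, nm (mu (reps.getD i one) (reps.getD i one)) = nm (reps.getD j one) →
      M.val (reps.getD i one) ^ 2 = M.val (reps.getD j one) := fun i j h =>
    (pow_two _).trans (Model.val_mul (o i) (o i) (o j) h)
  have s0 : M.val (reps.getD 0 one) = 1 := Model.val_one
  have s1 := (sq 1 0 (by decide +kernel)).trans s0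
  have s2 := sq 2 1 (by decide +kernel)
  have s3 := sq 3 2 (by decide +kernel)
  have s4 := (sq 4 0 (by decide +kernel)).trans s0
  have s5 := sq 5 1 (by decide +kernel)
  have s6 := sq 6 1 (by decide +kernel)
  have n1 := mt eq_one_of_fx (Model.val_ne_one (o 1) (ok (tab.getD 9 one) (by decide +kernel))
    (by decide +kernel))
  have n4 := mt eq_one_of_fx (Model.val_ne_one (o 4) (ok (tab.getD 3 one) (by decide +kernel))
    (by decide +kernel))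
  have p4 : ∀ {a b : G8}, a ^ 2 = b → b ^ 2 = 1 → a ^ 4 = 1 := fun h h' => by
    rw [show 4 = 2 * 2 from rfl, pow_mul, h, h']
  have p8 : ∀ {a b : G8}, a ^ 2 = b → b ^ 4 = 1 → a ^ 8 = 1 := fun h h' => by
    rw [show 8 = 2 * 4 from rfl, pow_mul, h, h']
  have q4 : ∀ {a : G8}, a ^ 2 = 1 → a ^ 4 = 1 := fun h => p4 h (one_pow _)
  have hm : ∀ A ∈ reps, ∃ i < 7, reps.getD i one = A := by decide +kernel
  have h8 : ∀ i < 7, M.val (reps.getD i one) ^ 8 = 1 := fun i hi => by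
    rcases (show i = 0 ∨ i = 1 ∨ i = 2 ∨ i = 3 ∨ i = 4 ∨ i = 5 ∨ i = 6 by omega) with
      rfl | rfl | rfl | rfl | rfl | rfl | rfl
    exacts [by rw [s0, one_pow], p8 s1 (one_pow _), p8 s2 (q4 s1), p8 s3 (p4 s2 s1),
      p8 s4 (one_pow _), p8 s5 (q4 s1), p8 s6 (q4 s1)]
  have hr : ∀ A ∈ reps, M.Ok A ∧ M.val A ^ 8 = 1 := fun A hA => by
    obtain ⟨i, hi, e⟩ := hm A hA
    rw [← e]
    exact ⟨o i, h8 i hi⟩
  have h1 := Model.main ad8 (fun A hA => ok A (by simp [hA])) hr (T := M.val '' {A | A ∈ G1})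
    (fun A hA => ⟨ok A (by simp [hA]), Subgroup.subset_closure ⟨A, hA, rfl⟩⟩)
    (fun s ⟨A, hA, e⟩ => ⟨A, hA, ok A (by simp [show A ∈ G1 from hA]), e⟩) chk1
  have h2 := Model.main ad8 (fun A hA => ok A (by simp [hA])) hr (T := M.val '' {A | A ∈ G2})
    (fun A hA => ⟨ok A (by simp [hA]), Subgroup.subset_closure ⟨A, hA, rfl⟩⟩)
    (fun s ⟨A, hA, e⟩ => ⟨A, hA, ok A (by simp [show A ∈ G2 from hA]), e⟩) chk2
  have l1 : 2 ^ G1.length = 64 := by decide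
  have l2 : 2 ^ G2.length = 128 := by decide
  rw [l1] at h1
  rw [l2] at h2
  simp only [List.length_cons, List.length_nil, sum_range_succ, range_zero, sum_empty,
    List.getD_cons_succ, List.getD_cons_zero, s0, s1, s2, s3, s4, s5, s6, one_pow, fx_one]
    at h1 h2
  exact arith s1 s2 s3 s4 s5 s6 n1 n4 h1 h2

end Sp

theorem Sp.X_eq_1' : type_of% @Sp.X.eq_1 := @Sp.X.eq_1
theorem Sp.e6_eq_1' : type_of% @Sp.e6.eq_1 := @Sp.e6.eq_1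
theorem Sp.μ_eq_1' : type_of% @Sp.μ.eq_1 := @Sp.μ.eq_1
theorem Sp.model_eq_1' : type_of% @Sp.model.eq_1 := @Sp.model.eq_1
theorem Sp.J6_eq_1' : type_of% @Sp.J6.eq_1 := @Sp.J6.eq_1
theorem Sp.tab_eq_1' : type_of% @Sp.tab.eq_1 := @Sp.tab.eq_1
theorem Sp.reps_eq_1' : type_of% @Sp.reps.eq_1 := @Sp.reps.eq_1
theorem Sp.G1_eq_1' : type_of% @Sp.G1.eq_1 := @Sp.G1.eq_1
theorem Sp.G2_eq_1' : type_of% @Sp.G2.eq_1 := @Sp.G2.eq_1
theorem Sp.C1_eq_1' : type_of% @Sp.C1.eq_1 := @Sp.C1.eq_1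
theorem Sp.C2_eq_1' : type_of% @Sp.C2.eq_1 := @Sp.C2.eq_1

end Cfsg.Lib.Chev.M6
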