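import Cfsg.Agent.Chev.E8SSp
import Cfsg.Agent.S0254
import Cfsg.Agent.S0303

/-! `E₈(3)` has no subgroup `U₄(3)`. -/

set_option autoImplicit false
set_option maxRecDepth 100000

namespace Cfsg.Lib.Chev.M6

open Matrix Finset Module L2F E8S Cfsg.Lib.FT Equiv Cfsg.Lib.Known.GL2

theorem map_mem_commutator {A B : Type*} [Group A] [Group B] (φ : A →* B) {a : A}
    (h : a ∈ commutator A) : φ a ∈ commutator B :=
  Subgroup.commutator_mono le_top le_top
    ((map_commutator_eq A φ).le (Subgroup.mem_map_of_mem φ h))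

namespace U4

/-- The orthogonal group. -/
abbrev O : Type := orthogonalGroup (Fin 6) (ZMod 3)

/-- Its commutator subgroup. -/
abbrev X : Type := commutator O

/-- The matrices. -/
def μ : X →* Mat := (Submonoid.subtype _).comp (Subgroup.subtype _)

/-- The coordinates. -/
abbrev ι : Type := (Fin 2 ⊕ Fin 2) ⊕ Fin 2

/-- The form. -/
abbrev Q : (ι → ZMod 3) → ZMod 3 := quadFormMinus 2 (ZMod 3) 0 1

/-- The change of basis. -/
def P : Matrix (Fin 6) ι (ZMod 3) :=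
  fromCols (fromCols !![1, 0; 0, 1; 1, 1; 1, 2; 0, 0; 0, 0] !![1, 0; 0, 1; 2, 2; 2, 1; 0, 0; 0, 0])
    !![0, 0; 0, 0; 0, 0; 0, 0; 1, 0; 0, 1]

/-- Its inverse. -/
def P' : Matrix ι (Fin 6) (ZMod 3) :=
  fromRows (fromRows !![2, 0, 1, 1, 0, 0; 0, 2, 1, 2, 0, 0] !![2, 0, 2, 2, 0, 0; 0, 2, 2, 1, 0, 0])
    !![0, 0, 0, 0, 1, 0; 0, 0, 0, 0, 0, 1]

theorem P_mul : P * P' = 1 := by decide +kernel

theorem mul_P : P' * P = 1 := by decide +kernel

theorem Q_eq : ∀ v, Q v = (P *ᵥ v) ⬝ᵥ (P *ᵥ v) := by decide +kernel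

/-- Conjugation by the change of basis. -/
def R : Mat →* Matrix ι ι (ZMod 3) where
  toFun A := P' * A * P
  map_one' := by rw [Matrix.mul_one, mul_P]
  map_mul' A B := by
    simp only [Matrix.mul_assoc]
    rw [← Matrix.mul_assoc P, P_mul, Matrix.one_mul]

theorem P_R (A : Mat) : P * R A = A * P := by
  change P * (P' * A * P) = _
  rw [← Matrix.mul_assoc, ← Matrix.mul_assoc, P_mul, Matrix.one_mul]

theorem R_inj : Function.Injective R := fun A B h => by
  rw [← Matrix.mul_one A, ← Matrix.mul_one B, ← P_mul, ← Matrix.mul_assoc, ← Matrix.mul_assoc,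
    ← P_R, ← P_R, h]

/-- The map to the isometry group. -/
def θ : O →* isometryGroup (ZMod 3) Q :=
  (R.comp (Submonoid.subtype _)).toHomUnits.codRestrict _ fun A u _ => by
    change Q (R A.1 *ᵥ u) = Q u
    rw [Q_eq, Q_eq, mulVec_mulVec, P_R, ← mulVec_mulVec, dotProduct_mulVec, ← mulVec_transpose,
      mulVec_mulVec, (mem_orthogonalGroup_iff' _ _).1 A.2, one_mulVec]

/-- The map to the commutator subgroup. -/
def θ' : X →* Omega (ZMod 3) Q :=
  (θ.comp (Subgroup.subtype _)).codRestrict _ fun x => map_mem_commutator θ x.2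

theorem ok_of {a b : ℕ} (ha : mu a (tp a) = one) (hb : mu b (tp b) = one) :
    ∃ x, μ x = toM (mu (mu (mu a b) (tp a)) (tp b)) := by
  have h : ∀ {a : ℕ}, mu a (tp a) = one → toM a ∈ orthogonalGroup (Fin 6) (ZMod 3) := fun h =>
    (mem_orthogonalGroup_iff _ _).2 (by rw [← toM_tp, ← toM_mu, h, toM_one])
  refine ⟨⟨_, Subgroup.commutator_mem_commutator (Subgroup.mem_top (⟨_, h ha⟩ : O))
    (Subgroup.mem_top (⟨_, h hb⟩ : O))⟩, ?_⟩
  rw [toM_mu, toM_mu, toM_mu, toM_tp, toM_tp]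
  rfl

/-- The model. -/
def model {G : Type*} [Group G] (f : Omega (ZMod 3) Q →* G)
    (hf : ∀ x, f x = 1 ↔ x ∈ Subgroup.center _) : Model X G where
  μ := μ
  f := f.comp θ'
  inj := Subtype.val_injective.comp Subtype.val_injective
  neg := by
    obtain ⟨x, hx⟩ := ok_of (a := 295436136656089911300) (b := 1180735740304070557698)
      (by decide +kernel) (by decide +kernel)
    have h : μ x = -1 := hx.trans (by decide +kernel)
    have h' : R (μ x) = -1 := by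
      change P' * μ x * P = _
      rw [h, Matrix.mul_neg, Matrix.mul_one, Matrix.neg_mul, mul_P]
    refine ⟨x, h, (hf _).2 (Subgroup.mem_center_iff.2 fun y =>
      Subtype.ext (Subtype.ext (Units.ext ?_)))⟩
    change y.1.1.1 * R (μ x) = R (μ x) * y.1.1.1
    rw [h', mul_neg_one, neg_one_mul]
  cen x h y := R_inj (by
    rw [map_mul, map_mul]
    exact congrArg (·.1.1.1) (Subgroup.mem_center_iff.1 ((hf _).1 h) (θ' y)).symm)

/-- Permutation matrices. -/
def ψ₀ : Perm (Fin 6) →* O :=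
  (permMatrixHom (R := ZMod 3)).codRestrict (orthogonalGroup (Fin 6) (ZMod 3)) fun σ =>
    (mem_orthogonalGroup_iff _ _).2 (by
      change permMatrixHom σ * (σ⁻¹.permMatrix (ZMod 3))ᵀ = 1
      rw [transpose_permMatrix]
      exact (map_mul permMatrixHom σ σ⁻¹).symm.trans (by rw [mul_inv_cancel, map_one]))

/-- Even permutation matrices. -/
def ψ : alternatingGroup (Fin 6) →* X :=
  (ψ₀.comp (Subgroup.subtype _)).codRestrict _ fun σ => map_mem_commutator ψ₀
    ((alternatingGroup.commutator_perm_eq (by simp)).ge σ.2)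

/-- Sign changes. -/
def dg (i j : Fin 6) : Mat := diagonal fun k => if k = i ∨ k = j then -1 else 1

theorem conj_dg (σ : alternatingGroup (Fin 6)) (i j : Fin 6) :
    μ (ψ σ⁻¹) * dg i j * μ (ψ σ) = dg (σ.1⁻¹ i) (σ.1⁻¹ j) := by
  change σ.1⁻¹⁻¹.toPEquiv.toMatrix * dg i j * σ.1⁻¹.toPEquiv.toMatrix = _
  rw [inv_inv, PEquiv.toMatrix_toPEquiv_mul, PEquiv.mul_toMatrix_toPEquiv, submatrix_submatrix, dg]
  refine (submatrix_diagonal_equiv _ σ.1).trans (congrArg diagonal (funext fun k => ?_))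
  simp only [Function.comp, Perm.eq_inv_iff_eq]

/-- Conjugating elements as commutators. -/
def cert : List (ℕ × ℕ × ℕ) :=
  [(1180663682709764182020, 1180663682709764194306, 1180663682709764210690),
  (1180663682709512536080, 1180663682709764194306, 1180663682710032629762),
  (1180663678380437160000, 1180663682709764194306, 1180663687107810705410),
  (1180591906590702977280, 1180663682709764194306, 1180735740303802122242),
  (1224983496959738880, 1180663682709764194306, 2361255303427175497730),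
  (1180663682709562916865, 1180663682709764210689, 1180663682710032646145),
  (1180663678586595835905, 1180663682709764210689, 1180663687107810721793),
  (1180592751015634141185, 1180663682709764210689, 1180735740303802138625),
  (4683748010784456705, 1180663682709764210689, 2361255303427175514113),
  (1180663679412034617345, 1180663682710032629761, 1180663687108079140865),
  (1180596128719380168705, 1180663682710032629761, 1180735740304070557697),
  (18518806082973876225, 1180663682710032629761, 2361255303427443933185),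
  (1180609652708375281665, 1180663687107810705409, 1180735744701848633345),
  (73859104257888763905, 1180663687107810705409, 2361255307825222008833),
  (295436139953819500545, 1180735740303802122241, 2361327361021213425665),
  (1180663682709764182020, 1180663682709512536080, 1180663682709562855440),
  (1180663679412034617345, 1180596128719380168705, 1180609636219727396865),
  (1180663682709562916865, 1180663678586595835905, 1180663679411028230145),
  (1180609652708375281665, 73859104257888763905, 295165989946874937345),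
  (1180663688621082386602, 1180663682709764194306, 1180663688621082386517)]

/-- Conjugating elements. -/
def tab : List ℕ := cert.map (·.2.2)

/-- Class representatives. -/
def reps : List ℕ :=
  [1180663682709764194305, 1180663687108079157250, 2361327356897793671200,
  295724374728017715208, 295724367031234990208]

/-- Generators of the group of sign changes. -/
def E : List ℕ :=
  [1180663682709764210690, 1180663682710032629762, 1180663687107810705410,
  1180735740303802122242]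

/-- An element of order four and its square. -/
def fc : ℕ × ℕ := (295436136655083278400, 1180663678586344177680)

/-- The permutation of order four. -/
def σ₀ : alternatingGroup (Fin 6) :=
  ⟨⟨![1, 2, 3, 0, 5, 4], ![3, 0, 1, 2, 5, 4], by decide, by decide⟩,
    Perm.mem_alternatingGroup.2 (by decide +kernel)⟩

/-- Certificates. -/
def C : List (ℕ × List ℕ) :=
  [(0, []), (1, [18, 17, 15, 15]), (1, [18, 16, 15, 15]), (1, [18]), (1, [18, 16, 15, 15, 16]),
  (1, [18, 17]), (1, [18, 16]), (1, [16, 16, 15]), (1, [18, 16, 17, 15]), (1, [18, 17, 15]), (1,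
  [18, 16, 15]), (1, [16, 16]), (1, [18, 16, 17]), (1, [16]), (1, []), (1, [16, 16, 15, 15]),
  (1, [18, 16, 19, 15]), (3, [18, 16, 17, 15, 15]), (2, [3]), (3, [18, 16, 15]), (1, [18, 16,
  19, 3, 15]), (3, [18, 16, 15, 15, 17]), (2, []), (3, [1, 18, 16, 15]), (2, [0]), (3, [10, 18,
  16, 15]), (1, [18, 16, 19, 10, 15]), (3, [1, 18, 16, 17, 15, 15]), (2, [7]), (3, [3, 18, 16,
  15]), (1, [18, 16, 19, 1, 15]), (3, [1, 18, 16, 15, 15, 17]), (3, [19, 12, 19, 18, 6, 16, 19,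
  0, 15, 15, 17]), (4, []), (3, [19, 12, 19, 18, 6, 16, 19, 3, 15, 15, 17]), (4, [7]), (3, [19,
  12, 19, 18, 6, 16, 19, 1, 15, 15, 17]), (4, [0]), (3, [19, 12, 19, 18, 6, 16, 19, 3, 16, 15,
  18]), (4, [3]), (3, [19, 12, 19, 18, 6, 16, 19, 3, 17, 16, 18]), (4, [10]), (3, [19, 12, 19,
  18, 6, 16, 19, 1, 16, 15, 18]), (4, [2]), (3, [19, 12, 19, 18, 6, 16, 19, 3, 17, 15, 15]), (4,
  [12]), (3, [19, 12, 19, 18, 6, 16, 19, 15, 15, 17]), (4, [1]), (3, [19, 12, 19, 18, 6, 16, 19,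
  0, 15]), (4, [10, 15, 17]), (3, [19, 12, 19, 18, 6, 16, 19, 7, 15]), (4, [0, 15, 17]), (3,
  [19, 12, 19, 18, 6, 16, 19, 2, 15]), (4, [7, 15, 17]), (3, [19, 12, 19, 18, 6, 16, 19, 12,
  15]), (4, [1, 15, 17]), (3, [19, 12, 19, 18, 6, 16, 19, 10, 15]), (4, [15, 17]), (3, [19, 12,
  19, 18, 6, 16, 19, 1, 15]), (4, [12, 15, 17]), (3, [19, 12, 19, 18, 6, 16, 19, 3, 15]), (4,
  [2, 15, 17]), (3, [19, 12, 19, 18, 6, 16, 19, 15]), (4, [3, 15, 17])]

theorem cert_ok : ∀ p ∈ cert, mu p.1 (tp p.1) = one ∧ mu p.2.1 (tp p.2.1) = one ∧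
    mu (mu (mu p.1 p.2.1) (tp p.1)) (tp p.2.1) = p.2.2 := by decide +kernel

theorem chk1 : chk tab reps E (tab.take 15) [1, 15] (C.take 16) = true := by decide +kernel

theorem chk2 : chk tab reps (fc.1 :: fc.2 :: E) (fc.1 :: tab.take 15) [1, 19, 4, 24, 16] C = true := by
  decide +kernel

theorem reps_wd : reps = [wd tab [], wd tab [0, 9], wd tab [3, 15, 16, 18, 3, 15, 16, 18],
    wd tab [0, 12, 15, 17, 16, 18], wd tab [3, 15, 16, 18]] := by decide +kernel

theorem μ_σ₀ : μ (ψ σ₀) = toM fc.1 := by decide +kernel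

theorem dg_tab : ∀ i j, i ≠ j → ∃ A ∈ tab.take 15, dg i j = toM A := by decide +kernel

theorem dg_E : ∀ A ∈ E, A ∈ tab ∧ ∃ i j, i ≠ j ∧ toM A = dg i j := by decide +kernel

theorem arith0 {T A B D d0 d1 : ℕ} {x y : ℕ × ℕ × ℕ} (hx : x ∈ L8) (a1 : T = 8 + 2 * x.1)
    (a2 : A = 8 + 2 * x.2.1) (a3 : D = 8 + 2 * x.2.2) (hy : y ∈ L8) (b1 : 248 = 8 + 2 * y.1)
    (b2 : T = 8 + 2 * y.2.1) (b3 : B = 8 + 2 * y.2.2) (n : T ≠ 248)
    (h1 : 16 * d0 + (0 + 1 * 248 + 15 * 248) = 2 * (0 + 1 * 248 + 15 * T))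
    (h2 : 64 * d1 + (0 + 1 * 248 + 19 * 248 + 4 * T + 24 * T + 16 * A) =
      2 * (0 + 1 * 248 + 19 * T + 4 * A + 24 * B + 16 * D)) : d0 = 8 ∧ d1 % 4 ≠ 0 := by
  have k : ∀ x ∈ L8, ∀ y ∈ L8, x.1 ≠ 120 → y.1 = 120 → y.2.1 = x.1 →
      (2 * (248 + 19 * (8 + 2 * x.1) + 4 * (8 + 2 * x.2.1) + 24 * (8 + 2 * y.2.2) +
        16 * (8 + 2 * x.2.2))) % 64 = (20 * 248 + 28 * (8 + 2 * x.1) + 16 * (8 + 2 * x.2.1)) % 64 →
      x = (56, 28, 12) ∧ (y.2.2 = 26 ∨ y.2.2 = 28 ∨ y.2.2 = 42) := by decide +kernel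
  have e : (2 * (248 + 19 * T + 4 * A + 24 * B + 16 * D)) % 64 =
      (20 * 248 + 28 * T + 16 * A) % 64 := by
    clear k h1 a1 a2 a3 b1 b2 b3 n
    omega
  obtain ⟨e1, e2⟩ := k x hx y hy (fun h => n (by rw [a1, h])) (by omega) (by clear h1 h2 e; omega)
    (by rw [← a1, ← a2, ← a3, ← b3]; exact e)
  rw [e1] at a1 a2 a3
  simp only at a1 a2 a3
  clear k e e1 b1 b2 n hx hy
  subst a1 a2 a3
  rcases e2 with h | h | h <;> rw [h] at b3 <;> subst b3 <;> omega

theorem arith {T A B D : G8} {d0 d1 : ℕ} (s1 : T ^ 2 = 1) (s2 : A ^ 2 = T) (s3 : B ^ 2 = T)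
    (s4 : D ^ 2 = A) (n : fx ad8 T ≠ 248)
    (h1 : 16 * d0 + (0 + 1 * 248 + 15 * 248) = 2 * (0 + 1 * 248 + 15 * fx ad8 T))
    (h2 : 64 * d1 + (0 + 1 * 248 + 19 * 248 + 4 * fx ad8 T + 24 * fx ad8 T + 16 * fx ad8 A) =
      2 * (0 + 1 * 248 + 19 * fx ad8 T + 4 * fx ad8 A + 24 * fx ad8 B + 16 * fx ad8 D)) :
    d0 = 8 ∧ d1 % 4 ≠ 0 := by
  have d4 : D ^ 4 = T := by rw [show 4 = 2 * 2 from rfl, pow_mul, s4, s2]
  have b4 : B ^ 4 = 1 := by rw [show 4 = 2 * 2 from rfl, pow_mul, s3, s1]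
  obtain ⟨x, hx, a1, a2, a3⟩ := fx_eight (g := D)
    (by rw [show 8 = 4 * 2 from rfl, pow_mul, d4, s1])
  obtain ⟨y, hy, b1, b2, b3⟩ := fx_eight (g := B)
    (by rw [show 8 = 4 * 2 from rfl, pow_mul, b4, one_pow])
  rw [d4] at a1
  rw [s4] at a2
  rw [b4, fx_one] at b1
  rw [s3] at b2
  exact arith0 hx a1 a2 a3 hy b1 b2 b3 n h1 h2

theorem a6 {F : Type*} [Field F] [Fintype F] (hF : Fintype.card F = 9) {W : Type*} [AddCommGroup W]
    [Module (ZMod 3) W] [FiniteDimensional (ZMod 3) W]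
    (ρ : Representation (ZMod 3) (alternatingGroup (Fin 6)) W) (h : finrank (ZMod 3) W = 8) :
    fx ρ σ₀ % 4 = 0 := by
  obtain ⟨e⟩ := Cfsg.Agent.S0254.result hF
  obtain ⟨π, hs, hπ⟩ : ∃ π : SL2 F →* alternatingGroup (Fin 6), Function.Surjective π ∧
      ∀ g, π g = 1 ↔ g = 1 ∨ g = -1 :=
    ⟨e.toMonoidHom.comp (QuotientGroup.mk' _), e.surjective.comp (QuotientGroup.mk'_surjective _),
      fun g => by
        rw [← mem_center_SL, ← QuotientGroup.eq_one_iff]
        exact map_eq_one_iff _ e.injective⟩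
  have h3 : CharP F 3 := charP_of_card_eq_prime_pow (f := 2) hF
  have h2 : (2 : F) ≠ 0 := fun h => by
    have := (CharP.cast_eq_zero_iff F 3 2).1 (by exact_mod_cast h)
    omega
  obtain ⟨γ, s, hγ, hs', H⟩ := exists_tori F 3
  obtain ⟨m, m1, m2, -⟩ := H (ρ.comp π)
  obtain ⟨g, hg⟩ := hs σ₀
  have hσ : σ₀ ^ 4 = 1 ∧ σ₀ ^ 2 ≠ 1 := by decide +kernel
  have o8 : orderOf g = 8 := by
    have h8 := dvd_of_pow_eq_one hπ (g := g) (n := 4) (hg ▸ hσ.1)
    have hn : ¬ orderOf g ∣ 4 := fun h4 => hσ.2 (by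
      rw [← hg, ← map_pow, hπ, ← mem_Z_SL, ← mul_self_eq_one_iff_SL h2, ← pow_add]
      exact orderOf_dvd_iff_pow_eq_one.1 h4)
    obtain ⟨k, hk, hk'⟩ := (Nat.dvd_prime_pow Nat.prime_two (m := 3)).1 h8
    rw [hk'] at hn ⊢
    interval_cases k <;> simp at hn ⊢
  rw [hF] at hγ hs' m2
  have e1 := fx_split (ρ.comp π) 3 (g := g) (a := γ) (o8.trans hγ.symm) (by rw [o8]; decide)
    (by rw [o8]; decide) (by rw [o8, hF]; decide)
  have e2 := fx_five (ρ.comp π) (g := s) (by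
    rw [MonoidHom.comp_apply, ← map_pow, pow_eq_one_of hπ h2 (n := 5) hs', map_one])
  have e3 : fx (ρ.comp π) g = fx ρ σ₀ := hg ▸ rfl
  omega

theorem fix_mod {F : Type*} [Field F] [Fintype F] (hF : Fintype.card F = 9) {G V : Type*} [Group G]
    [AddCommGroup V] [Module (ZMod 3) V] [FiniteDimensional (ZMod 3) V]
    (ρ : Representation (ZMod 3) G V) (f : X →* G) {T : Set G}
    (hT : ∀ s, s ∈ T ↔ ∃ x i j, i ≠ j ∧ μ x = dg i j ∧ f x = s)
    (h : fixDim ρ (Subgroup.closure T) = 8) :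
    fixDim ρ (Subgroup.closure (T ∪ {f (ψ σ₀)})) % 4 = 0 := by
  have inv : ∀ σ, fixSp ρ (Subgroup.closure T) ≤
      (fixSp ρ (Subgroup.closure T)).comap ((ρ.comp (f.comp ψ)) σ) := fun σ =>
    fixSp_le_comap ρ (g := f (ψ σ)) fun s hs => by
      refine (Subgroup.closure_le ((Subgroup.closure T).comap
        (MulAut.conj (f (ψ σ))⁻¹).toMonoidHom)).2 (fun s hs => ?_) hs |> (by simpa using ·)
      obtain ⟨x, i, j, hij, hx, rfl⟩ := (hT s).1 hs
      refine Subgroup.subset_closure ((hT _).2 ⟨ψ σ⁻¹ * x * ψ σ, _, _, σ.1⁻¹.injective.ne hij,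
        by rw [map_mul, map_mul, hx, conj_dg], by simp⟩)
  have := a6 hF (Representation.subrepresentation (ρ.comp (f.comp ψ)) _ inv) h
  rwa [fx_sub, Subgroup.zpowers_eq_closure, ← Subgroup.closure_union] at this

theorem no_u4 {F : Type*} [Field F] [Fintype F] (hF : Fintype.card F = 9)
    {f : Omega (ZMod 3) Q →* G8} (hf : ∀ x, f x = 1 ↔ x ∈ Subgroup.center _) : False := by
  obtain ⟨M, hM⟩ : ∃ M : Model X G8, M.μ = μ := ⟨model f hf, rfl⟩
  have ot : ∀ A ∈ tab, M.Ok A := fun A hA => by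
    obtain ⟨p, hp, rfl⟩ := List.mem_map.1 hA
    obtain ⟨h1, h2, h3⟩ := cert_ok p hp
    rw [← h3, Model.Ok, hM]
    exact ok_of h1 h2
  have or : ∀ A ∈ reps, M.Ok A := fun A hA => by
    rw [reps_wd] at hA
    simp only [List.mem_cons, List.not_mem_nil, or_false] at hA
    rcases hA with h | h | h | h | h <;> rw [h] <;> exact Model.ok_wd ot _
  have o : ∀ i, M.Ok (reps.getD i one) := Model.ok_getD or
  have sq : ∀ i j, nm (mu (reps.getD i one) (reps.getD i one)) = nm (reps.getD j one) →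
      M.val (reps.getD i one) ^ 2 = M.val (reps.getD j one) := fun i j h => by
    rw [pow_two, Model.val_mul (o i) (o i) (o j) h]
  have s0 : M.val (reps.getD 0 one) = 1 := Model.val_one
  have s1 := (sq 1 0 (by decide +kernel)).trans s0
  have s2 := sq 2 1 (by decide +kernel)
  have s3 := sq 3 1 (by decide +kernel)
  have s4 := sq 4 2 (by decide +kernel)
  have n1 := mt eq_one_of_fx (Model.val_ne_one (o 1) (Model.ok_getD ot 16) (by decide +kernel))
  have p4 : ∀ {a b : G8}, a ^ 2 = b → b ^ 2 = 1 → a ^ 4 = 1 := fun h h' => by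
    rw [show 4 = 2 * 2 from rfl, pow_mul, h, h']
  have p8 : ∀ {a b : G8}, a ^ 2 = b → b ^ 4 = 1 → a ^ 8 = 1 := fun h h' => by
    rw [show 8 = 2 * 4 from rfl, pow_mul, h, h']
  have q4 : ∀ {a : G8}, a ^ 2 = 1 → a ^ 4 = 1 := fun h => p4 h (one_pow _)
  have hm : ∀ A ∈ reps, ∃ i < 5, reps.getD i one = A := by decide +kernel
  have h8 : ∀ i < 5, M.val (reps.getD i one) ^ 8 = 1 := fun i hi => by
    rcases (show i = 0 ∨ i = 1 ∨ i = 2 ∨ i = 3 ∨ i = 4 by omega) with rfl | rfl | rfl | rfl | rfl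
    exacts [by rw [s0, one_pow], p8 s1 (one_pow _), p8 s2 (q4 s1), p8 s3 (q4 s1), p8 s4 (p4 s2 s1)]
  have hr : ∀ A ∈ reps, M.Ok A ∧ M.val A ^ 8 = 1 := fun A hA => by
    obtain ⟨i, hi, e⟩ := hm A hA
    rw [← e]
    exact ⟨o i, h8 i hi⟩
  obtain ⟨T, hT⟩ : ∃ T : Set G8, ∀ s, s ∈ T ↔ ∃ x i j, i ≠ j ∧ μ x = dg i j ∧ M.f x = s :=
    ⟨{s | _}, fun _ => Iff.rfl⟩
  have hE : ∀ A ∈ E, M.Ok A ∧ M.val A ∈ Subgroup.closure T := fun A hA => by
    obtain ⟨h, i, j, hij, e⟩ := dg_E A hA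
    obtain ⟨x, hx⟩ := ot A h
    exact ⟨ot A h, Subgroup.subset_closure
      ((hT _).2 ⟨x, i, j, hij, by rw [← hM, hx, e], (Model.val_eq hx).symm⟩)⟩
  have hg : ∀ s ∈ T, ∃ A ∈ tab.take 15, M.Ok A ∧ M.val A = s := fun s hs => by
    obtain ⟨x, i, j, hij, hx, rfl⟩ := (hT s).1 hs
    obtain ⟨A, hA, e⟩ := dg_tab i j hij
    have h : M.μ x = toM A := by rw [hM, hx, e]
    exact ⟨A, hA, ⟨x, h⟩, Model.val_eq h⟩
  have hσ : M.μ (ψ σ₀) = toM fc.1 := by rw [hM, μ_σ₀]
  have o1 : M.Ok fc.1 := ⟨_, hσ⟩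
  have e2 : fc.2 = mu fc.1 fc.1 := by decide +kernel
  have m1 : M.val fc.1 ∈ Subgroup.closure (T ∪ {M.f (ψ σ₀)}) :=
    Subgroup.subset_closure (Or.inr (Model.val_eq hσ))
  have h1 := Model.main ad8 ot hr hE hg chk1
  have h2 := Model.main ad8 ot hr (T := T ∪ {M.f (ψ σ₀)}) (fun A hA => by
    rcases List.mem_cons.1 hA with h | hA
    · rw [h]; exact ⟨o1, m1⟩
    rcases List.mem_cons.1 hA with h | hA
    · rw [h, e2, Model.val_mu o1 o1]; exact ⟨o1.mu o1, mul_mem m1 m1⟩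
    exact ⟨(hE A hA).1, Subgroup.closure_mono Set.subset_union_left (hE A hA).2⟩)
    (fun s hs => by
      rcases hs with hs | hs
      · obtain ⟨A, hA, h⟩ := hg s hs
        exact ⟨A, List.mem_cons_of_mem _ hA, h⟩
      · exact ⟨_, List.mem_cons_self, o1, (Model.val_eq hσ).trans hs.symm⟩) chk2
  have l1 : 2 ^ E.length = 16 := by decide
  have l2 : 2 ^ (fc.1 :: fc.2 :: E).length = 64 := by decide
  rw [l1] at h1
  rw [l2] at h2
  simp only [List.length_cons, List.length_nil, sum_range_succ, range_zero, sum_empty,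
    List.getD_cons_succ, List.getD_cons_zero, s0, s1, s2, s3, s4, one_pow, fx_one] at h1 h2
  obtain ⟨d0, d1⟩ := arith s1 s2 s3 s4 n1 h1 h2
  exact d1 (fix_mod hF ad8 M.f hT d0)

end U4

theorem U4.O_eq_1' : type_of% @U4.O.eq_1 := @U4.O.eq_1
theorem U4.X_eq_1' : type_of% @U4.X.eq_1 := @U4.X.eq_1
theorem U4.μ_eq_1' : type_of% @U4.μ.eq_1 := @U4.μ.eq_1
theorem U4.ι_eq_1' : type_of% @U4.ι.eq_1 := @U4.ι.eq_1
theorem U4.Q_eq_1' : type_of% @U4.Q.eq_1 := @U4.Q.eq_1
theorem U4.P_eq_1' : type_of% @U4.P.eq_1 := @U4.P.eq_1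
theorem U4.P'_eq_1' : type_of% @U4.P'.eq_1 := @U4.P'.eq_1
theorem U4.R_eq_1' : type_of% @U4.R.eq_1 := @U4.R.eq_1
theorem U4.θ_eq_1' : type_of% @U4.θ.eq_1 := @U4.θ.eq_1
theorem U4.θ'_eq_1' : type_of% @U4.θ'.eq_1 := @U4.θ'.eq_1
theorem U4.model_eq_1' : type_of% @U4.model.eq_1 := @U4.model.eq_1
theorem U4.ψ₀_eq_1' : type_of% @U4.ψ₀.eq_1 := @U4.ψ₀.eq_1
theorem U4.ψ_eq_1' : type_of% @U4.ψ.eq_1 := @U4.ψ.eq_1
theorem U4.dg_eq_1' : type_of% @U4.dg.eq_1 := @U4.dg.eq_1
theorem U4.cert_eq_1' : type_of% @U4.cert.eq_1 := @U4.cert.eq_1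
theorem U4.tab_eq_1' : type_of% @U4.tab.eq_1 := @U4.tab.eq_1
theorem U4.reps_eq_1' : type_of% @U4.reps.eq_1 := @U4.reps.eq_1
theorem U4.E_eq_1' : type_of% @U4.E.eq_1 := @U4.E.eq_1
theorem U4.fc_eq_1' : type_of% @U4.fc.eq_1 := @U4.fc.eq_1
theorem U4.σ₀_eq_1' : type_of% @U4.σ₀.eq_1 := @U4.σ₀.eq_1
theorem U4.C_eq_1' : type_of% @U4.C.eq_1 := @U4.C.eq_1

end Cfsg.Lib.Chev.M6
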