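import Cfsg.Agent.Chev.EGInst
import Cfsg.Agent.Chev.TwMultD4
import Cfsg.Agent.Chev.InvTw
import Cfsg.Agent.Chev.CTSt

/-!
# Squares of semisimple classes in ³D₄(q)
-/

set_option autoImplicit false
set_option linter.unusedSectionVars false

namespace Cfsg.Lib.Chev

open Cfsg.Lie Cfsg.Lib.Chev.Core

universe u

theorem WeylData.Sym.eqv_ρ {ι A : Type} [Fintype ι] [DecidableEq ι] [DecidableEq A] {R : WeylData ι A} (S : R.Sym)
    (r : A) : S.Eqv (S.ρ r) r := fun w hw => by rw [← S.pos_c_smul w r, S.mem_fix.1 hw]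

section

variable {F : Type u} [Field F] {D : ChevalleyDatum} (C : Cert D) {R : RootData D} {S : R.weyl.Sym}
  {T : (C.Y F R).Twist S} {K : Subgroup (GL D.Idx F)} (hK : T.G1 = K) {κ : Type} {rep : κ → Fin D.rank}
  (hrep : ∀ i, ∃ k, i ∈ S.orb (rep k)) {a : κ}

theorem RootData.cox_smul' {tw : κ → List (Fin D.rank)} (h : ∀ k, S.t (rep k) = wprod R.weyl.s (tw k)) (ω : List κ) :
    wprod (S.cox rep hrep).t ω • (S.cox rep hrep).t a • (S.cox rep hrep).simple a =
      twAct D tw (ω ++ [a]) (D.simple (rep a)) := by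
  rw [twAct, ← RootData.cox_smul hrep h _ (R.simple_lt _ (rep a).2), wprod_append, mul_smul, wprod_cons, wprod_nil, mul_one]
  rfl

variable {J : List (Fin D.rank)} (h : S.orb (rep a) = {j | j ∈ J}) {b : List ℕ} (hb : w1 F D b ∈ K)
include h

theorem Core.Cert.w1_mem_Rp (h' : ∀ r ∈ b, D.IsPosRoot r ∧ inJChk D J r = false) :
    ⟨_, hb⟩ ∈ (T.grd (C.faithful F R) hK rep hrep).Rp a := by
  rw [RGD.Twist.grd_Rp, h]
  exact w1_mem fun r hr => mem_spanX (r := r) _ (And.intro (R.weyl_mem.2 (h' r hr).1.1) <| (R.weyl.stHt_pos_iff _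
    (R.weyl_mem.2 (h' r hr).1.1)).2 ⟨R.weyl_pos.2 (h' r hr).1, fun e =>
      of_decide_eq_false (h' r hr).2 (R.inJ_iff.1 e).2⟩) (x_mem_xSub _ r 1)

theorem Core.Cert.w1_mem_Rm (h' : ∀ r ∈ b, D.IsNegRoot r ∧ inJChk D J r = false) :
    ⟨_, hb⟩ ∈ (T.grd (C.faithful F R) hK rep hrep).Rm a := by
  rw [RGD.Twist.grd_Rm, h]
  exact w1_mem fun r hr => mem_spanX (r := r) _ (And.intro (R.weyl_mem.2 (h' r hr).1.1) <| (R.weyl.neg_stHt_pos_iff _
    (R.weyl_mem.2 (h' r hr).1.1)).2 ⟨(R.weyl_not_pos.2 (h' r hr).1).2, fun e =>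
      of_decide_eq_false (h' r hr).2 (R.inJ_iff.1 e).2⟩) (x_mem_xSub _ r 1)

end

theorem w0_smul_D4 (i : Fin chevD4.rank) :
    rootD4.weyl.w0 Set.univ • chevD4.simple i = chevD4.neg (chevD4.simple i) := by
  have h : wprod rootD4.weyl.s longestD4 = rootD4.weyl.w0 Set.univ := longest_D4 (hasC_D4 rootD4)
  rw [← h]
  refine (rootD4.wprod_smul longestD4 (rootD4.simple_lt i i.2)).trans ?_
  clear h
  revert i
  decide +kernel

theorem cover_D4 {K : Type u} [Field K] [Finite K] (p : ℕ) [Fact p.Prime] [CharP K p] (f : K →+* K)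
    (hf : ∀ t, f (f (f t)) = t) (h3 : 2 < Nat.card K) {M : Subgroup _} (hK : (twD4 f hf).G1 = M) [IsSimpleGroup M] :
    ∃ x : M, ¬ p ∣ orderOf x ∧ ∀ g : M, g ≠ 1 → ∃ u v, g = u * x * u⁻¹ * (v * x * v⁻¹) := by
  have C := Core.certD4
  have hY := C.faithful K rootD4
  have hrep := repTD4_surj f
  have htw := fun k => (twist_D4_t (hasC_D4 rootD4) (subD4 f).S (subD4_π f) (repTD4 k)).imp_right And.left
  have h0 : (C.model K rootD4).Node (twD4 f hf) (repTD4 0) [18, 13, 12] _ := (endD4 f hf).node _ _ (parD4_0 f hf)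
  have h1 : (C.model K rootD4).Node (twD4 f hf) (repTD4 1) [14] _ :=
    (endD4 f hf).node _ _ ((clD4 f hf _).par_one f rfl rfl)
  have hM : ((twD4 f hf).grd hY hK repTD4 hrep).Onto := forall_fin2
    (fun _ => (h0.exists_hom hK hrep).elim fun _ h => h.1.onto (RGD.Twist.grd_faithful ..))
    fun _ => (h1.exists_hom hK hrep).elim fun _ h => h.1.onto (RGD.Twist.grd_faithful ..)
  have h2 := fun v => C.exists_perp _ hK hrep htw p (a := 1) (c := 0) [0, 1] (by decide +kernel)
    (fun r hr s hs h h' => commMod_of_zero (by revert r s; decide +kernel) p) (v := v)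
  have hab : ∀ i : Fin 2, i = 1 ∨ i = 0 := by decide
  by_cases hp : p = 2
  · subst hp
    have hρ : ∀ r < chevD4.nroots, (subD4 f).S.ρ r = gD4a.σ r := fun _ => gD4a.sym_ρ rootD4
    have h4 : ∀ b ∈ [[2, 6, 3], [19, 16, 15], [2, 6, 3, 1], [14]], w1 K chevD4 b ∈ M := fun b hb =>
      hK ▸ Cert.mem_G1_of_blockChk _ (Core.certD4.twist_σ_one _ _ hρ) (by revert b; decide +kernel)
    obtain ⟨hv, n, hn, u, hu, u', hu', e⟩ := h2 ⟨_, h4 [2, 6, 3] (by simp)⟩ (by
      rw [(RootData.cox_smul' hrep (fun k => (htw k).2) _).trans (by decide +kernel : _ = 6)]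
      have h5 := (subD4 f).S.eqv_ρ 6
      have h6 := (subD4 f).S.eqv_ρ 3
      rw [(hρ _ (by decide)).trans (by decide +kernel : _ = 3)] at h5
      rw [(hρ _ (by decide)).trans (by decide +kernel : _ = 2)] at h6
      have h7 : ∀ r ∈ [2, 6, 3], r ∈ (subD4 f).S.cls 6 := by
        simpa [WeylData.Sym.cls, h5, h6.trans h5, WeylData.Sym.Eqv.rfl] using by decide
      exact w1_mem fun r hr => mem_spanX _ (h7 r hr) (x_mem_xSub _ r 1)) fun e => by
        have := Core.certD4.orderOf_w1 (F := K) rootD4 (ρf := gD4a.σ) (b := [2, 6, 3]) (k := 11) (by decide +kernel)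
          (by decide +kernel)
        simp [show w1 K chevD4 [2, 6, 3] = 1 from congrArg Subtype.val e] at this
    have := Fintype.ofFinite K
    obtain ⟨t, h6, h7⟩ := exists_pow_ne_one (K := K) one_ne_zero (by rwa [← Nat.card_eq_fintype_card])
    obtain ⟨τ, hτ, h8⟩ := exists_not_trace (k := f.eqLocusField (.id K)) (.inl rfl)
    obtain ⟨F', _, _, φ, l, h9, h10⟩ := exists_quad_ext (τ : K) one_ne_zero
    rw [map_one, one_mul] at h10
    have h11 : ∀ {t : K}, t ^ 2 = 1 → t = 1 := fun e => by simpa [CharTwo.neg_eq] using sq_eq_one_iff.1 e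
    have h12 : ∀ s, φ s ≠ l := fun s e => by
      have h12 : s ≠ 0 := by rintro rfl; exact h9 (e.symm.trans (map_zero φ))
      have h13 : s + s⁻¹ = τ := φ.injective (by rw [map_add, map_inv₀, e, h10])
      have h14 : f s = s := by
        have h14 : f s + (f s)⁻¹ = s + s⁻¹ := by rw [← map_inv₀, ← map_add, h13]; exact τ.2
        have h15 := (map_ne_zero f).2 h12
        refine by_contra fun e => e ?_
        have h16 : f s = s⁻¹ := eq_inv_of_mul_eq_one_left (sub_eq_zero.1 ((mul_eq_zero.1 (show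
          (f s - s) * (f s * s - 1) = 0 by field_simp at h14; linear_combination h14)).resolve_left (sub_ne_zero.2 e)))
        have h17 := hf s
        rw [h16, map_inv₀, h16, inv_inv, h16] at h17
        rw [h16, h17]
      exact h8 ⟨s, h14⟩ (fun e => h12 (congrArg Subtype.val e)) (Subtype.ext h13)
    have h13 : gD4a.σ 17 = 20 ∧ gD4a.σ 20 = 21 := by decide +kernel
    simpa only [← Nat.not_even_iff_odd, even_iff_two_dvd] using C.cover_even hK hrep htw h1 hM hn hab
      w0_smul_D4 (r := 14) (by decide +kernel) (hK ▸ torWord_D4 f hf (endD4 f hf)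
        ((C.model K rootD4).hHom_injective_of_cartan (cartanSNF_D4.injective Kˣ fun i a e => Units.ext (h11 (by
          simpa using congrArg Units.val (orderOf_dvd_iff_pow_eq_one.1 ((orderOf_dvd_of_pow_eq_one e).trans
            ((by decide : ∀ i : Fin 4, [1, 1, 2, 2].getD i 1 ∣ 2) i)))))))
        (γ := 17) (by decide) (by decide +kernel) h6) (by simp [wordChar, h13, (by decide +kernel :
          chevD4.pairing 17 14 = 0 ∧ chevD4.pairing 20 14 = 0 ∧ chevD4.pairing 21 14 = 0)])
        hτ φ (fun _ => h9) (fun _ _ => h10) (fun s hs h => by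
          rw [wordChar_const _ h9]
          rcases (by decide +kernel : ∀ s < 24, inJChk chevD4 (orbD4 (repTD4 1)) s = false →
            (([14].map (chevD4.pairing · s)).sum = 0 ∧ [(chevD4.pairing 17 s).natAbs, (chevD4.pairing 20 s).natAbs,
              (chevD4.pairing 21 s).natAbs] ∈ [[2, 0, 0], [0, 2, 0], [0, 0, 2]]) ∨
                ([14].map (chevD4.pairing · s)).sum.natAbs = 1) s hs h with h | h
          · rw [h.1, zpow_zero, one_mul, map_ne_one_iff _ φ.injective]
            simp only [List.mem_cons, List.cons.injEq, List.not_mem_nil, or_false, Int.natAbs_eq_zero] at h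
            rcases h.2 with h | h | h <;> simp only [wordChar, h13, h, List.map, List.prod_cons, List.prod_nil, zpow_zero,
              mul_one, one_mul] <;> refine zpow_ne_one_of_natAbs fun e => h7 ?_ <;> simp only [h] at e <;>
                simpa [map_eq_one_iff _ f.injective] using h11 e
          · exact zpow_mul_ne_one h12 h _) hv hu hu' e (.inr ⟨_, C.w1_mem_Rp hK hrep (htw 1).1 (h4 [19, 16, 15] (by simp)) (by decide +kernel),
            _, C.w1_mem_Rm hK hrep (htw 1).1 (h4 [2, 6, 3, 1] (by simp)) (by decide +kernel),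
            ⟨_, h4 [14] (by simp)⟩, ((endD4 f hf).mem_grd_simple ..).2 ⟨_, ⟨1, map_one f, rfl⟩, rfl⟩, fun e =>
              one_ne_zero ((C.model K rootD4).inj 14 (by decide) 1 (by simpa [w1_cons, w1_nil] using congrArg Subtype.val e)),
            _, C.w1_mem_Rp hK hrep (htw 1).1 (h4 [19, 16, 15] (by simp)) (by decide +kernel), Subtype.ext (by
              simp only [Subgroup.coe_mul, ← w1_append]
              exact Core.certD4.w1_eq rootD4 (by decide +kernel))⟩)
  · obtain ⟨n, hn⟩ : ∃ n, ((twD4 f hf).grd hY hK repTD4 hrep).Perp 1 n :=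
      (GRD.exists_X_ne_one _ _ _).elim fun v hv => (h2 v hv.1 hv.2).2.imp fun _ => And.left
    exact C.cover_odd hK hrep htw p h1 hM hn hab w0_smul_D4 hp (r := 14) (by decide +kernel) (w := [18, 13, 12])
      ⟨by simpa using by decide, by simpa [← hK] using hel_mem_twD4_three f hf (-1)⟩ (by decide +kernel)
      (by decide +kernel)

end Cfsg.Lib.Chev
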