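import Cfsg.Agent.Chev.EGInst
import Cfsg.Agent.Chev.TwMultF4
import Cfsg.Agent.Chev.LangMat

/-!
# Squares of semisimple classes in ²F₄(q)
-/

set_option autoImplicit false
set_option linter.unusedSectionVars false

namespace Cfsg.Lib.Chev

open Cfsg.Lie Cfsg.Lib.Chev.Core

universe u

theorem eq_one_of_sq_two {F : Type*} [Field F] [CharP F 2] {t : F} (h : t ^ 2 = 1) : t = 1 := by
  simpa [CharTwo.neg_eq] using sq_eq_one_iff.1 h

theorem zpow_eq_one_of_inv {F : Type*} [Field F] [CharP F 2] (θ : F →+* F) {l c : F} (h0 : l ≠ 0)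
    (h1 : θ (θ l) ^ 2 = l⁻¹) (hc : θ (θ c) ^ 2 = c) {i j : ℤ} (e : θ l ^ i * l ^ j * c = 1) :
    l ^ (i ^ 2 + 2 * j ^ 2) = 1 := by
  have h2 := (map_ne_zero θ).2 h0
  have h3 := congrArg (fun t => θ (θ t) ^ 2) e
  have h4 : ∀ (t : F) (i : ℤ), (t ^ i) ^ 2 = (t ^ 2) ^ i := fun t i => by rw [sq, sq, mul_zpow]
  simp only [map_mul, map_zpow₀, mul_pow, h4, hc, h1, map_one, one_pow] at h3
  rw [← map_pow, h1, map_inv₀, inv_zpow, inv_zpow, ← mul_inv, inv_mul_eq_one₀ (by positivity)] at h3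
  have h5 := eq_one_of_sq_two ((sq _).trans (h3 ▸ e : θ l ^ i * l ^ j * (θ l ^ i * l ^ j) = 1))
  have h6 := congrArg (fun t => θ t ^ 2) h5
  simp only [map_mul, map_zpow₀, mul_pow, h4, h1, map_one, one_pow] at h6
  have h7 : l ^ (i ^ 2 + 2 * j ^ 2) * (l⁻¹ ^ i * (θ l ^ 2) ^ j) ^ i = (θ l ^ i * l ^ j) ^ (2 * j) := by
    rw [← zpow_natCast]
    simp only [mul_zpow, ← zpow_mul, inv_zpow']
    rw [← mul_assoc, ← zpow_add₀ h0, mul_comm]
    congr 2 <;> push_cast <;> ring
  simpa only [h5, h6, one_zpow, mul_one] using h7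

theorem cover_F4 {K : Type u} [Field K] [Fintype K] {m : ℕ} (hm : 1 ≤ m) (hq : Fintype.card K = 2 ^ (2 * m + 1))
    [IsSimpleGroup (twistedF4 K (2 ^ m))] : ∃ x : twistedF4 K (2 ^ m), Odd (orderOf x) ∧
      ∀ g : twistedF4 K (2 ^ m), g ≠ 1 → ∃ u v, g = u * x * u⁻¹ * (v * x * v⁻¹) := by
  obtain ⟨_, θ, hθ, h3, hK⟩ := exists_twF4 hq
  have C := Core.certF4
  have hY := C.faithful K rootF4
  have hrep := repTF4_surj θ
  have htw := fun k => (twist_F4_t (hasC_F4 rootF4) (subF4 θ).S (subF4_π θ) (repTF4 k)).imp_right And.left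
  have h0 : (C.model K rootF4).Node (twF4' θ hθ) (repTF4 0) [33, 24] _ := (endF4 θ hθ).node _ _ (parF4_0 θ hθ _)
  obtain ⟨v, hv, h1⟩ := ((twF4' θ hθ).grd hY hK repTF4 hrep).exists_X_ne_one 
    (wprod ((subF4 θ).S.cox _ hrep).t [1, 0, 1]) 0
  obtain ⟨hv, n, hn, u, hu, u', hu', e⟩ := C.exists_perp _ hK hrep htw 2 (a := 0) _ (by decide +kernel)
    (by decide +kernel) hv h1
  obtain ⟨v', hv', h1'⟩ := ((twF4' θ hθ).grd hY hK repTF4 hrep).exists_X_ne_one 
    (wprod ((subF4 θ).S.cox _ hrep).t [0, 1, 0]) 1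
  obtain ⟨-, n', hn', -⟩ := C.exists_perp _ hK hrep htw 2 (a := 1) _ (by decide +kernel) (by decide +kernel) hv' h1'
  have hM : ((twF4' θ hθ).grd hY hK repTF4 hrep).Onto := forall_fin2
    (fun _ => (h0.exists_hom hK hrep).elim fun _ h => h.1.onto (RGD.Twist.grd_faithful ..))
    fun _ => hn'.onto (RGD.Twist.grd_faithful ..) (b := 0) (by decide)
      ((C.model K rootF4).grd_inv _ hK _ hrep w0_smul_F4) (C.grd_odd _ hK hrep)
  have h2 : 2 < Fintype.card K := hq ▸ lt_of_lt_of_le (by norm_num) (Nat.pow_le_pow_right two_pos (by omega : 2 ≤ _))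
  obtain ⟨t, h6, h7⟩ := exists_pow_ne_one (K := K) one_ne_zero h2
  obtain ⟨τ, hτ, h8⟩ := exists_not_trace (k := K) (c := 1) (.inr (by rwa [Nat.card_eq_fintype_card]))
  obtain ⟨F', _, _, φ, l, h9, h10⟩ := exists_quad_ext τ one_ne_zero
  rw [map_one, one_mul] at h10
  have := charP_of_injective_ringHom φ.injective 2
  have h11 : ∀ t, iterateFrobenius F' 2 m (iterateFrobenius F' 2 m t) ^ 2 = t ^ Fintype.card K := fun t => by
    simp only [iterateFrobenius_def, ← pow_mul, hq]; congr 1; ring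
  have h12 : l ^ Fintype.card K = l⁻¹ := by
    have h12 : l ^ Fintype.card K + (l ^ Fintype.card K)⁻¹ = l + l⁻¹ := by
      rw [h10, ← FiniteField.pow_card τ, map_pow, ← h10, hq, add_pow_char_pow, inv_pow]
    refine by_contra fun e => ?_
    obtain ⟨s, rfl⟩ := (Lang.pow_card_eq_iff φ l).1 (sub_eq_zero.1 ((mul_eq_zero.1 (show (l ^ Fintype.card K - l) *
      (l ^ Fintype.card K * l - 1) = 0 by field_simp at h12; linear_combination h12)).resolve_right
        fun h => e (eq_inv_of_mul_eq_one_left (sub_eq_zero.1 h))))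
    exact h8 s (mt (map_eq_zero φ).2 h9) (φ.injective (by rw [map_add, map_inv₀, h10]))
  have h13 : isoF4.σ 45 = 39 ∧ isoF4.e 45 = 1 := by decide +kernel
  have h14 : τ ≠ 0 := fun e => h8 1 one_ne_zero (by simp [e, CharTwo.add_self_eq_zero])
  refine C.cover_even hK hrep htw h0 hM hn (b := 1) (by decide) w0_smul_F4 (r := 33) (by decide +kernel)
    (hK ▸ torWord_F4 θ hθ (γ := 45) (by decide) h6) (by simp [wordChar, h13, (by decide +kernel :
      chevF4.pairing 45 33 = 0 ∧ chevF4.pairing 39 33 = 0 ∧ chevF4.pairing 45 24 = 0 ∧ chevF4.pairing 39 24 = 0)])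
    h14 φ (l := fun r => if r = 33 then iterateFrobenius F' 2 m l else l) (fun r => by split_ifs <;> simp [h9])
    (by simp [← h10, h3, iterateFrobenius_def, add_pow_char_pow]) (fun s hs h e => ?_) hv hu hu' e
    (.inl (by rwa [Nat.card_eq_fintype_card]))
  rcases (by decide +kernel : ∀ s < 48, inJChk chevF4 (orbF4 (repTF4 0)) s = false →
    (chevF4.pairing 33 s = 0 ∧ chevF4.pairing 24 s = 0 ∧ [(chevF4.pairing 45 s).natAbs, (chevF4.pairing 39 s).natAbs] ∈
      [[2, 0], [0, 2]]) ∨ chevF4.pairing 33 s ^ 2 + 2 * chevF4.pairing 24 s ^ 2 ∣ 12) s hs h with h | ⟨c, h⟩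
  · simp only [List.mem_cons, List.cons.injEq, List.not_mem_nil, or_false, Int.natAbs_eq_zero] at h
    rcases h.2.2 with h' | h' <;> simp only [wordChar, h13, h.1, h.2.1, h', List.map, List.prod_cons, List.prod_nil,
      zpow_zero, mul_one, one_mul, pow_one, map_eq_one_iff _ φ.injective] at e <;>
        refine zpow_ne_one_of_natAbs (fun e => h7 ?_) e <;> simp only [h'] at e <;>
          simpa [map_eq_one_iff _ θ.injective] using eq_one_of_sq_two e
  · have h15 := congrArg (· ^ c) (zpow_eq_one_of_inv _ h9 ((h11 l).trans h12) ((h11 _).trans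
      ((Lang.pow_card_eq_iff φ _).2 ⟨_, rfl⟩)) (by simpa [wordChar.eq_1 _ [(33, _), _]] using e))
    simp only [← zpow_mul, ← h, one_zpow, zpow_ofNat] at h15
    have h16 : l ^ 3 = 1 := eq_one_of_sq_two (eq_one_of_sq_two (by rw [← h15]; ring))
    rcases mul_eq_zero.1 (show (l - 1) * (l ^ 2 + l + 1) = 0 by linear_combination h16) with h | h
    · exact h14 (φ.injective (by simp [← h10, sub_eq_zero.1 h, CharTwo.add_self_eq_zero]))
    · exact hτ (φ.injective (by
        rw [← h10, map_one]; field_simp; linear_combination h - l * CharTwo.two_eq_zero (R := F')))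

end Cfsg.Lib.Chev
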