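import Cfsg.Agent.Spor.PKWords
import Cfsg.Agent.Known.Kit3

/-!
# Rank three actions with primitive suborbits; maximal subgroups and homomorphisms from labelled points
-/

set_option autoImplicit false

namespace Cfsg.Lib.Chev.EP

open MulAction Cfsg.Lib.Spor.PK

section Abstract

variable {G : Type*} [Group G]

theorem mem_stab_coset {H : Subgroup G} {x : G} {h : H} :
    h ∈ stabilizer H (x : G ⧸ H) ↔ x⁻¹ * h * x ∈ H := by
  rw [mem_stabilizer_iff, eq_comm]
  show (x : G ⧸ H) = ((h * x : G) : G ⧸ H) ↔ _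
  rw [QuotientGroup.eq, mul_assoc]

theorem stab_coset_eq (H : Subgroup G) (x : G) :
    (H ⊓ H.map (MulAut.conj x).toMonoidHom).subgroupOf H = stabilizer H (x : G ⧸ H) := by
  ext h
  rw [mem_stab_coset, Subgroup.mem_subgroupOf, Subgroup.mem_inf, Subgroup.mem_map_equiv]
  simp

theorem coatom_stab_smul {Ω : Type*} [MulAction G Ω] {a : Ω} (h : IsCoatom (stabilizer G a)) (g : G) :
    IsCoatom (stabilizer G (g • a)) := by
  rw [stabilizer_smul_eq_stabilizer_map_conj]
  exact (OrderIso.isCoatom_iff (MulEquiv.mapSubgroup (MulAut.conj g)) _).2 h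

/-- A rank three action whose two nontrivial suborbits are primitive. -/
theorem extPrim [Finite G] {H : Subgroup G} {x₁ x₂ : G} {a b : ℕ}
    (h₁ : IsCoatom (stabilizer H (x₁ : G ⧸ H))) (h₂ : IsCoatom (stabilizer H (x₂ : G ⧸ H)))
    (i₁ : (stabilizer H (x₁ : G ⧸ H)).index = a) (i₂ : (stabilizer H (x₂ : G ⧸ H)).index = b)
    (hab : a ≠ b) (hi : H.index = 1 + a + b) (k₁ : ∀ K, H ≤ K → x₁ ∈ K → x₂ ∈ K)
    (k₂ : ∀ K, H ≤ K → x₂ ∈ K → x₁ ∈ K) :
    IsCoatom H ∧ ∀ x ∉ H, IsCoatom ((H ⊓ H.map (MulAut.conj x).toMonoidHom).subgroupOf H) := by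
  have a1 : a ≠ 1 := fun e => h₁.1 (Subgroup.index_eq_one.1 (i₁.trans e))
  have b1 : b ≠ 1 := fun e => h₂.1 (Subgroup.index_eq_one.1 (i₂.trans e))
  have i₀ : (stabilizer H ((1 : G) : G ⧸ H)).index = 1 := by
    rw [Subgroup.index_eq_one, Subgroup.eq_top_iff']
    intro h; rw [mem_stab_coset]; simp
  rw [index_stabilizer] at i₀ i₁ i₂
  have dj : ∀ p q : G ⧸ H, (orbit H p).ncard ≠ (orbit H q).ncard →
      Disjoint (orbit H p) (orbit H q) := fun p q h => by
    rw [Set.disjoint_left]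
    intro z z1 z2
    exact h (by rw [← orbit_eq_iff.2 z1, ← orbit_eq_iff.2 z2])
  have cov : orbit H ((1 : G) : G ⧸ H) ∪ orbit H (x₁ : G ⧸ H) ∪ orbit H (x₂ : G ⧸ H) = Set.univ := by
    refine Set.eq_of_subset_of_ncard_le (Set.subset_univ _) ?_ (Set.toFinite _)
    rw [Set.ncard_union_eq (Set.disjoint_union_left.2 ⟨dj _ _ (by omega), dj _ _ (by omega)⟩),
      Set.ncard_union_eq (dj _ _ (by omega)), i₀, i₁, i₂, Set.ncard_univ, ← hi]
    rfl
  have dc : ∀ x : G, x ∈ H ∨ (∃ h : H, h • (x₁ : G ⧸ H) = x) ∨ ∃ h : H, h • (x₂ : G ⧸ H) = x := by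
    intro x
    rcases (cov ▸ Set.mem_univ (x : G ⧸ H) :) with (⟨h, e⟩ | h) | h
    · have := QuotientGroup.eq.1 (show ((h * 1 : G) : G ⧸ H) = x from e)
      exact .inl (by simpa using H.mul_mem h.2 this)
    exacts [.inr (.inl h), .inr (.inr h)]
  have mk : ∀ {K : Subgroup G} {y x : G} {h : H}, H ≤ K → h • (y : G ⧸ H) = x → (y ∈ K ↔ x ∈ K) := by
    intro K y x h hK e
    have := hK (QuotientGroup.eq.1 (show ((h * y : G) : G ⧸ H) = x from e))
    rw [← K.mul_mem_cancel_left (hK h.2), ← K.mul_mem_cancel_right this,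
      mul_inv_cancel_left]
  refine ⟨⟨fun e => ?_, fun K hK => ?_⟩, fun x hx => ?_⟩
  · rw [e, Subgroup.index_top] at hi
    have : 0 < (orbit H (x₁ : G ⧸ H)).ncard :=
      (Set.ncard_pos (Set.toFinite _)).2 ⟨_, mem_orbit_self _⟩
    omega
  · obtain ⟨x, x1, x2⟩ := SetLike.exists_of_lt hK
    have : x₁ ∈ K ∧ x₂ ∈ K := by
      rcases dc x with h | ⟨h, e⟩ | ⟨h, e⟩
      · exact absurd h x2
      · exact ⟨(mk hK.le e).2 x1, k₁ K hK.le ((mk hK.le e).2 x1)⟩
      · exact ⟨k₂ K hK.le ((mk hK.le e).2 x1), (mk hK.le e).2 x1⟩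
    rw [Subgroup.eq_top_iff']
    intro y
    rcases dc y with h | ⟨h, e⟩ | ⟨h, e⟩
    exacts [hK.le h, (mk hK.le e).1 this.1, (mk hK.le e).1 this.2]
  · rw [stab_coset_eq]
    rcases dc x with h | ⟨h, e⟩ | ⟨h, e⟩
    exacts [absurd h hx, e ▸ coatom_stab_smul h₁ h, e ▸ coatom_stab_smul h₂ h]

/-- The stabiliser of a coset is the image of a maximal subgroup. -/
theorem stab_of_coatom {J : Type*} [Group J] {φ : J →* G} (hφ : Function.Injective φ) {ls : List J}
    (hL : IsCoatom (gen ls)) {x : G} (h1 : ∀ l ∈ ls, ∃ j, x * φ j = φ l * x)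
    (h2 : ∃ y ∉ φ.range, ∃ j, x * y = φ j * x) :
    IsCoatom (stabilizer φ.range (x : G ⧸ φ.range)) ∧
      (stabilizer φ.range (x : G ⧸ φ.range)).index = (gen ls).index := by
  let e := MonoidHom.ofInjective hφ
  have m : ∀ j, j ∈ (stabilizer φ.range (x : G ⧸ φ.range)).comap e.toMonoidHom ↔
      x⁻¹ * φ j * x ∈ φ.range := fun j => mem_stab_coset
  have k : (stabilizer φ.range (x : G ⧸ φ.range)).comap e.toMonoidHom = gen ls := by
    refine (hL.le_iff.1 ((Subgroup.closure_le _).2 fun l hl => ?_)).resolve_left fun t => ?_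
    · obtain ⟨j, hj⟩ := h1 l hl
      exact (m l).2 ⟨j, by rw [mul_assoc, ← hj, inv_mul_cancel_left]⟩
    · obtain ⟨y, y1, j, hj⟩ := h2
      have := (m j).1 (t ▸ Subgroup.mem_top j)
      rw [mul_assoc, ← hj, inv_mul_cancel_left] at this
      exact y1 this
  rw [← k] at hL ⊢
  exact ⟨(OrderIso.isCoatom_iff (MulEquiv.comapSubgroup e) _).1 hL,
    (Subgroup.index_comap_of_surjective _ e.surjective).symm⟩

end Abstract

section Clo

/-- Add the images under the code `c` of the marked points. -/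
noncomputable def imgM (w m n c s : ℕ) : ℕ :=
  Nat.rec s (fun i acc => force acc fun a => force (Nat.mul w i) fun x =>
    Bool.rec a (Nat.lor a (Nat.shiftLeft 1 (act m c x))) (Nat.beq (act 1 s x) 1)) n

/-- One round with all generators. -/
noncomputable def stepM (w m n : ℕ) (cs : List ℕ) : ℕ → ℕ :=
  List.rec (fun s => s) (fun c _ ih s => force (imgM w m n c s) ih) cs

/-- Several rounds. -/
noncomputable def cloM (w m n : ℕ) (cs : List ℕ) (k : ℕ) : ℕ → ℕ :=
  Nat.rec (fun s => s) (fun _ ih s => force (stepM w m n cs s) ih) k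

/-- All points are marked after `k` rounds. -/
noncomputable def full (w m n : ℕ) (cs : List ℕ) (k s : ℕ) : Bool :=
  force (cloM w m n cs k s) fun t => allN n fun i => Nat.beq (act 1 t (Nat.mul w i)) 1

/-- The base point and its images. -/
noncomputable def seeds (m : ℕ) (us : List ℕ) : ℕ :=
  List.rec 1 (fun u _ ih => Nat.lor ih (Nat.shiftLeft 1 (act m u 0))) us

/-- The check for the maximality of a point stabiliser. -/
noncomputable def maxChk (w m n : ℕ) (cs us : List ℕ) (k : ℕ) : Bool :=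
  forceL cs fun cs => forceL us fun us =>
    full w m n cs k (seeds m us) && allL us fun u => full w m n (u :: cs) k 1

theorem act_one (s x : ℕ) : Nat.beq (act 1 s x) 1 = s.testBit x := by
  rw [show act 1 s x = (s >>> x) % 2 ^ 1 from act_eq 1 s x, Nat.testBit_eq_decide_div_mod_eq,
    Nat.shiftRight_eq_div_pow, Bool.eq_iff_iff]
  simp

variable {G Ω : Type*} [Group G] [MulAction G Ω] {w n : ℕ} {pt : ℕ → Ω}

/-- The marked points have the property `Q`. -/
def Inv (w n : ℕ) (pt : ℕ → Ω) (Q : Ω → Prop) (s : ℕ) : Prop :=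
  ∀ i < n, s.testBit (w * i) = true → Q (pt i)

theorem Inv.ins {Q : Ω → Prop} {s j : ℕ} (hw : 0 < w) (h : Inv w n pt Q s) (hj : Q (pt j)) :
    Inv w n pt Q (Nat.lor s (Nat.shiftLeft 1 (w * j))) := fun i hi t => by
  have t' : (s ||| 1 <<< (w * j)).testBit (w * i) = true := t
  rw [Nat.testBit_or, Nat.shiftLeft_eq, one_mul, Nat.testBit_two_pow, Bool.or_eq_true,
    decide_eq_true_iff] at t'
  rcases t' with t' | t'
  · exact h i hi t'
  · rwa [← Nat.eq_of_mul_eq_mul_left hw t']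

theorem Inv.imgM (hw : 0 < w) {Q : Ω → Prop} {s c : ℕ} {g : G} (hc : Den w n pt c g)
    (hQ : ∀ ω, Q ω → Q (g • ω)) (h : Inv w n pt Q s) : Inv w n pt Q (imgM w (2 ^ w - 1) n c s) := by
  have : ∀ k ≤ n, Inv w n pt Q (EP.imgM w (2 ^ w - 1) k c s) := by
    intro k hk
    induction k with
    | zero => exact h
    | succ k ih =>
      have e : EP.imgM w (2 ^ w - 1) (k + 1) c s = force (EP.imgM w (2 ^ w - 1) k c s) fun a =>
        force (w * k) fun x => Bool.rec a (Nat.lor a (Nat.shiftLeft 1 (act (2 ^ w - 1) c x)))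
          (Nat.beq (act 1 s x) 1) := rfl
      rw [e, force_eq, force_eq, act_one, act_fld]
      cases t : s.testBit (w * k)
      · exact ih (by omega)
      · obtain ⟨j, -, j1, j2⟩ := hc.2 k hk
        rw [j1]
        exact (ih (by omega)).ins hw (j2 ▸ hQ _ (h k hk t))
  exact this n le_rfl

theorem Inv.stepM (hw : 0 < w) {Q : Ω → Prop} {cs : List ℕ}
    (hc : ∀ c ∈ cs, ∃ g : G, Den w n pt c g ∧ ∀ ω, Q ω → Q (g • ω)) :
    ∀ {s}, Inv w n pt Q s → Inv w n pt Q (stepM w (2 ^ w - 1) n cs s) := by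
  induction cs with
  | nil => exact fun h => h
  | cons c cs ih =>
    intro s h
    obtain ⟨g, g1, g2⟩ := hc c List.mem_cons_self
    show Inv w n pt Q (force _ _)
    rw [force_eq]
    exact ih (fun c h => hc c (List.mem_cons_of_mem _ h)) (h.imgM hw g1 g2)

theorem Inv.full (hw : 0 < w) {Q : Ω → Prop} {cs : List ℕ}
    (hc : ∀ c ∈ cs, ∃ g : G, Den w n pt c g ∧ ∀ ω, Q ω → Q (g • ω)) {k s : ℕ} (h : Inv w n pt Q s)
    (hf : full w (2 ^ w - 1) n cs k s = true) : ∀ i < n, Q (pt i) := by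
  have : ∀ k s, Inv w n pt Q s → Inv w n pt Q (cloM w (2 ^ w - 1) n cs k s) := by
    intro k
    induction k with
    | zero => exact fun _ h => h
    | succ k ih =>
      intro s h
      show Inv w n pt Q (force _ _)
      rw [force_eq]
      exact ih _ (h.stepM hw hc)
  rw [EP.full, force_eq, allN_iff] at hf
  exact fun i hi => this k s h i hi (act_one _ _ ▸ hf i hi)

theorem inv_one (hw : 0 < w) {Q : Ω → Prop} (h : Q (pt 0)) : Inv w n pt Q 1 := fun i _ t => by
  rw [Nat.testBit_one_eq_true_iff_self_eq_zero] at t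
  rwa [(Nat.mul_eq_zero.1 t).resolve_left hw.ne']

/-- A subgroup containing a point stabiliser is maximal. -/
theorem coatom_of_maxChk (hw : 0 < w) (hn : 0 < n) {L : Subgroup G} (hL : L ≠ ⊤)
    (hs : ∀ g : G, g • pt 0 = pt 0 → g ∈ L) (hp : ∀ g : G, ∃ c, Den w n pt c g) {cs us : List ℕ}
    (hc : ∀ c ∈ cs, ∃ g ∈ L, Den w n pt c g) (hu : ∀ c ∈ us, ∃ g : G, Den w n pt c g) {k : ℕ}
    (h : maxChk w (2 ^ w - 1) n cs us k = true) : IsCoatom L := by
  rw [maxChk, forceL_eq, forceL_eq, Bool.and_eq_true, allL_iff] at h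
  refine ⟨hL, fun K hK => ?_⟩
  obtain ⟨x, x1, x2⟩ := SetLike.exists_of_lt hK
  have key : ∀ {g y : G}, y • pt 0 = g • pt 0 → y⁻¹ * g ∈ L := fun e =>
    hs _ (by rw [mul_smul, ← e, inv_smul_smul])
  have pm : ∀ g : G, ∃ i < n, g • pt 0 = pt i := fun g => by
    obtain ⟨c, hc⟩ := hp g
    obtain ⟨j, j1, -, j2⟩ := hc.2 0 hn
    exact ⟨j, j1, j2⟩
  have q1 := Inv.full (G := G) (pt := pt) hw (Q := fun ω => ∃ l ∈ L, ∃ g : G,
    (g = 1 ∨ ∃ c ∈ us, Den w n pt c g) ∧ (l * g) • pt 0 = ω) (fun c h => by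
      obtain ⟨g, g1, g2⟩ := hc c h
      refine ⟨g, g2, ?_⟩
      rintro _ ⟨l, l1, u, u1, rfl⟩
      exact ⟨g * l, L.mul_mem g1 l1, u, u1, by rw [mul_assoc, mul_smul]⟩) (s := seeds (2 ^ w - 1) us)
    (by
      have : ∀ vs : List ℕ, (∀ c ∈ vs, c ∈ us) → Inv w n pt (fun ω => ∃ l ∈ L, ∃ g : G,
          (g = 1 ∨ ∃ c ∈ us, Den w n pt c g) ∧ (l * g) • pt 0 = ω) (seeds (2 ^ w - 1) vs) := by
        intro vs
        induction vs with
        | nil => exact fun _ => inv_one hw ⟨1, L.one_mem, 1, .inl rfl, by simp⟩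
        | cons c vs ih =>
          intro hv
          obtain ⟨g, g1⟩ := hu c (hv c List.mem_cons_self)
          obtain ⟨j, -, j1, j2⟩ := g1.2 0 hn
          show Inv w n pt _ (Nat.lor _ (Nat.shiftLeft 1 (act (2 ^ w - 1) c (w * 0))))
          rw [act_fld, j1]
          exact (ih fun c h => hv c (List.mem_cons_of_mem _ h)).ins hw
            ⟨1, L.one_mem, g, .inr ⟨c, hv c List.mem_cons_self, g1⟩, by rw [one_mul, j2]⟩
      exact this us fun _ h => h) h.1
  obtain ⟨i, i1, i2⟩ := pm x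
  obtain ⟨l, l1, u, u1, u2⟩ := q1 i i1
  have u3 := key (u2.trans i2.symm)
  rcases u1 with rfl | ⟨c, c1, c2⟩
  · exact absurd (by simpa using L.mul_mem l1 u3) x2
  have u4 : u ∈ K := by
    have := K.mul_mem (K.inv_mem (hK.le l1)) (K.mul_mem x1 (K.inv_mem (hK.le u3)))
    simpa using this
  have q2 := Inv.full (G := G) (pt := pt) hw (Q := fun ω => ∃ y ∈ K, y • pt 0 = ω) (fun d hd => by
      obtain ⟨g, g1, g2⟩ : ∃ g ∈ K, Den w n pt d g := by
        rcases List.mem_cons.1 hd with rfl | hd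
        exacts [⟨u, u4, c2⟩, (hc d hd).imp fun _ h => ⟨hK.le h.1, h.2⟩]
      refine ⟨g, g2, ?_⟩
      rintro _ ⟨y, y1, rfl⟩
      exact ⟨g * y, K.mul_mem g1 y1, mul_smul _ _ _⟩) (inv_one hw ⟨1, K.one_mem, one_smul _ _⟩)
    (h.2 c c1)
  rw [Subgroup.eq_top_iff']
  intro g
  obtain ⟨j, j1, j2⟩ := pm g
  obtain ⟨y, y1, y2⟩ := q2 j j1
  simpa using K.mul_mem y1 (hK.le (key (y2.trans j2.symm)))

/-- Elements of a second group inducing the same permutations of labelled points. -/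
theorem exists_hom_of_act (C : Ctx G w n pt) {X Y : Type*} [Group X] (ρ : X →* Equiv.Perm Y)
    (v : ℕ → Y) (hf : ∀ x, (∀ i < n, ρ x (v i) = v i) → x = 1) {gs : List G} (hgs : gen gs = ⊤)
    {xs : List X} (h : List.Forall₂ (fun g x => ∀ i < n, ∃ k < n, g • pt i = pt k ∧
      ρ x (v i) = v k) gs xs) :
    ∃ φ : G →* X, gs.map φ = xs ∧ ∀ g, ∀ i < n, ∃ k < n, ρ (φ g) (v i) = v k := by
  let Γ : Subgroup (G × X) :=
    { carrier := {p | ∀ i < n, ∃ k < n, p.1 • pt i = pt k ∧ ρ p.2 (v i) = v k}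
      one_mem' := fun i hi => ⟨i, hi, by simp, by simp⟩
      mul_mem' := fun {p q} hp hq i hi => by
        obtain ⟨k, k1, k2, k3⟩ := hq i hi
        obtain ⟨l, l1, l2, l3⟩ := hp k k1
        exact ⟨l, l1, by rw [Prod.fst_mul, mul_smul, k2, l2],
          by rw [Prod.snd_mul, map_mul, Equiv.Perm.mul_apply, k3, l3]⟩
      inv_mem' := fun {p} hp k hk => by
        choose f f1 f2 f3 using hp
        have inj : Function.Injective fun i : Fin n => (⟨f i i.2, f1 i i.2⟩ : Fin n) := by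
          intro i j e
          have e' : f i i.2 = f j j.2 := congrArg Fin.val e
          exact Fin.ext (C.inj _ i.2 _ j.2 (smul_left_cancel p.1 (by rw [f2 _ i.2, f2 _ j.2, e'])))
        obtain ⟨i, hi⟩ := Finite.surjective_of_injective inj ⟨k, hk⟩
        have e' : f i i.2 = k := congrArg Fin.val hi
        exact ⟨i, i.2, by rw [← e', ← f2, Prod.fst_inv, inv_smul_smul],
          by rw [← e', ← f3, Prod.snd_inv, map_inv]; simp⟩ }
  have hΓ : ∀ g ∈ gs, ∃ x, (g, x) ∈ Γ := fun g hg => by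
    obtain ⟨i, hi, rfl⟩ := List.getElem_of_mem hg
    exact ⟨_, h.get hi (h.length_eq ▸ hi)⟩
  have top : Γ.map (MonoidHom.fst G X) = ⊤ := by
    rw [eq_top_iff, ← hgs, Subgroup.closure_le]
    intro g hg
    obtain ⟨x, hx⟩ := hΓ g hg
    exact ⟨_, hx, rfl⟩
  obtain ⟨φ, φ1, -⟩ := exists_hom_of_fst_inj Γ (fun p hp e => by
    refine Prod.ext e (hf _ fun i hi => ?_)
    obtain ⟨k, k1, k2, k3⟩ := hp i hi
    rw [e, one_smul] at k2
    rw [k3, C.inj _ hi _ k1 k2]) top
  refine ⟨φ.comp Subgroup.topEquiv.symm.toMonoidHom, ?_, fun g i hi => ?_⟩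
  · clear hgs hΓ
    induction h with
    | nil => rfl
    | @cons g x _ _ h1 _ ih => rw [List.map_cons, ih]; exact congrArg (· :: _) (φ1 (g, x) h1 trivial)
  · obtain ⟨p, p1, rfl⟩ := top ▸ Subgroup.mem_top g
    obtain ⟨k, k1, -, k3⟩ := p1 i hi
    exact ⟨k, k1, (φ1 p p1 trivial ▸ k3 :)⟩

end Clo

section Mod

open Cfsg.Lib.Known

universe u v

variable {G : Type u} [Group G] {Ω : Type v} {M : Model G Ω} {O : Ops}

theorem r_evalW (h : M.Has O) {cs : List ℕ} {gs : List G} (hc : List.Forall₂ M.R cs gs)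
    (wd : List ℕ) : M.R (Spor.PK.evalW O.mul O.one cs wd) (evalG gs wd) := by
  have o : M.R O.one 1 := h.one ▸ M.R_one
  have nt : ∀ j, M.R (Spor.PK.nth O.one cs j) (gs.getD j 1) := by
    induction hc with
    | nil => exact fun _ => o
    | cons h1 _ ih => intro j; cases j; exacts [h1, ih _]
  induction wd with
  | nil => exact o
  | cons j wd ih => exact h.R_mul (nt j) ih

theorem r_evalWs (h : M.Has O) {cs : List ℕ} {gs : List G} (hc : List.Forall₂ M.R cs gs)
    (wds : List (List ℕ)) : List.Forall₂ M.R (evalWs O.mul O.one cs wds) (wds.map (evalG gs)) := by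
  induction wds with
  | nil => exact .nil
  | cons wd wds ih => exact .cons (r_evalW h hc wd) ih

theorem exists_forall₂ {cs : List ℕ} (h : ∀ c ∈ cs, M.In ⊤ c) : ∃ gs, List.Forall₂ M.R cs gs := by
  induction cs with
  | nil => exact ⟨[], .nil⟩
  | cons c cs ih =>
    obtain ⟨g, -, hg⟩ := h c List.mem_cons_self
    obtain ⟨gs, hs⟩ := ih fun c hc => h c (List.mem_cons_of_mem _ hc)
    exact ⟨g :: gs, .cons hg hs⟩

open Cfsg.Lib.Spor.MG in
/-- An additive map fixing the columns of an invertible matrix is the identity. -/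
theorem end_eq_one {V : Type v} [AddCommGroup V] {p n w : ℕ} {rv rm : ℕ → ℕ} {e : ℕ → V}
    (H : KM.Red p n w rv rm) (B : KM.Bas p n e) {S top off cm rw md o : ℕ}
    (hc : KM.okC n w S top off cm rw md o = true) (hs : ∀ v, ∃ f, v = KM.vec n e f) {t t' : ℕ}
    (h : KM.unitChk p n w (KM.mul rm n w S top cm rw) o t t' = true) (φ : AddMonoid.End V)
    (hφ : ∀ j < n, ∀ ω, (KM.autModel H B hc).P (KM.app rv off cm md t (2 ^ (w * j))) ω → φ ω = ω) :
    φ = 1 := by
  obtain ⟨u, -, hu⟩ := KM.autModel_in H B hc hs h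
  refine (Units.mul_left_inj u).1 ((one_mul u.1).symm ▸ B.ext _ _ fun j hj => ?_)
  refine hφ j hj _ ((KM.autModel H B hc).P_app hu (ω := e j) ⟨fun i => if i = j then 1 else 0,
    fun i _ => ?_, ?_, ?_⟩)
  · have := H.hp; dsimp only; split_ifs <;> omega
  · simp [pack, hj]
  · simp [KM.vec, hj]

theorem mat_eq_one {F : Type u} [Field F] {ι : Type} [Fintype ι] [DecidableEq ι] {p n w : ℕ}
    {rv rm : ℕ → ℕ} {e : ℕ → ι → F} (H : KM.Red p n w rv rm) (B : KM.Bas p n e)
    {S top off cm rw md o : ℕ} (hc : KM.okC n w S top off cm rw md o = true)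
    (hs : ∀ v, ∃ f, v = KM.vec n e f) {t t' : ℕ}
    (h : KM.unitChk p n w (KM.mul rm n w S top cm rw) o t t' = true) {X : Type v} [Group X]
    {ρ : X →* Matrix ι ι F} {hρ : Function.Injective ρ} (g : X) {f : ℕ → ℕ}
    (hf : ∀ j < n, KM.app rv off cm md t (2 ^ (w * j)) = f j)
    (hφ : ∀ j < n, ∀ ω, (KM.matModel H B hc ρ hρ).P (f j) ω → (KM.matModel H B hc ρ hρ).ρ g ω = ω) :
    g = 1 :=
  hρ (KM.matEnd_injective ((end_eq_one H B hc hs h (KM.matEnd F ι (ρ g)) fun j hj ω hω =>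
    hφ j hj ω (hf j hj ▸ hω)).trans (by rw [map_one, map_one])))

end Mod

theorem imgM_eq_1' : type_of% @imgM.eq_1 := @imgM.eq_1
theorem stepM_eq_1' : type_of% @stepM.eq_1 := @stepM.eq_1
theorem cloM_eq_1' : type_of% @cloM.eq_1 := @cloM.eq_1
theorem full_eq_1' : type_of% @full.eq_1 := @full.eq_1
theorem seeds_eq_1' : type_of% @seeds.eq_1 := @seeds.eq_1
theorem maxChk_eq_1' : type_of% @maxChk.eq_1 := @maxChk.eq_1
theorem Inv_eq_1' : type_of% @Inv.eq_1 := @Inv.eq_1

end Cfsg.Lib.Chev.EP
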