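import Mathlib

/-!
# The algebraic core of the Feit–Higman theorem

Two elements `A`, `B` of a complex algebra satisfy the quadratic Hecke relations with parameters
`s`, `t` and the braid relation of length `m`.  We build a quasi-idempotent for each
two-dimensional representation and compute its eigenvalue.
-/

set_option autoImplicit false

namespace Cfsg.Lib.Chev.FH

open Finset

section algebra

variable {R : Type*} [Ring R] [Algebra ℂ R]

/-- The alternating products `1, B, B A, B A B, …`. -/
def bw (A B : R) : ℕ → R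
  | 0 => 1
  | k + 1 => bw A B k * (if Even k then B else A)

theorem bw_eq_def' : type_of% @bw.eq_def := @bw.eq_def
theorem bw_eq_1' : type_of% @bw.eq_1 := @bw.eq_1
theorem bw_eq_2' : type_of% @bw.eq_2 := @bw.eq_2

/-- The alternating products of the parameters. -/
def qq (s t : ℂ) : ℕ → ℂ
  | 0 => 1
  | k + 1 => qq s t k * (if Even k then t else s)

theorem qq_eq_def' : type_of% @qq.eq_def := @qq.eq_def
theorem qq_eq_1' : type_of% @qq.eq_1 := @qq.eq_1
theorem qq_eq_2' : type_of% @qq.eq_2 := @qq.eq_2

omit [Algebra ℂ R] in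
theorem bw_zero (A B : R) : bw A B 0 = 1 := rfl

omit [Algebra ℂ R] in
theorem bw_succ (A B : R) (k : ℕ) : bw A B (k + 1) = bw A B k * (if Even k then B else A) := rfl

omit [Algebra ℂ R] in
theorem bw_add_two (A B : R) (k : ℕ) : bw A B (k + 2) = B * A * bw A B k := by
  induction k with
  | zero => simp [bw_succ, bw_zero]
  | succ k ih =>
    rw [bw_succ A B (k + 2), ih, bw_succ A B k, mul_assoc (B * A)]
    simp [Nat.even_add]

theorem qq_add_two (s t : ℂ) (k : ℕ) : qq s t (k + 2) = s * t * qq s t k := by
  change qq s t k * (if Even k then t else s) * (if Even (k + 1) then t else s) = _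
  by_cases h : Even k <;> simp [Nat.even_add_one, h] <;> ring

theorem qq_two_mul (s t : ℂ) (i : ℕ) : qq s t (2 * i) = (s * t) ^ i := by
  induction i with
  | zero => rfl
  | succ i ih => rw [Nat.mul_succ, qq_add_two, ih]; ring

theorem qq_two_mul_add_one (s t : ℂ) (i : ℕ) : qq s t (2 * i + 1) = (s * t) ^ i * t := by
  change qq s t (2 * i) * (if Even (2 * i) then t else s) = _
  rw [qq_two_mul]; simp

theorem sum_mul_aux (f : ℕ → R) (Lp : R) (q : ℂ) (p : ℕ → Prop) [DecidablePred p]
    (hp : ∀ k, p (k + 1) ↔ ¬ p k)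
    (h1 : ∀ k, p k → f k * Lp = f k + f (k + 1))
    (h2 : ∀ k, p k → f (k + 1) * Lp = q • (f k + f (k + 1)))
    (h0 : ¬ p 0 → f 0 * Lp = (1 + q) • f 0) (c : ℕ → ℂ) (N : ℕ) :
    (∑ k ∈ range (N + 1), c k • f k) * Lp =
      ∑ k ∈ range (N + 1), (if p k then c k + q * c (k + 1) else c (k - 1) + q * c k) • f k +
        (if p N then c N • f (N + 1) - (q * c (N + 1)) • f N else 0) := by
  induction N with
  | zero =>
    by_cases h : p 0
    · simp only [zero_add, range_one, sum_singleton, h, if_true, smul_mul_assoc, h1 0 h]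
      module
    · simp only [zero_add, range_one, sum_singleton, h, if_false, smul_mul_assoc, h0 h]
      module
  | succ N ih =>
    rw [sum_range_succ, add_mul, ih, sum_range_succ _ (N + 1), smul_mul_assoc]
    by_cases h : p N
    · have h' : ¬ p (N + 1) := by rw [hp]; exact not_not.2 h
      simp only [h, h', if_true, if_false, h2 N h, Nat.add_sub_cancel]
      module
    · have h' : p (N + 1) := (hp N).2 h
      simp only [h, h', if_true, if_false, h1 _ h']
      module

variable {A B : R} {s t y : ℂ} {u : ℕ → ℂ} {N : ℕ}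

/-- The quasi-idempotent attached to a sequence `u`. -/
theorem quasi_idem (hA : A * A = (s - 1) • A + s • (1 : R)) (hB : B * B = (t - 1) • B + t • (1 : R))
    (hbraid : bw A B (N + 1) = A * bw A B N) (hst : Even N → s = t) (hs1 : s + 1 ≠ 0)
    (h0 : u 0 = s + 1) (h1 : t * u 1 = t - 1 + y)
    (hrec : ∀ i, s * t * u (i + 2) = y * u (i + 1) - u i)
    (hbc1 : Even N → u (N / 2 + 1) = u (N / 2))
    (hbc2 : ¬ Even N → u (N / 2 + 1) + t * u (N / 2 + 2) = u (N / 2) + t * u (N / 2 + 1)) :
    (∑ k ∈ range (N + 1), u ((k + 1) / 2) • ((1 + A) * bw A B k)) *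
        (∑ k ∈ range (N + 1), u ((k + 1) / 2) • ((1 + A) * bw A B k)) =
      (∑ k ∈ range (N + 1), u ((k + 1) / 2) ^ 2 * qq s t k) •
        (∑ k ∈ range (N + 1), u ((k + 1) / 2) • ((1 + A) * bw A B k)) := by
  set f : ℕ → R := fun k => (1 + A) * bw A B k with hf
  set γ : ℕ → ℂ := fun k => u ((k + 1) / 2) with hγ
  have eA : (1 + A) * A = s • (1 + A) := by rw [add_mul, hA]; simp only [one_mul]; module
  have eB : (1 + B) * B = t • (1 + B) := by rw [add_mul, hB]; simp only [one_mul]; module
  have ftop : f (N + 1) = s • f N := by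
    simp only [hf]; rw [hbraid, ← mul_assoc, eA, smul_mul_assoc]
  have fA : ∀ k, ¬ Even k → f (k + 1) = f k * A := by
    intro k hk; simp only [hf, bw_succ, hk, if_false, mul_assoc]
  have fB : ∀ k, Even k → f (k + 1) = f k * B := by
    intro k hk; simp only [hf, bw_succ, hk, if_true, mul_assoc]
  have mulA : ∀ c : ℕ → ℂ, (¬ Even N → c (N + 1) = c N) →
      (∑ k ∈ range (N + 1), c k • f k) * (1 + A) =
      ∑ k ∈ range (N + 1), (if ¬ Even k then c k + s * c (k + 1) else c (k - 1) + s * c k) • f k := by
    intro c hc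
    rw [sum_mul_aux f (1 + A) s (fun k => ¬ Even k) (fun k => by simp [Nat.even_add_one])
      (fun k hk => by rw [fA k hk, mul_add, mul_one])
      (fun k hk => by
        rw [fA k hk, mul_assoc, mul_add A, mul_one, hA]
        simp only [mul_add, mul_smul_comm, mul_one]; module)
      (fun _ => by
        simp only [hf, bw_zero, mul_one]; rw [mul_add, eA, mul_one]; module) c N]
    by_cases h : Even N
    · simp [h]
    · simp only [h, not_false_eq_true, if_true, ftop, hc h, add_eq_left]; module
  have mulB : ∀ c : ℕ → ℂ, (Even N → c (N + 1) = c N) →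
      (∑ k ∈ range (N + 1), c k • f k) * (1 + B) =
      ∑ k ∈ range (N + 1), (if Even k then c k + t * c (k + 1) else c (k - 1) + t * c k) • f k := by
    intro c hc
    rw [sum_mul_aux f (1 + B) t (fun k => Even k) (fun k => by simp [Nat.even_add_one])
      (fun k hk => by rw [fB k hk, mul_add, mul_one])
      (fun k hk => by
        rw [fB k hk, mul_assoc, mul_add B, mul_one, hB]
        simp only [mul_add, mul_smul_comm, mul_one]; module)
      (fun h => absurd Even.zero h) c N]
    by_cases h : Even N
    · simp only [h, if_true, ftop, hc h, add_eq_left, hst h]; module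
    · simp [h]
  set E : R := ∑ k ∈ range (N + 1), γ k • f k with hE
  have par : ∀ k : ℕ, (∃ i, k = 2 * i) ∨ ∃ i, k = 2 * i + 1 := fun k => by
    rcases Nat.even_or_odd' k with ⟨i, h | h⟩
    · exact Or.inl ⟨i, h⟩
    · exact Or.inr ⟨i, h⟩
  have EA : E * (1 + A) = (s + 1) • E := by
    rw [hE, mulA γ (fun h => by
      simp only [hγ]; congr 1; have := Nat.not_even_iff.1 h; omega), smul_sum]
    refine sum_congr rfl fun k _ => ?_
    rw [smul_smul]; congr 1
    rcases par k with ⟨i, rfl⟩ | ⟨i, rfl⟩
    · have : (2 * i - 1 + 1) / 2 = (2 * i + 1) / 2 := by omega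
      simp only [hγ, even_two_mul, not_true, if_false, this]; ring
    · have : (2 * i + 1 + 1 + 1) / 2 = (2 * i + 1 + 1) / 2 := by omega
      simp only [hγ, Nat.not_even_two_mul_add_one, not_false_eq_true, if_true, this]; ring
  have EBA : E * (1 + B) * (1 + A) = (s + t + y) • E := by
    rw [hE, mulB γ (fun h => by
      simp only [hγ]
      have := Nat.even_iff.1 h
      have e1 : (N + 1 + 1) / 2 = N / 2 + 1 := by omega
      have e2 : (N + 1) / 2 = N / 2 := by omega
      rw [e1, e2, hbc1 h]), mulA _ (fun h => by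
      have := Nat.not_even_iff.1 h
      have e1 : (N + 1 + 1) / 2 = N / 2 + 1 := by omega
      have e2 : (N + 1 + 1 + 1) / 2 = N / 2 + 2 := by omega
      have e3 : (N - 1 + 1) / 2 = N / 2 := by omega
      have e4 : (N + 1) / 2 = N / 2 + 1 := by omega
      simp only [hγ, Nat.even_add_one, h, not_false_eq_true, if_true, if_false, e1, e2, e3, e4]
      exact hbc2 h), smul_sum]
    refine sum_congr rfl fun k _ => ?_
    rw [smul_smul]; congr 1
    rcases par k with ⟨i, rfl⟩ | ⟨i, rfl⟩
    · rcases i with _ | i
      · simp only [hγ, mul_zero, Even.zero, not_true, if_false, if_true, zero_add, Nat.zero_sub]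
        norm_num
        rw [h0]; linear_combination (s + 1) * h1
      · have e0 : 2 * (i + 1) - 1 = 2 * i + 1 := by omega
        have e1 : (2 * i + 1 - 1 + 1) / 2 = i := by omega
        have e2 : (2 * i + 1 + 1) / 2 = i + 1 := by omega
        have e3 : (2 * (i + 1) + 1) / 2 = i + 1 := by omega
        have e4 : (2 * (i + 1) + 1 + 1) / 2 = i + 2 := by omega
        simp only [hγ, even_two_mul, not_true, if_false, if_true, e0,
          Nat.not_even_two_mul_add_one, e1, e2, e3, e4]
        linear_combination hrec i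
    · have e0 : Even (2 * i + 1 + 1) := ⟨i + 1, by ring⟩
      have e1 : (2 * i + 1 - 1 + 1) / 2 = i := by omega
      have e2 : (2 * i + 1 + 1) / 2 = i + 1 := by omega
      have e3 : (2 * i + 1 + 1 + 1) / 2 = i + 1 := by omega
      have e4 : (2 * i + 1 + 1 + 1 + 1) / 2 = i + 2 := by omega
      simp only [hγ, Nat.not_even_two_mul_add_one, not_false_eq_true, if_true, if_false, e0,
        e1, e2, e3, e4]
      linear_combination hrec i
  have EA' : E * A = s • E := by
    have : E * A = E * (1 + A) - E := by noncomm_ring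
    rw [this, EA]; module
  have EBA' : E * B * A = (t - 1 + y) • E - E * B := by
    have : E * B * A = E * (1 + B) * (1 + A) - E * B - E * A - E := by noncomm_ring
    rw [this, EBA, EA']; module
  have EBAB : E * B * A * B = y • (E * B) - t • E := by
    rw [EBA', sub_mul, smul_mul_assoc, mul_assoc E B B, hB]
    simp only [mul_add, mul_smul_comm, mul_one]; module
  have EBABA : E * B * A * B * A = y • (E * B * A) - (s * t) • E := by
    rw [EBAB, sub_mul, smul_mul_assoc, smul_mul_assoc, EA']; module
  have eA' : A * (1 + A) = s • (1 + A) := by rw [mul_add, hA]; simp only [mul_one]; module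
  have x0 : E * bw A B 0 * (1 + A) = (γ 0 * qq s t 0) • E := by
    simp only [bw_zero, mul_one, EA, hγ, qq]; norm_num [h0]
  have x1 : E * bw A B 1 * (1 + A) = (γ 1 * qq s t 1) • E := by
    have e : bw A B 1 = B := by simp [bw_succ, bw_zero]
    have e' : γ 1 * qq s t 1 = t - 1 + y := by
      simp only [hγ, qq]; norm_num; linear_combination h1
    rw [e, e', mul_add, mul_one, EBA']; module
  have x2 : E * bw A B 2 * (1 + A) = (γ 2 * qq s t 2) • E := by
    have e : bw A B 2 = bw A B 1 * A := by simp [bw_succ]
    have e' : γ 2 * qq s t 2 = s * (γ 1 * qq s t 1) := by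
      simp only [hγ, qq]; norm_num; ring
    rw [e, e', ← mul_assoc, mul_assoc _ A, eA', mul_smul_comm, x1, smul_smul]
  have x3 : E * bw A B 3 * (1 + A) = (γ 3 * qq s t 3) • E := by
    have e : E * bw A B 3 = y • (E * bw A B 1) - t • (E * bw A B 0) := by
      have : bw A B 3 = B * A * B := by simp [bw_succ, bw_zero]
      rw [this, ← mul_assoc, ← mul_assoc, EBAB]; simp [bw_succ, bw_zero]
    have e' : γ 3 * qq s t 3 = y * (γ 1 * qq s t 1) - t * (γ 0 * qq s t 0) := by
      simp only [hγ, qq]; norm_num; linear_combination t * hrec 0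
    rw [e, e', sub_mul, smul_mul_assoc, smul_mul_assoc, x1, x0]; module
  have xk : ∀ k, E * bw A B k * (1 + A) = (γ k * qq s t k) • E := by
    intro k
    induction k using Nat.strong_induction_on with
    | _ k ih =>
      match k, ih with
      | 0, _ => exact x0
      | 1, _ => exact x1
      | 2, _ => exact x2
      | 3, _ => exact x3
      | k + 4, ih =>
        have e : E * bw A B (k + 4) = y • (E * bw A B (k + 2)) - (s * t) • (E * bw A B k) := by
          rw [bw_add_two A B (k + 2), bw_add_two]
          simp only [← mul_assoc]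
          rw [EBABA, sub_mul, smul_mul_assoc, smul_mul_assoc]
        have e' : γ (k + 4) * qq s t (k + 4) =
            y * (γ (k + 2) * qq s t (k + 2)) - s * t * (γ k * qq s t k) := by
          have e1 : (k + 4 + 1) / 2 = (k + 1) / 2 + 2 := by omega
          have e2 : (k + 2 + 1) / 2 = (k + 1) / 2 + 1 := by omega
          rw [qq_add_two s t (k + 2), qq_add_two]
          simp only [hγ, e1, e2]
          linear_combination (s * t * qq s t k) * hrec ((k + 1) / 2)
        rw [e, e', sub_mul, smul_mul_assoc, smul_mul_assoc, ih (k + 2) (by omega),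
          ih k (by omega)]
        module
  have key : (s + 1) • (E * E) = (s + 1) • ((∑ k ∈ range (N + 1), γ k ^ 2 * qq s t k) • E) := by
    rw [← mul_smul_comm, ← EA, ← mul_assoc]
    conv_lhs => rw [hE]
    rw [← hE, hE, mul_sum, sum_mul, sum_smul, smul_sum, ← hE]
    refine sum_congr rfl fun k _ => ?_
    simp only [hf]
    rw [mul_smul_comm, smul_mul_assoc, ← mul_assoc, EA, smul_mul_assoc, smul_mul_assoc, xk]
    module
  exact smul_right_injective R hs1 key

end algebra

/-- A quasi-idempotent matrix with nonzero trace: the eigenvalue divides the trace. -/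
theorem exists_nat_of_quasi_idem {X : Type*} [Fintype X] [DecidableEq X] {E : Matrix X X ℂ} {c : ℂ}
    (h : E * E = c • E) (htr : E.trace ≠ 0) : ∃ n : ℕ, c * n = E.trace := by
  by_cases hc : c = 0
  · exfalso
    apply htr
    have : IsNilpotent E := ⟨2, by rw [pow_two, h, hc, zero_smul]⟩
    exact (Matrix.isNilpotent_trace_of_isNilpotent this).eq_zero
  · have hi : IsIdempotentElem (Matrix.toLin' (c⁻¹ • E)) := by
      unfold IsIdempotentElem
      rw [Module.End.mul_eq_comp, ← Matrix.toLin'_mul, smul_mul_smul_comm, h, smul_smul,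
        mul_assoc, inv_mul_cancel₀ hc, mul_one]
    have := (LinearMap.IsIdempotentElem.isProj_range _ hi).trace
    rw [Matrix.trace_toLin'_eq, Matrix.trace_smul, smul_eq_mul] at this
    exact ⟨_, by rw [← this, ← mul_assoc, mul_inv_cancel₀ hc, one_mul]⟩

/-- Closed form of the eigenvalue sum over an odd range. -/
theorem sum_closed {s t y : ℂ} {u : ℕ → ℂ} (h0 : u 0 = s + 1) (h1 : t * u 1 = t - 1 + y)
    (hrec : ∀ i, s * t * u (i + 2) = y * u (i + 1) - u i) (hs : s ≠ 0) (ht : t ≠ 0) (i : ℕ) :
    t * (u (i + 1) ^ 2 * (s * t) ^ (i + 1) - y * u (i + 1) * u i * (s * t) ^ i +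
        u i ^ 2 * (s * t) ^ i) = (s * t + 1 - y) * (s + t + y) ∧
    (4 * (s * t) - y ^ 2) * ∑ k ∈ range (2 * i + 1), u ((k + 1) / 2) ^ 2 * qq s t k =
      (4 * (s * t) - y ^ 2) * u 0 ^ 2 + (s + 1) * (2 * i * ((s * t + 1 - y) * (s + t + y)) +
        t * (u i ^ 2 * (s * t) ^ i - u (i + 1) ^ 2 * (s * t) ^ (i + 1) - u 0 ^ 2 +
          u 1 ^ 2 * (s * t))) := by
  induction i with
  | zero =>
    constructor
    · have : u 1 = (t - 1 + y) / t := by field_simp; linear_combination h1
      simp only [zero_add, pow_zero, pow_one, h0, this]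
      field_simp; ring
    · simp [qq]
  | succ i ih =>
    obtain ⟨ih1, ih2⟩ := ih
    have hr : u (i + 2) = (y * u (i + 1) - u i) / (s * t) := by
      field_simp; linear_combination hrec i
    constructor
    · rw [← ih1, hr]; field_simp; ring
    · have e1 : (2 * i + 1 + 1) / 2 = i + 1 := by omega
      have e2 : (2 * i + 1 + 1 + 1) / 2 = i + 1 := by omega
      have e3 : 2 * i + 1 + 1 = 2 * (i + 1) := by ring
      rw [show 2 * (i + 1) + 1 = 2 * i + 1 + 1 + 1 by ring, sum_range_succ, sum_range_succ,
        mul_add, mul_add, ih2, e1, e2, qq_two_mul_add_one, e3, qq_two_mul, ← ih1, hr]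
      push_cast
      field_simp; ring

end Cfsg.Lib.Chev.FH
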