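import Cfsg.Agent.Chev.FeitHigmanAlg

/-!
# The arithmetic of the Feit–Higman theorem
-/

set_option autoImplicit false

namespace Cfsg.Lib.Chev.FH

open Finset

/-- The Hecke-type data on a finite set. -/
structure Data (X : Type*) [Fintype X] [DecidableEq X] (s t N : ℕ) where
  A : Matrix X X ℂ
  B : Matrix X X ℂ
  hA : A * A = ((s : ℂ) - 1) • A + (s : ℂ) • (1 : Matrix X X ℂ)
  hB : B * B = ((t : ℂ) - 1) • B + (t : ℂ) • (1 : Matrix X X ℂ)
  braid : bw A B (N + 1) = A * bw A B N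
  hst : Even N → s = t
  tr1 : ∀ k, 0 < k → k ≤ N → (bw A B k).trace = 0
  tr2 : ∀ k, k ≤ N → (A * bw A B k).trace = 0

variable {X : Type*} [Fintype X] [DecidableEq X] [Nonempty X] {s t N : ℕ}

theorem Data.exists_rat_of_seq (D : Data X s t N) {y : ℂ} {u : ℕ → ℂ}
    (h0 : u 0 = s + 1) (h1 : t * u 1 = t - 1 + y)
    (hrec : ∀ i, s * t * u (i + 2) = y * u (i + 1) - u i)
    (hbc1 : Even N → u (N / 2 + 1) = u (N / 2))
    (hbc2 : ¬ Even N → u (N / 2 + 1) + t * u (N / 2 + 2) = u (N / 2) + t * u (N / 2 + 1)) :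
    ∃ κ : ℚ, ∑ k ∈ range (N + 1), u ((k + 1) / 2) ^ 2 * qq s t k = κ := by
  have hs1 : (s : ℂ) + 1 ≠ 0 := by exact_mod_cast Nat.succ_ne_zero s
  have h := quasi_idem D.hA D.hB D.braid (fun h => by rw [D.hst h]) hs1 h0 h1 hrec hbc1 hbc2
  have hc : (Fintype.card X : ℂ) ≠ 0 := by exact_mod_cast Fintype.card_ne_zero
  have htr : (∑ k ∈ range (N + 1), u ((k + 1) / 2) • ((1 + D.A) * bw D.A D.B k)).trace =
      (s + 1) * Fintype.card X := by
    rw [Matrix.trace_sum, sum_range_succ', sum_eq_zero]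
    · have := D.tr2 0 (Nat.zero_le _)
      rw [bw_zero, mul_one] at this
      simp [bw_zero, h0, this]
    · intro k hk
      have hk' := mem_range.1 hk
      rw [add_mul, one_mul, Matrix.trace_smul, Matrix.trace_add, D.tr1 _ (by omega) (by omega),
        D.tr2 _ (by omega)]
      simp
  obtain ⟨n, hn⟩ := exists_nat_of_quasi_idem h (by rw [htr]; exact mul_ne_zero hs1 hc)
  rw [htr] at hn
  have hn0 : (n : ℂ) ≠ 0 := by
    intro h0; rw [h0, mul_zero] at hn; exact mul_ne_zero hs1 hc hn.symm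
  refine ⟨(s + 1) * Fintype.card X / n, ?_⟩
  push_cast
  rw [eq_div_iff hn0, hn]

theorem Data.exists_rat (D : Data X s t N) (hs : s ≠ 0) (ht : t ≠ 0) {ζ r : ℂ}
    (hζ : ζ ^ (N + 1) = 1) (hζ2 : ζ ^ 2 ≠ 1) (hr : r ^ 2 = s * t) (hrs : Even N → r = s) :
    ∃ κ : ℚ, κ * (4 * (s * t) - (r * (ζ + ζ⁻¹)) ^ 2) =
      (s * t + 1 - r * (ζ + ζ⁻¹)) * (s + t + r * (ζ + ζ⁻¹)) := by
  have hs' : (s : ℂ) ≠ 0 := by exact_mod_cast hs
  have ht' : (t : ℂ) ≠ 0 := by exact_mod_cast ht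
  have hs1 : (s : ℂ) + 1 ≠ 0 := by exact_mod_cast Nat.succ_ne_zero s
  have hN1 : (N : ℂ) + 1 ≠ 0 := by exact_mod_cast Nat.succ_ne_zero N
  have hζ0 : ζ ≠ 0 := by rintro rfl; simp at hζ
  have hr0 : r ≠ 0 := by rintro rfl; exact mul_ne_zero hs' ht' (by simpa using hr.symm)
  have hd : ζ ^ 2 - 1 ≠ 0 := sub_ne_zero.2 hζ2
  set y := r * (ζ + ζ⁻¹) with hy
  set α : ℂ := (r * (t - 1 + y) / t * ζ - (s + 1)) / (ζ ^ 2 - 1) with hα
  set α' : ℂ := ((s + 1) * ζ ^ 2 - r * (t - 1 + y) / t * ζ) / (ζ ^ 2 - 1) with hα'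
  set u : ℕ → ℂ := fun i => (α * ζ ^ i + α' * ζ⁻¹ ^ i) / r ^ i with hu
  have h0 : u 0 = s + 1 := by
    simp only [hu, hα, hα', pow_zero, mul_one, div_one]; field_simp; ring
  have h1 : t * u 1 = t - 1 + y := by
    simp only [hu, hα, hα', pow_one]; field_simp; ring
  have hrec : ∀ i, s * t * u (i + 2) = y * u (i + 1) - u i := by
    intro i
    simp only [hu, hy, ← hr, inv_pow, pow_succ]; field_simp; ring
  have main : (Even N → u (N / 2 + 1) = u (N / 2)) ∧
      (¬ Even N → u (N / 2 + 1) + t * u (N / 2 + 2) = u (N / 2) + t * u (N / 2 + 1)) ∧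
      (4 * (s * t) - y ^ 2) * ∑ k ∈ range (N + 1), u ((k + 1) / 2) ^ 2 * qq s t k =
        (s + 1) * (N + 1) * ((s * t + 1 - y) * (s + t + y)) := by
    rcases Nat.even_or_odd' N with ⟨d, rfl | rfl⟩
    · have hst := D.hst (even_two_mul d)
      have hrs' := hrs (even_two_mul d)
      subst hst
      have hη0 : ζ ^ d ≠ 0 := pow_ne_zero _ hζ0
      have hη : (ζ ^ d)⁻¹ = ζ ^ d * ζ := by
        apply inv_eq_of_mul_eq_one_right
        rw [← hζ]; ring
      have hsd : (s : ℂ) ^ d ≠ 0 := pow_ne_zero _ hs'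
      have ud : u d = ζ ^ d * (1 + ζ) / s ^ d := by
        simp only [hu, inv_pow, hη, hα, hα', hy, hrs']; field_simp; ring
      have ud1 : u (d + 1) = ζ ^ d * (1 + ζ) / s ^ d := by
        simp only [hu, inv_pow, pow_succ ζ d, mul_inv, hη, hα, hα', hy, hrs', pow_succ (s : ℂ) d]
        field_simp; ring
      have e : 2 * d / 2 = d := by omega
      refine ⟨fun _ => by rw [e, ud, ud1], fun h => absurd (even_two_mul d) h, ?_⟩
      have hsq : (ζ ^ d) ^ 2 = ζ⁻¹ := by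
        apply eq_inv_of_mul_eq_one_left
        rw [← hζ]; ring
      have u1 : u 1 = (s - 1 + y) / s := by field_simp; linear_combination h1
      rw [(sum_closed h0 h1 hrec hs' hs' d).2, ud, ud1, h0, u1, div_pow, mul_pow (ζ ^ d), hsq, hy, hrs']
      push_cast
      simp only [mul_pow, pow_succ (s : ℂ) d]
      field_simp; ring
    · have hε : (ζ ^ (d + 1))⁻¹ = ζ ^ (d + 1) := by
        apply inv_eq_of_mul_eq_one_right
        rw [← hζ]; ring
      have hε2 : (ζ ^ (d + 1)) ^ 2 = 1 := by rw [← hζ]; ring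
      obtain ⟨ε, hεd⟩ : ∃ ε, ε = ζ ^ (d + 1) := ⟨_, rfl⟩
      rw [← hεd] at hε hε2
      have hrd : r ^ d ≠ 0 := pow_ne_zero _ hr0
      have p0 : ζ ^ d = ε / ζ := by rw [hεd]; field_simp; ring
      have p0' : (ζ ^ d)⁻¹ = ε * ζ := by rw [p0, inv_div, div_eq_mul_inv, hε, mul_comm]
      have p2 : ζ ^ (d + 2) = ε * ζ := by rw [hεd]; ring
      have ud : u d = ε * (α / ζ + α' * ζ) / r ^ d := by
        simp only [hu, inv_pow, p0']; rw [p0]; field_simp
      have ud1 : u (d + 1) = ε * u 0 / r ^ (d + 1) := by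
        simp only [hu, inv_pow, ← hεd, hε]; field_simp
      have ud2 : u (d + 2) = ε * u 1 / r ^ (d + 1) := by
        simp only [hu, inv_pow, p2, mul_inv, hε, pow_succ r (d + 1)]; field_simp
      have e : (2 * d + 1) / 2 = d := by omega
      have u1 : u 1 = (t - 1 + y) / t := by field_simp; linear_combination h1
      have um : r * (α / ζ + α' * ζ) = y - s * t + s := by
        have : r * (α / ζ + α' * ζ) = y * u 0 - s * t * u 1 := by
          simp only [hu, hy, ← hr]; field_simp; ring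
        rw [this, h0, u1]; field_simp; ring
      refine ⟨fun h => absurd h (Nat.not_even_two_mul_add_one d), fun _ => ?_, ?_⟩
      · have : α / ζ + α' * ζ = (y - s * t + s) / r := by rw [← um]; field_simp
        rw [e, ud, ud1, ud2, h0, u1, this, pow_succ r d]
        field_simp; ring
      · have hc := (sum_closed h0 h1 hrec hs' ht' (d + 1)).2
        have e2 : (2 * (d + 1) + 1) / 2 = d + 1 := by omega
        rw [sum_range_succ, e2, qq_two_mul, show 2 * (d + 1) = 2 * d + 1 + 1 by ring] at hc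
        have w1 : u (d + 1) ^ 2 * ((s : ℂ) * t) ^ (d + 1) = u 0 ^ 2 := by
          rw [ud1, ← hr, div_pow, mul_pow, hε2]; field_simp; ring
        have w2 : u (d + 1 + 1) ^ 2 * ((s : ℂ) * t) ^ (d + 1 + 1) = u 1 ^ 2 * (s * t) := by
          rw [ud2, ← hr, div_pow, mul_pow, hε2]; field_simp; ring
        rw [w1, w2] at hc
        push_cast at hc ⊢
        linear_combination hc
  obtain ⟨κ, hκ⟩ := D.exists_rat_of_seq h0 h1 hrec main.1 main.2.1
  refine ⟨κ / ((s + 1) * (N + 1)), ?_⟩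
  have := main.2.2
  rw [hκ] at this
  push_cast
  field_simp
  linear_combination this

/-- Every eigenvalue `r (ζ + ζ⁻¹)` is rational. -/
theorem Data.rat_eigen (D : Data X s t N) (hs : 2 ≤ s) (ht : 2 ≤ t) {ζ r : ℂ}
    (hζ : ζ ^ (N + 1) = 1) (hζ2 : ζ ^ 2 ≠ 1) (hr : r ^ 2 = s * t) (hrs : Even N → r = s) :
    ∃ a : ℚ, r * (ζ + ζ⁻¹) = a := by
  have hζ0 : ζ ≠ 0 := by rintro rfl; simp at hζ
  obtain ⟨κ, hκ⟩ := D.exists_rat (by omega) (by omega) hζ hζ2 hr hrs
  have hs1 : (s : ℚ) - 1 ≠ 0 := by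
    have : (2 : ℚ) ≤ s := by exact_mod_cast hs
    linarith
  have ht1 : (t : ℚ) - 1 ≠ 0 := by
    have : (2 : ℚ) ≤ t := by exact_mod_cast ht
    linarith
  have hs1' : (s : ℂ) - 1 ≠ 0 := by exact_mod_cast hs1
  have ht1' : (t : ℂ) - 1 ≠ 0 := by exact_mod_cast ht1
  by_cases hN : Even N
  · have hst := D.hst hN
    subst hst
    rw [hrs hN] at hκ ⊢
    have hs0 : (s : ℂ) ≠ 0 := by exact_mod_cast (by omega : s ≠ 0)
    have h1 : ζ + 1 ≠ 0 := by
      intro h
      apply hζ2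
      rw [eq_neg_of_add_eq_zero_left h]; norm_num
    have h2 : (s : ℂ) * (ζ + ζ⁻¹) + 2 * s ≠ 0 := by
      have : (s : ℂ) * (ζ + ζ⁻¹) + 2 * s = s * (ζ + 1) ^ 2 / ζ := by field_simp; ring
      rw [this]
      exact div_ne_zero (mul_ne_zero hs0 (pow_ne_zero _ h1)) hζ0
    set y := (s : ℂ) * (ζ + ζ⁻¹)
    have h3 : ((κ : ℂ) - 1) * (y - 2 * s) + (s - 1) ^ 2 = 0 := by
      apply mul_left_cancel₀ h2
      linear_combination -hκ
    have h4 : (κ : ℂ) - 1 ≠ 0 := by
      intro h; rw [h, zero_mul, zero_add] at h3; exact pow_ne_zero 2 hs1' h3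
    refine ⟨2 * s - (s - 1) ^ 2 / (κ - 1), ?_⟩
    push_cast
    field_simp
    linear_combination h3
  · obtain ⟨κ', hκ'⟩ := D.exists_rat (ζ := -ζ) (r := r) (by omega) (by omega)
      (by rw [Even.neg_pow (by simpa [Nat.even_add_one] using hN), hζ]) (by simpa using hζ2) hr hrs
    have e : r * (-ζ + (-ζ)⁻¹) = -(r * (ζ + ζ⁻¹)) := by rw [inv_neg]; ring
    rw [e] at hκ'
    set y := r * (ζ + ζ⁻¹)
    by_contra hirr
    push Not at hirr
    have lin : ∀ a b : ℚ, (a : ℂ) * y = b → a = 0 ∧ b = 0 := by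
      intro a b h
      by_cases ha : a = 0
      · subst ha
        exact ⟨rfl, by exact_mod_cast (by simpa using h.symm : (b : ℂ) = 0)⟩
      · exfalso
        have ha' : (a : ℂ) ≠ 0 := by exact_mod_cast ha
        apply hirr (b / a)
        push_cast
        field_simp
        linear_combination h
    have hD : (0 : ℚ) < s * (t - 1) ^ 2 + t * (s - 1) ^ 2 := by
      have h1 : (2 : ℚ) ≤ s := by exact_mod_cast hs
      have h2 : (2 : ℚ) ≤ t := by exact_mod_cast ht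
      have := sq_pos_of_ne_zero hs1
      have := sq_pos_of_ne_zero ht1
      positivity
    obtain ⟨h1, h2⟩ := lin ((κ + κ' - 2) * ((s - 1) * (t - 1)))
      ((κ - κ') * (s * (t - 1) ^ 2 + t * (s - 1) ^ 2)) (by
        push_cast
        linear_combination -((κ' : ℂ) - 1) * hκ + ((κ : ℂ) - 1) * hκ')
    have h3 : κ = κ' := by
      have := (mul_eq_zero.1 h2).resolve_right hD.ne'
      linarith
    have h4 : κ = 1 := by
      have := (mul_eq_zero.1 h1).resolve_right (mul_ne_zero hs1 ht1)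
      linarith
    obtain ⟨h5, -⟩ := lin ((s - 1) * (t - 1)) (-(s * (t - 1) ^ 2 + t * (s - 1) ^ 2)) (by
      rw [h4] at hκ
      push_cast at hκ ⊢
      linear_combination -hκ)
    exact mul_ne_zero hs1 ht1 h5

/-- The Feit–Higman theorem for Hecke data. -/
theorem Data.feit_higman (D : Data X s t N) (hs : 2 ≤ s) (ht : 2 ≤ t) (hN : 1 ≤ N) :
    N + 1 = 2 ∨ N + 1 = 3 ∨ N + 1 = 4 ∨ N + 1 = 6 ∨ N + 1 = 8 := by
  by_cases hN1 : N = 1
  · omega
  obtain ⟨r, hr, hrs⟩ : ∃ r : ℂ, r ^ 2 = s * t ∧ (Even N → r = s) := by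
    by_cases h : Even N
    · exact ⟨s, by rw [← D.hst h]; ring, fun _ => rfl⟩
    · obtain ⟨r, hr⟩ := IsAlgClosed.exists_pow_nat_eq ((s : ℂ) * t) (by norm_num : 0 < 2)
      exact ⟨r, hr, fun h' => absurd h' h⟩
  have hprim := Complex.isPrimitiveRoot_exp (N + 1) (Nat.succ_ne_zero N)
  set ζ := Complex.exp (2 * Real.pi * Complex.I / ((N + 1 : ℕ) : ℂ)) with hζdef
  have hζ := hprim.pow_eq_one
  have hζ0 : ζ ≠ 0 := hprim.ne_zero (Nat.succ_ne_zero N)
  have hζ2 : ζ ^ 2 ≠ 1 := hprim.pow_ne_one_of_pos_of_lt (by norm_num) (by omega)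
  have hst0 : (s : ℂ) * t ≠ 0 := by
    exact_mod_cast mul_ne_zero (by omega : s ≠ 0) (by omega : t ≠ 0)
  obtain ⟨a, ha⟩ := D.rat_eigen hs ht hζ hζ2 hr hrs
  have hint : IsIntegral ℤ (ζ ^ 2 + ζ⁻¹ ^ 2) :=
    ((hprim.isIntegral (Nat.succ_pos N)).pow 2).add ((hprim.inv.isIntegral (Nat.succ_pos N)).pow 2)
  obtain ⟨k, hk⟩ := hint.exists_int_iff_exists_rat.1 ⟨a ^ 2 / (s * t) - 2, by
    push_cast
    rw [← ha, mul_pow, hr, mul_div_cancel_left₀ _ hst0]; field_simp; ring⟩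
  have hnorm : ‖ζ‖ = 1 := hprim.norm'_eq_one (Nat.succ_ne_zero N)
  have hk2 : |k| ≤ 2 := by
    have : ‖(k : ℂ)‖ ≤ 2 := by
      rw [← hk]
      refine (norm_add_le _ _).trans ?_
      simp [hnorm]; norm_num
    rw [Complex.norm_intCast] at this
    exact_mod_cast this
  have hq : ζ ^ 4 - k * ζ ^ 2 + 1 = 0 := by rw [← hk]; field_simp; ring
  have dv : ∀ j, ζ ^ j = 1 → N + 1 ∣ j := fun j h => (hprim.pow_eq_one_iff_dvd j).1 h
  obtain ⟨hk3, hk4⟩ := abs_le.1 hk2
  have small : ∀ j, 0 < j → j ≤ 8 → j ≠ 5 → j ≠ 7 → ζ ^ j = 1 →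
      N + 1 = 2 ∨ N + 1 = 3 ∨ N + 1 = 4 ∨ N + 1 = 6 ∨ N + 1 = 8 := by
    intro j h0 h8 h5 h7 h
    have h1 := dv j h
    have h2 := Nat.le_of_dvd h0 h1
    have h3 : N + 1 ≤ 8 := by omega
    have h4 : 2 ≤ N + 1 := by omega
    generalize N + 1 = m at h1 h2 h3 h4
    interval_cases m <;> omega
  interval_cases k
  · refine small 4 (by norm_num) (by norm_num) (by norm_num) (by norm_num) ?_
    have : (ζ ^ 2 + 1) ^ 2 = 0 := by push_cast at hq; linear_combination hq
    have := pow_eq_zero_iff (two_ne_zero) |>.1 this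
    linear_combination (ζ ^ 2 - 1) * this
  · refine small 6 (by norm_num) (by norm_num) (by norm_num) (by norm_num) ?_
    push_cast at hq; linear_combination (ζ ^ 2 - 1) * hq
  · refine small 8 (by norm_num) (by norm_num) (by norm_num) (by norm_num) ?_
    push_cast at hq; linear_combination (ζ ^ 4 - 1) * hq
  · push_cast at hq
    have h12 : ζ ^ 12 = 1 := by linear_combination (ζ ^ 6 - 1) * (ζ ^ 2 + 1) * hq
    have h1 := dv 12 h12
    by_cases h : N + 1 = 12
    · exfalso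
      have hζ4 : (ζ ^ 2) ^ 2 ≠ 1 := by
        rw [← pow_mul]; exact hprim.pow_ne_one_of_pos_of_lt (by norm_num) (by omega)
      obtain ⟨b, hb⟩ := D.rat_eigen (ζ := ζ ^ 2) hs ht (by rw [← pow_mul, mul_comm, pow_mul, hζ, one_pow])
        hζ4 hr hrs
      rw [← inv_pow, hk] at hb
      have hr0 : r ≠ 0 := by rintro rfl; exact hst0 (by simpa using hr.symm)
      have hb0 : (b : ℂ) ≠ 0 := by rw [← hb]; simpa using hr0
      have h3 : ((a / b) ^ 2 : ℚ) = 3 := by
        have : (((a / b) ^ 2 : ℚ) : ℂ) = 3 := by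
          push_cast
          rw [← ha, ← hb]
          have e : (ζ + ζ⁻¹) ^ 2 = 3 := by
            have : ζ * ζ⁻¹ = 1 := mul_inv_cancel₀ hζ0
            push_cast at hk
            linear_combination hk + 2 * this
          push_cast
          rw [mul_one, mul_div_cancel_left₀ _ hr0, e]
        exact_mod_cast this
      have h4 : IsSquare (3 : ℚ) := ⟨a / b, by rw [← h3]; ring⟩
      have h5 : IsSquare (3 : ℕ) := by exact_mod_cast Rat.isSquare_natCast_iff.1 (by exact_mod_cast h4)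
      exact (by norm_num : Nat.Prime 3).not_isSquare h5
    · have h2 := Nat.le_of_dvd (by norm_num) h1
      have h4 : 2 ≤ N + 1 := by omega
      generalize N + 1 = m at h1 h2 h h4
      interval_cases m <;> omega
  · exfalso
    apply hζ2
    have : (ζ ^ 2 - 1) ^ 2 = 0 := by push_cast at hq; linear_combination hq
    have := pow_eq_zero_iff (two_ne_zero) |>.1 this
    linear_combination this

end Cfsg.Lib.Chev.FH
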