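import Cfsg.Agent.Rank2.Model
import Cfsg.Agent.Solv.FrattiniP

/-! Groups of order 320 of the type of an involution centraliser in `U₃(4)`. -/

set_option autoImplicit false

namespace Cfsg.Lib.Chev.G320

open Subgroup Cfsg.Lib.Rank2
open scoped commutatorElement

variable {P : Type*} [Group P]

/-- class two data with an automorphism of order dividing five -/
structure B5 (b : MulAut P) : Prop where
  cls : ∀ x y : P, ⁅x, y⁆ ∈ center P
  sq : ∀ x : P, x * x ∈ center P
  ex : ∀ z ∈ center P, z * z = 1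
  fx : ∀ z ∈ center P, b z = z
  p5 : ∀ x, b (b (b (b (b x)))) = x

theorem mem_center_prod' {Q : Type*} [Group Q] {z : P × Q} :
    z ∈ center (P × Q) ↔ z.1 ∈ center P ∧ z.2 ∈ center Q := by
  simp only [mem_center_iff]
  exact ⟨fun h => ⟨fun g => congrArg Prod.fst (h (g, 1)), fun g => congrArg Prod.snd (h (1, g))⟩,
    fun h g => Prod.ext (h.1 g.1) (h.2 g.2)⟩

theorem B5.prod {Q : Type*} [Group Q] {a : MulAut P} {b : MulAut Q} (h : B5 a) (h' : B5 b) :
    B5 (P := P × Q) (MulEquiv.prodCongr a b) where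
  cls x y := mem_center_prod'.2 ⟨h.cls x.1 y.1, h'.cls x.2 y.2⟩
  sq x := mem_center_prod'.2 ⟨h.sq x.1, h'.sq x.2⟩
  ex z hz := Prod.ext (h.ex _ (mem_center_prod'.1 hz).1) (h'.ex _ (mem_center_prod'.1 hz).2)
  fx z hz := Prod.ext (h.fx _ (mem_center_prod'.1 hz).1) (h'.fx _ (mem_center_prod'.1 hz).2)
  p5 x := Prod.ext (h.p5 x.1) (h'.p5 x.2)

/-- the subgroup generated by an orbit -/
def orb (b : MulAut P) (x : P) : Subgroup P := closure {x, b x, b (b x), b (b (b x))}

theorem orb_eq_1' : type_of% @orb.eq_1 := @orb.eq_1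

/-- the norm -/
def nrm (b : MulAut P) (x : P) : P := x * (b x * (b (b x) * b (b (b x)))) * b (b (b (b x)))

theorem nrm_eq_1' : type_of% @nrm.eq_1 := @nrm.eq_1

theorem apply_mem_orb {b : MulAut P} {x : P} (hx : nrm b x = 1) {y : P} (hy : y ∈ orb b x) :
    b y ∈ orb b x := by
  have h1 : x ∈ orb b x := subset_closure (by simp)
  have h2 : b x ∈ orb b x := subset_closure (by simp)
  have h3 : b (b x) ∈ orb b x := subset_closure (by simp)
  have h4 : b (b (b x)) ∈ orb b x := subset_closure (by simp)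
  have : orb b x ≤ (orb b x).comap b.toMonoidHom := by
    rw [orb, closure_le]
    rintro g (rfl | rfl | rfl | rfl)
    · exact h2
    · exact h3
    · exact h4
    · change b (b (b (b x))) ∈ orb b x
      rw [eq_inv_of_mul_eq_one_right hx]
      exact inv_mem (mul_mem h1 (mul_mem h2 (mul_mem h3 h4)))
  exact this hy

theorem B5.card_orb [Finite P] {b : MulAut P} (h : B5 b) {x : P} (hx : nrm b x = 1) :
    Nat.card (orb b x) ≤ 64 := by
  set u := ⁅x, b x⁆ with hu
  set v := ⁅x, b (b x)⁆ with hv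
  have hinv : ∀ p q : P, ⁅q, p⁆ = ⁅p, q⁆ := fun p q => by
    rw [← commutatorElement_inv]; exact inv_eq_of_mul_eq_one_right (h.ex _ (h.cls p q))
  have hb : ∀ p q : P, ⁅b p, b q⁆ = ⁅p, q⁆ := fun p q => by
    rw [← map_commutatorElement]; exact h.fx _ (h.cls p q)
  have hs : ∀ p : P, b p * b p = p * p := fun p => by rw [← map_mul]; exact h.fx _ (h.sq p)
  have h03 : ⁅x, b (b (b x))⁆ = v := by
    rw [← hb, ← hb, h.p5, hinv]
  have hz : x * x = u * v := by
    have h1 : b (b (b (b x))) * b (b (b (b x))) = x * x := by rw [hs, hs, hs, hs]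
    rw [eq_inv_of_mul_eq_one_right hx, ← mul_inv_rev, inv_eq_iff_eq_inv,
      inv_eq_of_mul_eq_one_right (h.ex _ (h.sq x)), mul_mul_self h.cls, mul_mul_self h.cls,
      mul_mul_self h.cls] at h1
    have k1 : ⁅b x, x⁆ = u := hinv _ _
    have k2 : ⁅b (b x), x⁆ = v := hinv _ _
    have k3 : ⁅b (b (b x)), x⁆ = v := (hinv _ _).trans h03
    rw [comm_mul_left h.cls, comm_mul_left h.cls, comm_mul_left h.cls, hb (b (b x)) (b x),
      hb (b x) x, hb (b (b x)) x, k1, k2, k3, hs (b (b x)), hs (b x), hs x] at h1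
    have c2 : ∀ g, g * u = u * g := mem_center_iff.1 (h.cls _ _)
    have e1 := h.ex _ (h.sq x)
    have e2 : u * u = 1 := h.ex _ (h.cls _ _)
    have e3 : v * v = 1 := h.ex _ (h.cls _ _)
    rw [← h1]
    generalize x * x = z at e1
    calc z * (z * (z * z * u) * (u * v)) * (u * (v * v))
        = (z * z) * (z * z) * (u * u) * (v * u) * (v * v) := by group
      _ = u * v := by rw [e1, e2, e3, c2 v]; simp
  let V : Subgroup P := ⊥ ⊔ zpowers u ⊔ zpowers v
  have huV : u ∈ V := mem_sup_left (mem_sup_right (mem_zpowers u))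
  have hvV : v ∈ V := mem_sup_right (mem_zpowers v)
  have hVc : V ≤ center P :=
    sup_le (sup_le bot_le (zpowers_le.2 (h.cls _ _))) (zpowers_le.2 (h.cls _ _))
  have hcen : ∀ (K : Subgroup P) (g : P), g ∈ center P → Nat.card (K ⊔ zpowers g : Subgroup P) ≤
      2 * Nat.card K := fun K g hg => card_sup_zpowers_le K (fun k hk => by
        rw [← mem_center_iff.1 hg k, mul_inv_cancel_right]; exact hk)
      (by rw [h.ex g hg]; exact one_mem _)
  have t1 := hcen ⊥ u (h.cls _ _)
  have t2 := hcen (⊥ ⊔ zpowers u) v (h.cls _ _)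
  rw [card_bot] at t1
  have hVcard : Nat.card V ≤ 4 := by simp only [V]; omega
  have step : ∀ (K : Subgroup P) (g : P), V ≤ K → K ≤ V.comap (commHom h.cls g) → g * g ∈ V →
      Nat.card (K ⊔ zpowers g : Subgroup P) ≤ 2 * Nat.card K := by
    intro K g h1 h2 h3
    refine card_sup_zpowers_le K (fun k hk => ?_) (h1 h3)
    have : g * k * g⁻¹ = ⁅g, k⁆ * k := by simp [commutatorElement_def]
    rw [this]
    exact mul_mem (h1 (h2 hk)) hk
  have hV0 : ∀ g, V ≤ V.comap (commHom h.cls g) := fun g w hw => by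
    have : ⁅g, w⁆ = 1 := commutatorElement_eq_one_iff_commute.2 (mem_center_iff.1 (hVc hw) g)
    simp [this]
  have hzp : ∀ g w, ⁅g, w⁆ ∈ V → zpowers w ≤ V.comap (commHom h.cls g) := fun g w hw =>
    zpowers_le.2 hw
  have hx2 : x * x ∈ V := by rw [hz]; exact mul_mem huV hvV
  have s1 := step V x le_rfl (hV0 x) hx2
  have s2 := step (V ⊔ zpowers x) (b x) le_sup_left (sup_le (hV0 _) (hzp _ _ (by
    rw [hinv]; exact huV))) (by rw [hs]; exact hx2)
  have s3 := step (V ⊔ zpowers x ⊔ zpowers (b x)) (b (b x)) (le_sup_left.trans le_sup_left)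
    (sup_le (sup_le (hV0 _) (hzp _ _ (by rw [hinv]; exact hvV))) (hzp _ _ (by
      rw [hb, hinv]; exact huV))) (by rw [hs, hs]; exact hx2)
  have s4 := step (V ⊔ zpowers x ⊔ zpowers (b x) ⊔ zpowers (b (b x))) (b (b (b x)))
    ((le_sup_left.trans le_sup_left).trans le_sup_left)
    (sup_le (sup_le (sup_le (hV0 _) (hzp _ _ (by rw [hinv, h03]; exact hvV)))
      (hzp _ _ (by rw [hb, hinv]; exact hvV))) (hzp _ _ (by rw [hb, hb, hinv]; exact huV)))
    (by rw [hs, hs, hs]; exact hx2)
  have h5 : orb b x ≤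
      V ⊔ zpowers x ⊔ zpowers (b x) ⊔ zpowers (b (b x)) ⊔ zpowers (b (b (b x))) := by
    rw [orb, closure_le]
    rintro g (rfl | rfl | rfl | rfl)
    · exact mem_sup_left (mem_sup_left (mem_sup_left (mem_sup_right (mem_zpowers _))))
    · exact mem_sup_left (mem_sup_left (mem_sup_right (mem_zpowers _)))
    · exact mem_sup_left (mem_sup_right (mem_zpowers _))
    · exact mem_sup_right (mem_zpowers _)
  have := card_le_of_le h5
  omega

/-- a group of order 64 with centre a four-group and an automorphism of order five -/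
structure A5 (a : MulAut P) : Prop where
  card : Nat.card P = 64
  cardZ : Nat.card (center P) = 4
  ex : ∀ z ∈ center P, z * z = 1
  p5 : ∀ x, a (a (a (a (a x)))) = x
  ne : ∃ x, a x ≠ x

theorem card_modEq [Finite P] {a : MulAut P} (p5 : ∀ x, a (a (a (a (a x)))) = x) (K : Subgroup P)
    (hK : ∀ x ∈ K, a x ∈ K) :
    Nat.card K ≡ Nat.card (K ⊓ a.toMonoidHom.eqLocus (MonoidHom.id P) : Subgroup P) [MOD 5] := by
  classical
  have : Fact (Nat.Prime 5) := ⟨by norm_num⟩
  let _ := Fintype.ofFinite K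
  let f : Function.End K := fun k => ⟨a k, hK _ k.2⟩
  have hf : f ^ 5 ^ 1 = 1 := by
    funext k
    apply Subtype.ext
    exact p5 k
  have := Equiv.Perm.card_fixedPoints_modEq hf
  rw [← Nat.card_eq_fintype_card, ← Nat.card_eq_fintype_card] at this
  convert this using 1
  exact Nat.card_congr ⟨fun x => ⟨⟨x.1, x.2.1⟩, Subtype.ext x.2.2⟩,
    fun x => ⟨x.1.1, x.1.2, congrArg Subtype.val x.2⟩, fun _ => rfl, fun _ => rfl⟩

namespace A5

variable [Finite P] {a : MulAut P} (h : A5 a)
include h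

theorem eq_or {K : Subgroup P} (hK : Nat.card K ≡ 4 [MOD 5]) :
    Nat.card K = 4 ∨ K = ⊤ := by
  have h1 : Nat.card K ∣ 2 ^ 6 := by
    have := K.card_subgroup_dvd_card; rwa [h.card] at this
  obtain ⟨i, hi, he⟩ := (Nat.dvd_prime_pow Nat.prime_two).1 h1
  rw [he] at hK ⊢
  interval_cases i
  all_goals first
    | exact absurd hK (by decide)
    | exact Or.inl rfl
    | exact Or.inr (eq_top_of_card_eq _ (by rw [he, h.card]; rfl))

theorem fx (z : P) (hz : z ∈ center P) : a z = z := by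
  have h1 := card_modEq h.p5 (center P) (fun x hx => by
    have := (characteristic_iff_map_le.1 (inferInstance : (center P).Characteristic)) a
    exact this ⟨x, hx, rfl⟩)
  have h2 := card_le_of_le (inf_le_left : center P ⊓ a.toMonoidHom.eqLocus (MonoidHom.id P) ≤ _)
  rw [h.cardZ] at h1 h2
  have h3 : center P ⊓ a.toMonoidHom.eqLocus (MonoidHom.id P) = center P :=
    eq_of_le_of_card_ge inf_le_left (by rw [h.cardZ]; unfold Nat.ModEq at h1; omega)
  exact (h3.ge hz).2

theorem mem_of_fix {x : P} (hx : a x = x) : x ∈ center P := by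
  have h1 := card_modEq h.p5 ⊤ (fun _ _ => mem_top _)
  rw [top_inf_eq, card_top, h.card] at h1
  rcases h.eq_or (K := a.toMonoidHom.eqLocus (MonoidHom.id P)) (h1.symm.trans (by decide)) with
    h2 | h2
  · have : center P = a.toMonoidHom.eqLocus (MonoidHom.id P) :=
      eq_of_le_of_card_ge (fun z hz => h.fx z hz) (by rw [h2, h.cardZ])
    rw [this]; exact hx
  · obtain ⟨y, hy⟩ := h.ne
    exact absurd (h2.ge (mem_top y)) hy

theorem dich {K : Subgroup P} (hZ : center P ≤ K) (hK : ∀ x ∈ K, a x ∈ K) :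
    K = center P ∨ K = ⊤ := by
  have h1 := card_modEq h.p5 K hK
  have h2 : K ⊓ a.toMonoidHom.eqLocus (MonoidHom.id P) = center P :=
    le_antisymm (fun x hx => h.mem_of_fix hx.2) (fun z hz => ⟨hZ hz, h.fx z hz⟩)
  rw [h2, h.cardZ] at h1
  exact (h.eq_or h1).imp_left fun h3 => (eq_of_le_of_card_ge hZ (by rw [h3, h.cardZ])).symm

theorem center_ne_top : center P ≠ ⊤ := fun e => by
  have := h.cardZ
  rw [e, card_top, h.card] at this
  omega

theorem b5 : B5 a := by
  have hP : IsPGroup 2 P := IsPGroup.of_card (n := 6) h.card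
  have hF : frattini P ≤ center P := by
    rcases h.dich (K := center P ⊔ frattini P) le_sup_left (fun x hx => by
      have := (characteristic_iff_map_le.1
        (inferInstance : (center P ⊔ frattini P).Characteristic)) a
      exact this ⟨x, hx, rfl⟩) with h1 | h1
    · exact h1 ▸ le_sup_right
    · exact absurd (frattini_nongenerating h1) h.center_ne_top
  exact ⟨fun x y => hF (Cfsg.Lib.Solv.commutator_le_frattini_of_isPGroup hP
      (commutator_mem_commutator (mem_top x) (mem_top y))),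
    fun x => hF (by rw [← pow_two]; exact Cfsg.Lib.Solv.pow_mem_frattini hP x), h.ex, h.fx, h.p5⟩

theorem mem_of_apply {y c : P} (hc : c ∈ center P) (hy : a y = y * c) : y ∈ center P := by
  have h1 := h.p5 y
  simp only [hy, map_mul, h.fx c hc, mul_assoc, h.ex c hc, mul_one] at h1
  exact h.mem_of_fix (hy.trans h1)

theorem exists_gen : ∃ x, nrm a x = 1 ∧ center P ⊔ orb a x = ⊤ := by
  obtain ⟨x, hx⟩ : ∃ x, x ∉ center P := by
    by_contra hc
    push Not at hc
    exact h.center_ne_top (eq_top_iff.2 fun x _ => hc x)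
  have hy : nrm a x ∈ center P := h.mem_of_apply (h.b5.cls (nrm a x)⁻¹ x⁻¹) (by
    have : a (nrm a x) = x⁻¹ * nrm a x * x := by simp only [nrm, map_mul, h.p5]; group
    rw [this, commutatorElement_def]; group)
  set y := nrm a x with hy'
  have hc := mem_center_iff.1 hy
  have hn : nrm a (x * y) = 1 := by
    have e := h.ex y hy
    simp only [nrm, map_mul, h.fx y hy]
    calc x * y * (a x * y * (a (a x) * y * (a (a (a x)) * y))) * (a (a (a (a x))) * y)
        = x * (y * a x) * (y * a (a x)) * (y * a (a (a x))) * (y * a (a (a (a x)))) * y := by group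
      _ = x * a x * (y * a (a x)) * (y * y) * a (a (a x)) * a (a (a (a x))) * (y * y) := by
          rw [← hc (a x), ← hc (a (a x)), ← hc (a (a (a (a x))))]
          simp only [mul_assoc]
          rw [← mul_assoc y (a (a x)), ← hc (a (a x))]
          simp only [mul_assoc]
      _ = x * a x * a (a x) * (y * (a (a (a x)) * a (a (a (a x))))) := by
          rw [e, ← hc]; group
      _ = nrm a x * y := by rw [← hc]; simp only [nrm]; group
      _ = 1 := e
  refine ⟨x * y, hn, ?_⟩
  rcases h.dich (K := center P ⊔ orb a (x * y)) le_sup_left (fun g hg => by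
    obtain ⟨z, hz, w, hw, rfl⟩ := mem_sup_of_normal_left.1 hg
    rw [map_mul, h.fx z hz]
    exact mul_mem_sup hz (apply_mem_orb hn hw)) with h1 | h1
  · have : x * y ∈ center P := h1 ▸ mem_sup_right (subset_closure (by simp))
    exact absurd ((mul_mem_cancel_right hy).1 this) hx
  · exact h1

end A5

/-- the configuration in the big group -/
structure H320 {G : Type*} [Group G] (T : Subgroup G) [T.Normal] (s : G) : Prop where
  card : Nat.card G = 320
  ord : orderOf s = 5
  a5 : A5 (MulAut.conjNormal s : MulAut T)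

theorem card_sup_le' {G : Type*} [Group G] [Finite G] {K T : Subgroup G}
    (h : T ≤ normalizer (K : Set G)) : Nat.card ↥(K ⊔ T) ≤ Nat.card K * Nat.card T := by
  rw [← Nat.card_prod]
  refine Nat.card_le_card_of_surjective (fun x => ⟨_, mul_mem_sup x.1.2 x.2.2⟩) fun x => ?_
  have hx : (x : G) ∈ ((K ⊔ T : Subgroup G) : Set G) := x.2
  rw [coe_mul_of_right_le_normalizer_left K T h] at hx
  obtain ⟨a, ha, b, hb, e⟩ := hx
  exact ⟨(⟨a, ha⟩, ⟨b, hb⟩), Subtype.ext e⟩

namespace H320

variable {G : Type*} [Group G] [Finite G] {T : Subgroup G} [T.Normal] {s : G} (h : H320 T s)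
include h

theorem sup_eq : T ⊔ zpowers s = ⊤ := by
  apply eq_top_of_card_eq
  have h1 := card_dvd_of_le (le_sup_left : T ≤ T ⊔ zpowers s)
  have h2 := card_dvd_of_le (le_sup_right : zpowers s ≤ T ⊔ zpowers s)
  rw [h.a5.card] at h1
  rw [Nat.card_zpowers, h.ord] at h2
  have h3 := Nat.Coprime.mul_dvd_of_dvd_of_dvd (by norm_num) h1 h2
  exact Nat.dvd_antisymm (card_subgroup_dvd_card _) (h.card ▸ h3)

theorem center_le : (center T).map T.subtype ≤ center G := by
  rintro _ ⟨z, hz, rfl⟩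
  have : T ⊔ zpowers s ≤ centralizer {(z : G)} := by
    refine sup_le (fun t ht => mem_centralizer_singleton_iff.2 ?_) (zpowers_le.2
      (mem_centralizer_singleton_iff.2 ?_))
    · exact congrArg Subtype.val (mem_center_iff.1 hz ⟨t, ht⟩)
    · have := congrArg Subtype.val (h.a5.fx z hz)
      rw [MulAut.conjNormal_apply] at this
      exact mul_inv_eq_iff_eq_mul.1 this
  rw [h.sup_eq] at this
  exact mem_center_iff.2 fun g => mem_centralizer_singleton_iff.1 (this (mem_top g))

theorem gen (hT : T ≤ commutator G) {x : T}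
    (hx : center T ⊔ orb (MulAut.conjNormal s : MulAut T) x = ⊤) :
    (orb (MulAut.conjNormal s : MulAut T) x).map T.subtype ⊔ zpowers s = ⊤ := by
  set L := (orb (MulAut.conjNormal s : MulAut T) x).map T.subtype ⊔ zpowers s
  have h1 : center G ⊔ L = ⊤ := by
    rw [eq_top_iff, ← h.sup_eq]
    refine sup_le ?_ (le_sup_right.trans le_sup_right)
    conv_lhs => rw [← range_subtype T, MonoidHom.range_eq_map, ← hx, Subgroup.map_sup]
    exact sup_le_sup h.center_le le_sup_left
  have h2 : commutator G ≤ L := by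
    rw [_root_.commutator_def, commutator_le]
    intro g _ k _
    obtain ⟨z, hz, l, hl, rfl⟩ := mem_sup_of_normal_left.1 (h1.ge (mem_top g))
    obtain ⟨z', hz', l', hl', rfl⟩ := mem_sup_of_normal_left.1 (h1.ge (mem_top k))
    have : ⁅z * l, z' * l'⁆ = ⁅l, l'⁆ := by
      have c := mem_center_iff.1 hz
      have c' := mem_center_iff.1 hz'
      calc ⁅z * l, z' * l'⁆ = z * (l * (z' * (l' * l⁻¹))) * z⁻¹ * l'⁻¹ * z'⁻¹ := by
            rw [commutatorElement_def]; group
        _ = l * (z' * (l' * l⁻¹ * l'⁻¹) * z'⁻¹) := by rw [← c]; group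
        _ = ⁅l, l'⁆ := by rw [← c', commutatorElement_def]; group
    rw [this, commutatorElement_def]
    exact mul_mem (mul_mem (mul_mem hl hl') (inv_mem hl)) (inv_mem hl')
  rw [eq_top_iff, ← h.sup_eq]
  exact sup_le (hT.trans h2) le_sup_right

theorem nonempty_equiv {H : Type*} [Group H] [Finite H] {U : Subgroup H} [U.Normal] {r : H}
    (h' : H320 U r) (hT : T ≤ commutator G) (hU : U ≤ commutator H) : Nonempty (G ≃* H) := by
  obtain ⟨x, hx, hx'⟩ := h.a5.exists_gen
  obtain ⟨y, hy, hy'⟩ := h'.a5.exists_gen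
  have hb := h.a5.b5.prod h'.a5.b5
  set b : MulAut (T × U) := MulEquiv.prodCongr (MulAut.conjNormal s : MulAut T)
    (MulAut.conjNormal r : MulAut U)
  have hn : nrm b (x, y) = 1 := Prod.ext hx hy
  let K := (orb b (x, y)).map (T.subtype.prodMap U.subtype)
  have hK : Nat.card K ≤ 64 := (Nat.card_le_card_of_surjective _
    (MonoidHom.subgroupMap_surjective _ _)).trans (hb.card_orb hn)
  have hs : Nat.card (zpowers ((s, r) : G × H)) = 5 := by
    rw [Nat.card_zpowers, Prod.orderOf, h.ord, h'.ord]; rfl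
  have hD : Nat.card (K ⊔ zpowers (s, r) : Subgroup (G × H)) ≤ 320 := by
    refine (card_sup_le' (zpowers_le.2 (mem_normalizer_fintype ?_))).trans (by rw [hs]; omega)
    rintro _ ⟨w, hw, rfl⟩
    exact ⟨b w, apply_mem_orb hn hw, rfl⟩
  obtain ⟨e, -⟩ := exists_mulEquiv_of_graph (K ⊔ zpowers (s, r)) (by
      rw [Subgroup.map_sup, MonoidHom.map_zpowers, ← h.gen hT hx']
      congr 1
      simp only [K, orb, MonoidHom.map_closure, Set.image_insert_eq, Set.image_singleton]
      rfl) (by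
      rw [Subgroup.map_sup, MonoidHom.map_zpowers, ← h'.gen hU hy']
      congr 1
      simp only [K, orb, MonoidHom.map_closure, Set.image_insert_eq, Set.image_singleton]
      rfl) (hD.trans h.card.ge) (hD.trans h'.card.ge)
  exact ⟨e⟩

theorem le_commutator
    (hsq : ∀ K : Subgroup T, (∀ x, x * x ∈ K) → center T ≤ K) : T ≤ commutator G := by
  let K := (commutator G).subgroupOf T
  have hK : ∀ x ∈ K, (MulAut.conjNormal s : MulAut T) x ∈ K := fun x hx => by
    change ((MulAut.conjNormal s : MulAut T) x : G) ∈ commutator G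
    rw [MulAut.conjNormal_apply]
    exact (inferInstance : (commutator G).Normal).conj_mem _ hx s
  rcases h.a5.dich (K := center T ⊔ K) le_sup_left (fun g hg => by
    obtain ⟨z, hz, w, hw, rfl⟩ := mem_sup_of_normal_left.1 hg
    rw [map_mul, h.a5.fx z hz]
    exact mul_mem_sup hz (hK w hw)) with h1 | h1
  · exfalso
    obtain ⟨x, hx⟩ := h.a5.ne
    refine hx (h.a5.fx x (h.a5.mem_of_apply (c := x⁻¹ * (MulAut.conjNormal s : MulAut T) x)
      (h1 ▸ mem_sup_right ?_) (by group)))
    change ((x⁻¹ * (MulAut.conjNormal s : MulAut T) x : T) : G) ∈ commutator G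
    rw [coe_mul, coe_inv, MulAut.conjNormal_apply]
    have := commutator_mem_commutator (mem_top (x : G)⁻¹) (mem_top s)
    rw [commutatorElement_def, inv_inv, mul_assoc, mul_assoc, ← mul_assoc s] at this
    exact this
  · have h2 := hsq K fun x => by
      obtain ⟨z, hz, w, hw, rfl⟩ := mem_sup_of_normal_left.1 (h1.ge (mem_top x))
      have : z * w * (z * w) = w * w := by
        rw [mul_assoc, ← mul_assoc w, mem_center_iff.1 hz w, mul_assoc, ← mul_assoc z z,
          h.a5.ex z hz, one_mul]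
      rw [this]; exact mul_mem hw hw
    rw [sup_eq_right.2 h2] at h1
    intro t ht
    exact h1.ge (mem_top (⟨t, ht⟩ : T))

end H320

theorem conj_p5 {G : Type*} [Group G] {T : Subgroup G} [T.Normal] {s : G} (hs : orderOf s = 5)
    (x : T) : (MulAut.conjNormal s : MulAut T) ((MulAut.conjNormal s : MulAut T)
      ((MulAut.conjNormal s : MulAut T) ((MulAut.conjNormal s : MulAut T)
        ((MulAut.conjNormal s : MulAut T) x)))) = x := by
  have : (MulAut.conjNormal s : MulAut T) ^ 5 = 1 := by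
    rw [← map_pow, ← hs, pow_orderOf_eq_one, map_one]
  exact DFunLike.congr_fun this x

theorem h320_of {G : Type*} [Group G] [Finite G] (hG : Nat.card G = 320)
    (hD : Nat.card (commutator G) = 64) (hZ : IsKleinFour (center (commutator G))) :
    ∃ s, H320 (commutator G) s := by
  have : Fact (Nat.Prime 5) := ⟨by norm_num⟩
  obtain ⟨s, hs⟩ := exists_prime_orderOf_dvd_card' (G := G) 5 (by rw [hG]; norm_num)
  refine ⟨s, hG, hs, hD, hZ.card_four, fun z hz => ?_, conj_p5 hs, ?_⟩
  · have := Monoid.pow_exponent_eq_one (⟨z, hz⟩ : center (commutator G))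
    rw [hZ.exponent_two, pow_two] at this
    exact congrArg Subtype.val this
  · by_contra hc
    push Not at hc
    set T := commutator G with hT
    have hsup : T ⊔ zpowers s = ⊤ := by
      apply eq_top_of_card_eq
      have h1 := card_dvd_of_le (le_sup_left : T ≤ T ⊔ zpowers s)
      have h2 := card_dvd_of_le (le_sup_right : zpowers s ≤ T ⊔ zpowers s)
      rw [hD] at h1
      rw [Nat.card_zpowers, hs] at h2
      have h3 := Nat.Coprime.mul_dvd_of_dvd_of_dvd (by norm_num) h1 h2
      exact Nat.dvd_antisymm (card_subgroup_dvd_card _) (hG ▸ h3)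
    have hcs : ∀ t ∈ T, ∀ k ∈ zpowers s, Commute k t := by
      rintro t ht _ ⟨k, rfl⟩
      have := congrArg Subtype.val (hc ⟨t, ht⟩)
      rw [MulAut.conjNormal_apply] at this
      exact Commute.zpow_left (mul_inv_eq_iff_eq_mul.1 this) k
    have h2 : T ≤ ⁅T, T⁆ := by
      conv_lhs => rw [hT, _root_.commutator_def]
      rw [commutator_le]
      intro g _ k _
      obtain ⟨l, hl, z, hz, rfl⟩ := mem_sup_of_normal_left.1 (hsup.ge (mem_top g))
      obtain ⟨l', hl', z', hz', rfl⟩ := mem_sup_of_normal_left.1 (hsup.ge (mem_top k))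
      have hzz : Commute z z' := by
        obtain ⟨i, rfl⟩ := hz
        obtain ⟨j, rfl⟩ := hz'
        exact Commute.zpow_zpow_self s i j
      have : ⁅l * z, l' * z'⁆ = ⁅l, l'⁆ := by
        have c1 := (hcs l' hl' z hz).eq
        have c2 := (hcs l hl z' hz').inv_right.eq
        calc ⁅l * z, l' * z'⁆ = l * (z * l') * (z' * z⁻¹) * l⁻¹ * z'⁻¹ * l'⁻¹ := by
              rw [commutatorElement_def]; group
          _ = l * l' * (z' * l⁻¹) * z'⁻¹ * l'⁻¹ := by
              rw [c1, ← hzz.inv_left.eq]; group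
          _ = ⁅l, l'⁆ := by rw [c2, commutatorElement_def]; group
      rw [this]
      exact commutator_mem_commutator hl hl'
    have hP : IsPGroup 2 T := IsPGroup.of_card (n := 6) hD
    have hF := Cfsg.Lib.Solv.commutator_le_frattini_of_isPGroup hP
    have h3 : commutator T = ⊤ := by
      apply map_injective T.subtype_injective
      rw [map_subtype_commutator, ← MonoidHom.range_eq_map, range_subtype]
      exact le_antisymm (commutator_le_left _ _) h2
    have h4 := frattini_nongenerating (G := T) (K := ⊥) (by rw [bot_sup_eq, eq_top_iff, ← h3]; exact hF)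
    have := congrArg (fun K : Subgroup T => Nat.card K) h4
    simp only [card_bot, card_top, hD] at this
    omega

open Cfsg.Lib.Class in
theorem exists_model {F : Type*} [Field F] [Fintype F] (hF : Fintype.card F = 16) :
    ∃ t : SU 3 F 4, orderOf t = 2 ∧ ∃ (T : Subgroup (centralizer ({t} : Set (SU 3 F 4))))
      (_ : T.Normal) (s : centralizer ({t} : Set (SU 3 F 4))), H320 T s ∧ T ≤ commutator _ := by
  have hF1 : Fintype.card F = 4 ^ 2 := hF
  have hF' : Nat.card F = 2 ^ 4 := by rw [Nat.card_eq_fintype_card, hF]; rfl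
  have := Heis.charP_two hF'
  have h2 : (2 : F) = 0 := CharTwo.two_eq_zero
  obtain ⟨a, z, h1, hA⟩ := Heis.isU34 hF1
  set σ := frobq hF1 with hσ
  have hσσ : ∀ x, σ (σ x) = x := frobq_frobq hF1
  let f : Heis.uSub σ hσσ →* SU 3 F 4 :=
    (Heis.toSL'.comp (Subgroup.subtype _)).codRestrict _ fun x =>
      Heis.toSL'_mem_SU _ _ (fun _ => rfl) x.2
  have hf : Function.Injective f := fun x y e =>
    Subtype.ext (Heis.toSL'_injective (congrArg Subtype.val e))
  let t0 : Heis.uSub σ hσσ := ⟨⟨0, 0, 1⟩, by simp, by simp [CharTwo.add_self_eq_zero]⟩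
  have ht0 : orderOf t0 = 2 := orderOf_eq_prime (by
    rw [pow_two]; apply Subtype.ext; rw [coe_mul, Heis.mul_self]; ext <;> simp [t0])
    (fun e => by simpa [t0] using congrArg (fun x : Heis.uSub σ hσσ => x.1.b) e)
  refine ⟨f t0, by rw [orderOf_injective f hf, ht0], ?_⟩
  set C := centralizer ({f t0} : Set (SU 3 F 4))
  have hC : ∀ g : C, (g.1.1 1 0 = g.1.1 0 1 ∧ g.1.1 1 1 = g.1.1 0 0) ∧
      g.1.1 1 2 = g.1.1 0 2 ∧ g.1.1 2 1 = g.1.1 2 0 := fun g => by
    have e := congrArg (fun A : SU 3 F 4 => (A.1 : Matrix (Fin 3) (Fin 3) F))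
      (mem_centralizer_singleton_iff.1 g.2)
    change (g.1.1 : Matrix (Fin 3) (Fin 3) F) * !![1 + 1, 1, 0; 1, 1 + 1, 0; 0, 0, 1] =
      !![1 + 1, 1, 0; 1, 1 + 1, 0; 0, 0, 1] * (g.1.1 : Matrix (Fin 3) (Fin 3) F) at e
    rw [CharTwo.add_self_eq_zero] at e
    have e0 := congrFun (congrFun e 0) 0
    have e1 := congrFun (congrFun e 0) 1
    have e2 := congrFun (congrFun e 0) 2
    have e3 := congrFun (congrFun e 2) 0
    simp [Matrix.mul_apply, Fin.sum_univ_three] at e0 e1 e2 e3
    exact ⟨⟨e0.symm, e1.symm⟩, e2.symm, e3⟩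
  have hU : ∀ (g : SU 3 F 4) (i j : Fin 3), g.1 0 i * σ (g.1 0 j) + g.1 1 i * σ (g.1 1 j) +
      g.1 2 i * σ (g.1 2 j) = (1 : Matrix (Fin 3) (Fin 3) F) i j := fun g i j => by
    have e := congrFun (congrFun ((Perm.mem_SU_iff_mul σ (fun _ => rfl) g.1).1 g.2) i) j
    simpa [Matrix.mul_apply, Fin.sum_univ_three] using e
  let χ0 : C →* F :=
    { toFun := fun g => g.1.1 2 2
      map_one' := rfl
      map_mul' := fun g k => by
        change ((g.1.1 : Matrix (Fin 3) (Fin 3) F) * (k.1.1 : Matrix (Fin 3) (Fin 3) F)) 2 2 = _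
        simp only [Matrix.mul_apply, Fin.sum_univ_three]
        rw [(hC g).2.2, (hC k).2.1]
        linear_combination (g.1.1 2 0 * k.1.1 0 2) * h2 }
  let χ : C →* Fˣ := χ0.toHomUnits
  have hfc : ∀ x, f x ∈ C := fun x => mem_centralizer_singleton_iff.2 (by
    rw [← map_mul, ← map_mul]
    congr 1
    apply Subtype.ext
    ext <;> simp [t0, add_comm])
  let f' : Heis.uSub σ hσσ →* C := f.codRestrict _ hfc
  have hf' : Function.Injective f' := fun x y e => hf (congrArg Subtype.val e)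
  have hker : χ.ker = f'.range := by
    apply le_antisymm
    · intro g hg
      have he : g.1.1 2 2 = 1 := congrArg Units.val hg
      obtain ⟨⟨c1, c2⟩, c3, c4⟩ := hC g
      have hd := g.1.1.2
      rw [Matrix.det_fin_three] at hd
      change g.1.1 0 0 * g.1.1 1 1 * g.1.1 2 2 - g.1.1 0 0 * g.1.1 1 2 * g.1.1 2 1 -
        g.1.1 0 1 * g.1.1 1 0 * g.1.1 2 2 + g.1.1 0 1 * g.1.1 1 2 * g.1.1 2 0 +
        g.1.1 0 2 * g.1.1 1 0 * g.1.1 2 1 - g.1.1 0 2 * g.1.1 1 1 * g.1.1 2 0 = 1 at hd
      rw [c1, c2, c3, c4, he] at hd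
      have hl : g.1.1 0 0 = 1 + g.1.1 0 1 := by
        have : (g.1.1 0 0 - (1 + g.1.1 0 1)) ^ 2 = 0 := by
          linear_combination hd + (1 + g.1.1 0 1 + g.1.1 0 1 ^ 2 - g.1.1 0 0 -
            g.1.1 0 0 * g.1.1 0 1 + g.1.1 0 0 * g.1.1 0 2 * g.1.1 2 0 -
            g.1.1 0 1 * g.1.1 0 2 * g.1.1 2 0) * h2
        exact sub_eq_zero.1 (pow_eq_zero_iff two_ne_zero |>.1 this)
      have u1 := hU g.1 2 0
      have u2 := hU g.1 0 0
      rw [c1, c3, he, hl] at u1
      rw [c1, hl] at u2
      simp only [map_add, map_one, Matrix.one_apply_eq, one_mul] at u1 u2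
      rw [Matrix.one_apply_ne (by decide)] at u1
      have v1 : g.1.1 0 2 = σ (g.1.1 2 0) := by
        linear_combination u1 - (g.1.1 0 2 * σ (g.1.1 0 1) + σ (g.1.1 2 0)) * h2
      refine ⟨⟨⟨g.1.1 2 0, g.1.1 0 2, g.1.1 0 1⟩, v1, ?_⟩, ?_⟩
      · simp only
        rw [v1]
        linear_combination u2 - (g.1.1 0 1 * σ (g.1.1 0 1) + g.1.1 2 0 * σ (g.1.1 2 0)) * h2
      · apply Subtype.ext
        apply Subtype.ext
        apply Subtype.ext
        change !![1 + g.1.1 0 1, g.1.1 0 1, g.1.1 0 2; g.1.1 0 1, 1 + g.1.1 0 1, g.1.1 0 2;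
          g.1.1 2 0, g.1.1 2 0, 1] = (g.1.1 : Matrix (Fin 3) (Fin 3) F)
        ext i j
        fin_cases i <;> fin_cases j <;> simp [c1, c2, c3, c4, he, hl]
    · rintro _ ⟨x, rfl⟩
      exact Units.ext rfl
  have : Fact (Nat.Prime 5) := ⟨by norm_num⟩
  obtain ⟨l, hl⟩ := exists_prime_orderOf_dvd_card' (G := Fˣ) 5 (by
    rw [Nat.card_units, hF']; norm_num)
  have hl5 : (l : F) ^ 5 = 1 := by rw [← Units.val_pow_eq_pow_val, ← hl, pow_orderOf_eq_one]; rfl
  have hσl : σ l = l ^ 4 := rfl
  let s0 : Matrix.SpecialLinearGroup (Fin 3) F := ⟨!![(l : F) ^ 2, 0, 0; 0, l ^ 2, 0; 0, 0, l], by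
    simp [Matrix.det_fin_three]; linear_combination hl5⟩
  have hs0 : s0 ∈ SU 3 F 4 := by
    rw [Perm.mem_SU_iff_mul σ (fun _ => rfl)]
    ext i j
    fin_cases i <;> fin_cases j <;> simp [s0, Matrix.mul_apply, Fin.sum_univ_three, hσl]
    · linear_combination (l ^ 5 + 1) * hl5
    · linear_combination (l ^ 5 + 1) * hl5
    · linear_combination hl5
  let s : C := ⟨⟨s0, hs0⟩, mem_centralizer_singleton_iff.2 (by
    apply Subtype.ext
    apply Subtype.ext
    change !![(l : F) ^ 2, 0, 0; 0, l ^ 2, 0; 0, 0, l] * !![1 + 1, 1, 0; 1, 1 + 1, 0; 0, 0, 1] =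
      !![1 + 1, 1, 0; 1, 1 + 1, 0; 0, 0, 1] * !![(l : F) ^ 2, 0, 0; 0, l ^ 2, 0; 0, 0, l]
    ext i j
    fin_cases i <;> fin_cases j <;> simp [Matrix.mul_apply, Fin.sum_univ_three, mul_comm])⟩
  have hχs : χ s = l := Units.ext rfl
  have hl1 : (l : F) ≠ 1 := fun e => by
    rw [Units.val_eq_one.1 e, orderOf_one] at hl; omega
  have hs : orderOf s = 5 := orderOf_eq_prime (by
      apply Subtype.ext
      apply Subtype.ext
      apply Subtype.ext
      change !![(l : F) ^ 2, 0, 0; 0, l ^ 2, 0; 0, 0, l] ^ 5 = 1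
      have : !![(l : F) ^ 2, 0, 0; 0, l ^ 2, 0; 0, 0, l] = Matrix.diagonal ![(l : F) ^ 2, l ^ 2, l] := by
        ext i j
        fin_cases i <;> fin_cases j <;> simp
      rw [this, Matrix.diagonal_pow, ← Matrix.diagonal_one]
      congr 1
      funext i
      fin_cases i <;> simp
      · linear_combination (l ^ 5 + 1) * hl5
      · linear_combination (l ^ 5 + 1) * hl5
      · exact hl5) (fun e => hl1 (by rw [← hχs, e, map_one]; rfl))
  have hrange : Nat.card χ.range = 5 := by
    apply le_antisymm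
    · refine le_trans (card_le_of_le (K := rootsOfUnity 5 F) ?_) (card_rootsOfUnity F 5)
      rintro _ ⟨g, rfl⟩
      rw [mem_rootsOfUnity']
      have u := hU g.1 2 2
      rw [(hC g).2.1, Matrix.one_apply_eq] at u
      have : σ (g.1.1 2 2) = g.1.1 2 2 ^ 4 := rfl
      change g.1.1 2 2 ^ 5 = 1
      rw [this] at u
      linear_combination u - (g.1.1 0 2 * σ (g.1.1 0 2)) * h2
    · have := card_le_of_le (zpowers_le.2 (show l ∈ χ.range from ⟨s, hχs⟩))
      rwa [Nat.card_zpowers, hl] at this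
  let e : Heis.uSub σ hσσ ≃* χ.ker := (MonoidHom.ofInjective hf').trans
    (MulEquiv.subgroupCongr hker.symm)
  have h1' := h1.congr e
  have hA' := (aniso_congr e).2 hA
  have hH : H320 χ.ker s := by
    refine ⟨?_, hs, h1'.card, by rw [h1'.center_eq, h1'.card_four],
      fun w hw => h1'.mul_self (h1'.center_eq ▸ hw), conj_p5 hs, ?_⟩
    · have := χ.ker.card_mul_index
      rw [index_ker, hrange, h1'.card] at this
      omega
    · obtain ⟨x, y, hxy⟩ := h1.ncomm
      refine ⟨e x, fun he => hxy ?_⟩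
      have h3 := congrArg Subtype.val he
      rw [MulAut.conjNormal_apply, mul_inv_eq_iff_eq_mul] at h3
      have h4 := congrArg (fun A : C => A.1.1 2 0) h3
      change (!![(l : F) ^ 2, 0, 0; 0, l ^ 2, 0; 0, 0, l] * !![1 + x.1.b, x.1.b, x.1.c;
        x.1.b, 1 + x.1.b, x.1.c; x.1.a, x.1.a, 1]) 2 0 = (!![1 + x.1.b, x.1.b, x.1.c;
        x.1.b, 1 + x.1.b, x.1.c; x.1.a, x.1.a, 1] * !![(l : F) ^ 2, 0, 0; 0, l ^ 2, 0; 0, 0, l]) 2 0
        at h4
      simp [Matrix.mul_apply, Fin.sum_univ_three] at h4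
      have ha : x.1.a = 0 := by
        by_contra ha
        exact hl1 (mul_left_cancel₀ (mul_ne_zero ha l.ne_zero) (by linear_combination -h4))
      have hc : x.1.c = 0 := by rw [x.2.1, ha, map_zero]
      apply Subtype.ext
      ext <;> simp [ha, hc, add_comm]
  refine ⟨χ.ker, inferInstance, s, hH, hH.le_commutator fun K hK => ?_⟩
  obtain ⟨x, y, -, hx, -⟩ := h1'.exists_normal_form_aniso hA'
  rw [h1'.center_eq]
  exact cyc_le (hx ▸ hK x) (by rw [← hx, map_mul]; exact hK _)

theorem main {G : Type*} [Group G] [Finite G] (hG : Nat.card G = 320)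
    (hD : Nat.card (commutator G) = 64) (hZ : IsKleinFour (center (commutator G)))
    {F : Type*} [Field F] [Fintype F] (hF : Fintype.card F = 16) :
    ∃ t : PSU 3 F 4, orderOf t = 2 ∧ Nonempty (G ≃* centralizer ({t} : Set (PSU 3 F 4))) := by
  obtain ⟨s, hs⟩ := h320_of hG hD hZ
  obtain ⟨t, ht, T, hT, r, hr, hT'⟩ := exists_model hF
  obtain ⟨e⟩ := hs.nonempty_equiv hr le_rfl hT'
  have hc : center (SU 3 F 4) = ⊥ := by
    rw [← card_eq_one, Cfsg.Lib.Class.Form.card_center_SU (q := 4) hF 3 (by norm_num)]; rfl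
  let φ : SU 3 F 4 ≃* PSU 3 F 4 :=
    ((QuotientGroup.quotientMulEquivOfEq hc).trans QuotientGroup.quotientBot).symm
  refine ⟨φ t, by rw [MulEquiv.orderOf_eq, ht], ⟨e.trans ((φ.subgroupMap _).trans
    (MulEquiv.subgroupCongr ?_))⟩⟩
  ext g
  obtain ⟨g, rfl⟩ := φ.surjective g
  rw [mem_centralizer_singleton_iff, ← map_mul, ← map_mul, φ.apply_eq_iff_eq,
    ← mem_centralizer_singleton_iff]
  exact mem_map_iff_mem (f := φ.toMonoidHom) φ.injective

end Cfsg.Lib.Chev.G320
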