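import Cfsg.Agent.Trans.SylowIn
import Cfsg.Agent.S1754
import Cfsg.Agent.Block.ZStar

/-!
# An involution central in a subgroup with few fourth roots is isolated
-/

set_option autoImplicit false

namespace Cfsg.Lib.Chev.StdF

open Cfsg.Lib.Trans Subgroup

/-- Facts on a group `X` with central involution `z` and Sylow 2-subgroup `T`. -/
structure Gd {X : Type*} [Group X] (z : X) (T : Subgroup X) : Prop where
  syl : IsSylowIn 2 T ⊤
  sq : z * z = 1
  ne : z ≠ 1
  cen : ∀ x, x * z = z * x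
  ctr : ∀ x : X, (∀ y, x * y = y * x) → x = 1 ∨ x = z
  f2 : ∀ x : X, x ^ 4 ≠ z
  f1 : ∀ t : X, t * t = 1 → t = 1 ∨ t = z ∨
    ∃ u ∈ T, IsConj t (u ^ 4) ∧ ∀ x ∈ T, x * u ^ 4 = u ^ 4 * x
  f4 : ∀ y ∈ T, (∀ x ∈ T, x * y = y * x) → y ^ 4 = 1

variable {X G : Type*} [Group X] [Group G]

/-- The centraliser of `ι z` is the product of `ι X` and its centraliser, which has cyclic Sylow
2-subgroups. -/
structure St (ι : X →* G) (z : X) : Prop where
  inj : Function.Injective ι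
  dec : ∀ g, g * ι z = ι z * g → ∃ a k, (∀ x, Commute k (ι x)) ∧ g = ι a * k
  cyc : ∀ P : Subgroup G, IsPGroup 2 P → (∀ k ∈ P, ∀ x, Commute k (ι x)) → IsCyclic P

variable {ι : X →* G} {z : X} {T : Subgroup X}

theorem St.ctr (h : St ι z) (hg : Gd z T) {a : X} {k : G} (hk : ∀ x, Commute k (ι x))
    (e : ι a = k) : a = 1 ∨ a = z :=
  hg.ctr a fun y => h.inj (by rw [map_mul, map_mul, e]; exact hk y)

theorem St.typeI [Finite G] (h : St ι z) (hg : Gd z T) {g : G} {u : X} (hu : u ∈ T)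
    (hc : ∀ x ∈ T, x * u ^ 4 = u ^ 4 * x) (e : g * ι z * g⁻¹ = ι (u ^ 4)) : False := by
  have : Fact (Nat.Prime 2) := ⟨Nat.prime_two⟩
  obtain ⟨S, hS, hTS⟩ := exists_isSylowIn_ge (p := 2) (Q := T.map ι) (H := centralizer {ι z})
    (hg.syl.isPGroup.map ι) (by
      rintro _ ⟨x, -, rfl⟩
      rw [mem_centralizer_singleton_iff, ← map_mul, ← map_mul, hg.cen])
  let P : Subgroup X :=
    { carrier := {a | ∃ k, (∀ x, Commute k (ι x)) ∧ ι a * k ∈ S}
      one_mem' := ⟨1, by simp, by simp⟩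
      mul_mem' := by
        rintro a b ⟨k, hk, e1⟩ ⟨l, hl, e2⟩
        refine ⟨k * l, fun x => (hk x).mul_left (hl x), ?_⟩
        have := mul_mem e1 e2
        rwa [mul_assoc, ← mul_assoc k, (hk b).eq, ← mul_assoc, ← mul_assoc, ← map_mul,
          mul_assoc] at this
      inv_mem' := by
        rintro a ⟨k, hk, e1⟩
        refine ⟨k⁻¹, fun x => (hk x).inv_left, ?_⟩
        have := inv_mem e1
        rwa [mul_inv_rev, ← map_inv, (hk _).inv_left.eq] at this }
  have hP : IsPGroup 2 P := by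
    rintro ⟨a, k, hk, e⟩
    obtain ⟨j, hj⟩ := hS.isPGroup ⟨_, e⟩
    have e1 : (ι a * k) ^ 2 ^ j = 1 := congrArg Subtype.val hj
    rw [(hk a).symm.mul_pow, ← map_pow, mul_eq_one_iff_eq_inv] at e1
    refine ⟨j + 1, Subtype.ext ?_⟩
    change a ^ 2 ^ (j + 1) = 1
    rw [pow_succ, pow_mul, sq]
    rcases h.ctr hg (fun x => ((hk x).pow_left _).inv_left) e1 with e3 | e3 <;> rw [e3]
    exacts [mul_one 1, hg.sq]
  have hPT : P = T := hg.syl.eq_of_le hP
    (fun x hx => ⟨1, by simp, by rw [mul_one]; exact hTS (mem_map_of_mem ι hx)⟩) le_top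
  have hdec : ∀ s ∈ S, ∃ a ∈ T, ∃ k ∈ S, (∀ x, Commute k (ι x)) ∧ s = ι a * k := fun s hs => by
    obtain ⟨a, k, hk, rfl⟩ := h.dec s (mem_centralizer_singleton_iff.1 (hS.le hs))
    have ha : a ∈ T := hPT ▸ ⟨k, hk, hs⟩
    exact ⟨a, ha, k, by simpa using mul_mem (inv_mem (hTS (mem_map_of_mem ι ha))) hs, hk, rfl⟩
  have hab : ∀ k ∈ S, (∀ x, Commute k (ι x)) → ∀ s ∈ S, Commute k s := fun k hk hk' s hs => by
    obtain ⟨a, -, l, hl, hl', rfl⟩ := hdec s hs
    refine (hk' a).mul_right ?_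
    have := h.cyc (S ⊓ centralizer ι.range) hS.isPGroup.to_inf_left
      fun k hk x => (hk.2 _ ⟨x, rfl⟩).symm
    have h1 : ∀ {k}, k ∈ S → (∀ x, Commute k (ι x)) → k ∈ S ⊓ centralizer ι.range :=
      fun h1 h2 => ⟨h1, by rintro _ ⟨x, rfl⟩; exact (h2 x).symm⟩
    exact congrArg Subtype.val (IsCyclic.isMulCommutative.is_comm.comm
      (⟨k, h1 hk hk'⟩ : ↥(S ⊓ centralizer ι.range)) ⟨l, h1 hl hl'⟩)
  have hSt : ∀ s ∈ S, Commute s (ι (u ^ 4)) := fun s hs => by
    obtain ⟨a, ha, l, -, hl', rfl⟩ := hdec s hs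
    refine Commute.mul_left ?_ (hl' _)
    rw [Commute, SemiconjBy, ← map_mul, ← map_mul, hc a ha]
  obtain ⟨x, hx, hle⟩ := hS.exists_cj_le (isPGroup_cj hS.isPGroup g⁻¹) fun s hs => by
    have := hSt _ (mem_cj_inv.1 hs)
    rw [← e] at this
    rw [mem_centralizer_singleton_iff]
    calc s * ι z = g⁻¹ * (g * s * g⁻¹ * (g * ι z * g⁻¹)) * g := by group
      _ = ι z * s := by rw [this.eq]; group
  rw [cj_cj] at hle
  have heq : cj (x * g⁻¹) S = S := eq_of_le_of_card_ge hle (card_cj _ _).ge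
  obtain ⟨n, hn⟩ : ∃ n, n = x * g⁻¹ := ⟨_, rfl⟩
  rw [← hn] at hle heq
  have hz : n * ι (u ^ 4) * n⁻¹ = ι z := by
    rw [← e, hn]
    calc _ = x * ι z * x⁻¹ := by group
      _ = _ := by rw [mem_centralizer_singleton_iff.1 hx]; group
  obtain ⟨a, -, k, hk, hk', e1⟩ := hdec _ (cj_le_iff.1 hle _ (hTS (mem_map_of_mem ι hu)))
  have e2 : ι (a ^ 4) * k ^ 4 = ι z := by
    rw [map_pow, ← (hk' a).symm.mul_pow, ← e1, conj_pow, ← map_pow, hz]
  have e3 : k ^ 4 = ι z := by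
    rcases h.ctr hg (a := z * a ^ 4) (k := (k ^ 4)⁻¹) (fun x => ((hk' x).pow_left _).inv_left) (by
      rw [eq_inv_iff_mul_eq_one, map_mul, mul_assoc, e2, ← map_mul, hg.sq, map_one]) with e4 | e4
    · exact absurd (mul_left_cancel (e4.trans hg.sq.symm)) (hg.f2 a)
    · rwa [mul_eq_left.1 e4, map_one, one_mul] at e2
  have hρ : n⁻¹ * k * n ∈ S := mem_cj.1 (heq.symm ▸ hk)
  obtain ⟨b, hb, l, -, hl', e4⟩ := hdec _ hρ
  have hb4 : b ^ 4 = 1 := hg.f4 b hb fun y hy => h.inj (by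
    have h1 := hab k hk hk' _ (cj_le_iff.1 hle _ (hTS (mem_map_of_mem ι hy)))
    have h2 : Commute (ι b * l) (ι y) := by
      rw [← e4]
      calc n⁻¹ * k * n * ι y = n⁻¹ * (k * (n * ι y * n⁻¹)) * n := by group
        _ = _ := by rw [h1.eq]; group
    rw [map_mul, map_mul]
    exact (by simpa using h2.mul_left (hl' y).inv_left : Commute (ι b) (ι y)).symm)
  have e5 : ι (u ^ 4) = l ^ 4 := by
    have : (n⁻¹ * k * n⁻¹⁻¹) ^ 4 = ι (u ^ 4) := by rw [conj_pow, e3, ← hz]; group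
    rw [inv_inv, e4, (hl' b).symm.mul_pow, ← map_pow, hb4, map_one, one_mul] at this
    exact this.symm
  rcases h.ctr hg (fun x => (hl' x).pow_left _) e5 with e6 | e6
  · rw [e6, map_one, mul_inv_eq_one, mul_eq_left, map_eq_one_iff ι h.inj] at e
    exact hg.ne e
  · exact hg.f2 u e6

theorem St.inv (h : St ι z) (hg : Gd z T) {k : G} (hk : ∀ x, Commute k (ι x)) (h2 : k * k = 1) :
    k = 1 ∨ k = ι z := by
  have hz : ι z * ι z = 1 := by rw [← map_mul, hg.sq, map_one]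
  let P : Subgroup G :=
    { carrier := {s | (∀ x, Commute s (ι x)) ∧ Commute s k ∧ s * s = 1 ∧
        (s = 1 ∨ s = k ∨ s = ι z ∨ s = k * ι z)}
      one_mem' := ⟨by simp, by simp, by simp, Or.inl rfl⟩
      mul_mem' := by
        rintro a b ⟨a1, a2, a3, a4⟩ ⟨b1, b2, b3, b4⟩
        have hab : Commute a b := by
          rcases b4 with rfl | rfl | rfl | rfl
          exacts [Commute.one_right _, a2, a1 _, a2.mul_right (a1 _)]
        refine ⟨fun x => (a1 x).mul_left (b1 x), a2.mul_left b2, by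
          rw [mul_assoc, ← mul_assoc b, ← hab.eq, mul_assoc, b3, mul_one, a3], ?_⟩
        have e1 : ι z * k = k * ι z := (hk z).eq.symm
        have e2 : k * (k * ι z) = ι z := by rw [← mul_assoc, h2, one_mul]
        have e3 : ι z * (k * ι z) = k := by rw [← e1, ← mul_assoc, hz, one_mul]
        have e4 : k * ι z * k = ι z := by rw [mul_assoc, e1, e2]
        have e5 : k * ι z * ι z = k := by rw [mul_assoc, hz, mul_one]
        have e6 : k * ι z * (k * ι z) = 1 := by rw [← mul_assoc, e4, hz]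
        rcases a4 with rfl | rfl | rfl | rfl <;> rcases b4 with rfl | rfl | rfl | rfl <;>
          simp only [one_mul, mul_one, h2, hz, e1, e2, e3, e4, e5, e6, true_or, or_true]
      inv_mem' := by
        rintro a ⟨a1, a2, a3, a4⟩
        rw [inv_eq_of_mul_eq_one_right a3]
        exact ⟨a1, a2, a3, a4⟩ }
  have hc := h.cyc P (fun s => ⟨1, Subtype.ext (by simpa [sq] using s.2.2.2.1)⟩) fun s hs => hs.1
  obtain ⟨s, hs⟩ := hc.exists_generator
  have h1 : ∀ t : P, t = 1 ∨ t = s := fun t => by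
    obtain ⟨j, rfl⟩ := hs t
    have h3 : s ^ (2 : ℤ) = 1 := by rw [zpow_two]; exact Subtype.ext s.2.2.2.1
    obtain ⟨i, rfl | rfl⟩ := Int.even_or_odd' j
    · left; simp only [zpow_mul, h3, one_zpow]
    · right; simp only [zpow_add, zpow_mul, h3, one_zpow, one_mul, zpow_one]
  have h3 := h1 ⟨k, hk, Commute.refl _, h2, by simp⟩
  have h4 := (h1 ⟨ι z, fun x => by rw [Commute, SemiconjBy, ← map_mul, ← map_mul, hg.cen],
    (hk z).symm, hz, by simp⟩).resolve_left fun e =>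
      hg.ne ((map_eq_one_iff ι h.inj).1 (congrArg Subtype.val e))
  exact h3.imp (congrArg Subtype.val) fun e => congrArg Subtype.val (e.trans h4.symm)

theorem St.typeII [Finite G] (h : St ι z) (hg : Gd z T) {g : G} (hc : Commute (ι z) (g * ι z * g⁻¹))
    (hne : g * ι z * g⁻¹ ≠ ι z) :
    ∃ a k, (∀ x, Commute k (ι x)) ∧ g * ι z * g⁻¹ = ι a * k ∧ a * a = z ∧ k * k = ι z := by
  obtain ⟨a, k, hk, e⟩ := h.dec _ hc.symm.eq
  have hz : ι z * ι z = 1 := by rw [← map_mul, hg.sq, map_one]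
  have h1 : ι (a * a) * (k * k) = 1 := by
    have : g * ι z * g⁻¹ * (g * ι z * g⁻¹) = 1 := by
      calc _ = g * (ι z * ι z) * g⁻¹ := by group
        _ = 1 := by rw [hz]; group
    rwa [e, mul_assoc, ← mul_assoc k, (hk a).eq, ← mul_assoc, ← mul_assoc, ← map_mul,
      mul_assoc] at this
  rcases h.ctr hg (fun x => ((hk x).mul_left (hk x)).inv_left) (eq_inv_of_mul_eq_one_left h1)
    with e1 | e1
  · exfalso
    rw [e1, map_one, one_mul] at h1
    obtain ⟨t, ht, e2⟩ : ∃ t, t * t = 1 ∧ g * ι z * g⁻¹ = ι t := by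
      rcases h.inv hg hk h1 with rfl | rfl
      · exact ⟨a, e1, by rw [e, mul_one]⟩
      · exact ⟨a * z, by rw [mul_assoc, ← mul_assoc z, ← hg.cen, mul_assoc, hg.sq, mul_one, e1],
          by rw [e, map_mul]⟩
    rcases hg.f1 t ht with rfl | rfl | ⟨u, hu, h2, h3⟩
    · rw [map_one, mul_inv_eq_one, mul_eq_left, map_eq_one_iff ι h.inj] at e2
      exact hg.ne e2
    · exact hne e2
    · obtain ⟨c, rfl⟩ := isConj_iff.1 h2.symm
      refine h.typeI hg (g := (ι c)⁻¹ * g) hu h3 ?_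
      calc _ = (ι c)⁻¹ * (g * ι z * g⁻¹) * ι c := by group
        _ = _ := by rw [e2, map_mul, map_mul, map_inv]; group
  · refine ⟨a, k, hk, e, e1, ?_⟩
    rw [e1] at h1
    exact mul_left_cancel (h1.trans hz.symm)

theorem St.isolated [Finite G] (h : St ι z) (hg : Gd z T) : IsIsolatedInvolution (ι z) := by
  have : Fact (Nat.Prime 2) := ⟨Nat.prime_two⟩
  refine ⟨orderOf_eq_prime (by rw [sq, ← map_mul, hg.sq, map_one])
    ((map_ne_one_iff ι h.inj).2 hg.ne), fun g hc => by_contra fun hne => ?_⟩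
  obtain ⟨a, k, hk, e, ha, -⟩ := h.typeII hg hc hne
  obtain ⟨b, l, hl, e', -, hl2⟩ := h.typeII hg (g := g⁻¹) (by
    have := (hc.symm.map (MulAut.conj g⁻¹))
    simpa [mul_assoc] using this) fun e => hne (by conv_lhs => rw [← e]; ; group)
  obtain ⟨y, m, hm, e1⟩ := h.dec (g * l * g⁻¹) (by
    have : Commute l (g⁻¹ * ι z * g⁻¹⁻¹) := e' ▸ (hl b).mul_right (Commute.refl l)
    calc _ = g * (l * (g⁻¹ * ι z * g⁻¹⁻¹)) * g⁻¹ := by group
      _ = _ := by rw [this.eq]; group)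
  have e2 : ι (y ^ 2) * m ^ 2 = ι a * k := by
    rw [map_pow, ← (hm y).symm.mul_pow, ← e1, conj_pow, sq, hl2, e]
  have e3 := h.ctr hg (a := a⁻¹ * y ^ 2) (k := k * (m ^ 2)⁻¹)
    (fun x => (hk x).mul_left ((hm x).pow_left _).inv_left) (by
      rw [map_mul, map_inv, inv_mul_eq_iff_eq_mul, ← mul_assoc, ← e2, mul_inv_cancel_right])
  refine hg.f2 y ?_
  rw [show y ^ 4 = y ^ 2 * y ^ 2 by group]
  rcases e3 with e3 | e3 <;> rw [inv_mul_eq_iff_eq_mul] at e3 <;> rw [e3]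
  · rw [mul_one, ha]
  · rw [mul_assoc, ← mul_assoc z, ← hg.cen, mul_assoc, hg.sq, mul_one, ha]

theorem normal_of [Finite G] (hO : oddCore G = ⊥) (A : Subgroup G) (hA : IsStandardSubgroup A)
    (e : A ≃* X) (hg : Gd z T) (hout : ∀ β : MulAut X, ∃ m, β = MulAut.conj m)
    (hR : ∀ R : Sylow 2 (centralizer (A : Set G)),
      IsCyclic (R : Subgroup (centralizer (A : Set G)))) : A.Normal := by
  let ι : X →* G := A.subtype.comp e.symm.toMonoidHom
  have hι : ∀ a : A, ι (e a) = a := fun a => congrArg Subtype.val (e.symm_apply_apply a)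
  have hmem : ∀ x, ι x ∈ A := fun x => (e.symm x).2
  have hinj : Function.Injective ι := (A.subtype_injective).comp e.symm.injective
  have hcent : ∀ {k : G}, k ∈ centralizer (A : Set G) ↔ ∀ x, Commute k (ι x) :=
    ⟨fun h x => (h _ (hmem x)).symm, fun h a ha => by
      rw [← show ι _ = a from hι ⟨a, ha⟩, (h _).eq]⟩
  have hz : ι z ∈ centralizer (A : Set G) :=
    hcent.2 fun x => by rw [Commute, SemiconjBy, ← map_mul, ← map_mul, hg.cen]
  have : Fact (Nat.Prime 2) := ⟨Nat.prime_two⟩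
  have ho : orderOf (ι z) = 2 := orderOf_eq_prime (by rw [sq, ← map_mul, hg.sq, map_one])
    ((map_ne_one_iff ι hinj).2 hg.ne)
  have hN := (Agent.S1754.result A hA _ ho hz).1
  have h : St ι z := by
    refine ⟨hinj, fun g hg => ?_, fun P hP hk => ?_⟩
    · have hg' := hN (mem_centralizer_singleton_iff.2 hg)
      obtain ⟨m, hm⟩ := hout (MulAut.congr e (A.normalizerMonoidHom ⟨g, hg'⟩))
      refine ⟨m, (ι m)⁻¹ * g, fun x => ?_, by group⟩
      have h1 := congrArg ι (DFunLike.congr_fun hm x)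
      rw [MulAut.conj_apply, map_mul, map_mul, map_inv] at h1
      have h2 : g * ι x * g⁻¹ = ι m * ι x * (ι m)⁻¹ := (hι _).symm.trans h1
      calc (ι m)⁻¹ * g * ι x = (ι m)⁻¹ * (g * ι x * g⁻¹) * g := by group
        _ = _ := by rw [h2]; group
    · have hle : P ≤ centralizer (A : Set G) := fun k h => hcent.2 (hk k h)
      obtain ⟨R, hR'⟩ := (isPGroup_subgroupOf hP (centralizer (A : Set G))).exists_le_sylow
      have := hR R
      have := isCyclic_of_le hR'
      exact isCyclic_of_surjective _ (subgroupOfEquivOfLe hle).surjective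
  have h1 := Block.Princ.zstar_center (h.isolated hg) hO
  refine normalizer_eq_top_iff.1 (eq_top_iff.2 fun g _ => hN ?_)
  exact mem_centralizer_singleton_iff.2 (mem_center_iff.1 h1 g)

end Cfsg.Lib.Chev.StdF
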