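import Cfsg.Agent.Known.Kit
import Cfsg.Agent.Chev.StdFour

/-!
# Enumeration of a 2-group given by a polycyclic sequence in a computational model
-/

set_option autoImplicit false

namespace Cfsg.Lib.Chev.PcE

open Cfsg.Lib.Known Cfsg.Lib.Known.PC Subgroup Cfsg.Lib.Trans

variable {G : Type*} [Group G]

/-- The subgroup generated by `z` and the members of a list. -/
def KL (z : G) (l : List G) : Subgroup G := closure {x | x ∈ z :: l}

theorem mem_KL {z x : G} {l : List G} (h : x ∈ z :: l) : x ∈ KL z l := subset_closure h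

/-- A polycyclic sequence with factors of order at most two, modulo `z`. -/
inductive PcL (z : G) : List G → Prop
  | nil : PcL z []
  | cons {a : G} {l : List G} : a * a ∈ KL z l → (∀ b ∈ l, a * b * a⁻¹ ∈ KL z l) → PcL z l →
      PcL z (a :: l)

variable {z a : G} {l : List G}

theorem kl_nil (sq : z * z = 1) {y : G} (hy : y ∈ KL z []) : y = 1 ∨ y = z := by
  induction hy using closure_induction with
  | mem x hx => exact Or.inr (List.mem_singleton.1 hx)
  | one => exact Or.inl rfl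
  | mul x y _ _ hx hy => rcases hx with rfl | rfl <;> rcases hy with rfl | rfl <;> simp [sq]
  | inv x _ hx =>
    rcases hx with rfl | rfl
    exacts [Or.inl inv_one, Or.inr (inv_eq_of_mul_eq_one_right sq)]

theorem conj_mem (cen : ∀ x, x * z = z * x) (h : ∀ b ∈ l, a * b * a⁻¹ ∈ KL z l) {t : G}
    (ht : t ∈ KL z l) : a * t * a⁻¹ ∈ KL z l := by
  refine (closure_le ((KL z l).comap (MulAut.conj a).toMonoidHom)).2 (fun b hb => ?_) ht
  rcases List.mem_cons.1 hb with rfl | hb
  · show a * b * a⁻¹ ∈ KL b l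
    rw [cen, mul_inv_cancel_right]; exact mem_KL List.mem_cons_self
  · exact h b hb

theorem step (cen : ∀ x, x * z = z * x) (h1 : a * a ∈ KL z l) (h : ∀ b ∈ l, a * b * a⁻¹ ∈ KL z l)
    {y : G} (hy : y ∈ KL z (a :: l)) : y ∈ KL z l ∨ y * a⁻¹ ∈ KL z l := by
  induction hy using closure_induction with
  | mem x hx =>
    rcases List.mem_cons.1 hx with rfl | hx
    · exact Or.inl (mem_KL List.mem_cons_self)
    · rcases List.mem_cons.1 hx with rfl | hx
      · exact Or.inr (by simp)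
      · exact Or.inl (mem_KL (List.mem_cons_of_mem _ hx))
  | one => exact Or.inl (one_mem _)
  | mul x y _ _ hx hy =>
    rcases hx with hx | hx <;> rcases hy with hy | hy
    · exact Or.inl (mul_mem hx hy)
    · exact Or.inr (mul_assoc x y a⁻¹ ▸ mul_mem hx hy)
    · exact Or.inr (by simpa [mul_assoc] using mul_mem hx (conj_mem cen h hy))
    · exact Or.inl (by simpa [mul_assoc] using mul_mem (mul_mem hx (conj_mem cen h hy)) h1)
  | inv x _ hx =>
    rcases hx with hx | hx
    · exact Or.inl (inv_mem hx)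
    · exact Or.inr (by simpa [mul_assoc] using mul_mem (inv_mem h1) (conj_mem cen h (inv_mem hx)))

theorem PcL.isPGroup (sq : z * z = 1) (cen : ∀ x, x * z = z * x) (h : PcL z l) :
    IsPGroup 2 (KL z l) := by
  suffices ∀ y ∈ KL z l, ∃ k, y ^ 2 ^ k = 1 from fun y =>
    (this y y.2).imp fun k e => Subtype.ext e
  induction h with
  | nil =>
    intro y hy
    rcases kl_nil sq hy with rfl | rfl
    exacts [⟨0, by simp⟩, ⟨1, by simpa [pow_two] using sq⟩]
  | @cons a l h1 h2 _ ih =>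
    intro y hy
    rcases step cen h1 h2 hy with hy | hy
    · exact ih y hy
    · obtain ⟨k, hk⟩ := ih (y ^ 2) (by
        simpa [mul_assoc, pow_two] using mul_mem (mul_mem hy (conj_mem cen h2 hy)) h1)
      exact ⟨k + 1, by rw [pow_succ', pow_mul, hk]⟩

/-- Selected entries of a list, evaluated. -/
noncomputable def selK (one : ℕ) (out idx : List ℕ) : (List ℕ → Bool) → Bool :=
  List.rec (fun k => k []) (fun i _ ih k => ih fun r => frc (nth one out i) fun a => k (a :: r)) idx

theorem selK_eq (one : ℕ) (out idx : List ℕ) : ∀ k, selK one out idx k = k (idx.map (nth one out)) := by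
  induction idx with
  | nil => intro _; rfl
  | cons i idx ih => intro k; exact ih _

/-- Run a straight line program and select some outputs. -/
noncomputable def run (one : ℕ) (mul : ℕ → ℕ → ℕ) (gens : List ℕ) (prog : List (ℕ × List ℕ))
    (idx : List ℕ) (k : List ℕ → List ℕ → Bool) : Bool :=
  slpRun mul one prog gens fun out => selK one out idx (k out)

theorem run_eq (one : ℕ) (mul : ℕ → ℕ → ℕ) (gens : List ℕ) (prog : List (ℕ × List ℕ))
    (idx : List ℕ) (k : List ℕ → List ℕ → Bool) : run one mul gens prog idx k =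
      k (Model.slpOut mul one prog gens) (idx.map (nth one (Model.slpOut mul one prog gens))) :=
  (Model.slpRun_eq _ _ _ _ _).trans (selK_eq _ _ _ _)

section Chk

variable (one : ℕ) (mul : ℕ → ℕ → ℕ) (eqv : ℕ → ℕ → Bool) (app : ℕ → ℕ → ℕ) (vld : ℕ → Bool)

/-- The conjugates of the members of `t` by `a` are the values of the words. -/
noncomputable def cjAll (a : ℕ) (ls t : List ℕ) : List ℕ → Bool :=
  List.rec (fun _ => true) (fun b _ ih ws => List.rec false (fun w ws' _ =>
    band (eqv (mul a b) (mul (evW mul one ls w) a)) (ih ws')) ws) t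

/-- The relations of a polycyclic sequence. -/
noncomputable def pcChk (cz : ℕ) (cs : List ℕ) : List (ℕ × List ℕ) → Bool :=
  List.rec (fun _ => true) (fun a t ih R => List.rec false (fun r R' _ => Prod.rec (fun w ws =>
    band (eqv (mul a a) (evW mul one (one :: cz :: t) w))
      (band (cjAll one mul eqv a (one :: cz :: t) t ws) (ih R'))) r) R) cs

/-- All products below the node with depth `d` and number `p` pass the test. -/
noncomputable def goP (leaf : ℕ → Bool) (cs : List ℕ) : ℕ → ℕ → ℕ → Bool :=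
  List.rec (fun _ _ c => leaf c) (fun a _ ih d p c => Nat.rec
    (band (ih 0 0 c) (frc (mul a c) (ih 0 0)))
    (fun d' _ => frc (Nat.div p 2) fun p' =>
      Bool.rec (frc (mul a c) (ih d' p')) (ih d' p' c) (Nat.beq (Nat.mod p 2) 0)) d) cs

/-- The test of one element. -/
noncomputable def leaf (v nv ca cb : ℕ) (ls gs tb : List ℕ) (c : ℕ) : Bool :=
  frc (app c v) fun y1 => frc (app c y1) fun y2 => frc (app c y2) fun y3 =>
    band (bnot (Nat.beq (app c y3) nv)) <| band (bor (bnot (Nat.beq y2 v)) <| bor (eqv c one) <|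
      frc (Nat.mod y1 16777213) fun k => lany (fun e => band (Nat.beq (Nat.mod e 16777216) k)
        (frc (evW mul one ls (Nat.shiftRight e 24)) fun s => frc (mul s c) fun t =>
          bor (eqv t (mul ca s)) (eqv t (mul cb s)))) tb)
      (bor (lany (fun g => bnot (Nat.beq (app c (app g v)) (app g y1))) gs)
        (eqv (powC mul one c 4) one))

/-- The relations, the order and two fourth powers. -/
noncomputable def baseC (cz : ℕ) (R : List (ℕ × List ℕ)) (wu ww goal : ℕ)
    (lv : List (ℕ × ℕ × List (ℕ × ℕ))) (out hs : List ℕ) : Bool :=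
  band (Nat.beq (nth one out 0) one) <| band (pcChk one mul eqv cz hs R) <|
    band (chainCheck app vld (evW mul one (one :: cz :: hs)) goal lv [] 1) <|
      frc (powC mul one (evW mul one (one :: cz :: hs) wu) 4) fun ca =>
        band (eqv (powC mul one (evW mul one (one :: cz :: hs) ww) 4) (mul cz ca))
          (lall (fun b => eqv (mul b ca) (mul ca b)) hs)

/-- A part of the enumeration. -/
noncomputable def enumC (cz wu v : ℕ) (cg tb : List ℕ) (d p : ℕ) (out hs : List ℕ) : Bool :=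
  frc (powC mul one (evW mul one (one :: cz :: hs) wu) 4) fun ca => frc (mul cz ca) fun cb =>
    frc (app cz v) fun nv => selK one hs cg fun gs => band (vld v)
      (goP mul (leaf one mul eqv app v nv ca cb out gs tb) hs d p one)

end Chk

variable {Ω : Type*} {M : Model G Ω} {cz : ℕ}

theorem in_evW {K : Subgroup G} {cs : List ℕ} (h : ∀ c ∈ cs, M.In K c)
    (h0 : nth M.one cs 0 = M.one) (w : ℕ) : M.In K (evW M.mul M.one cs w) := by
  obtain ⟨g, hg⟩ := MulModel.exists_elts h
  exact ⟨_, valF_mem K fun d _ => (hg d).1, MulModel.R_evW (fun i => (hg i).2)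
    (M.R_fun (h0 ▸ (hg 0).2) M.R_one) w⟩

theorem in_of {cs : List ℕ} {gs : List G} (h : List.Forall₂ M.R cs gs) {K : Subgroup G}
    (hK : ∀ g ∈ gs, g ∈ K) : ∀ c ∈ cs, M.In K c := by
  induction h with
  | nil => simp
  | cons h1 _ ih =>
    simp only [List.forall_mem_cons] at hK ⊢
    exact ⟨⟨_, hK.1, h1⟩, ih hK.2⟩

theorem in_KL (hz : M.R cz z) {cs : List ℕ} {gs : List G} (h : List.Forall₂ M.R cs gs) :
    ∀ c ∈ M.one :: cz :: cs, M.In (KL z gs) c := List.forall_mem_cons.2
  ⟨⟨1, one_mem _, M.R_one⟩, in_of (.cons hz h) fun _ => mem_KL⟩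

theorem cjAll_spec {K : Subgroup G} {ls : List ℕ} (hl : ∀ c ∈ ls, M.In K c)
    (h0 : nth M.one ls 0 = M.one) {ca : ℕ} (ha : M.R ca a) {cs : List ℕ} {gs : List G}
    (h : List.Forall₂ M.R cs gs) : ∀ ws, cjAll M.one M.mul M.eqv ca ls cs ws = true →
      ∀ b ∈ gs, a * b * a⁻¹ ∈ K := by
  induction h with
  | nil => simp
  | cons h1 _ ih =>
    rintro (_ | ⟨w, ws⟩) e
    · cases e
    obtain ⟨e1, e2⟩ := band_iff.1 e
    obtain ⟨t, ht, h2⟩ := in_evW hl h0 w
    exact List.forall_mem_cons.2 ⟨by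
      rwa [M.eqv_sound (M.R_mul ha h1) (M.R_mul h2 ha) e1, mul_inv_cancel_right], ih ws e2⟩

theorem pcChk_spec (hz : M.R cz z) {cs : List ℕ} {gs : List G} (h : List.Forall₂ M.R cs gs) :
    ∀ R, pcChk M.one M.mul M.eqv cz cs R = true → PcL z gs := by
  induction h with
  | nil => exact fun _ _ => .nil
  | cons h1 h2 ih =>
    rintro (_ | ⟨⟨w, ws⟩, R⟩) e
    · cases e
    obtain ⟨e1, e2⟩ := band_iff.1 e
    obtain ⟨t, ht, h3⟩ := in_evW (in_KL hz h2) rfl w
    exact .cons (M.eqv_sound (M.R_mul h1 h1) h3 e1 ▸ ht)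
      (cjAll_spec (in_KL hz h2) rfl h1 h2 ws (band_iff.1 e2).1) (ih R (band_iff.1 e2).2)

theorem goP_spec (sq : z * z = 1) (cen : ∀ x, x * z = z * x) {Q : G → Prop}
    (hQ : ∀ x, Q x → Q (z * x)) {lf : ℕ → ℕ → Bool} {cs : List ℕ} {gs : List G}
    (h : List.Forall₂ M.R cs gs) (hp : PcL z gs)
    (hl : ∀ j c x, M.R c x → lf j c = true → Q x) :
    ∀ (d c : ℕ) (x : G), M.R c x → (∀ p < 2 ^ d, ∃ j, goP M.mul (lf j) cs d p c = true) →
      ∀ y ∈ KL z gs, Q (y * x) := by
  induction h with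
  | nil =>
    intro d c x hc e y hy
    obtain ⟨j, e⟩ := e 0 (Nat.two_pow_pos d)
    rcases kl_nil sq hy with rfl | rfl
    exacts [by rw [one_mul]; exact hl j c x hc e, hQ x (hl j c x hc e)]
  | @cons ca a cs gs h1 _ ih =>
    intro d c x hc e y hy
    obtain _ | ⟨k1, k2, hp⟩ := hp
    have key : ∃ d', (∀ p < 2 ^ d', ∃ j, goP M.mul (lf j) cs d' p c = true) ∧
        ∀ p < 2 ^ d', ∃ j, goP M.mul (lf j) cs d' p (M.mul ca c) = true := by
      cases d with
      | zero =>
        obtain ⟨j, e⟩ := e 0 one_pos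
        have e' := band_iff.1 e
        exact ⟨0, fun p hp => ⟨j, by rw [show p = 0 by omega]; exact e'.1⟩,
          fun p hp => ⟨j, by rw [show p = 0 by omega]; exact e'.2⟩⟩
      | succ d =>
        have e0 : ∀ j p, goP M.mul (lf j) (ca :: cs) (d + 1) p c = Bool.rec
          (goP M.mul (lf j) cs d (p / 2) (M.mul ca c)) (goP M.mul (lf j) cs d (p / 2) c)
            (Nat.beq (p % 2) 0) := fun _ _ => rfl
        refine ⟨d, fun p hp => (e (2 * p) (by omega)).imp fun j e => ?_,
          fun p hp => (e (2 * p + 1) (by omega)).imp fun j e => ?_⟩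
        · rwa [e0, show 2 * p % 2 = 0 by omega, show 2 * p / 2 = p by omega] at e
        · rwa [e0, show (2 * p + 1) % 2 = 1 by omega, show (2 * p + 1) / 2 = p by omega] at e
    obtain ⟨d', e1, e2⟩ := key
    rcases step cen k1 k2 hy with hy | hy
    · exact ih hp d' c x hc e1 y hy
    · simpa [mul_assoc] using ih hp d' _ _ (M.R_mul h1 hc) e2 _ hy

theorem leaf_spec (hz : M.R cz z) {v ca cb : ℕ} {ls gs tb : List ℕ} (hv : M.vld v = true)
    (ha : M.R ca a) (hb : M.R cb (z * a)) (hl : ∀ c ∈ ls, M.In ⊤ c) (h0 : nth M.one ls 0 = M.one)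
    {K : Subgroup G} (hg : ∀ c ∈ gs, M.In K c) {c : ℕ} {x : G} (hc : M.R c x)
    (e : leaf M.one M.mul M.eqv M.app v (M.app cz v) ca cb ls gs tb c = true) :
    x ^ 4 ≠ z ∧ (x * x = 1 → x = 1 ∨ IsConj x a ∨ IsConj x (z * a)) ∧
      ((∀ g ∈ K, g * x = x * g) → x ^ 4 = 1) := by
  simp only [leaf, frc_eq, band_iff, bor_iff, bnot_iff, Nat.beq_eq] at e
  obtain ⟨ω, hω⟩ := M.P_vld hv
  have p1 := M.P_app hc hω
  have p2 := M.P_app hc p1
  have p4 := M.P_app hc (M.P_app hc p2)
  refine ⟨fun h => e.1 (M.P_inj p4 ?_), fun h => ?_, fun h => ?_⟩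
  · have := M.P_app hz hω
    rwa [← h, show x ^ 4 = x * (x * (x * x)) by simp only [pow_succ', pow_zero, mul_one], map_mul, map_mul, map_mul] at this
  · rcases e.2.1 with e1 | e1 | e1
    · refine absurd (M.P_inj p2 ?_) e1
      rwa [← Equiv.Perm.mul_apply, ← map_mul, h, map_one]
    · exact Or.inl (M.eqv_sound hc M.R_one e1)
    · obtain ⟨t, -, e2⟩ := lany_spec e1
      obtain ⟨s, -, hs⟩ := in_evW hl h0 (Nat.shiftRight t 24)
      refine Or.inr ((bor_iff.1 (band_iff.1 e2).2).imp (fun e3 => ?_) fun e3 => ?_)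
      · exact isConj_iff.2 ⟨s, by
          rw [M.eqv_sound (M.R_mul hs hc) (M.R_mul ha hs) e3, mul_inv_cancel_right]⟩
      · exact isConj_iff.2 ⟨s, by
          rw [M.eqv_sound (M.R_mul hs hc) (M.R_mul hb hs) e3, mul_inv_cancel_right]⟩
  · rcases e.2.2 with e1 | e1
    · obtain ⟨cg, h1, e2⟩ := lany_spec e1
      obtain ⟨g, h2, h3⟩ := hg cg h1
      refine absurd (Nat.beq_eq ▸ M.P_inj (M.P_app hc (M.P_app h3 hω)) ?_) (bnot_iff.1 e2)
      have := M.P_app h3 p1
      rwa [← Equiv.Perm.mul_apply, ← map_mul, h g h2, map_mul] at this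
    · exact M.eqv_sound (MulModel.R_powC hc 4) M.R_one e1

/-- The relations, the order and two fourth powers. -/
noncomputable def base (O : Ops) (gens : List ℕ) (prog : List (ℕ × List ℕ)) (idx : List ℕ) (cz : ℕ)
    (R : List (ℕ × List ℕ)) (wu ww goal : ℕ) (lv : List (ℕ × ℕ × List (ℕ × ℕ))) : Bool :=
  Ops.rec (fun one mul eqv app vld _ _ => frc cz fun cz =>
    run one mul gens prog idx (baseC one mul eqv app vld cz R wu ww goal lv)) O

/-- A part of the enumeration. -/
noncomputable def enum (O : Ops) (gens : List ℕ) (prog : List (ℕ × List ℕ)) (idx : List ℕ)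
    (cz wu v : ℕ) (cg : List ℕ) (tb : List (List ℕ)) (d p : ℕ) : Bool :=
  Ops.rec (fun one mul eqv app vld _ _ => frc cz fun cz =>
    run one mul gens prog idx (enumC one mul eqv app vld cz wu v cg (nth [] tb p) d p)) O

theorem gd_of [Finite G] {O : Ops} (h : M.Has O) (hz : M.R cz z) (sq : z * z = 1) (ne : z ≠ 1)
    (cen : ∀ x, x * z = z * x) (ctr : ∀ x : G, (∀ y, x * y = y * x) → x = 1 ∨ x = z)
    {gens : List ℕ} (hg : ∀ c ∈ gens, M.In ⊤ c) {n : ℕ} (hN : ¬ 2 ^ (n + 1) ∣ Nat.card G)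
    {prog : List (ℕ × List ℕ)} {idx : List ℕ} {R : List (ℕ × List ℕ)} {wu ww v d : ℕ}
    {lv : List (ℕ × ℕ × List (ℕ × ℕ))} {cg : List ℕ} {tb : List (List ℕ)}
    (h1 : base O gens prog idx cz R wu ww (2 ^ n) lv = true)
    (h2 : ∀ p < 2 ^ d, enum O gens prog idx cz wu v cg tb d p = true) : ∃ T, StdF.Gd z T := by
  have : Fact (Nat.Prime 2) := ⟨Nat.prime_two⟩
  rw [h.eq] at h1 h2
  simp only [base, enum, frc_eq, run_eq] at h1 h2
  have ho : ∀ c ∈ Model.slpOut M.mul M.one prog gens, M.In ⊤ c := by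
    clear h1 h2
    induction prog generalizing gens with
    | nil => exact hg
    | cons ins prog ih =>
      exact ih (List.forall_mem_cons.2 ⟨MulModel.in_prodIdx hg _ _ (MulModel.in_nth hg _), hg⟩)
  generalize Model.slpOut M.mul M.one prog gens = out at h1 h2 ho
  obtain ⟨gs, hs⟩ : ∃ gs, List.Forall₂ M.R (idx.map (nth M.one out)) gs := by
    clear h1 h2
    induction idx with
    | nil => exact ⟨[], .nil⟩
    | cons i idx ih =>
      obtain ⟨g, -, hg⟩ := MulModel.in_nth ho i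
      exact ih.elim fun gs hs => ⟨g :: gs, .cons hg hs⟩
  generalize idx.map (nth M.one out) = cs at h1 h2 hs
  simp only [baseC, enumC, frc_eq, band_iff, selK_eq, Nat.beq_eq, lall_iff] at h1 h2
  obtain ⟨h0, k1, k2, k3, k4⟩ := h1
  have hp := pcChk_spec hz hs R k1
  have hT := hp.isPGroup sq cen
  obtain ⟨u, hu, ru⟩ := in_evW (in_KL hz hs) rfl wu
  obtain ⟨w, hw, rw'⟩ := in_evW (in_KL hz hs) rfl ww
  have ra := MulModel.R_powC ru 4
  have e1 : w ^ 4 = z * u ^ 4 := M.eqv_sound (MulModel.R_powC rw' 4) (M.R_mul hz ra) k3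
  have e2 : ∀ x ∈ KL z gs, x * u ^ 4 = u ^ 4 * x := fun x hx => by
    refine mem_centralizer_singleton_iff.1 ((closure_le (centralizer {u ^ 4})).2 (fun b hb => ?_) hx)
    refine mem_centralizer_singleton_iff.2 ?_
    rcases List.mem_cons.1 hb with rfl | hb
    · exact (cen _).symm
    · obtain ⟨i, hi, rfl⟩ := List.getElem_of_mem hb
      have := List.Forall₂.get hs (hs.length_eq ▸ hi) hi
      exact M.eqv_sound (M.R_mul this ra) (M.R_mul ra this) (k4 _ (List.get_mem _ _))
  have hS : IsSylowIn 2 (KL z gs) ⊤ := by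
    obtain ⟨g, hg⟩ := MulModel.exists_elts (in_KL hz hs)
    have h3 := Model.le_card_of_chain (fun i => (hg i).2) (M.R_fun (hg 0).2 M.R_one)
      (fun i => (hg i).1) k2
    refine ⟨le_top, hT, fun h4 => hN ?_⟩
    obtain ⟨k, hk⟩ := IsPGroup.iff_card.1 hT
    rw [hk] at h3
    rw [← (KL z gs).card_mul_index, hk, pow_succ]
    exact mul_dvd_mul (pow_dvd_pow _ ((Nat.pow_le_pow_iff_right one_lt_two).1 h3))
      (by rwa [relIndex_top_right] at h4)
  have hz4 : ∀ x, (z * x) ^ 4 = x ^ 4 := fun x => by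
    rw [(show Commute z x from (cen x).symm).mul_pow, show z ^ 4 = z * z * (z * z) by simp only [pow_succ, pow_zero, one_mul, mul_assoc], sq,
      one_mul, one_mul]
  have hQ := goP_spec (Q := fun x => x ^ 4 ≠ z ∧ (x * x = 1 → x = 1 ∨ x = z ∨ IsConj x (u ^ 4) ∨
    IsConj x (z * u ^ 4)) ∧ ((∀ g ∈ KL z gs, g * x = x * g) → x ^ 4 = 1)) sq cen (by
      rintro x ⟨q1, q2, q3⟩
      have hc : ∀ y, IsConj x y → IsConj (z * x) (z * y) := fun y hy => by
        obtain ⟨c, rfl⟩ := isConj_iff.1 hy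
        exact isConj_iff.2 ⟨c, by rw [← mul_assoc, cen]; group⟩
      refine ⟨hz4 x ▸ q1, fun e => ?_, fun e => hz4 x ▸ q3 fun g hg => mul_left_cancel (a := z) (by
        rw [← mul_assoc, ← cen, mul_assoc, e g hg, mul_assoc])⟩
      rw [mul_assoc, ← mul_assoc x, cen, mul_assoc, ← mul_assoc, sq, one_mul] at e
      rcases q2 e with rfl | rfl | e | e
      · simp
      · exact Or.inl sq
      · exact Or.inr (Or.inr (Or.inr (hc _ e)))
      · exact Or.inr (Or.inr (Or.inl (by simpa [← mul_assoc, sq] using hc _ e))))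
    (lf := fun j => leaf M.one M.mul M.eqv M.app v (M.app cz v) _ _ out (cg.map (nth M.one cs))
      (nth [] tb j)) hs hp (fun j c x hc e => by
      obtain ⟨q1, q2, q3⟩ := leaf_spec hz (h2 0 (Nat.two_pow_pos d)).1 ra (M.R_mul hz ra) ho h0
        (K := KL z gs) (fun c hc => by
          obtain ⟨i, -, rfl⟩ := List.mem_map.1 hc
          exact MulModel.in_nth (fun c hc => in_KL hz hs c (by simp [hc])) i) hc e
      exact ⟨q1, fun e => (q2 e).imp_right Or.inr, q3⟩) d _ 1 M.R_one fun p hp => ⟨p, (h2 p hp).2⟩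
  simp only [mul_one] at hQ
  have hcj : ∀ (x : G) (k : ℕ), x ^ 2 ^ k = 1 → ∃ c, c * x * c⁻¹ ∈ KL z gs := fun x k e => by
    obtain ⟨c, -, hc⟩ := hS.exists_cj_le (Q := zpowers x) (IsPGroup.of_card_dvd_pow (n := k)
      (Nat.card_zpowers x ▸ orderOf_dvd_of_pow_eq_one e)) le_top
    exact ⟨c, cj_le_iff.1 hc x (mem_zpowers x)⟩
  refine ⟨_, hS, sq, ne, cen, ctr, fun x e => ?_, fun t e => ?_, fun y hy => (hQ y hy).2.2⟩
  · obtain ⟨c, hc⟩ := hcj x 3 (by rw [show x ^ 2 ^ 3 = x ^ 4 * x ^ 4 by group, e, sq])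
    exact (hQ _ hc).1 (by rw [conj_pow, e, cen, mul_inv_cancel_right])
  · obtain ⟨c, hc⟩ := hcj t 1 (by rw [pow_one, pow_two, e])
    have h3 : IsConj t (c * t * c⁻¹) := isConj_iff.2 ⟨c, rfl⟩
    rcases (hQ _ hc).2.1 (by rw [← pow_two, conj_pow, pow_two, e]; group) with e3 | e3 | e3 | e3
    · exact Or.inl (by simpa using e3)
    · exact Or.inr (Or.inl (by rw [mul_inv_eq_iff_eq_mul, ← cen] at e3; exact mul_left_cancel e3))
    · exact Or.inr (Or.inr ⟨u, hu, h3.trans e3, e2⟩)
    · exact Or.inr (Or.inr ⟨w, hw, e1 ▸ h3.trans e3, fun x hx => by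
        rw [e1, ← mul_assoc, cen, mul_assoc, e2 x hx, mul_assoc]⟩)

theorem KL_eq_1' : type_of% @KL.eq_1 := @KL.eq_1
theorem selK_eq_1' : type_of% @selK.eq_1 := @selK.eq_1
theorem run_eq_1' : type_of% @run.eq_1 := @run.eq_1
theorem cjAll_eq_1' : type_of% @cjAll.eq_1 := @cjAll.eq_1
theorem pcChk_eq_1' : type_of% @pcChk.eq_1 := @pcChk.eq_1
theorem goP_eq_1' : type_of% @goP.eq_1 := @goP.eq_1
theorem leaf_eq_1' : type_of% @leaf.eq_1 := @leaf.eq_1
theorem baseC_eq_1' : type_of% @baseC.eq_1 := @baseC.eq_1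
theorem enumC_eq_1' : type_of% @enumC.eq_1 := @enumC.eq_1
theorem base_eq_1' : type_of% @base.eq_1 := @base.eq_1
theorem enum_eq_1' : type_of% @enum.eq_1 := @enum.eq_1

end Cfsg.Lib.Chev.PcE
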