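import Cfsg.Agent.Chev.SubfMain
import Cfsg.Agent.Chev.CoreAll
import Cfsg.Agent.Chev.SubMaxTypes

/-!
# Finite overgroups of a Chevalley group over a finite subfield
-/

set_option autoImplicit false
set_option linter.unusedSectionVars false

namespace Cfsg.Lib.Chev

open Cfsg.Lie Cfsg.Lib.Chev.Core

variable {F G : Type*} [Field F] [Group G] {D : ChevalleyDatum} {R : RootData D} {y : ℕ → F → G}

/-- Check for the centre of `U`. -/
def ZCert (D : ChevalleyDatum) (N : List ℕ) (p θs : ℕ) : Prop :=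
  D.nroots / 2 ≤ θs ∧ θs < D.nroots ∧
  (∀ γ, γ < D.nroots → D.nroots / 2 ≤ γ → γ = D.nroots - 1 ∨ γ = θs ∨
    ∃ β, β < D.nroots / 2 ∧ (D.chainM γ (D.nroots / 2 + β) 1).natAbs ∈ N) ∧
  (∀ β, β < D.nroots → D.nroots / 2 ≤ β → ∀ c ∈ D.commTerms θs β, (p : ℤ) ∣ c.2.1) ∧
  (∃ i, i < D.rank ∧ D.nroots - 1 ≠ D.simple i ∧ 0 < D.cartan i (D.nroots - 1)) ∧
  (θs = D.nroots - 1 ∨ ∃ j, j < D.rank ∧ θs ≠ D.simple j ∧ 0 < D.cartan j θs ∧
    D.reflectRoot j θs < D.reflectRoot j (D.nroots - 1))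

/-- Check for the dominant roots and a subsystem of long roots of type `A₂`. -/
def LongCert (D : ChevalleyDatum) (θ' a b : ℕ) : Prop :=
  (∀ r, r < D.nroots → r = D.nroots - 1 ∨ r = θ' ∨ ∃ i, i < D.rank ∧ D.cartan i r < 0) ∧
  a < D.nroots ∧ b < D.nroots ∧ D.chainRoot a b 1 = some (D.nroots - 1) ∧
  (D.chainM a b 1).natAbs = 1 ∧ (D.commTerms a b).tail = [] ∧ domRoot D 60 a = D.nroots - 1 ∧
  domRoot D 60 b = D.nroots - 1 ∧ domRoot D 60 (D.nroots - 1) = D.nroots - 1 ∧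
  (θ' = D.nroots - 1 ∨ TorCert D 1 60 (D.nroots - 1) θ' (D.nroots - 1) θ')

theorem ZCert_eq_1' : type_of% @ZCert.eq_1 := @ZCert.eq_1
theorem LongCert_eq_1' : type_of% @LongCert.eq_1 := @LongCert.eq_1

theorem Model.zdata (hy : Model R y) {N : List ℕ} {p θs : ℕ} (h : ZCert D N p θs)
    (hN : ∀ n ∈ N, (n : F) ≠ 0) (hp : (p : F) = 0) : ZData D y θs := by
  obtain ⟨h1, h2, h3, h4, h5, h6⟩ := h
  have h0 := (R.pos_iff θs).2 ⟨h1, h2⟩
  refine ⟨h0, fun γ hγ => ?_, fun β hβ t u => ?_, h5, h6⟩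
  · refine (h3 γ hγ.1 ((R.pos_iff γ).1 hγ).1).imp_right (Or.imp_right ?_)
    rintro ⟨β, h7, h8⟩
    refine ⟨_, (R.pos_iff _).2 ⟨Nat.le_add_right _ β, by have := R.nroots_eq; omega⟩, fun e => hN _ h8 ?_⟩
    rcases Int.natAbs_eq (D.chainM γ (D.nroots / 2 + β) 1) with e' | e' <;> rw [e'] at e <;>
      simpa only [Int.cast_neg, Int.cast_natCast, neg_eq_zero] using e
  · by_cases e : β = θs
    · exact hy.xSub_comm' _ (R.weyl_mem.2 h2) _ (x_mem_xSub y _ t) _ (e ▸ x_mem_xSub y _ u)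
    have h7 := hy.toStRel.comm θs β h2 hβ.1 e
      (fun e => R.not_neg_of_pos hβ (e ▸ (R.isNegRoot_neg_iff h2).2 h0)) t u
    have h8 : word y (D.commWord F θs β t u) ∈ (⊥ : Subgroup G) := word_mem _ fun q hq => by
      obtain ⟨c, hc, rfl⟩ := List.mem_map.1 hq
      obtain ⟨m, hm⟩ := h4 β hβ.1 ((R.pos_iff β).1 hβ).1 c hc
      rw [hm, Int.cast_mul, Int.cast_natCast, hp, zero_mul, zero_mul, zero_mul,
        hy.toStRel.zero (R.commTerms_spec h2 hβ.1 hc).1]
      exact one_mem _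
    rw [Subgroup.mem_bot.1 h8, mul_one] at h7
    exact h7.symm

theorem Model.fdata_of_cert (hy : Model R y) {M : Subgroup G} [Finite M]
    (h1 : ∀ r, r < D.nroots → y r 1 ∈ M) (p : ℕ) [Fact p.Prime] [CharP F p] {θ' a b : ℕ}
    (h : LongCert D θ' a b) : hy.toStRel.FData M p (D.nroots - 1) := by
  obtain ⟨c1, c2, c3, c4, c5, c6, c7, c8, c9, c10⟩ := h
  refine hy.fdata_long h1 p c1 ⟨c2, c3, c4, fun e => ?_, by simp [c6], c7, c8, c9⟩
    (c10.imp_right fun h => ⟨_, _, h⟩)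
  rw [← Int.dvd_natAbs, c5, Int.natCast_dvd_natCast, Nat.dvd_one] at e
  exact (Fact.out : p.Prime).ne_one e

theorem natCast_ne_zero_of_mem (p : ℕ) [Fact p.Prime] [CharP F p] {q : ℕ} (hq : q.Prime)
    (h : p ≠ q) : ∀ n ∈ [1, q], (n : F) ≠ 0 := by
  simpa using fun e => h ((Nat.prime_dvd_prime_iff_eq Fact.out hq).1
    ((CharP.cast_eq_zero_iff F p q).1 e))

theorem exists_data_of_mem (hD : D ∈ [chevG2, chevB2, chevD4, chevF4, chevE6, chevE7, chevE8])
    (hy : Model R y) (p : ℕ) [Fact p.Prime] [CharP F p] {M : Subgroup G} [Finite M]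
    (h1 : ∀ r, r < D.nroots → y r 1 ∈ M) : ∃ θs, ZData D y θs ∧ hy.toStRel.FData M p θs := by
  simp only [List.mem_cons, List.not_mem_nil, or_false] at hD
  have h0 : ∀ n ∈ ([1] : List ℕ), (n : F) ≠ 0 := by simp
  rcases hD with rfl | rfl | rfl | rfl | rfl | rfl | rfl
  · have h2 := hy.fdata_of_cert h1 p (θ' := 9) (a := 10) (b := 6)
      (by unfold LongCert TorCert; decide +kernel)
    by_cases hp : p = 3
    · subst hp
      exact ⟨9, hy.zdata (p := 3) (by unfold ZCert; decide +kernel)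
        (natCast_ne_zero_of_mem 3 Nat.prime_two (by omega)) (CharP.cast_eq_zero F 3),
        hy.fdata_special h1 3 (n := 60) (r := 5) (ν := 10) (a := 9) (b := 4) (μ := 8) (c := 9) (d := 11)
          h2 (by decide) (by unfold RingCert; decide +kernel) (by decide +kernel) (by decide +kernel)
          (by unfold RingCert; decide +kernel) (by unfold TorCert; decide +kernel)⟩
    · exact ⟨_, hy.zdata (p := 0) (by unfold ZCert; decide +kernel)
        (natCast_ne_zero_of_mem p Nat.prime_three hp) Nat.cast_zero, h2⟩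
  · by_cases hp : p = 2
    · subst hp
      exact ⟨6, hy.zdata (p := 2) (by unfold ZCert; decide +kernel) h0 (CharP.cast_eq_zero F 2),
        hy.fdata_B2_two h1⟩
    · exact ⟨_, hy.zdata (p := 0) (by unfold ZCert; decide +kernel)
        (natCast_ne_zero_of_mem p Nat.prime_two hp) Nat.cast_zero, hy.fdata_B2_odd h1 p hp⟩
  · exact ⟨_, hy.zdata (p := 0) (by unfold ZCert; decide +kernel) h0 Nat.cast_zero,
      hy.fdata_of_cert h1 p (θ' := 23) (a := 22) (b := 14) (by unfold LongCert TorCert; decide +kernel)⟩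
  · have h2 := hy.fdata_of_cert h1 p (θ' := 44) (a := 46) (b := 24)
      (by unfold LongCert TorCert; decide +kernel)
    by_cases hp : p = 2
    · subst hp
      exact ⟨44, hy.zdata (p := 2) (by unfold ZCert; decide +kernel) h0 (CharP.cast_eq_zero F 2),
        hy.fdata_special h1 2 (n := 60) (r := 23) (ν := 46) (a := 44) (b := 14) (μ := 40) (c := 44)
          (d := 47) h2 (by decide +kernel) (by unfold RingCert; decide +kernel) (by decide +kernel)
          (by decide +kernel) (by unfold RingCert; decide +kernel) (by unfold TorCert; decide +kernel)⟩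
    · exact ⟨_, hy.zdata (p := 0) (by unfold ZCert; decide +kernel)
        (natCast_ne_zero_of_mem p Nat.prime_two hp) Nat.cast_zero, h2⟩
  · exact ⟨_, hy.zdata (p := 0) (by unfold ZCert; decide +kernel) h0 Nat.cast_zero,
      hy.fdata_of_cert h1 p (θ' := 71) (a := 70) (b := 46) (by unfold LongCert TorCert; decide +kernel)⟩
  · exact ⟨_, hy.zdata (p := 0) (by unfold ZCert; decide +kernel) h0 Nat.cast_zero,
      hy.fdata_of_cert h1 p (θ' := 125) (a := 124) (b := 93)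
        (by unfold LongCert TorCert; decide +kernel)⟩
  · exact ⟨_, hy.zdata (p := 0) (by unfold ZCert; decide +kernel) h0 Nat.cast_zero,
      hy.fdata_of_cert h1 p (θ' := 239) (a := 238) (b := 120)
        (by unfold LongCert TorCert; decide +kernel)⟩

theorem exists_topCert_of_mem (hD : D ∈ [chevG2, chevB2, chevD4, chevF4, chevE6, chevE7, chevE8]) :
    ∃ i j l, TopCert D i ∧ InvCert D 60 j l := by
  simp only [List.mem_cons, List.not_mem_nil, or_false] at hD
  unfold TopCert InvCert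
  rcases hD with rfl | rfl | rfl | rfl | rfl | rfl | rfl
  exacts [⟨1, 0, 1, by decide +kernel⟩, ⟨0, 0, 1, by decide +kernel⟩, ⟨1, 3, 2, by decide +kernel⟩,
    ⟨3, 3, 1, by decide +kernel⟩, ⟨1, 5, 3, by decide +kernel⟩, ⟨0, 6, 4, by decide +kernel⟩,
    ⟨7, 7, 5, by decide +kernel⟩]

/-- Finite overgroups of the group over a finite subfield. -/
theorem finite_overgroup [IsAlgClosed F] (p : ℕ) [Fact p.Prime] [CharP F p]
    (hD : D ∈ [chevG2, chevB2, chevD4, chevF4, chevE6, chevE7, chevE8]) {a : ℕ} (ha : 1 ≤ a)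
    {M : Subgroup (GL D.Idx F)} [Finite M] (hM : M ≤ D.group F)
    (h : ∀ s, s < D.nroots → ∀ t : F, t ^ p ^ a = t → xGL D F s t ∈ M) :
    ∃ r, 1 ≤ r ∧ (∀ s, s < D.nroots → ∀ t : F, t ^ (p ^ a) ^ r = t → xGL D F s t ∈ M) ∧
      ∀ g ∈ M, mapGL D (iterateFrobenius F p (a * r)) g = g := by
  obtain ⟨C, R⟩ := (cert_root_of_mem hD).some
  have hy := C.model F R
  have h1 : ∀ r, r < D.nroots → xGL D F r 1 ∈ M := fun r hr => h r hr 1 (one_pow _)
  obtain ⟨θs, Z, A⟩ := exists_data_of_mem hD hy p h1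
  obtain ⟨i, j, l, hT, hI⟩ := exists_topCert_of_mem hD
  have hθ := (R.top_pos Z.pos.1).1
  let K : Subring F := { hy.toStRel.fld M (D.nroots - 1) with
    one_mem' := hy.one_mem_fld h1 _, mul_mem' := fun ha hb => A.mul _ ha _ hb }
  have : Finite K := hy.finite_fld hθ
  obtain ⟨r, hr, hK⟩ := exists_pow_eq_iff p K ha fun t ht _ => h _ hθ t ht
  have h2 : ∀ s, s < D.nroots → ∀ t : F, t ^ (p ^ a) ^ r = t → xGL D F s t ∈ M :=
    fun s hs t ht => A.le s hs ((hK t).1 ht) hs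
  set f := iterateFrobenius F p (a * r)
  have hf : ∀ t, f t = t ^ (p ^ a) ^ r := fun t => by rw [iterateFrobenius_def, pow_mul]
  have h3 : (C.fieldTwist R f).G1 ≤ M := by
    have key : ∀ s, s < D.nroots → xSub (xGL D F) s ⊓ (C.fieldTwist R f).F ≤ M := fun s hs g hg => by
      obtain ⟨t, rfl⟩ := (hy.toStRel.mem_xSub_iff hs).1 hg.1
      refine h2 s hs t ((hf t).symm.trans (hy.injective hs ?_))
      rw [← C.mapGL_xGL f R]
      exact hg.2.2
    refine (C.fieldTwist R f).G1_le_iff.2 fun i => ?_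
    rw [R.weyl.trivSym_orb, RGD.UL_singleton, RGD.VL_singleton]
    exact ⟨key _ (R.simple_lt i i.2), key _ (R.neg_lt (R.simple_lt i i.2))⟩
  refine ⟨r, hr, h2, fun g hg => (C.le_F_of_B_inf_le R p f hT hI h3 (hM.trans (C.group_eq_Y R).le)
    (C.B_inf_le_F R f Z h3 fun t s h4 => ?_) hg).2⟩
  rcases A.sp with rfl | h5
  · rw [hy.add _ hθ] at h4 ⊢
    rw [C.mapGL_xGL f R, hf, (hK _).2 fun _ => h4]
  · have h6 := (hK _).2 (h5 t s h4).1
    rw [← hf, map_pow] at h6
    rw [map_mul, C.mapGL_xGL f R, C.mapGL_xGL f R, frobenius_inj F p h6, hf, (hK _).2 (h5 t s h4).2]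

end Cfsg.Lib.Chev
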