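import Cfsg.Agent.Chev.SubfU
import Cfsg.Agent.Chev.LangMat

/-!
# The parameters of the root elements in a finite overgroup of a Chevalley group over a subfield
-/

set_option autoImplicit false
set_option linter.unusedSectionVars false

namespace Cfsg.Lib.Chev

open Cfsg.Lie

variable {F G : Type*} [Field F] [Group G] {D : ChevalleyDatum} {R : RootData D} {y : ℕ → F → G}

theorem inv_mem_of_finite (K : Subring F) [Finite K] {t : F} (ht : t ∈ K) : t⁻¹ ∈ K := by
  by_cases h : t = 0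
  · rwa [h, inv_zero, ← h]
  obtain ⟨u, hu⟩ := (Finite.isField_of_domain K).mul_inv_cancel (a := ⟨t, ht⟩)
    (fun e => h (congrArg Subtype.val e))
  rw [← eq_inv_of_mul_eq_one_right (congrArg Subtype.val hu : t * u = 1)]
  exact u.2

theorem exists_pow_eq_iff [IsAlgClosed F] (p : ℕ) [Fact p.Prime] [CharP F p] (K : Subring F)
    [Finite K] {a : ℕ} (ha : 1 ≤ a) (h : ∀ t : F, t ^ p ^ a = t → t ∈ K) :
    ∃ r, 1 ≤ r ∧ ∀ t : F, t ^ (p ^ a) ^ r = t ↔ t ∈ K := by
  let K' : Subfield F := { K with inv_mem' := fun _ => inv_mem_of_finite K }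
  have : Finite K' := ‹Finite K›
  have := Fintype.ofFinite K'
  have := Fintype.ofFinite (GaloisField p a)
  let : Algebra (ZMod p) F := ZMod.algebra F p
  let ι : GaloisField p a →+* F := (IsAlgClosed.lift : GaloisField p a →ₐ[ZMod p] F)
  have h1 : Fintype.card (GaloisField p a) = p ^ a := by
    rw [← Nat.card_eq_fintype_card, GaloisField.card p a (by omega)]
  let : Algebra (GaloisField p a) K' := (ι.codRestrict K' fun t =>
    h _ (h1 ▸ (Lang.pow_card_eq_iff ι _).2 ⟨t, rfl⟩)).toAlgebra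
  have h2 := Module.card_eq_pow_finrank (K := GaloisField p a) (V := K')
  refine ⟨Module.finrank (GaloisField p a) K', Module.finrank_pos, fun t => ?_⟩
  rw [← h1, ← h2, Lang.pow_card_eq_iff K'.subtype]
  exact ⟨fun ⟨u, e⟩ => e ▸ u.2, fun ht => ⟨⟨t, ht⟩, rfl⟩⟩

theorem mem_of_intCast_mul (p : ℕ) [Fact p.Prime] [CharP F p] {A : AddSubgroup F} {N : ℤ}
    (hN : (N : F) ≠ 0) {t : F} (h : N * t ∈ A) : t ∈ A := by
  obtain ⟨m, hm⟩ := Nat.exists_eq_add_of_le (Fact.out : p.Prime).two_le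
  have h1 : (N : F) ^ p = N := by rw [← frobenius_def, map_intCast]
  have h2 := A.zsmul_mem h (N ^ m)
  rw [zsmul_eq_mul, Int.cast_pow] at h2
  convert h2 using 1
  refine mul_left_cancel₀ hN ?_
  rw [hm] at h1
  linear_combination -t * h1

/-- The parameters of the root elements lying in `M`. -/
def StRel.fld (h : StRel D y) (M : Subgroup G) (r : ℕ) : AddSubgroup F where
  carrier := {t | r < D.nroots → y r t ∈ M}
  zero_mem' hr := h.zero hr ▸ one_mem M
  add_mem' ha hb hr := h.add r hr _ _ ▸ mul_mem (ha hr) (hb hr)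
  neg_mem' ha hr := h.inv hr _ ▸ inv_mem (ha hr)

/-- Raising a root by fundamental reflections. -/
def domRoot (D : ChevalleyDatum) : ℕ → ℕ → ℕ
  | 0, r => r
  | n + 1, r => match (List.range D.rank).find? fun i => D.cartan i r < 0 with
    | some i => domRoot D n (D.reflectRoot i r)
    | none => r

theorem StRel.fld_eq_1' : type_of% @StRel.fld.eq_1 := @StRel.fld.eq_1
theorem domRoot_eq_1' : type_of% @domRoot.eq_1 := @domRoot.eq_1
theorem domRoot_eq_2' : type_of% @domRoot.eq_2 := @domRoot.eq_2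
theorem domRoot_eq_def' : type_of% @domRoot.eq_def := @domRoot.eq_def

theorem StRel.mem_fld (h : StRel D y) {M : Subgroup G} {r : ℕ} (hr : r < D.nroots) {t : F} :
    t ∈ h.fld M r ↔ y r t ∈ M := ⟨fun h => h hr, fun h _ => h⟩

/-- The parameters of the highest root form a ring controlling the centre of `U`. -/
structure StRel.FData (h : StRel D y) (M : Subgroup G) (p θs : ℕ) : Prop where
  mul : ∀ t ∈ h.fld M (D.nroots - 1), ∀ u ∈ h.fld M (D.nroots - 1), t * u ∈ h.fld M (D.nroots - 1)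
  le : ∀ s, s < D.nroots → h.fld M (D.nroots - 1) ≤ h.fld M s
  sp : θs = D.nroots - 1 ∨ ∀ t s, y θs t * y (D.nroots - 1) s ∈ M →
    t ^ p ∈ h.fld M (D.nroots - 1) ∧ s ∈ h.fld M (D.nroots - 1)

/-- Three roots conjugate to `ρ`, the first term of a commutator surviving modulo `p`. -/
def RingCert (D : ChevalleyDatum) (p n ρ a b ν : ℕ) : Prop :=
  a < D.nroots ∧ b < D.nroots ∧ D.chainRoot a b 1 = some ν ∧ ¬ (p : ℤ) ∣ D.chainM a b 1 ∧
    (∀ c ∈ (D.commTerms a b).tail, (p : ℤ) ∣ c.2.1) ∧ domRoot D n a = ρ ∧ domRoot D n b = ρ ∧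
    domRoot D n ν = ρ

/-- Roots conjugate to `ρ` and `ρ'` with Cartan integer `k`. -/
def TorCert (D : ChevalleyDatum) (k n ρ ρ' r s : ℕ) : Prop :=
  r < D.nroots ∧ s < D.nroots ∧ domRoot D n r = ρ ∧ domRoot D n (D.neg r) = ρ ∧
    domRoot D n s = ρ' ∧ D.pairing r s = k

theorem RingCert_eq_1' : type_of% @RingCert.eq_1 := @RingCert.eq_1
theorem TorCert_eq_1' : type_of% @TorCert.eq_1 := @TorCert.eq_1

namespace Model

variable (hy : Model R y) {M : Subgroup G}
include hy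

theorem finite_fld [Finite M] {r : ℕ} (hr : r < D.nroots) : Finite (hy.toStRel.fld M r) :=
  Finite.of_injective (fun t => (⟨y r t, t.2 hr⟩ : M)) fun _ _ e =>
    Subtype.ext (hy.injective hr (congrArg Subtype.val e))

theorem comm_single {r s ν : ℕ} (hr : r < D.nroots) (hs : s < D.nroots)
    (h : D.chainRoot r s 1 = some ν) (hl : ∀ c ∈ (D.commTerms r s).tail, (c.2.1 : F) = 0) (t u : F) :
    (y s u)⁻¹ * (y r t)⁻¹ * y s u * y r t = y ν (-(D.chainM r s 1 * (t * u))) := by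
  obtain ⟨l, e, -⟩ := commTerms_cons h
  obtain ⟨h4, h5, -⟩ := R.chainRoot_spec hr hs le_rfl h
  have h2 : word y (l.map fun c => (c.1, (c.2.1 : F) * (-t) ^ c.2.2.1 * u ^ c.2.2.2)) ∈
      (⊥ : Subgroup G) := word_mem _ fun q hq => by
    obtain ⟨c, hc, rfl⟩ := List.mem_map.1 hq
    rw [hl c (e ▸ hc), zero_mul, zero_mul,
      hy.toStRel.zero (R.commTerms_spec hr hs (e ▸ List.mem_cons_of_mem _ hc)).1]
    exact one_mem _
  rw [hy.toStRel.comm_eq hr hs h4 h5, ChevalleyDatum.commWord, e, List.map_cons, word_cons,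
    Subgroup.mem_bot.1 h2, mul_one]
  congr 1
  ring

variable (h1 : ∀ r, r < D.nroots → y r 1 ∈ M)
include h1

theorem one_mem_fld (r : ℕ) : 1 ∈ hy.toStRel.fld M r := h1 r

theorem nel_mem {r : ℕ} (hr : r < D.nroots) : nel D y r 1 ∈ M :=
  mul_mem (mul_mem (h1 r hr) (by
    rw [inv_one, ← hy.toStRel.inv (R.neg_lt hr)]; exact inv_mem (h1 _ (R.neg_lt hr)))) (h1 r hr)

theorem fld_reflect {i r : ℕ} (hi : i < D.rank) (hr : r < D.nroots) :
    hy.toStRel.fld M (D.reflectRoot i r) = hy.toStRel.fld M r := by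
  have key : ∀ r, r < D.nroots → hy.toStRel.fld M r ≤ hy.toStRel.fld M (D.reflectRoot i r) := by
    intro r hr t ht
    obtain ⟨η, hη, h, -⟩ := hy.toStRelW.exists_sign R hi hr
    have hn := hy.nel_mem h1 (R.simple_lt i hi)
    have h2 : (η : F) * t ∈ hy.toStRel.fld M (D.reflectRoot i r) := fun _ =>
      h t ▸ mul_mem (mul_mem hn (ht hr)) (inv_mem hn)
    rcases hη with rfl | rfl <;> simpa using h2
  refine le_antisymm ?_ (key r hr)
  simpa only [R.reflect_reflect hi hr] using key _ (R.reflect_lt i r hi hr)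

theorem fld_domRoot (n : ℕ) {r : ℕ} (hr : r < D.nroots) :
    hy.toStRel.fld M r = hy.toStRel.fld M (domRoot D n r) := by
  induction n generalizing r with
  | zero => rfl
  | succ n ih =>
    rw [domRoot]
    split
    · next i h =>
      have hi := List.mem_range.1 (List.mem_of_find?_eq_some h)
      rw [← ih (R.reflect_lt i r hi hr), hy.fld_reflect h1 hi hr]
    · rfl

theorem fld_cases {θ' : ℕ} (hc : ∀ r, r < D.nroots → r = D.nroots - 1 ∨ r = θ' ∨
      ∃ i, i < D.rank ∧ D.cartan i r < 0) {r : ℕ} (hr : r < D.nroots) :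
    hy.toStRel.fld M r = hy.toStRel.fld M (D.nroots - 1) ∨
      hy.toStRel.fld M r = hy.toStRel.fld M θ' := by
  induction h : D.nroots - r using Nat.strong_induction_on generalizing r with
  | _ n ih =>
    rcases hc r hr with rfl | rfl | ⟨i, hi, h2⟩
    · exact Or.inl rfl
    · exact Or.inr rfl
    · have h3 := (R.lt_reflect_iff hi hr).2 h2
      have h4 := R.reflect_lt i r hi hr
      rw [← hy.fld_reflect h1 hi hr]
      exact ih _ (by omega) h4 rfl

theorem tor_mem_fld {r s : ℕ} (hr : r < D.nroots) (hs : s < D.nroots) {t : F} (h0 : t ≠ 0)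
    (ht : t ∈ hy.toStRel.fld M r) (ht' : t⁻¹ ∈ hy.toStRel.fld M (D.neg r)) :
    t ^ D.pairing r s ∈ hy.toStRel.fld M s := fun _ => by
  have h2 : hel D y r t ∈ M := mul_mem (mul_mem (mul_mem (ht hr) (neg_mem ht' (R.neg_lt hr))) (ht hr))
    (hy.toStRel.nel_inv R hr 1 ▸ inv_mem (hy.nel_mem h1 hr))
  rw [← mul_one (t ^ _), ← hy.toStRelW.hel_conj R hr hs h0]
  exact mul_mem (mul_mem h2 (h1 s hs)) (inv_mem h2)

theorem mul_mem_of_cert (p : ℕ) [Fact p.Prime] [CharP F p] {n ρ a b ν : ℕ}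
    (h : RingCert D p n ρ a b ν) :
    ∀ t ∈ hy.toStRel.fld M ρ, ∀ u ∈ hy.toStRel.fld M ρ, t * u ∈ hy.toStRel.fld M ρ := by
  obtain ⟨ha, hb, h2, h3, h4, e1, e2, e3⟩ := h
  intro t ht u hu
  rw [← e3, ← hy.fld_domRoot h1 n (R.chainRoot_spec ha hb le_rfl h2).2.2.1]
  rw [← e1, ← hy.fld_domRoot h1 n ha] at ht
  rw [← e2, ← hy.fld_domRoot h1 n hb] at hu
  refine mem_of_intCast_mul p (mt (CharP.intCast_eq_zero_iff F p _).1 h3) (neg_mem_iff.1 fun _ => ?_)
  rw [← hy.comm_single ha hb h2 fun c hc => (CharP.intCast_eq_zero_iff F p _).2 (h4 c hc)]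
  exact mul_mem (mul_mem (mul_mem (inv_mem (hu hb)) (inv_mem (ht ha))) (hu hb)) (ht ha)

theorem pow_mem_of_cert [Finite M] {k n ρ ρ' r s : ℕ} (hk : k ≠ 0) (h : TorCert D k n ρ ρ' r s)
    (hm : ∀ t ∈ hy.toStRel.fld M ρ, ∀ u ∈ hy.toStRel.fld M ρ, t * u ∈ hy.toStRel.fld M ρ) {t : F}
    (ht : t ∈ hy.toStRel.fld M ρ) : t ^ k ∈ hy.toStRel.fld M ρ' := by
  obtain ⟨hr, hs, e1, e2, e3, e4⟩ := h
  by_cases h0 : t = 0
  · rw [h0, zero_pow hk]; exact zero_mem _
  have e5 := (hy.fld_domRoot h1 n hr).trans (congrArg _ e1)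
  let K : Subring F :=
    { hy.toStRel.fld M ρ with one_mem' := hy.one_mem_fld h1 ρ, mul_mem' := fun ha hb => hm _ ha _ hb }
  have : Finite K := show Finite (hy.toStRel.fld M ρ) from e5 ▸ hy.finite_fld hr
  have h2 : t⁻¹ ∈ hy.toStRel.fld M ρ := inv_mem_of_finite K ht
  rw [← e3, ← hy.fld_domRoot h1 n hs, ← zpow_natCast, ← e4]
  exact hy.tor_mem_fld h1 hr hs h0 (e5 ▸ ht) (by rwa [hy.fld_domRoot h1 n (R.neg_lt hr), e2])

variable [Finite M] (p : ℕ) [Fact p.Prime] [CharP F p]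

theorem fdata_long {θ' n a b ν : ℕ} (hc : ∀ r, r < D.nroots → r = D.nroots - 1 ∨ r = θ' ∨
      ∃ i, i < D.rank ∧ D.cartan i r < 0) (h2 : RingCert D p n (D.nroots - 1) a b ν)
    (h3 : θ' = D.nroots - 1 ∨ ∃ r s, TorCert D 1 n (D.nroots - 1) θ' r s) :
    hy.toStRel.FData M p (D.nroots - 1) where
  mul := hy.mul_mem_of_cert h1 p h2
  le s hs t ht := by
    rcases hy.fld_cases h1 hc hs with e | e
    · rwa [e]
    rcases h3 with rfl | ⟨r, s, h3⟩
    · rwa [e]
    · simpa [e] using hy.pow_mem_of_cert h1 one_ne_zero h3 (hy.mul_mem_of_cert h1 p h2) ht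
  sp := Or.inl rfl

theorem fdata_special {θs n r ν a b μ c d : ℕ} (h : hy.toStRel.FData M p (D.nroots - 1))
    (h0 : θs < D.nroots) (h2 : RingCert D p n (D.nroots - 1) (D.nroots - 1) r ν)
    (h3 : D.chainRoot θs r 1 = none) (h4 : r ≠ D.neg θs) (h5 : RingCert D p n θs a b μ)
    (h6 : TorCert D p n θs (D.nroots - 1) c d) : hy.toStRel.FData M p θs where
  mul := h.mul
  le := h.le
  sp := Or.inr fun t s hM => by
    obtain ⟨ha, hb, h7, h8, h9, -, -, e3⟩ := h2
    have h10 : s ∈ hy.toStRel.fld M (D.nroots - 1) := by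
      have h11 := mul_mem (mul_mem (mul_mem (inv_mem (h1 r hb)) (inv_mem hM)) (h1 r hb)) hM
      rw [mul_inv_rev, mul_assoc _ _ (y θs t * _), ← mul_assoc (y r 1),
        ← (hy.toStRel.commute R h0 hb h4 h3 t 1).eq, ← mul_assoc _ _ (y θs t)⁻¹,
        mul_assoc _ (y θs t)⁻¹, mul_assoc (y θs t), inv_mul_cancel_left, ← mul_assoc,
        hy.comm_single ha hb h7 fun c hc => (CharP.intCast_eq_zero_iff F p _).2 (h9 c hc),
        mul_one] at h11
      rw [← e3, ← hy.fld_domRoot h1 n (R.chainRoot_spec ha hb le_rfl h7).2.2.1]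
      exact mem_of_intCast_mul p (mt (CharP.intCast_eq_zero_iff F p _).1 h8)
        (neg_mem_iff.1 fun _ => h11)
    refine ⟨hy.pow_mem_of_cert h1 (Fact.out : p.Prime).ne_zero h6 (hy.mul_mem_of_cert h1 p h5)
      fun _ => ?_, h10⟩
    simpa using mul_mem hM (inv_mem (h10 ha))

end Model

section B2

variable {R : RootData chevB2} (hy : Model R y) {M : Subgroup G}
  (h1 : ∀ r, r < chevB2.nroots → y r 1 ∈ M)
include hy h1

omit h1 in
theorem Model.comm_B2 (t u : F) :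
    (y 4 u)⁻¹ * (y 5 t)⁻¹ * y 4 u * y 5 t = y 6 (t * u) * y 7 (-(t ^ 2 * u)) := by
  rw [hy.toStRel.comm_eq (r := 5) (s := 4) (by decide) (by decide) (by decide) (by decide),
    ChevalleyDatum.commWord, show chevB2.commTerms 5 4 = [(6, -1, 1, 1), (7, -1, 2, 1)] by decide]
  simp

theorem Model.fld_B2 : hy.toStRel.fld M 4 = hy.toStRel.fld M 7 ∧
    hy.toStRel.fld M 5 = hy.toStRel.fld M 6 ∧ hy.toStRel.fld M 7 ≤ hy.toStRel.fld M 6 := by
  have e1 : hy.toStRel.fld M 4 = hy.toStRel.fld M 7 := hy.fld_domRoot h1 2 (r := 4) (by decide)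
  refine ⟨e1, hy.fld_domRoot h1 2 (r := 5) (by decide), fun s hs _ => ?_⟩
  have h2 := hs (by decide)
  have h3 := (e1 ▸ hs : s ∈ hy.toStRel.fld M 4) (by decide)
  have h4 := h1 5 (by decide)
  have h5 := mul_mem (mul_mem (mul_mem (inv_mem h3) (inv_mem h4)) h3) h4
  rw [hy.comm_B2, ← hy.toStRel.inv (r := 7) (by decide)] at h5
  simpa using mul_mem h5 h2

theorem Model.le_B2 (s : ℕ) (hs : s < chevB2.nroots) :
    hy.toStRel.fld M (chevB2.nroots - 1) ≤ hy.toStRel.fld M s := by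
  rcases hy.fld_cases h1 (θ' := 6) (by decide) hs with e | e <;> rw [e]
  exact (hy.fld_B2 h1).2.2

theorem Model.fdata_B2_odd (p : ℕ) [Fact p.Prime] [CharP F p] (hp : p ≠ 2) :
    hy.toStRel.FData M p (chevB2.nroots - 1) where
  mul t ht u hu := by
    obtain ⟨-, e2, e3⟩ := hy.fld_B2 h1
    have h2 := (e2 ▸ e3 ht : t ∈ hy.toStRel.fld M 5) (by decide)
    have h3 := e3 hu (by decide)
    have h4 := mul_mem (mul_mem (mul_mem (inv_mem h3) (inv_mem h2)) h3) h2
    rw [hy.comm_single (r := 5) (s := 6) (ν := 7) (by decide) (by decide) (by decide)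
      (by rw [show (chevB2.commTerms 5 6).tail = [] by decide]; simp)] at h4
    refine mem_of_intCast_mul p (N := chevB2.chainM 5 6 1) (fun e => hp ?_)
      (neg_mem_iff.1 fun _ => h4)
    rw [CharP.intCast_eq_zero_iff F p, show chevB2.chainM 5 6 1 = (2 : ℕ) by decide,
      Int.natCast_dvd_natCast] at e
    exact (Nat.prime_dvd_prime_iff_eq Fact.out Nat.prime_two).1 e
  le := hy.le_B2 h1
  sp := Or.inl rfl

theorem Model.fdata_B2_two [Finite M] [CharP F 2] : hy.toStRel.FData M 2 6 := by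
  have hc : ∀ r s : ℕ, r < 8 → s < 8 → s ≠ r → s ≠ chevB2.neg r →
      (∀ c ∈ chevB2.commTerms r s, (2 : ℤ) ∣ c.2.1) → ∀ t u, Commute (y r t) (y s u) := by
    intro r s hr hs h2 h3 h4 t u
    have h5 := hy.toStRel.comm r s hr hs h2 h3 t u
    have h6 : word y (chevB2.commWord F r s t u) ∈ (⊥ : Subgroup G) := word_mem _ fun q hq => by
      obtain ⟨c, hc, rfl⟩ := List.mem_map.1 hq
      rw [(CharP.intCast_eq_zero_iff F 2 _).2 (h4 c hc), zero_mul, zero_mul,
        hy.toStRel.zero (R.commTerms_spec hr hs hc).1]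
      exact one_mem _
    rw [Subgroup.mem_bot.1 h6, mul_one] at h5
    exact h5.symm
  have c67 := hc 6 7 (by decide) (by decide) (by decide) (by decide) (by decide)
  have c65 := hc 6 5 (by decide) (by decide) (by decide) (by decide) (by decide)
  have c64 := hc 6 4 (by decide) (by decide) (by decide) (by decide) (by decide)
  have c75 := hc 7 5 (by decide) (by decide) (by decide) (by decide) (by decide)
  have c74 := hc 7 4 (by decide) (by decide) (by decide) (by decide) (by decide)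
  have hs : ∀ η : ℤ, η = 1 ∨ η = -1 → (η : F) = 1 := by
    rintro _ (rfl | rfl) <;> simp [CharTwo.neg_eq]
  have hn : ∀ i r s : ℕ, i < 2 → r < 8 → s < 8 → ∀ t u, y r t * y s u ∈ M →
      y (chevB2.reflectRoot i r) t * y (chevB2.reflectRoot i s) u ∈ M := by
    intro i r s hi hr hs' t u h
    obtain ⟨η, hη, h2, -⟩ := hy.toStRelW.exists_sign R hi hr
    obtain ⟨η', hη', h3, -⟩ := hy.toStRelW.exists_sign R hi hs'
    have h4 := hy.nel_mem h1 (R.simple_lt i hi)
    simp only [hs η hη, hs η' hη', one_mul] at h2 h3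
    rw [← h2, ← h3]
    simpa [mul_assoc] using mul_mem (mul_mem h4 h) (inv_mem h4)
  have key : ∀ u v u' v', y 6 u * y 7 v ∈ M → y 6 u' * y 7 v' ∈ M →
      y 6 (u * v') * y 7 (u ^ 2 * v') ∈ M := by
    intro u v u' v' h h'
    have h2 : y 5 u * y 7 v ∈ M := hn 1 6 7 (by decide) (by decide) (by decide) u v h
    have h3 : y 6 u' * y 4 v' ∈ M := hn 0 6 7 (by decide) (by decide) (by decide) u' v' h'
    have h4 := mul_mem (mul_mem (mul_mem (inv_mem h3) (inv_mem h2)) h3) h2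
    have h5 : Commute (y 6 u') (y 5 u * y 7 v) := (c65 _ _).mul_right (c67 _ _)
    have h6 : Commute (y 7 v) (y 4 v' * y 5 u) := (c74 _ _).mul_right (c75 _ _)
    rw [← CharTwo.neg_eq (u ^ 2 * v'), ← hy.comm_B2]
    convert h4 using 1
    calc _ = (y 4 v')⁻¹ * (y 5 u)⁻¹ * ((y 7 v)⁻¹ * (y 4 v' * y 5 u * y 7 v)) := by
          rw [← h6.eq]; group
      _ = (y 4 v')⁻¹ * (y 5 u * y 7 v)⁻¹ * y 4 v' * (y 5 u * y 7 v) := by
          rw [mul_inv_rev, (c75 v u).inv_inv.eq]; group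
      _ = (y 4 v')⁻¹ * ((y 6 u')⁻¹ * (y 5 u * y 7 v)⁻¹ * y 6 u') * y 4 v' * (y 5 u * y 7 v) := by
          rw [mul_assoc (y 6 u')⁻¹, ← h5.inv_right.eq, inv_mul_cancel_left]
      _ = _ := by group
  have z6 := hy.toStRel.zero (r := 6) (by decide)
  have z7 := hy.toStRel.zero (r := 7) (by decide)
  have m6 : y 6 1 * y 7 0 ∈ M := by simpa [z7] using h1 6 (by decide)
  have m7 : y 6 0 * y 7 1 ∈ M := by simpa [z6] using h1 7 (by decide)
  let A : Set F := {u | ∃ v, y 6 u * y 7 v ∈ M}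
  have hA : A.Finite := by
    have hx : ∀ v, y 7 v ∈ cdLev R y (R.code (R.rc 6) + 1) :=
      x_mem_cdLev (by decide) (R.code_lt 6 7 (by decide) (by decide))
    exact Finite.of_injective (fun u : A => (⟨_, u.2.choose_spec⟩ : M)) fun _ _ e =>
      Subtype.ext (hy.lead_inj (by decide) (hx _) (hx _) (congrArg Subtype.val e))
  have h2 : ∀ u v, y 6 u * y 7 v ∈ M → v ∈ A := fun u v h => ⟨v, by simpa using key _ _ _ _ m6 h⟩
  have h3 : ∀ u ∈ A, ∃ w, y 6 w * y 7 u ∈ M := by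
    have h4 : Set.MapsTo (fun u : F => u ^ 2) A A := fun u ⟨v, h⟩ =>
      h2 u _ (by simpa using key _ _ _ _ h m7)
    intro u hu
    obtain ⟨w, ⟨v, h⟩, rfl⟩ := ((hA.injOn_iff_bijOn_of_mapsTo h4).1
      (frobenius_inj F 2).injOn).surjOn hu
    exact ⟨w, by simpa using key _ _ _ _ h m7⟩
  let K : Subring F :=
    { carrier := A
      mul_mem' := fun ⟨_, h⟩ h' => let ⟨_, h'⟩ := h3 _ h'; ⟨_, key _ _ _ _ h h'⟩
      one_mem' := ⟨0, m6⟩
      zero_mem' := ⟨1, m7⟩
      add_mem' := fun {a b} ⟨v, h⟩ ⟨v', h'⟩ => ⟨v + v', by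
        rw [← hy.add 6 (by decide), ← hy.add 7 (by decide), (c67 b v).mul_mul_mul_comm]
        exact mul_mem h h'⟩
      neg_mem' := fun h => by rwa [CharTwo.neg_eq] }
  have : Finite K := hA
  have h4 : ∀ u, u ∈ hy.toStRel.fld M 7 ↔ u ∈ K := fun u => ⟨fun h => h2 0 u (by
      simpa [z6] using h (by decide)), fun hu _ => by
    by_cases h0 : u = 0
    · rw [h0, z7]; exact one_mem _
    obtain ⟨w, h⟩ := h3 _ (inv_mem_of_finite K hu)
    have h5 := key _ _ _ _ hu.choose_spec h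
    rw [mul_inv_cancel₀ h0, pow_two, mul_inv_cancel_right₀ h0] at h5
    simpa using mul_mem (inv_mem (h1 6 (by decide))) h5⟩
  exact ⟨fun t ht u hu => (h4 _).2 (K.mul_mem ((h4 t).1 ht) ((h4 u).1 hu)), hy.le_B2 h1,
    Or.inr fun t s h => ⟨(h4 _).2 (K.pow_mem ⟨s, h⟩ 2), (h4 _).2 (h2 t s h)⟩⟩

end B2

end Cfsg.Lib.Chev
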