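import Cfsg.Agent.Chev.CoreSL2
import Cfsg.Agent.Chev.SuzukiClass
import Cfsg.Agent.FT.Final

/-!
# A finite subgroup of `SL₂` in odd characteristic with opposite transvections contains `-1`
-/

set_option autoImplicit false

namespace Cfsg.Lib.Chev.Core

open Matrix

variable {F : Type*} [Field F]

theorem sl2_eq_neg_one (h2 : (2 : F) ≠ 0) {g : SpecialLinearGroup (Fin 2) F} (h : g * g = 1)
    (h1 : g ≠ 1) : g = -1 := by
  have e0 := sl2_det g
  have e : ∀ i j, g i 0 * g 0 j + g i 1 * g 1 j = (1 : SpecialLinearGroup (Fin 2) F) i j :=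
    fun i j => by rw [← h, sl2_mul_apply]
  have e1 : g 0 0 * g 0 0 + g 0 1 * g 1 0 = 1 := by simpa using e 0 0
  have e2 : g 0 0 * g 0 1 + g 0 1 * g 1 1 = 0 := by simpa using e 0 1
  have e3 : g 1 0 * g 0 0 + g 1 1 * g 1 0 = 0 := by simpa using e 1 0
  have e4 : g 0 0 + g 1 1 ≠ 0 := fun e4 => h2 (by linear_combination g 0 0 * e4 - e0 - e1)
  have e5 : g 0 1 = 0 := mul_right_cancel₀ e4 (by linear_combination e2)
  have e6 : g 1 0 = 0 := mul_right_cancel₀ e4 (by linear_combination e3)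
  rw [e5, zero_mul] at e0 e1
  rcases mul_self_eq_one_iff.1 (by linear_combination e1 : g 0 0 * g 0 0 = 1) with e7 | e7
  · refine absurd (sl2_ext (by simpa using e7) (by simpa using e5) (by simpa using e6) ?_) h1
    rw [e7] at e0
    simpa using e0
  · refine sl2_ext (by simpa using e7) (by simpa using e5) (by simpa using e6) ?_
    rw [e7] at e0
    simpa using (by linear_combination -e0 : g 1 1 = -1)

theorem neg_one_mem_of_finite (h2 : (2 : F) ≠ 0) (S : Subgroup (SpecialLinearGroup (Fin 2) F))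
    [Finite S] (hU : sl2U 1 ∈ S) {c : F} (hc : c ≠ 0) (hV : sl2V c ∈ S) : -1 ∈ S := by
  have key : ∀ g ∈ S, g * g = 1 → g ≠ 1 → -1 ∈ S := fun g hg h h1 => sl2_eq_neg_one h2 h h1 ▸ hg
  rcases Nat.even_or_odd (Nat.card S) with h | h
  · obtain ⟨g, hg⟩ := exists_prime_orderOf_dvd_card' (G := S) 2 h.two_dvd
    refine key g g.2 (congrArg Subtype.val (show g * g = 1 from
      (pow_two g).symm.trans (orderOf_dvd_iff_pow_eq_one.1 hg.dvd)))
      fun e => ?_
    rw [show g = 1 from Subtype.ext e, orderOf_one] at hg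
    omega
  obtain ⟨z, hz, hz1, h3⟩ := exists_commute_conj_of_isSolvable (FT.odd_order_solvable h) fun e => by
    have := congrArg (fun g : SpecialLinearGroup (Fin 2) F => g 0 1)
      (Subgroup.mem_bot.1 (e.le hU))
    simp [sl2U] at this
  have hi : ∀ t : F, (sl2U t)⁻¹ = sl2U (-t) ∧ (sl2V t)⁻¹ = sl2V (-t) := fun t => by
    constructor <;> refine inv_eq_of_mul_eq_one_right (sl2_ext ?_ ?_ ?_ ?_) <;>
      rw [sl2_mul_apply] <;> simp [sl2U, sl2V]
  have e0 := sl2_det z
  have e1 := congrArg (fun g : SpecialLinearGroup (Fin 2) F => g 1 0) (h3 _ hU).eq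
  have e2 := congrArg (fun g : SpecialLinearGroup (Fin 2) F => g 0 1) (h3 _ hV).eq
  have e3 := congrArg (fun g : SpecialLinearGroup (Fin 2) F => g 0 1) (h3 _ hU).eq
  simp only [(hi _).1, (hi _).2, sl2_mul_apply] at e1 e2 e3
  simp only [sl2U, sl2V, of_apply, cons_val', cons_val_zero, cons_val_one, cons_val_fin_one] at e1 e2 e3
  have e4 : z 1 0 = 0 := pow_eq_zero_iff two_ne_zero |>.1 (mul_left_cancel₀ h2 (by
    linear_combination -e1))
  have e5 : z 0 1 = 0 := pow_eq_zero_iff two_ne_zero |>.1 (mul_left_cancel₀ (mul_ne_zero h2 hc) (by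
    linear_combination -e2))
  rw [e4, e5] at e3 e0
  have e6 : z 1 1 - z 0 0 = 0 := pow_eq_zero_iff two_ne_zero |>.1 (by linear_combination e3)
  refine key z hz (sl2_ext ?_ ?_ ?_ ?_) hz1 <;> simp only [sl2_mul_apply, e4, e5] <;> simp
  · linear_combination e0 - z 0 0 * e6
  · linear_combination e0 + z 1 1 * e6

end Cfsg.Lib.Chev.Core
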