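import Cfsg.Agent.Chev.SubfField
import Cfsg.Agent.Chev.SubfSL2
import Cfsg.Agent.Chev.LiftRGD
import Cfsg.Agent.Chev.CoreSL2Root
import Cfsg.Agent.Chev.UnipMat

/-!
# The fixed points of a field endomorphism are not strongly embedded in a finite overgroup
-/

set_option autoImplicit false
set_option linter.unusedSectionVars false

namespace Cfsg.Lib.Chev

open Cfsg.Lie Cfsg.Lib.Local Cfsg.Lib.Chev.Core

variable {F G : Type*} [Field F] [Group G] {D : ChevalleyDatum} {R : RootData D} {y : ℕ → F → G}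

theorem RootData.len_domRoot (R : RootData D) (n : ℕ) {r : ℕ} (hr : r < D.nroots) :
    R.len (domRoot D n r) = R.len r := by
  induction n generalizing r with
  | zero => rfl
  | succ n ih =>
    rw [domRoot]
    split
    · next i h =>
      have hi := List.mem_range.1 (List.mem_of_find?_eq_some h)
      rw [ih (R.reflect_lt i r hi hr), R.len_reflect hi hr]
    · rfl

/-- Pairing with a coroot as a linear functional. -/
def pairL (D : ChevalleyDatum) (r : ℕ) : (Fin D.rank → ℤ) →ₗ[ℤ] ℤ :=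
  ∑ j : Fin D.rank, D.pairing r (D.simple j) • LinearMap.proj j

theorem pairL_eq_1' : type_of% @pairL.eq_1 := @pairL.eq_1

theorem RootData.pairL_rc (R : RootData D) (r : ℕ) {s : ℕ} (hs : s < D.nroots) :
    pairL D r (R.rc s) = D.pairing r s := by
  simp [pairL, R.pairing_eq_sum_rc hs]

/-- The highest root is long and dominant, and the `i`-th fundamental root is attached to it. -/
def TopCert (D : ChevalleyDatum) (i : ℕ) : Prop :=
  i < D.rank ∧ D.pairing (D.nroots - 1) (D.simple i) = 1 ∧ ∀ s, s < D.nroots →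
    (s ≠ D.nroots - 1 → D.pairing (D.nroots - 1) s ≤ 1) ∧
      (D.nroots / 2 ≤ s → 0 ≤ D.pairing (D.nroots - 1) s)

/-- An involution in characteristic two which is not a long root element. -/
def InvCert (D : ChevalleyDatum) (n i j : ℕ) : Prop :=
  i < D.rank ∧ j < D.rank ∧ (D.simple i ≠ D.simple j ∧ D.simple j ≠ D.neg (D.simple i) ∧
    D.chainRoot (D.simple i) (D.simple j) 1 = none ∨ domRoot D n (D.simple j) = D.nroots - 1 ∧
      D.pairing (D.simple i) (D.simple j) ≠ D.pairing (D.simple j) (D.simple i))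

theorem TopCert_eq_1' : type_of% @TopCert.eq_1 := @TopCert.eq_1
theorem InvCert_eq_1' : type_of% @InvCert.eq_1 := @InvCert.eq_1

namespace Model

variable (hy : Model R y)
include hy

theorem x_pow {r : ℕ} (hr : r < D.nroots) (t : F) (n : ℕ) : y r t ^ n = y r (n * t) := by
  induction n with
  | zero => simp [hy.toStRel.zero hr]
  | succ n ih => rw [pow_succ, ih, hy.add r hr]; congr 1; push_cast; ring

theorem xSub_pow (p : ℕ) [CharP F p] : ∀ r ∈ R.weyl.Φ, ∀ a ∈ xSub y r, a ^ p = 1 := by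
  intro r hr a ha
  obtain ⟨t, rfl⟩ := (hy.toStRel.mem_xSub_iff (R.weyl_mem.1 hr)).1 ha
  rw [hy.x_pow (R.weyl_mem.1 hr), CharP.cast_eq_zero, zero_mul, hy.toStRel.zero (R.weyl_mem.1 hr)]

theorem isPGroup_lev (p : ℕ) [CharP F p] (φ : (Fin D.rank → ℤ) →ₗ[ℤ] ℤ) :
    IsPGroup p (lev R.weyl (xSub y) φ 1) := fun u => by
  refine ⟨∑ r ∈ R.weyl.Φ, (φ (R.rc r)).natAbs, Subtype.ext ?_⟩
  have h := (hy.toStRel.rcomm R).pow_pow_mem_lev hy.xSub_comm' (hy.xSub_pow p) φ one_pos u.2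
    (∑ r ∈ R.weyl.Φ, (φ (R.rc r)).natAbs)
  rwa [lev_eq_bot _ _ _ (fun r hr => by
    have h1 := Finset.single_le_sum (f := fun r => (φ (R.rc r)).natAbs) (fun _ _ => Nat.zero_le _) hr
    have h2 := Nat.lt_two_pow_self (n := ∑ r ∈ R.weyl.Φ, (φ (R.rc r)).natAbs)
    have h3 : (φ (R.rc r)).natAbs < (2 : ℤ) ^ ∑ r ∈ R.weyl.Φ, (φ (R.rc r)).natAbs := by
      exact_mod_cast h1.trans_lt h2
    rw [mul_one]
    exact Int.le_natAbs.trans_lt h3), Subgroup.mem_bot] at h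

theorem x_mem_U {r : ℕ} (hr : D.IsPosRoot r) (t : F) : y r t ∈ (hy.toStRelW.rgd R).U :=
  (hy.toStRelW.rgd R).X_le_U (R.weyl_pos.2 hr) (x_mem_xSub y r t)

theorem pos_of_mem_U {r : ℕ} (hr : r < D.nroots) {t : F} (ht : t ≠ 0)
    (h : y r t ∈ (hy.toStRelW.rgd R).U) : D.IsPosRoot r := by
  by_contra hn
  exact ht (hy.inj r hr t (hy.faithful.eq_one_of_mem_U_of_mem_V h ((hy.toStRelW.rgd R).X_le_V
    (R.weyl_mem.2 hr) (mt R.weyl_pos.1 hn) (x_mem_xSub y r t))))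

theorem commute_top_U {u : G} (hu : u ∈ (hy.toStRelW.rgd R).U) (t : F) :
    Commute (y (D.nroots - 1) t) u :=
  hy.commute_cdLev (fun _ => hy.commute_top) t (hy.U_eq_cdLev.le hu)

/-- The conjugates of a highest root element. -/
theorem exists_conj_top (h0 : 0 < D.nroots) {g : G} (hg : g ∈ (hy.toStRelW.rgd R).G0) :
    ∃ u ∈ (hy.toStRelW.rgd R).U, ∃ r, r < D.nroots ∧ R.len r = R.len (D.nroots - 1) ∧ ∃ c : F,
      c ≠ 0 ∧ g * y (D.nroots - 1) 1 * g⁻¹ = u * y r c * u⁻¹ := by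
  have hθ := (R.top_pos h0).1
  obtain ⟨w, hw⟩ := RGD.mem_G0_iff.1 hg
  obtain ⟨m, hm⟩ := (hy.toStRelW.rgd R).exists_lifts w
  obtain ⟨u, hu, b, hb, rfl⟩ := RGD.exists_normal_form_left hm hw
  obtain ⟨h, hh, v, hv, rfl⟩ := (hy.toStRelW.rgd R).mem_B_iff'.1 hb
  obtain ⟨a, ha, e⟩ := hy.toStRelW.lifts_conj_x' R (hm.mul_H hh) hθ
  refine ⟨u, RGD.Uneg_le_U _ _ hu, _, R.weyl_smul_lt w hθ, R.len_smul w hθ, a, ha, ?_⟩
  rw [← mul_one a, ← e]
  calc _ = u * (m * h) * (v * y (D.nroots - 1) 1 * v⁻¹) * (m * h)⁻¹ * u⁻¹ := by group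
    _ = _ := by rw [← (hy.commute_top_U hv 1).eq]; group

theorem exists_not_conj [CharP F 2] {n i j : ℕ} (h : InvCert D n i j) {L : Subgroup G}
    (hL : ∀ r, r < D.nroots → y r 1 ∈ L) : ∃ a ∈ L, orderOf a = 2 ∧
      ∀ g ∈ (hy.toStRelW.rgd R).G0, g * y (D.nroots - 1) 1 * g⁻¹ ≠ a := by
  obtain ⟨hi, hj, h⟩ := h
  have hi' := R.simple_pos hi
  have hj' := R.simple_pos hj
  have key : ∀ a ∈ (hy.toStRelW.rgd R).U, ∀ g ∈ (hy.toStRelW.rgd R).G0,
      g * y (D.nroots - 1) 1 * g⁻¹ = a → ∃ r, R.len r = R.len (D.nroots - 1) ∧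
        ∀ l : Fin D.rank, coef R y l a ≠ 0 → r = D.simple l := by
    intro a ha g hg e
    obtain ⟨u, hu, r, hr, h1, c, hc, h2⟩ := hy.exists_conj_top (hi'.1.pos) hg
    have h3 : y r c ∈ (hy.toStRelW.rgd R).U := by
      have := mul_mem (mul_mem (inv_mem hu) ha) hu
      rw [← e, h2] at this
      simpa [mul_assoc] using this
    refine ⟨r, h1, fun l hl => by_contra fun h4 => hl ?_⟩
    rw [← e, h2, hy.coef_conj_U l hu h3, hy.coef_of_ne l (hy.pos_of_mem_U hr hc h3) h4]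
  have h2 : ∀ r, r < D.nroots → y r 1 * y r 1 = 1 := fun r hr => by
    rw [hy.add r hr, CharTwo.add_self_eq_zero, hy.toStRel.zero hr]
  rcases h with ⟨h3, h4, h5⟩ | ⟨h3, h4⟩
  · have h6 : coef R y ⟨i, hi⟩ (y (D.simple i) 1 * y (D.simple j) 1) = 1 := by
      rw [hy.coef_mul _ (hy.x_mem_U hi' 1) (hy.x_mem_U hj' 1), hy.coef_simple ⟨i, hi⟩,
        hy.coef_of_ne _ hj' h3.symm, add_zero]
    have h7 : coef R y ⟨j, hj⟩ (y (D.simple i) 1 * y (D.simple j) 1) = 1 := by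
      rw [hy.coef_mul _ (hy.x_mem_U hi' 1) (hy.x_mem_U hj' 1), hy.coef_simple ⟨j, hj⟩,
        hy.coef_of_ne _ hi' h3, zero_add]
    refine ⟨_, mul_mem (hL _ hi'.1) (hL _ hj'.1), SE.orderOf_two_of_mul_self ?_ fun e => ?_,
      fun g hg e => ?_⟩
    · rw [← (hy.toStRel.commute R hi'.1 hj'.1 h4 h5 1 1).mul_mul_mul_comm, h2 _ hi'.1, h2 _ hj'.1,
        one_mul]
    · rw [e, hy.coef_one] at h6
      exact zero_ne_one h6
    · obtain ⟨r, -, h8⟩ := key _ (mul_mem (hy.x_mem_U hi' 1) (hy.x_mem_U hj' 1)) g hg e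
      exact h3 ((h8 _ (h6 ▸ one_ne_zero)).symm.trans (h8 _ (h7 ▸ one_ne_zero)))
  · refine ⟨_, hL _ hi'.1, SE.orderOf_two_of_mul_self (h2 _ hi'.1)
      fun e => one_ne_zero (hy.inj _ hi'.1 _ e), fun g hg e => h4 ?_⟩
    obtain ⟨r, h5, h8⟩ := key _ (hy.x_mem_U hi' 1) g hg e
    have h6 := R.pairing_symm hi'.1 hj'.1
    rw [h8 ⟨i, hi⟩ (by rw [hy.coef_simple ⟨i, hi⟩]; exact one_ne_zero), ← h3,
      R.len_domRoot n hj'.1] at h5
    rw [h5] at h6
    exact mul_right_cancel₀ (R.len_ne_zero hj'.1) h6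

section top

variable {i : ℕ} (hT : TopCert D i)
include hT

theorem sl2Hom_injective (h0 : D.nroots - 1 < D.nroots) :
    Function.Injective (hy.toStRelN.sl2Hom R h0) := by
  have hθ := R.top_pos h0
  have hi := R.simple_lt i hT.1
  refine (injective_iff_map_eq_one _).2 fun a ha => ?_
  by_cases h : a 1 0 = 0
  · have h1 := sl2_det a
    rw [h, mul_zero, sub_zero] at h1
    have h2 : a 0 0 ≠ 0 := left_ne_zero_of_mul_eq_one h1
    let d : Matrix.SpecialLinearGroup (Fin 2) F :=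
      ⟨!![a 0 0, 0; 0, (a 0 0)⁻¹], by simp [Matrix.det_fin_two, h2]⟩
    have h3 : a = d * sl2U (a 0 1 / a 0 0) := by
      refine sl2_ext ?_ ?_ ?_ ?_ <;> rw [sl2_mul_apply] <;> simp [d, sl2U, h]
      · field_simp
      · exact eq_inv_of_mul_eq_one_right h1
    rw [h3, map_mul, hy.toStRelN.sl2Hom_U, hy.toStRelN.sl2Hom_diag R h0 (g := d) rfl,
      mul_eq_one_iff_eq_inv] at ha
    have h4 := hy.faithful.eq_one_of_mem_U_of_mem_H (ha ▸ inv_mem (hy.x_mem_U hθ _))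
      (hel_mem_hSub y h0 h2)
    have h5 := hy.toStRelW.hel_conj R h0 hi h2 1
    rw [h4, hT.2.1, zpow_one, one_mul, inv_one, mul_one, mul_one] at h5
    have h6 := hy.injective hi h5
    rw [h4, eq_comm, inv_eq_one] at ha
    have h7 := hy.inj _ h0 _ ha
    rw [← h6] at h1 h7
    exact sl2_ext (by simpa using h6.symm) (by simpa using h7) (by simpa using h) (by simpa using h1)
  · rw [sl2_eq_of_ne h, map_mul, map_mul, hy.toStRelN.sl2Hom_U, hy.toStRelN.sl2Hom_U,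
      hy.toStRelN.sl2Hom_V] at ha
    refine absurd ((R.isPosRoot_neg_iff h0).1 (hy.pos_of_mem_U (R.neg_lt h0) h ?_))
      (R.not_neg_of_pos hθ)
    rw [mul_eq_one_iff_eq_inv, ← eq_inv_mul_iff_mul_eq] at ha
    exact ha ▸ mul_mem (inv_mem (hy.x_mem_U hθ _)) (inv_mem (hy.x_mem_U hθ _))

omit hy in
theorem lev_pairL_two (h0 : D.nroots - 1 < D.nroots) :
    lev R.weyl (xSub y) (pairL D (D.nroots - 1)) 2 ≤ xSub y (D.nroots - 1) ∧
      lev R.weyl (xSub y) (-pairL D (D.nroots - 1)) 2 ≤ xSub y (D.neg (D.nroots - 1)) := by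
  refine ⟨spanX_le_iff.2 fun r hr => ?_, spanX_le_iff.2 fun r hr => ?_⟩
  · have h1 := R.weyl_mem.1 hr.1
    have h2 : 2 ≤ D.pairing (D.nroots - 1) r := R.pairL_rc _ h1 ▸ hr.2
    rw [show r = D.nroots - 1 from by_contra fun h => by have := (hT.2.2 r h1).1 h; omega]
  · have h1 := R.weyl_mem.1 hr.1
    have h2 : 2 ≤ -D.pairing (D.nroots - 1) r := R.pairL_rc _ h1 ▸ hr.2
    rw [← R.pairing_neg_right h0 h1] at h2
    rw [← show D.neg r = D.nroots - 1 from by_contra fun h => by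
      have := (hT.2.2 _ (R.neg_lt h1)).1 h; omega, R.neg_neg h1]

theorem lev_pairL_le (h0 : D.nroots - 1 < D.nroots) :
    lev R.weyl (xSub y) (pairL D (D.nroots - 1)) 1 ≤ (hy.toStRelW.rgd R).U :=
  spanX_mono _ fun r hr => by
    have h1 := R.weyl_mem.1 hr.1
    have h2 : 1 ≤ D.pairing (D.nroots - 1) r := R.pairL_rc _ h1 ▸ hr.2
    refine R.weyl_pos.2 ((R.pos_or_neg h1).resolve_right fun h => ?_)
    have := (hT.2.2 _ (R.neg_lt h1)).2 ((R.pos_iff _).1 ((R.isPosRoot_neg_iff h1).2 h)).1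
    rw [R.pairing_neg_right h0 h1] at this
    omega

theorem exists_conj_neg_top (h0 : D.nroots - 1 < D.nroots) {u : G} (hu : u ∈ (hy.toStRelW.rgd R).U)
    {c : F} (hc : c ≠ 0) : ∃ v ∈ lev R.weyl (xSub y) (pairL D (D.nroots - 1)) 1, ∃ c' : F, c' ≠ 0 ∧
      u * y (D.neg (D.nroots - 1)) c * u⁻¹ = v * y (D.neg (D.nroots - 1)) c' * v⁻¹ := by
  have h1 := R.neg_lt h0
  obtain ⟨v, hv, b, hb, rfl⟩ := (hy.toStRel.rcomm R).exists_mul_of_union (fun r hr => hr.1)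
    R.weyl.stClosed_pos (R.weyl.stHt ∅) (fun r hr => (R.weyl.stHt_empty_pos_iff hr.1).2 hr)
    (S₁ := {r | R.weyl.Pos r ∧ 1 ≤ D.pairing (D.nroots - 1) r})
    (S₂ := {r | R.weyl.Pos r ∧ D.pairing (D.nroots - 1) r ≤ 0}) (Set.ext fun r => by
      simp only [Set.mem_union, Set.mem_ofPred_eq, ← and_or_left, iff_self_and]
      omega) hu
  have h2 := (lev_pairL_two (R := R) hT h0).2 (conj_mem_of_mem_normalizer
    ((hy.toStRel.rcomm R).lev_le_normalizer (-pairL D (D.nroots - 1)) le_rfl two_pos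
      (spanX_mono _ (fun r hr => And.intro hr.1.1 (by
        simpa [R.pairL_rc _ (R.weyl_mem.1 hr.1.1)] using hr.2)) hb))
    (mem_lev (R.weyl_mem.2 h1) (by
      simp [R.pairL_rc _ h1, R.pairing_neg_right h0 h0, R.pairing_self _ h0])
      (x_mem_xSub y (D.neg (D.nroots - 1)) c)))
  obtain ⟨c', e⟩ := (hy.toStRel.mem_xSub_iff h1).1 h2
  refine ⟨v, spanX_mono _ (fun r hr => And.intro hr.1.1 (by
    simpa [R.pairL_rc _ (R.weyl_mem.1 hr.1.1)] using hr.2)) hv, c', fun h => hc ?_, by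
      rw [← e]; group⟩
  rw [h, hy.toStRel.zero h1, conj_eq_one_iff] at e
  exact hy.inj _ h1 _ e

theorem mem_top_of_commute (p : ℕ) [Fact p.Prime] [CharP F p] (hp : p ≠ 2)
    (h0 : D.nroots - 1 < D.nroots) {d : G} (hd : d ∈ lev R.weyl (xSub y) (pairL D (D.nroots - 1)) 1)
    (h : Commute (hel D y (D.nroots - 1) (-1)) d) : d ∈ xSub y (D.nroots - 1) := by
  set k := hel D y (D.nroots - 1) (-1) with hk
  have h1 : ∀ s, s < D.nroots → ∀ t, k * y s t * k⁻¹ =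
      y s ((-1) ^ D.pairing (D.nroots - 1) s * t) :=
    fun s hs t => hy.toStRelW.hel_conj R h0 hs (neg_ne_zero.2 one_ne_zero) t
  have h2 : k * d * k⁻¹ ∈ lev R.weyl (xSub y) (pairL D (D.nroots - 1)) 1 ∧
      k * d * k⁻¹ * d ∈ lev R.weyl (xSub y) (pairL D (D.nroots - 1)) (1 + 1) := by
    refine spanX_induction (p := fun d => k * d * k⁻¹ ∈ lev R.weyl (xSub y) (pairL D (D.nroots - 1)) 1 ∧
      k * d * k⁻¹ * d ∈ lev R.weyl (xSub y) (pairL D (D.nroots - 1)) (1 + 1)) hd (by simp) ?_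
    rintro s hs a ha b - ⟨h3, h4⟩
    have hs' := R.weyl_mem.1 hs.1
    obtain ⟨t, rfl⟩ := (hy.toStRel.mem_xSub_iff hs').1 ha
    have h5 := (hy.toStRel.rcomm R).comm_lev hy.xSub_comm' _ one_pos one_pos
      (mem_lev hs.1 hs.2 ha) (inv_mem h3)
    have h6 : k * y s t * k⁻¹ * y s t ∈ lev R.weyl (xSub y) (pairL D (D.nroots - 1)) (1 + 1) := by
      rw [h1 s hs', hy.add s hs']
      have h7 : 1 ≤ D.pairing (D.nroots - 1) s := R.pairL_rc _ hs' ▸ hs.2
      rcases h7.eq_or_lt with e | e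
      · rw [← e, zpow_one, neg_one_mul, neg_add_cancel, hy.toStRel.zero hs']
        exact one_mem _
      · exact mem_lev hs.1 (R.pairL_rc _ hs' ▸ e) (x_mem_xSub y s _)
    constructor
    · rw [show k * (y s t * b) * k⁻¹ = k * y s t * k⁻¹ * (k * b * k⁻¹) by group, h1 s hs']
      exact mul_mem (mem_lev hs.1 hs.2 (x_mem_xSub y s _)) h3
    · convert mul_mem (mul_mem h6 h5) h4 using 1
      group
  have h3 := (hy.toStRel.rcomm R).pow_mem_lev hy.xSub_comm' (hy.xSub_pow p) _ one_pos hd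
  obtain ⟨m, hm⟩ := (Fact.out : p.Prime).odd_of_ne_two hp
  rw [h.eq, mul_inv_cancel_right] at h2
  have h4 := mul_mem (inv_mem (pow_mem h2.2 m)) h3
  rw [hm, pow_succ, pow_mul, pow_two, inv_mul_cancel_left] at h4
  exact (lev_pairL_two (R := R) hT h0).1 h4

end top

end Model

namespace Core.Cert

variable (C : Cert D) (R)
include C R

theorem eq_one_of_pow_char (p : ℕ) [Fact p.Prime] [CharP F p] :
    ∀ h ∈ (C.Y F R).H, ∀ k : ℕ, h ^ p ^ k = 1 → h = 1 := by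
  intro h hh k e
  obtain ⟨c, rfl⟩ := C.hSub_le_range R hh
  rw [← map_pow, map_eq_one_iff _ (torGL_injective R)] at e
  rw [map_eq_one_iff _ (torGL_injective R)]
  refine funext fun i => Units.ext (iterateFrobenius_inj F p k ?_)
  simpa [iterateFrobenius_def] using congrArg Units.val (congrFun e i)

theorem le_F_of_B_inf_le (p : ℕ) [Fact p.Prime] [CharP F p] (f : F →+* F) {i n j l : ℕ}
    (hT : TopCert D i) (hI : InvCert D n j l) {M : Subgroup (GL D.Idx F)} [Finite M]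
    (hM1 : (C.fieldTwist R f).G1 ≤ M) (hM2 : M ≤ (C.Y F R).G0)
    (hB : (C.Y F R).B ⊓ M ≤ (C.fieldTwist R f).F) : M ≤ (C.fieldTwist R f).F := by
  by_contra hne
  have hy := C.model F R
  have : Nonempty (Fin D.rank) := ⟨⟨i, hT.1⟩⟩
  have hi := R.simple_pos hT.1
  have hθ := R.top_pos hi.1
  have hse := (C.fieldTwist R f).se_of_finite (C.faithful F R) R.weyl_connected hM1 hM2 hB
    (RGD.U_eq_lev (Y := C.Y F R) ▸ hy.isPGroup_lev p _) (C.eq_one_of_pow_char R p) hne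
  have h1 : ∀ r, r < D.nroots → xGL D F r 1 ∈ (C.fieldTwist R f).G1 :=
    fun r hr => C.xGL_mem_G1 R f hr f.map_one
  have h2 : ∀ r, r < D.nroots → xGL D F r 1 ≠ 1 := fun r hr e => one_ne_zero (hy.inj r hr _ e)
  have h3 : orderOf (⟨_, hM1 (h1 _ hθ.1)⟩ : M) = p := by
    refine orderOf_eq_prime (Subtype.ext ?_) fun e => h2 _ hθ.1 (congrArg Subtype.val e)
    exact hy.xSub_pow p _ (R.weyl_mem.2 hθ.1) _ (x_mem_xSub _ _ _)
  by_cases hp : p = 2
  · subst hp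
    obtain ⟨a, ha, h4, h5⟩ := hy.exists_not_conj hI h1
    obtain ⟨g, hg⟩ := isConj_iff.1 (hse.isConj_involutions h3 (b := ⟨a, hM1 ha⟩)
      (by rwa [← Subgroup.orderOf_coe]))
    exact h5 g (hM2 g.2) (congrArg Subtype.val hg)
  have key : ∀ (φ : (Fin D.rank → ℤ) →ₗ[ℤ] ℤ) (v a b : GL D.Idx F), a ≠ 1 →
      a ∈ lev R.weyl (xSub (xGL D F)) φ 1 → b ∈ lev R.weyl (xSub (xGL D F)) φ 1 →
      v * a * v⁻¹ ∈ (C.fieldTwist R f).G1 → v * b * v⁻¹ ∈ M →
      v * b * v⁻¹ ∈ (C.fieldTwist R f).F := by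
    intro φ v a b ha1 ha hb ha' hb'
    refine hse.le_of_isPGroup_of_mem (((hy.isPGroup_lev p φ).comap_of_injective
      (MulAut.conj v⁻¹).toMonoidHom (MulAut.conj v⁻¹).injective).comap_subtype (K := M))
      (x := ⟨_, hM1 ha'⟩) (by simpa [Subgroup.mem_subgroupOf, mul_assoc] using ha)
      ((C.fieldTwist R f).G1_le_F ha') (fun e => ha1 (conj_eq_one_iff.1 (congrArg Subtype.val e)))
      (show (⟨_, hb'⟩ : M) ∈ _ by simpa [Subgroup.mem_subgroupOf, mul_assoc] using hb)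
  obtain ⟨g, hg, hgF⟩ := SetLike.not_le_iff_exists.1 hne
  have h4 := mul_mem (mul_mem hg (hM1 (h1 _ hθ.1))) (inv_mem hg)
  refine hgF (hse.mem_of_conj _ ((C.fieldTwist R f).G1_le_F (h1 _ hθ.1)) h3 ⟨g, hg⟩ ?_)
  show g * xGL D F (D.nroots - 1) 1 * g⁻¹ ∈ (C.fieldTwist R f).F
  obtain ⟨u, hu, r, hr, -, c, hc, e⟩ := hy.exists_conj_top hi.1.pos (hM2 hg)
  rw [e] at h4 ⊢
  by_cases h : r = D.neg (D.nroots - 1)
  swap
  · obtain ⟨φ, h5, h6⟩ := R.weyl.exists_pos_functional (R.weyl_mem.2 hθ.1) (R.weyl_mem.2 hr) h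
    refine key φ u _ _ (h2 _ hθ.1) (mem_lev (R.weyl_mem.2 hθ.1) h5 (x_mem_xSub _ _ _))
      (mem_lev (R.weyl_mem.2 hr) h6 (x_mem_xSub _ _ _)) ?_ h4
    rw [← (hy.commute_top_U hu 1).eq, mul_inv_cancel_right]
    exact h1 _ hθ.1
  subst h
  obtain ⟨v, hv, c', hc', e'⟩ := hy.exists_conj_neg_top hT hθ.1 hu hc
  rw [e'] at h4 ⊢
  have hvU := hy.lev_pairL_le hT hθ.1 hv
  let ψ := (MulAut.conj v).toMonoidHom.comp (hy.toStRelN.sl2Hom R hθ.1)
  have hψ : ∀ a, ψ a = v * hy.toStRelN.sl2Hom R hθ.1 a * v⁻¹ := fun _ => rfl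
  have : Finite (M.comap ψ) := Finite.of_injective (fun a => (⟨ψ a, a.2⟩ : M)) fun a b e =>
    Subtype.ext (hy.sl2Hom_injective hT hθ.1 ((MulAut.conj v).injective (congrArg Subtype.val e)))
  have h5 := neg_one_mem_of_finite (fun e => hp ((Nat.prime_dvd_prime_iff_eq Fact.out
    Nat.prime_two).1 ((CharP.cast_eq_zero_iff F p 2).1 e))) (M.comap ψ) (by
      rw [Subgroup.mem_comap, hψ, StRelN.sl2Hom_U, ← (hy.commute_top_U hvU 1).eq,
        mul_inv_cancel_right]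
      exact hM1 (h1 _ hθ.1)) hc' (by rwa [Subgroup.mem_comap, hψ, StRelN.sl2Hom_V])
  rw [Subgroup.mem_comap, hψ, hy.toStRelN.sl2Hom_diag R hθ.1 (t := -1) (by
    ext a b; fin_cases a <;> fin_cases b <;> simp)] at h5
  have h6 := (hB (Subgroup.mem_inf.2 ⟨mul_mem (mul_mem ((C.Y F R).U_le_B hvU) ((C.Y F R).H_le_B
    (hel_mem_hSub _ hθ.1 (neg_ne_zero.2 one_ne_zero)))) (inv_mem ((C.Y F R).U_le_B hvU)), h5⟩)).2
  have hσ : ∀ r, r < D.nroots → ∀ t, mapGL D f (xGL D F r t) = xGL D F r (f t) :=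
    fun r _ t => C.mapGL_xGL f R r t
  change mapGL D f _ = _ at h6
  rw [map_mul, map_mul, map_inv, C.mapGL_hel R, map_neg, map_one] at h6
  obtain ⟨s, hs⟩ := (hy.toStRel.mem_xSub_iff hθ.1).1 (hy.mem_top_of_commute hT p hp hθ.1
    (mul_mem (inv_mem hv) (hy.map_mem_spanX' hσ (fun r hr => R.weyl_mem.1 hr.1) hv)) (by
      calc hel D (xGL D F) (D.nroots - 1) (-1) * (v⁻¹ * mapGL D f v) =
            v⁻¹ * (v * hel D (xGL D F) (D.nroots - 1) (-1) * v⁻¹) * mapGL D f v := by group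
        _ = _ := by rw [← h6]; group))
  obtain ⟨φ, h7, h8⟩ := R.weyl.exists_pos_functional (R.weyl_mem.2 hi.1)
    (R.weyl_mem.2 (R.neg_lt hθ.1)) fun e => by
      have := hT.2.1
      rw [← R.neg_inj hθ.1 hi.1 e, R.pairing_self _ hθ.1] at this
      omega
  refine key φ v _ _ (h2 _ hi.1) (mem_lev (R.weyl_mem.2 hi.1) h7 (x_mem_xSub _ _ _))
    (mem_lev (R.weyl_mem.2 (R.neg_lt hθ.1)) h8 (x_mem_xSub _ _ _)) ?_ h4
  have h9 := mul_mem (mul_mem hvU (hy.x_mem_U hi 1)) (inv_mem hvU)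
  refine (C.fieldTwist R f).U_inf_le_G1 (C.faithful F R) ⟨h9, (C.Y F R).U_le_G0 h9, ?_⟩
  change mapGL D f _ = _
  rw [map_mul, map_mul, map_inv, hσ _ hi.1, map_one, inv_mul_eq_iff_eq_mul.1 hs, mul_assoc v,
    (hy.commute_top hi s 1).eq]
  group

end Core.Cert

end Cfsg.Lib.Chev
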