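import Cfsg.Agent.Chev.TwistBT
import Cfsg.Agent.Chev.AutField
import Cfsg.Agent.Chev.AutSylow
import Cfsg.Agent.Local.StronglyEmbTwo

/-!
# Finite overgroups of the fixed points of a field endomorphism: strong embedding
-/

set_option autoImplicit false
set_option linter.unusedSectionVars false

namespace Cfsg.Lib.Chev

open Cfsg.Lib.Local

variable {ι A : Type} [Fintype ι] [DecidableEq ι] [DecidableEq A] {G : Type*} [Group G]

namespace RGD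

variable {R : WeylData ι A} {Y : RGD R G}

namespace Faithful

variable (hY : Y.Faithful)
include hY

/-- The theorem of Borel and Tits with the uniqueness of the optimal position. -/
theorem borel_tits_uniq (V : Set G) (hV : ∀ v ∈ V, v ∈ Y.U) (hne : ∃ v ∈ V, v ≠ 1) :
    ∃ g ∈ Y.G0, ∃ J : Set ι, ∃ S : Set A, J ≠ Set.univ ∧ (∀ r ∈ S, r ∈ R.Φ) ∧
      (∀ v ∈ V, g⁻¹ * v * g ∈ spanX Y.X S) ∧
      ∀ g' ∈ Y.G0, (∀ v ∈ V, g'⁻¹ * v * g' ∈ spanX Y.X S) → g⁻¹ * g' ∈ Y.P J := by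
  obtain ⟨l0, ⟨g0, hg0, h0⟩, hmin0⟩ := R.exists_btMin
    (fun S => ∃ g ∈ Y.G0, ∀ v ∈ V, g⁻¹ * v * g ∈ spanX Y.X S)
    (fun S T hST ⟨g, hg, h⟩ => ⟨g, hg, fun v hv => spanX_mono _ hST (h v hv)⟩) (l0 := fun _ => 1)
    ⟨1, one_mem _, fun v hv => by
      rw [inv_one, one_mul, mul_one]
      refine spanX_mono _ (fun r hr => ?_) (hV v hv)
      refine ⟨hr.1, ?_⟩
      have := (R.stHt_empty_pos_iff hr.1).2 hr
      rw [R.stHt_apply] at this
      simp only [WeylData.btEv, mul_one]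
      simp only [Set.mem_empty_iff_false, not_false_eq_true, Finset.filter_true] at this
      exact_mod_cast this⟩
  obtain ⟨w0, hl⟩ := R.exists_dominant l0
  obtain ⟨m0, hm0⟩ := Y.exists_lifts w0
  set l := R.btAct w0 l0 with hldef
  set g := g0 * m0⁻¹ with hg
  have hgG : g ∈ Y.G0 := mul_mem hg0 (inv_mem (Y.N_le_G0 hm0.mem_N))
  have h1 : ∀ v ∈ V, g⁻¹ * v * g ∈ spanX Y.X (R.btS l) := fun v hv => by
    have := hm0.conj_btS l0 (h0 v hv)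
    convert this using 1
    rw [hg]; group
  have hmin : ∀ l', (∃ g ∈ Y.G0, ∀ v ∈ V, g⁻¹ * v * g ∈ spanX Y.X (R.btS l')) →
      R.btNrm l ≤ R.btNrm l' := fun l' h => by rw [hldef, R.btNrm_act]; exact hmin0 l' h
  refine ⟨g, hgG, {i | l i = 0}, R.btS l, fun hJ => ?_, fun r hr => hr.1, h1, fun n hn hnV => ?_⟩
  · obtain ⟨v, hv, hv1⟩ := hne
    have h2 : R.btS l = ∅ := Set.eq_empty_of_forall_notMem fun r hr => by
      have h3 := R.btEv_eq_zero_of_inJ (l := l) (r := r) (by rw [hJ]; exact R.inJ_univ hr.1)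
      have := hr.2
      linarith
    have h3 := h1 v hv
    rw [h2, spanX_empty, Subgroup.mem_bot] at h3
    apply hv1
    have : v = g * (g⁻¹ * v * g) * g⁻¹ := by group
    rw [this, h3]; group
  · obtain ⟨w, hw⟩ := mem_G0_iff.1 (mul_mem (inv_mem hgG) hn)
    obtain ⟨b, hb, m, hm, b', hb', e⟩ := id hw
    have hN := Y.B_le_normalizer_btS hl
    have h2 : ∀ v ∈ V, (g * b)⁻¹ * v * (g * b) ∈
        spanX Y.X (R.btS fun i => (l i + R.btAct w l i) / 2) := by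
      intro v hv
      have h3 : (g * b)⁻¹ * v * (g * b) ∈ spanX Y.X (R.btS l) := by
        have := inv_conj_mem_of_mem_normalizer (hN hb) (h1 v hv)
        convert this using 1
        group
      have h4 : (g * b)⁻¹ * v * (g * b) ∈ spanX Y.X (R.btS (R.btAct w l)) := by
        have := hm.conj_btS l (conj_mem_of_mem_normalizer (hN hb') (hnV v hv))
        convert this using 1
        have e' : n = g * (b * m * b') := by rw [← e]; group
        rw [e']; group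
      refine spanX_mono _ (R.btS_inter_subset _ _) (hY.mem_spanX_inter
        (fun r hr => R.pos_of_mem_btS hl hr) (R.stClosed_btS l) (w := w⁻¹) (fun r hr => ⟨hr.1, ?_⟩)
        (R.stClosed_btS _) h3 h4)
      refine R.pos_of_mem_btS hl ⟨R.smul_mem _ hr.1, ?_⟩
      rw [← R.btEv_act w l hr.1]; exact hr.2
    have h5 := R.eq_of_btNrm_mid (R.btNrm_act w l)
      (hmin _ ⟨g * b, mul_mem hgG (Y.B_le_G0 hb), h2⟩)
    refine mem_P_iff.2 ⟨w, R.mem_WJ_iff.2 fun r hr => ?_, hw⟩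
    obtain ⟨hr1, hr2⟩ := R.mem_invs.1 hr
    refine R.inJ_of_btEv_eq_zero hl hr1 (le_antisymm ?_ (R.btEv_nonneg hl hr1))
    rw [← R.btEv_act_smul w l hr1.1, ← h5]
    exact R.btEv_nonpos hl (R.smul_mem w hr1.1) hr2

/-- An element of `P J` centralising a non-trivial element of each root subgroup of `UJ J` lies in
`B`. -/
theorem mem_B_of_comm
    (hc : ∀ J : Set ι, J.Nonempty → Jᶜ.Nonempty → ∃ i ∈ J, ∃ j ∉ J, R.C i j ≠ 0) {J : Set ι}
    (hJ : J ≠ Set.univ) {g : G} (hP : g ∈ Y.P J)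
    (h : ∀ r, R.Pos r → ¬ R.InJ J r → ∃ a ∈ Y.X r, a ≠ 1 ∧ g * a = a * g) : g ∈ Y.B := by
  classical
  obtain ⟨ψ, h1, h2, -⟩ := R.st_exists_generic (R.stHt ∅)
  have h3 : ∀ r, R.Pos r → 0 < ψ (R.rc r) := fun r hr => h2 r hr.1 ((R.stHt_empty_pos_iff hr.1).2 hr)
  have h3' : ∀ k ∈ R.Φ, 0 < ψ (R.rc k) → R.Pos k := fun k hk h0 => by
    by_contra hn
    have h9 := h3 _ ((R.pos_neg_iff hk).2 hn)
    rw [R.rc_neg k hk, map_neg] at h9
    omega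
  obtain ⟨w, hw, hgw⟩ := mem_P_iff.1 hP
  obtain ⟨b, hb, m, hm, b', hb', e⟩ := id hgw
  have h4 : ∀ r, R.Pos r → ¬ R.InJ J r → ψ (R.rc r) ≤ ψ (R.rc (w • r)) := by
    intro r hr hrJ
    obtain ⟨a, ha, ha1, h6⟩ := h r hr hrJ
    by_contra hlt
    have h0 := h3 r hr
    have hN := B_le_normalizer_lev (Y := Y) (φ := ψ) (fun r hr => (h3 r hr).le) h0
    have hN' := B_le_normalizer_lev (Y := Y) (φ := ψ) (c := ψ (R.rc r) + 1)
      (fun r hr => (h3 r hr).le) (by omega)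
    have h5 : a ∈ lev R Y.X ψ (ψ (R.rc r)) := mem_lev hr.1 le_rfl ha
    have h7 : b' * a * b'⁻¹ = m⁻¹ * (b⁻¹ * a * b) * m⁻¹⁻¹ := by
      calc b' * a * b'⁻¹ = (b * m)⁻¹ * (g * a) * g⁻¹ * (b * m) := by rw [e]; group
        _ = _ := by rw [h6]; group
    have h8 : b' * a * b'⁻¹ ∈ spanX Y.X {k | k ∈ R.Φ ∧ ψ (R.rc r) ≤ ψ (R.rc (w • k))} :=
      h7 ▸ hm.inv.conj_spanX (fun k hk => hk.1) (fun k hk => And.intro (R.smul_mem _ hk.1)
        (by rw [smul_inv_smul]; exact hk.2)) (inv_conj_mem_of_mem_normalizer (hN hb) h5)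
    have h9 := hY.mem_spanX_inter (S := {k | k ∈ R.Φ ∧ ψ (R.rc r) ≤ ψ (R.rc k)})
      (T := {k | k ∈ R.Φ ∧ ψ (R.rc r) ≤ ψ (R.rc (w • k))}) (w := w) (fun k hk => h3' k hk.1 (h0.trans_le hk.2))
      (R.stClosed_ge ψ h0.le) (fun k hk => ⟨hk.1, h3' _ (R.smul_mem _ hk.1) (h0.trans_le hk.2)⟩)
      (fun s hs t ht k hk => ⟨hk.1, (R.stClosed_ge ψ h0.le _ ⟨R.smul_mem _ hs.1, hs.2⟩ _
        ⟨R.smul_mem _ ht.1, ht.2⟩ _ (hk.smul hs.1 ht.1 w)).2⟩)
      (conj_mem_of_mem_normalizer (hN hb') h5) h8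
    have h10 : b' * a * b'⁻¹ ∈ lev R Y.X ψ (ψ (R.rc r) + 1) := by
      refine spanX_mono _ ?_ h9
      rintro k ⟨⟨hk1, hk2⟩, -, hk3⟩
      refine ⟨hk1, Int.add_one_le_of_lt (lt_of_le_of_ne hk2 fun e' => hlt ?_)⟩
      rwa [← h1 r hr.1 k hk1 e'] at hk3
    have h11 := inv_conj_mem_of_mem_normalizer (hN' hb') h10
    rw [show b'⁻¹ * (b' * a * b'⁻¹) * b' = a by group] at h11
    exact ha1 (hY.indep ψ r hr.1 h0 a ha (spanX_mono _
      (fun k hk => And.intro hk.1 (Int.lt_of_add_one_le hk.2)) h11))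
  have hw1 : w = 1 := by
    refine R.eq_one_of_outside hc hJ fun r hr hrJ => ?_
    set T := R.posRoots.filter fun r => ¬ R.InJ J r with hT
    have hTm : ∀ r, r ∈ T ↔ R.Pos r ∧ ¬ R.InJ J r := fun r => by simp [hT]
    have hsum : ∑ r ∈ T, ψ (R.rc r) = ∑ r ∈ T, ψ (R.rc (w • r)) := by
      symm
      have hm : ∀ v ∈ R.WJ J, ∀ r ∈ T, v • r ∈ T := fun v hv r hr => (hTm _).2
        ⟨R.pos_smul_of_not_inJ hv ((hTm r).1 hr).1 ((hTm r).1 hr).2,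
          by rw [R.inJ_smul_iff hv]; exact ((hTm r).1 hr).2⟩
      exact Finset.sum_bij (fun r _ => w • r) (hm w hw) (fun r _ s _ e => MulAction.injective _ e)
        (fun r hr => ⟨w⁻¹ • r, hm _ (inv_mem hw) r hr, smul_inv_smul _ _⟩) fun r hr => rfl
    have := (Finset.sum_eq_sum_iff_of_le fun r hr => h4 r ((hTm r).1 hr).1 ((hTm r).1 hr).2).1 hsum
      r ((hTm r).2 ⟨hr, hrJ⟩)
    exact (h1 _ hr.1 _ (R.smul_mem w hr.1) this).symm
  rwa [hw1, mem_cell_one] at hgw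

end Faithful

namespace Twist

section
variable {S : R.Sym} (T : Y.Twist S) (hY : Y.Faithful)
include hY

/-- A stable coset of a stable parabolic subgroup meets `G¹`. -/
theorem exists_G1_of_mem_P {J : Set ι} (hJ : S.Stable J) {g : G} (hg : g ∈ Y.G0)
    (hk : g⁻¹ * T.σ g ∈ Y.P J) : ∃ g' ∈ T.G1, g⁻¹ * g' ∈ Y.P J := by
  obtain ⟨w0, hw0⟩ := mem_G0_iff.1 hg
  obtain ⟨v, hv, hw⟩ := R.exists_min_rep J w0
  obtain ⟨m0, hm0⟩ := Y.exists_lifts w0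
  obtain ⟨n, hn⟩ := Y.exists_lifts v
  obtain ⟨u0, hu0, b0, hb0, e0⟩ := exists_normal_form_left hm0 hw0
  set w := w0 * v with hwdef
  have hm := hm0.mul hn
  obtain ⟨u, hu, b, hb, e⟩ := exists_normal_form_left hm
    (B_mul_mem_cell (Y.U_le_B (Y.Uneg_le_U _ hu0)) hm.mem_cell)
  set m := m0 * n with hmdef
  -- `g P_J = u m P_J`
  have h1 : g⁻¹ * (u * m) ∈ Y.P J := by
    have : g⁻¹ * (u * m) = b0⁻¹ * n * b⁻¹ := by
      have e' : u * m = u0 * m * b⁻¹ := by rw [e]; group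
      rw [e', e0, hmdef]; group
    rw [this]
    exact mul_mem (mul_mem (inv_mem (Y.B_le_P J hb0)) (hn.mem_P hv)) (inv_mem (Y.B_le_P J hb))
  have hu' := Y.Uneg_le_U _ hu
  have hum : u * m ∈ Y.cell w := B_mul_mem_cell (Y.U_le_B hu') hm.mem_cell
  have hum0 : u * m ∈ Y.G0 := mem_G0_iff.2 ⟨w, hum⟩
  have hPσ : ∀ a ∈ Y.P J, T.σ a ∈ Y.P J := fun a ha => by
    obtain ⟨x, hx, ha⟩ := mem_P_iff.1 ha
    exact mem_P_iff.2 ⟨_, hJ.c_mem_WJ hx, T.map_cell ha⟩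
  have h2 : (u * m)⁻¹ * T.σ (u * m) ∈ Y.P J := by
    have := mul_mem (mul_mem (inv_mem h1) hk) (hPσ _ h1)
    rw [T.map_mul _ (inv_mem hg) _ hum0, T.map_inv hg] at this
    convert this using 1
    group
  obtain ⟨x, hx, h3⟩ := mem_P_iff.1 h2
  have h4 := cell_mul_cell hw hx hum h3
  rw [mul_inv_cancel_left] at h4
  have h5 := hY.eq_of_mem_cell (T.map_cell hum) h4
  have h6 : ∀ j ∈ J, R.Pos (S.c w • R.simple j) := fun j hj => by
    obtain ⟨i, rfl⟩ := S.π.surjective j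
    exact (S.pos_c_smul_simple w i).2 (hw i ((hJ i).1 hj))
  obtain ⟨h7, h8⟩ := R.min_rep_unique h6 hw (one_mem _) hx (by rw [mul_one, h5])
  rw [← h8, mem_cell_one] at h3
  obtain ⟨m', hm', hl'⟩ := T.exists_lifts hY (S.mem_fix.2 h7)
  have h9 : T.σ u = u := by
    have hσm := T.map_lifts hm
    have hσu := T.map_Uneg hu
    rw [_root_.map_inv, h7] at hσu
    rw [h7] at hσm
    have := hY.normal_form_unique hm.inv (b := ((u * m)⁻¹ * T.σ (u * m))⁻¹)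
      (b' := (T.σ m)⁻¹ * m) (inv_mem h3) (Y.H_le_B (hσm.inv_mul_mem_H hm)) (inv_mem hu) (inv_mem hσu)
      (by rw [T.map_mul _ (Y.U_le_G0 hu') _ (Y.N_le_G0 hm.mem_N)]; group)
    exact (inv_injective this.2).symm
  refine ⟨u * m', mul_mem (T.U_inf_le_G1 hY ⟨hu', Y.U_le_G0 hu', h9⟩) hm', ?_⟩
  have := mul_mem h1 (Y.B_le_P J (Y.H_le_B (hm.inv_mul_mem_H hl')))
  convert this using 1
  group

omit hY in
theorem comm_of_conj_mem {g a : G} (hg : g ∈ Y.G0) (ha : a ∈ T.F) (h : g * a * g⁻¹ ∈ T.F) :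
    g⁻¹ * T.σ g * a = a * (g⁻¹ * T.σ g) := by
  have h1 := h.2
  rw [T.map_conj hg ha.1, ha.2] at h1
  calc g⁻¹ * T.σ g * a = g⁻¹ * (T.σ g * a * (T.σ g)⁻¹) * T.σ g := by group
    _ = _ := by rw [h1]; group

end

variable (T : Y.Twist R.trivSym) (hY : Y.Faithful)
include hY

theorem exists_mem_X {r : A} (hr : r ∈ R.Φ) : ∃ a ∈ Y.X r, a ≠ 1 ∧ a ∈ T.G1 := by
  obtain ⟨w, i, e⟩ := exists_smul_simple R (R.neg_mem r hr)
  obtain ⟨m, hm, hl⟩ := T.exists_lifts hY (R.mem_trivSym_fix w)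
  obtain ⟨v, hv, hv1, hvσ⟩ := T.ne_bot i
  have h1 := T.VL_inf_le_G1 i ⟨hv, Y.VL_le_G0 _ hv, hvσ⟩
  rw [R.trivSym_orb, VL_singleton] at hv
  have h2 := hl.conj_X (R.neg_mem _ (R.simple_mem i)) hv
  rw [R.smul_neg _ (R.simple_mem i), e, R.neg_neg hr] at h2
  exact ⟨_, h2, by simpa using hv1, mul_mem (mul_mem hm h1) (inv_mem hm)⟩

variable (hc : ∀ J : Set ι, J.Nonempty → Jᶜ.Nonempty → ∃ i ∈ J, ∃ j ∉ J, R.C i j ≠ 0)
  {M : Subgroup G} (hM1 : T.G1 ≤ M) (hM2 : M ≤ Y.G0) (hB : Y.B ⊓ M ≤ T.F)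
include hc hM1 hM2 hB

theorem mem_F_of_mem_P {J : Set ι} (hJ : J ≠ Set.univ) {g : G} (hP : g ∈ Y.P J) (hg : g ∈ M) :
    g ∈ T.F := by
  have h0 : T.σ g ∈ Y.P J := by
    obtain ⟨x, hx, ha⟩ := mem_P_iff.1 hP
    exact mem_P_iff.2 ⟨_, (show R.trivSym.Stable J from fun _ => Iff.rfl).c_mem_WJ hx, T.map_cell ha⟩
  have h1 := hY.mem_B_of_comm hc hJ (mul_mem (inv_mem hP) h0) fun r hr hrJ => by
    obtain ⟨a, ha, ha1, haG⟩ := T.exists_mem_X hY hr.1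
    refine ⟨a, ha, ha1, T.comm_of_conj_mem (hM2 hg) (T.G1_le_F haG) (hB (Subgroup.mem_inf.2 ⟨Y.U_le_B
      (Y.UJ_le_U J (conj_mem_of_mem_normalizer (Y.P_le_normalizer_UJ J hP)
        (mem_spanX _ (T := {r | R.Pos r ∧ ¬ R.InJ J r}) ⟨hr, hrJ⟩ ha))), ?_⟩))⟩
    exact mul_mem (mul_mem hg (hM1 haG)) (inv_mem hg)
  rw [← P_empty] at h1
  obtain ⟨g', hg', h2⟩ := T.exists_G1_of_mem_P hY (fun _ => Iff.rfl) (hM2 hg) h1
  rw [P_empty] at h2
  have := mul_mem (T.G1_le_F hg') (inv_mem (hB (Subgroup.mem_inf.2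
    ⟨h2, mul_mem (inv_mem hg) (hM1 hg')⟩)))
  simpa using this

theorem mem_F_of_normalizes {V : Subgroup G} (hV : V ≤ Y.U ⊓ M) (h1 : V ≠ ⊥) {n : G} (hn : n ∈ M)
    (h : ∀ v ∈ V, n⁻¹ * v * n ∈ V) : n ∈ T.F := by
  obtain ⟨g, hg, J, S, hJ, hS, h2, h3⟩ := hY.borel_tits_uniq (V : Set G) (fun v hv => (hV hv).1)
    (by simpa using (Subgroup.ne_bot_iff_exists_ne_one.1 h1))
  obtain ⟨g', hg', h4⟩ := T.exists_G1_of_mem_P hY (J := J) (fun _ => Iff.rfl) hg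
    (h3 _ (T.map_G0 hg) fun v hv => by
      have h5 := T.map_spanX hS (fun r hr => hr) (h2 v hv)
      have h6 := hB ⟨Y.U_le_B (hV hv).1, (hV hv).2⟩
      rwa [T.map_mul _ (mul_mem (inv_mem hg) h6.1) _ hg, T.map_mul _ (inv_mem hg) _ h6.1,
        T.map_inv hg, h6.2] at h5)
  have h5 := h3 (n * g) (mul_mem (hM2 hn) hg) fun v hv => by
    have := h2 _ (h v hv)
    convert this using 1
    group
  have h6 := T.mem_F_of_mem_P hY hc hM1 hM2 hB hJ (mul_mem (mul_mem (inv_mem h4) h5) h4) (by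
    have := mul_mem (mul_mem (inv_mem (hM1 hg')) hn) (hM1 hg')
    convert this using 1
    group)
  have := mul_mem (mul_mem (T.G1_le_F hg') h6) (inv_mem (T.G1_le_F hg'))
  convert this using 1
  group

/-- The fixed points are strongly embedded in a finite overgroup. -/
theorem se_of_finite [Nonempty ι] [Finite M] {p : ℕ} [Fact p.Prime] (hU : IsPGroup p Y.U)
    (hH : ∀ h ∈ Y.H, ∀ k : ℕ, h ^ p ^ k = 1 → h = 1) (hne : ¬ M ≤ T.F) :
    SE p (T.F.subgroupOf M) := by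
  have hS : IsPGroup p (Y.U.subgroupOf M) := hU.comap_subtype
  have hx : ∀ i, ∃ a : M, a ∈ Y.U.subgroupOf M ∧ (a : G) ∉ Y.UJ {i} := fun i => by
    obtain ⟨a, ha, ha1, haG⟩ := T.exists_mem_X hY (R.simple_mem i)
    refine ⟨⟨a, hM1 haG⟩, Y.X_le_U (R.pos_simple i) ha, fun h => ha1 ?_⟩
    rw [← Uneg_s] at ha
    rw [UJ_singleton, ← Upos_s] at h
    exact hY.eq_one_of_mem_Upos_Uneg h ha
  refine SE.of_normalizers (fun e => hne (Subgroup.subgroupOf_eq_top.1 e))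
    ⟨Y.U.subgroupOf M, hS, fun {Q} hQ hle => ?_⟩ (fun e => ?_) fun V hV h1 n hn => ?_
  · by_contra hn
    obtain ⟨x, hxQ, h2, h3⟩ := exists_mem_normalizer_of_lt hQ (lt_of_le_of_ne hle (Ne.symm hn))
    obtain ⟨k, hk⟩ := hQ ⟨x, hxQ⟩
    refine h2 (hY.mem_U_of_pow hH (hY.mem_B_of_conj_reg (hM2 x.2) fun i => ?_) (k := k)
      (congrArg (fun z : Q => ((z : M) : G)) hk))
    obtain ⟨a, ha, ha'⟩ := hx i
    exact ⟨a, ha, ha', Y.U_le_B (h3 a ha)⟩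
  · obtain ⟨a, ha, ha'⟩ := hx (Classical.arbitrary ι)
    have : a = 1 := Subgroup.mem_bot.1 (e.le ha)
    exact ha' (this ▸ one_mem _)
  · refine T.mem_F_of_normalizes hY hc hM1 hM2 hB (V := V.map M.subtype) ?_
      (fun e => h1 ((Subgroup.map_eq_bot_iff_of_injective _ M.subtype_injective).1 e)) n.2 ?_
    · rintro _ ⟨v, hv, rfl⟩
      exact ⟨hV hv, v.2⟩
    · rintro _ ⟨v, hv, rfl⟩
      exact ⟨_, inv_conj_mem_of_mem_normalizer hn hv, rfl⟩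

end Twist

end RGD

end Cfsg.Lib.Chev
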