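import Cfsg.Agent.Chev.SubfRGD
import Cfsg.Agent.Chev.CommCoef

/-!
# Unipotent elements conjugating the fixed points of a field endomorphism into an overgroup
-/

set_option autoImplicit false
set_option linter.unusedSectionVars false

namespace Cfsg.Lib.Chev

open Cfsg.Lie

variable {F G : Type*} [Field F] [Group G] {D : ChevalleyDatum} {R : RootData D} {y : ℕ → F → G}

theorem commTerms_cons {r s ν : ℕ} (h : D.chainRoot r s 1 = some ν) :
    ∃ l, D.commTerms r s = (ν, D.chainM r s 1, 1, 1) :: l ∧ ∀ c ∈ l, 3 ≤ c.2.2.1 + c.2.2.2 := by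
  unfold ChevalleyDatum.commTerms
  refine ⟨_, by simp only [h]; rw [List.filterMap_cons]; rfl, fun c hc => ?_⟩
  simp only [List.mem_filterMap, List.mem_cons, List.not_mem_nil, or_false,
    Option.map_eq_some_iff] at hc
  obtain ⟨a, ha, k, -, rfl⟩ := hc
  rcases ha with rfl | rfl | rfl | rfl | rfl | rfl <;> simp

variable (R y) in
/-- The span of the roots of code at least `c`. -/
noncomputable abbrev cdLev (c : ℤ) : Subgroup G := lev R.weyl (xSub y) R.code.toIntLinearMap c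

theorem cdLev_eq_1' : type_of% @cdLev.eq_1 := @cdLev.eq_1

theorem x_mem_cdLev {r : ℕ} (hr : r < D.nroots) {c : ℤ} (h : c ≤ R.code (R.rc r)) (t : F) :
    y r t ∈ cdLev R y c :=
  mem_lev (R.weyl_mem.2 hr) h (x_mem_xSub y r t)

theorem RootData.code_inj (R : RootData D) {r s : ℕ} (hr : r < D.nroots) (hs : s < D.nroots)
    (h : R.code (R.rc r) = R.code (R.rc s)) : r = s := by
  have h1 := R.lt_iff_code_lt hr hs
  have h2 := R.lt_iff_code_lt hs hr
  omega

theorem RootData.top_pos (R : RootData D) {r : ℕ} (hr : r < D.nroots) :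
    D.IsPosRoot (D.nroots - 1) := (R.pos_iff _).2 ⟨by have := R.nroots_eq; omega, by omega⟩

variable (D y) in
/-- The centre of `U` is spanned by the highest root and the root `θs`. -/
structure ZData (θs : ℕ) : Prop where
  pos : D.IsPosRoot θs
  step : ∀ γ, D.IsPosRoot γ → γ = D.nroots - 1 ∨ γ = θs ∨
    ∃ β, D.IsPosRoot β ∧ (D.chainM γ β 1 : F) ≠ 0
  cent : ∀ β, D.IsPosRoot β → ∀ t u, Commute (y θs t) (y β u)
  top : ∃ i, i < D.rank ∧ D.nroots - 1 ≠ D.simple i ∧ 0 < D.cartan i (D.nroots - 1)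
  sh : θs = D.nroots - 1 ∨ ∃ j, j < D.rank ∧ θs ≠ D.simple j ∧ 0 < D.cartan j θs ∧
    D.reflectRoot j θs < D.reflectRoot j (D.nroots - 1)

namespace Model

variable (hy : Model R y)
include hy

theorem U_eq_cdLev : (hy.toStRelW.rgd R).U = cdLev R y 1 := by
  refine congrArg (spanX (xSub y)) (Set.ext fun r => ⟨fun h => ⟨h.1, ?_⟩, fun h => ?_⟩)
  · exact (R.pos_iff_code (R.weyl_mem.1 h.1)).1 (R.weyl_pos.1 h)
  · exact R.weyl_pos.2 ((R.pos_iff_code (R.weyl_mem.1 h.1)).2 h.2)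

theorem cdLev_step {c : ℤ} (hc : 0 < c) {u : G} (hu : u ∈ cdLev R y c) : u ∈ cdLev R y (c + 1) ∨
    ∃ γ, γ < D.nroots ∧ R.code (R.rc γ) = c ∧ ∃ t, ∃ b ∈ cdLev R y (c + 1), u = y γ t * b := by
  obtain ⟨a, ha, b, hb, rfl⟩ := (hy.toStRel.rcomm R).exists_mul_of_union (fun r hr => hr.1)
    (R.weyl.stClosed_ge R.code.toIntLinearMap hc.le) R.code.toIntLinearMap
    (fun r hr => hc.trans_le hr.2) (S₁ := {r | r < D.nroots ∧ R.code (R.rc r) = c})
    (S₂ := {r | r ∈ R.weyl.Φ ∧ c + 1 ≤ R.code (R.rc r)}) (Set.ext fun r => by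
      simp only [Set.mem_union, Set.mem_ofPred_eq, R.weyl_mem, R.weyl_rc,
        AddMonoidHom.coe_toIntLinearMap]
      omega) hu
  by_cases h : ∃ γ, γ < D.nroots ∧ R.code (R.rc γ) = c
  · obtain ⟨γ, h1, h2⟩ := h
    have : a ∈ xSub y γ := (spanX_le_iff.2 fun r hr => by
      rw [R.code_inj hr.1 h1 (hr.2.trans h2.symm)]) ha
    obtain ⟨t, rfl⟩ := (hy.toStRel.mem_xSub_iff h1).1 this
    exact Or.inr ⟨γ, h1, h2, t, b, hb, rfl⟩
  · have : a ∈ (⊥ : Subgroup G) := (spanX_le_iff.2 fun r hr => absurd ⟨r, hr⟩ h) ha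
    rw [Subgroup.mem_bot.1 this, one_mul]
    exact Or.inl hb

theorem comm_cdLev {c d : ℤ} (hc : 0 < c) (hd : 0 < d) {a b : G} (ha : a ∈ cdLev R y c)
    (hb : b ∈ cdLev R y d) : a⁻¹ * b⁻¹ * a * b ∈ cdLev R y (c + d) :=
  (hy.toStRel.rcomm R).comm_lev hy.xSub_comm' _ hc hd ha hb

/-- The leading term of a commutator of two root elements. -/
theorem comm_lead {γ β ν : ℕ} (hγ : D.IsPosRoot γ) (hβ : D.IsPosRoot β)
    (h : D.chainRoot γ β 1 = some ν) (t u : F) : ∃ e ∈ cdLev R y (R.code (R.rc ν) + 1),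
      (y β u)⁻¹ * (y γ t)⁻¹ * y β u * y γ t = y ν (D.chainM γ β 1 * -t * u) * e := by
  obtain ⟨l, hl, h3⟩ := commTerms_cons h
  obtain ⟨h4, h5, h6, h7⟩ := R.chainRoot_spec hγ.1 hβ.1 le_rfl h
  refine ⟨word y (l.map fun c => (c.1, (c.2.1 : F) * (-t) ^ c.2.2.1 * u ^ c.2.2.2)),
    word_mem _ fun q hq => ?_, ?_⟩
  · obtain ⟨c, hc, rfl⟩ := List.mem_map.1 hq
    obtain ⟨c1, c2, c3, c4⟩ := R.commTerms_spec hγ.1 hβ.1 (hl ▸ List.mem_cons_of_mem _ hc)
    refine x_mem_cdLev c1 ?_ _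
    have c5 := h3 c hc
    have c6 := (R.pos_iff_code hγ.1).1 hγ
    have c7 := (R.pos_iff_code hβ.1).1 hβ
    rw [c4, h7]
    simp only [map_add, map_zsmul, smul_eq_mul, Nat.cast_one, one_mul]
    have c8 : (1 : ℤ) ≤ c.2.2.1 := by exact_mod_cast c2
    have c9 : (1 : ℤ) ≤ c.2.2.2 := by exact_mod_cast c3
    have c10 : (3 : ℤ) ≤ c.2.2.1 + c.2.2.2 := by exact_mod_cast c5
    rcases c8.eq_or_lt with e | e <;> nlinarith
  · rw [hy.toStRel.comm_eq hγ.1 hβ.1 h4 h5, ChevalleyDatum.commWord, hl, List.map_cons, word_cons]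
    simp

theorem commute_top {β : ℕ} (hβ : D.IsPosRoot β) (t u : F) :
    Commute (y (D.nroots - 1) t) (y β u) := by
  have h0 := hβ.1
  have h1 := R.top_pos h0
  refine hy.toStRel.commute R h1.1 h0 (fun e => R.not_neg_of_pos hβ
    (e ▸ (R.isNegRoot_neg_iff h1.1).2 h1)) ?_ t u
  by_contra h
  obtain ⟨ν, hν⟩ := Option.ne_none_iff_exists'.1 h
  obtain ⟨-, -, h6, h7⟩ := R.chainRoot_spec h1.1 h0 le_rfl hν
  have := (R.pos_and_lt_of_rc_eq hβ h1 h6 (a := 1) le_rfl le_rfl (by simpa using h7)).2.2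
  omega

theorem commute_cdLev {r : ℕ} (h : ∀ β, D.IsPosRoot β → ∀ t u, Commute (y r t) (y β u)) (t : F)
    {u : G} (hu : u ∈ cdLev R y 1) : Commute (y r t) u :=
  spanX_induction (p := fun u => Commute (y r t) u) hu (Commute.one_right _) fun β hβ a ha b _ ih => by
    obtain ⟨s, rfl⟩ := (hy.toStRel.mem_xSub_iff (R.weyl_mem.1 hβ.1)).1 ha
    exact (h β ((R.pos_iff_code (R.weyl_mem.1 hβ.1)).2 hβ.2) t s).mul_right ih

variable {σ : G →* G} {f : F →+* F} (hσ : ∀ r, r < D.nroots → ∀ t, σ (y r t) = y r (f t))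
include hσ

theorem map_mem_spanX' {T : Set ℕ} (hT : ∀ r ∈ T, r < D.nroots) {u : G} (hu : u ∈ spanX (xSub y) T) :
    σ u ∈ spanX (xSub y) T := by
  refine spanX_induction (p := fun u => σ u ∈ spanX (xSub y) T) hu (by simp) fun r hr a ha b _ ih => ?_
  obtain ⟨t, rfl⟩ := (hy.toStRel.mem_xSub_iff (hT r hr)).1 ha
  rw [map_mul, hσ r (hT r hr)]
  exact mul_mem (mem_spanX _ hr (x_mem_xSub y r _)) ih

omit hσ in
theorem lead_inj {γ : ℕ} (hγ : D.IsPosRoot γ) {t t' : F} {b b' : G}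
    (hb : b ∈ cdLev R y (R.code (R.rc γ) + 1)) (hb' : b' ∈ cdLev R y (R.code (R.rc γ) + 1))
    (h : y γ t' * b' = y γ t * b) : t' = t := by
  have h2 : y γ (-t + t') = b * b'⁻¹ := by
    rw [← hy.add γ hγ.1, ← hy.toStRel.inv hγ.1, eq_mul_inv_iff_mul_eq, mul_assoc, h]; group
  have h3 := hy.faithful.indep R.code.toIntLinearMap γ (R.weyl_mem.2 hγ.1)
    ((R.pos_iff_code hγ.1).1 hγ) _ (x_mem_xSub y γ _) (h2 ▸ mul_mem hb (inv_mem hb'))
  linear_combination hy.inj γ hγ.1 _ h3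

theorem fixed_lead {γ : ℕ} (hγ : D.IsPosRoot γ) {t : F} {b : G}
    (hb : b ∈ cdLev R y (R.code (R.rc γ) + 1)) (h : σ (y γ t * b) = y γ t * b) : f t = t := by
  rw [map_mul, hσ γ hγ.1] at h
  exact hy.lead_inj hγ hb (hy.map_mem_spanX' hσ (fun r hr => R.weyl_mem.1 hr.1) hb) h

/-- Descent along the filtration by the order of the roots. -/
theorem fixed_of_descent {θs : ℕ} (Z : ZData D y θs) {M : Subgroup G} {S : Set G}
    (hl : ∀ γ, D.IsPosRoot γ → ∀ t, f t = t → ∀ u ∈ S, y γ t * u ∈ S)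
    (hc : ∀ u ∈ S, ∀ β, D.IsPosRoot β → (y β 1)⁻¹ * u⁻¹ * y β 1 * u ∈ M)
    (hZ : ∀ t s, y θs t * y (D.nroots - 1) s ∈ S → σ (y θs t * y (D.nroots - 1) s) =
      y θs t * y (D.nroots - 1) s)
    (hM : ∀ c, 0 < c → (∀ u ∈ cdLev R y c, u ∈ S → σ u = u) → ∀ u ∈ cdLev R y c, u ∈ M → σ u = u)
    {u : G} (hu : u ∈ cdLev R y 1) (hS : u ∈ S) : σ u = u := by
  have h0 := Z.pos.1
  have hθ := R.top_pos h0
  have h2 := Z.cent
  have key : ∀ c : ℤ, c ≤ R.code (R.rc (D.nroots - 1)) + 1 → 0 < c → ∀ t s, ∀ u ∈ cdLev R y c,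
      y θs t * y (D.nroots - 1) s * u ∈ S →
        σ (y θs t * y (D.nroots - 1) s * u) = y θs t * y (D.nroots - 1) s * u := by
    intro c hc'
    induction c, hc' using Int.leInductionDown with
    | base =>
      intro _ t s u hu hS
      rw [cdLev, lev_eq_bot _ _ _ (fun r hr => by
        have h3 := R.weyl_mem.1 hr
        have h4 := R.lt_iff_code_lt hθ.1 h3
        simp only [R.weyl_rc, AddMonoidHom.coe_toIntLinearMap]
        omega), Subgroup.mem_bot] at hu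
      rw [hu, mul_one] at hS ⊢
      exact hZ t s hS
    | pred c hc' ih =>
      intro hc0 t s u hu hS
      replace ih := ih (by omega)
      rcases hy.cdLev_step hc0 hu with hu | ⟨γ, hγ, e, a, b, hb, rfl⟩
      · exact ih t s u (by simpa using hu) hS
      rw [sub_add_cancel] at hb
      have hγ' : D.IsPosRoot γ := (R.pos_iff_code hγ).2 (e ▸ hc0)
      rcases Z.step γ hγ' with rfl | rfl | ⟨β, hβ, hN⟩
      · rw [← mul_assoc, mul_assoc (y θs t), hy.add _ hγ] at hS ⊢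
        exact ih t _ b hb hS
      · rw [← mul_assoc, mul_assoc (y γ t), ← (h2 _ hθ a s).eq, ← mul_assoc, hy.add _ hγ] at hS ⊢
        exact ih _ s b hb hS
      obtain ⟨ν, hν⟩ : ∃ ν, D.chainRoot γ β 1 = some ν := Option.ne_none_iff_exists'.1 fun h =>
        hN (by rw [RootData.chainM_eq_zero_of_none h, Int.cast_zero])
      obtain ⟨-, -, h6, h7⟩ := R.chainRoot_spec hγ hβ.1 le_rfl hν
      have h8 : R.code (R.rc ν) = R.code (R.rc β) + (c - 1) := by rw [h7, map_add, ← e]; simp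
      have h9 := (R.pos_iff_code hβ.1).1 hβ
      have hν' : D.IsPosRoot ν := (R.pos_iff_code h6).2 (by omega)
      obtain ⟨d, hd, h10⟩ := hy.comm_lead hγ' hβ hν a 1
      have hb1 : b ∈ cdLev R y 1 := lev_anti _ _ _ (by omega) hb
      have hxβ : y β 1 ∈ cdLev R y (R.code (R.rc β)) := x_mem_cdLev hβ.1 le_rfl 1
      have h12 := hy.comm_cdLev (c := R.code (R.rc ν)) (by omega) one_pos
        (x_mem_cdLev h6 le_rfl (D.chainM γ β 1 * -a * 1)) hb1
      have hz : Commute (y θs t * y (D.nroots - 1) s) (y β 1) :=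
        (h2 β hβ t 1).mul_left (hy.commute_top hβ s 1)
      have h13 := hy.comm_cdLev h9 (by omega) hxβ hb
      have h14 : (y β 1)⁻¹ * (y θs t * y (D.nroots - 1) s * (y γ a * b))⁻¹ * y β 1 *
          (y θs t * y (D.nroots - 1) s * (y γ a * b)) = y ν (D.chainM γ β 1 * -a * 1) *
          ((y ν (D.chainM γ β 1 * -a * 1))⁻¹ * ((y β 1)⁻¹ * b⁻¹ * y β 1 * b) *
            y ν (D.chainM γ β 1 * -a * 1) * ((y ν (D.chainM γ β 1 * -a * 1))⁻¹ * b⁻¹ *
              y ν (D.chainM γ β 1 * -a * 1) * b) * (b⁻¹ * d * b)) := by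
        calc _ = (y β 1)⁻¹ * (y γ a * b)⁻¹ * ((y θs t * y (D.nroots - 1) s)⁻¹ * (y β 1 *
              (y θs t * y (D.nroots - 1) s))) * (y γ a * b) := by group
          _ = (y β 1)⁻¹ * b⁻¹ * y β 1 * ((y β 1)⁻¹ * (y γ a)⁻¹ * y β 1 * y γ a) * b := by
            rw [← hz.eq]; group
          _ = _ := by rw [h10]; group
      have hN' := (hy.toStRel.rcomm R).lev_le_normalizer R.code.toIntLinearMap zero_le_one
        (show 0 < R.code (R.rc ν) + 1 by omega)
      have h15 : _ ∈ cdLev R y (R.code (R.rc ν) + 1) := mul_mem (mul_mem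
        (inv_conj_mem_of_mem_normalizer (hN' (x_mem_cdLev h6 (by omega) (D.chainM γ β 1 * -a * 1)))
          (lev_anti _ _ _ (by omega) h13)) h12) (inv_conj_mem_of_mem_normalizer (hN' hb1) hd)
      have h16 := hc _ hS β hβ
      rw [h14] at h16
      have h17 := hy.fixed_lead hσ hν' h15 (hM c (by omega) (fun u hu hS => by
        simpa [hy.toStRel.zero h0, hy.toStRel.zero hθ.1] using ih 0 0 u hu
          (by simpa [hy.toStRel.zero h0, hy.toStRel.zero hθ.1] using hS)) _ (mul_mem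
        (x_mem_cdLev h6 (by omega) _) (lev_anti _ _ _ (by omega) h15)) h16)
      have h18 : f a = a := by
        simp only [mul_one, map_mul, map_intCast, map_neg, mul_eq_mul_left_iff, neg_inj] at h17
        exact h17.resolve_right hN
      have h19 : Commute (y θs t * y (D.nroots - 1) s) (y γ a) :=
        (h2 γ hγ' t a).mul_left (hy.commute_top hγ' s a)
      have h20 := hl γ hγ' (-a) (by rw [map_neg, h18]) _ hS
      rw [← mul_assoc (y θs t * _), h19.eq, mul_assoc (y γ a)] at h20 ⊢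
      rw [← hy.toStRel.inv hγ, inv_mul_cancel_left] at h20
      rw [map_mul, ih t s b hb h20, hσ γ hγ, h18]
  have := key 1 (by have := (R.pos_iff_code hθ.1).1 hθ; omega) one_pos 0 0 u hu
  simp only [hy.toStRel.zero h0, hy.toStRel.zero hθ.1, one_mul] at this
  exact this hS

variable {θs : ℕ} (Z : ZData D y θs) {L M : Subgroup G}
  (hL : ∀ r, r < D.nroots → ∀ t, f t = t → y r t ∈ L) (hLM : L ≤ M)
  (hZ : ∀ t s, y θs t * y (D.nroots - 1) s ∈ M →
    σ (y θs t * y (D.nroots - 1) s) = y θs t * y (D.nroots - 1) s)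
include Z hL hLM hZ

theorem fixed_of_mem {u : G} (hu : u ∈ cdLev R y 1) (h : u ∈ M) : σ u = u :=
  hy.fixed_of_descent hσ Z (M := M) (S := M)
    (fun γ hγ t ht _ hu => mul_mem (hLM (hL γ hγ.1 t ht)) hu)
    (fun _ hu β hβ => mul_mem (mul_mem (mul_mem (inv_mem (hLM (hL β hβ.1 1 f.map_one))) (inv_mem hu))
      (hLM (hL β hβ.1 1 f.map_one))) hu)
    hZ (fun _ _ h => h) hu h

theorem fixed_of_central {r j : ℕ} (hr : D.IsPosRoot r) (hj : j < D.rank) (h1 : r ≠ D.simple j)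
    (h2 : 0 < D.cartan j r) {t : F} {b : G} (hz : ∀ u ∈ cdLev R y 1, Commute (y r t * b) u)
    (hb : b ∈ cdLev R y (R.code (R.rc r))) (hb' : nel D y (D.simple j) 1 * b *
      (nel D y (D.simple j) 1)⁻¹ ∈ cdLev R y (R.code (R.rc (D.reflectRoot j r)) + 1))
    (h : ∀ g ∈ L, (y r t * b)⁻¹ * g * (y r t * b) ∈ M) : f t = t := by
  have h3 := R.simple_lt j hj
  have hn : nel D y (D.simple j) 1 ∈ L := mul_mem (mul_mem (hL _ h3 _ f.map_one)
    (hL _ (R.neg_lt h3) _ (by simp))) (hL _ h3 _ f.map_one)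
  obtain ⟨η, hη, h4, -⟩ := hy.toStRelW.exists_sign R hj hr.1
  have h5 := R.reflect_pos hj hr h1
  have h6 := (R.lt_iff_code_lt h5.1 hr.1).1 ((R.reflect_lt_iff hj hr.1).2 h2)
  have h7 := (R.pos_iff_code h5.1).1 h5
  have h8 : _ ∈ cdLev R y (R.code (R.rc (D.reflectRoot j r)) + 1) := mul_mem hb' (inv_mem
    (mul_mem (x_mem_cdLev hr.1 (by omega) t) (lev_anti _ _ _ (by omega) hb)))
  have h9 := mul_mem (h _ hn) (inv_mem (hLM hn))
  have h10 := hz _ (mul_mem (x_mem_cdLev h5.1 (by omega) (η * t)) (lev_anti _ _ _ (by omega) hb'))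
  have h11 := hy.fixed_lead hσ h5 h8 (hy.fixed_of_mem hσ Z hL hLM hZ (mul_mem
    (x_mem_cdLev h5.1 (by omega) (η * t)) (lev_anti _ _ _ (by omega) h8)) (by
      rw [← mul_assoc, ← h10.inv_left.eq, ← h4]
      convert h9 using 1
      group))
  rw [map_mul, map_intCast] at h11
  exact mul_left_cancel₀ (sign_cast_ne_zero hη) h11

/-- A unipotent element conjugating `L` into `M` is fixed. -/
theorem fixed_of_conj {u : G} (hu : u ∈ cdLev R y 1) (h : ∀ g ∈ L, u⁻¹ * g * u ∈ M) : σ u = u := by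
  have h0 := Z.pos.1
  have hθ := R.top_pos h0
  have hl : ∀ γ, γ < D.nroots → ∀ t, f t = t → ∀ u, (∀ g ∈ L, u⁻¹ * g * u ∈ M) →
      ∀ g ∈ L, (y γ t * u)⁻¹ * g * (y γ t * u) ∈ M := fun γ hγ t ht u h g hg => by
    have := h _ (mul_mem (mul_mem (inv_mem (hL γ hγ t ht)) hg) (hL γ hγ t ht))
    convert this using 1
    group
  have ht : ∀ s, (∀ g ∈ L, (y (D.nroots - 1) s)⁻¹ * g * y (D.nroots - 1) s ∈ M) → f s = s := by
    intro s h
    obtain ⟨i, h1, h2, h3⟩ := Z.top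
    exact hy.fixed_of_central hσ Z hL hLM hZ hθ h1 h2 h3 (b := 1)
      (fun u hu => by simpa using hy.commute_cdLev (fun _ => hy.commute_top) s hu) (one_mem _)
      (by simp) (by simpa using h)
  refine hy.fixed_of_descent hσ Z (M := M) (S := {u | ∀ g ∈ L, u⁻¹ * g * u ∈ M})
    (fun γ hγ => hl γ hγ.1) (fun u hu β hβ => ?_) (fun t s h => ?_)
    (fun c hc _ u hu => hy.fixed_of_mem hσ Z hL hLM hZ (lev_anti _ _ _ hc hu)) hu h
  · simpa [mul_assoc] using mul_mem (inv_mem (hLM (hL β hβ.1 1 f.map_one)))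
      (hu _ (hL β hβ.1 1 f.map_one))
  rcases Z.sh with rfl | ⟨j, h1, h2, h3, h4⟩
  · rw [hy.add _ h0] at h ⊢
    rw [hσ _ h0, ht _ h]
  obtain ⟨η, -, h5, -⟩ := hy.toStRelW.exists_sign R h1 hθ.1
  have h6 := R.lt_iff_code_lt hθ.1 h0
  have h7 := hy.fixed_of_central hσ Z hL hLM hZ Z.pos h1 h2 h3 (fun u hu =>
    (hy.commute_cdLev Z.cent t hu).mul_left (hy.commute_cdLev (fun _ => hy.commute_top) s hu))
    (x_mem_cdLev hθ.1 (by omega) s) (h5 s ▸ x_mem_cdLev (R.reflect_lt _ _ h1 hθ.1)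
      ((R.lt_iff_code_lt (R.reflect_lt _ _ h1 h0) (R.reflect_lt _ _ h1 hθ.1)).1 h4) _) h
  have h8 := hl θs h0 (-t) (by rw [map_neg, h7]) _ h
  rw [← hy.toStRel.inv h0, inv_mul_cancel_left] at h8
  rw [map_mul, hσ _ h0, hσ _ hθ.1, h7, ht s h8]

end Model

namespace Core.Cert

variable (C : Cert D) (R)
include C R

theorem xGL_mem_G1 (f : F →+* F) {r : ℕ} (hr : r < D.nroots) {t : F} (ht : f t = t) :
    xGL D F r t ∈ (C.fieldTwist R f).G1 := by
  have h1 : xGL D F r t ∈ (C.fieldTwist R f).F :=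
    (C.mem_fieldTwist_F R f).2 ⟨C.xGL_mem_group R r t, by rw [C.mapGL_xGL f R, ht]⟩
  by_cases h : R.weyl.Pos r
  · exact (C.fieldTwist R f).U_inf_le_G1 (C.faithful F R)
      ⟨(C.Y F R).X_le_U h (x_mem_xSub _ r t), h1⟩
  · exact (C.fieldTwist R f).V_inf_le_G1 (C.faithful F R)
      ⟨(C.Y F R).X_le_V (R.weyl_mem.2 hr) h (x_mem_xSub _ r t), h1⟩

theorem B_inf_le_F (f : F →+* F) {θs : ℕ} (Z : ZData D (xGL D F) θs) {M : Subgroup (GL D.Idx F)}
    (hM : (C.fieldTwist R f).G1 ≤ M)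
    (hZ : ∀ t s, xGL D F θs t * xGL D F (D.nroots - 1) s ∈ M →
      mapGL D f (xGL D F θs t * xGL D F (D.nroots - 1) s) =
        xGL D F θs t * xGL D F (D.nroots - 1) s) :
    (C.Y F R).B ⊓ M ≤ (C.fieldTwist R f).F := by
  intro g hg
  obtain ⟨hg, hgM⟩ := Subgroup.mem_inf.1 hg
  have hy := C.model F R
  have hσ : ∀ r, r < D.nroots → ∀ t, mapGL D f (xGL D F r t) = xGL D F r (f t) :=
    fun r _ t => C.mapGL_xGL f R r t
  have hL : ∀ r, r < D.nroots → ∀ t, f t = t → xGL D F r t ∈ (C.fieldTwist R f).G1 :=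
    fun r hr t ht => C.xGL_mem_G1 R f hr ht
  obtain ⟨u, hu, h, hh, rfl⟩ := (C.Y F R).mem_B_iff.1 hg
  obtain ⟨c, rfl⟩ := C.hSub_le_range R hh
  have h1 : ∀ i, f (c i) = c i := fun i => by
    have hi := R.simple_lt i i.2
    have hs : xGL D F (D.simple i) 1 ∈ (C.Y F R).U :=
      (C.Y F R).X_le_U (R.weyl.pos_simple i) (x_mem_xSub _ _ _)
    refine C.fixed_of_conj_B R f hu hs (fun h => ?_) (by rw [hσ _ hi, f.map_one])
      (hy.fixed_of_mem hσ Z hL hM hZ (hy.U_eq_cdLev.le (conj_mem_of_mem_normalizer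
        ((C.Y F R).B_le_normalizer_U hg) hs))
        (mul_mem (mul_mem hgM (hM (hL _ hi _ f.map_one))) (inv_mem hgM)))
    have := (hy.coef_eq_zero_iff' i hs).2 h
    rw [hy.coef_simple] at this
    exact one_ne_zero this
  have h2 : torGL R F c ∈ (C.fieldTwist R f).F := ⟨(C.Y F R).H_le_G0 hh, by
    show mapGL D f _ = _
    rw [mapGL_torGL]
    exact congrArg _ (funext fun i => Units.ext (h1 i))⟩
  refine mul_mem ⟨(C.Y F R).U_le_G0 hu, ?_⟩ h2
  have h3 := hy.fixed_of_conj hσ Z hL hM hZ (inv_mem (hy.U_eq_cdLev.le hu)) fun g hg => by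
    have := mul_mem (mul_mem hgM (hM (inv_conj_mem_of_mem_normalizer
      ((C.fieldTwist R f).F_le_normalizer_G1 (C.faithful F R) h2) hg))) (inv_mem hgM)
    convert this using 1
    group
  rw [map_inv, inv_inj] at h3
  exact h3

end Core.Cert

end Cfsg.Lib.Chev
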