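import Cfsg.Agent.Chev.CommCoef
import Cfsg.Agent.Chev.LiftSt

/-!
# Subgroups of `U` normalised by `B` and weakly closed subgroups
-/

set_option autoImplicit false
set_option linter.unusedSectionVars false

namespace Cfsg.Lib.Chev

open Cfsg.Lie

variable {F G : Type*} [Field F] [Group G] {D : ChevalleyDatum} {R : RootData D} {y : ℕ → F → G}

variable (D F) in
/-- Some element of the torus centralises the root subgroup of `s` but not that of `r`. -/
def SepR (r s : ℕ) : Prop :=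
  ∃ k, k < D.nroots ∧ ∃ t : F, t ≠ 0 ∧ D.pairing k s = 0 ∧ t ^ D.pairing k r ≠ 1

/-- Check for the separation of two roots. -/
def sepRChk (D : ChevalleyDatum) (N : List ℕ) (r s : ℕ) : Bool :=
  (List.range D.nroots).any fun k => D.pairing k s == 0 && N.contains (D.pairing k r).natAbs

theorem SepR_eq_1' : type_of% @SepR.eq_1 := @SepR.eq_1
theorem sepRChk_eq_1' : type_of% @sepRChk.eq_1 := @sepRChk.eq_1

theorem sepR_of_chk [Fintype F] {N : List ℕ} (hN : ∀ n ∈ N, n ≠ 0 ∧ n + 1 < Fintype.card F) {r s : ℕ}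
    (h : sepRChk D N r s = true) : SepR F D r s := by
  simp only [sepRChk, List.any_eq_true, List.mem_range, Bool.and_eq_true, beq_iff_eq,
    List.contains_iff_mem] at h
  obtain ⟨k, hk, h1, h2⟩ := h
  obtain ⟨t, ht, h3⟩ := exists_pow_ne_one (hN _ h2).1 (hN _ h2).2
  refine ⟨k, hk, t, ht, h1, fun e => h3 ?_⟩
  rcases Int.natAbs_eq (D.pairing k r) with e' | e' <;> rw [e'] at e
  · rwa [zpow_natCast] at e
  · rwa [zpow_neg, inv_eq_one, zpow_natCast] at e

theorem exists_sq_sub_sq [Finite F] (c : F) : ∃ a b : F, c = a ^ 2 - b ^ 2 := by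
  by_cases h : ringChar F = 2
  · obtain ⟨a, rfl⟩ := FiniteField.isSquare_of_char_two h c
    exact ⟨a, 0, by ring⟩
  · have := Ring.two_ne_zero h
    exact ⟨(c + 1) / 2, (c - 1) / 2, by field_simp; ring⟩

namespace Model

variable (hy : Model R y) {X : Subgroup G} (hU : htLev R y 1 ≤ Subgroup.normalizer (X : Set G))
  (hH : hSub D y ≤ Subgroup.normalizer (X : Set G))
include hy hH

theorem xSub_le_of_mem [Finite F] {r : ℕ} (hr : r < D.nroots) {t : F} (ht : t ≠ 0) (h : y r t ∈ X) :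
    xSub y r ≤ X := by
  have key : ∀ a : F, y r (a ^ 2 * t) ∈ X := fun a => by
    by_cases ha : a = 0
    · simp [ha, hy.toStRel.zero hr]
    · have := conj_mem_of_mem_normalizer (hH (hel_mem_hSub y hr ha)) h
      rwa [hy.toStRelW.hel_conj R hr hr ha, R.pairing_self r hr, zpow_ofNat] at this
  intro g hg
  obtain ⟨u, rfl⟩ := (hy.toStRel.mem_xSub_iff hr).1 hg
  obtain ⟨a, b, e⟩ := exists_sq_sub_sq (u / t)
  have := mul_mem (key a) (inv_mem (key b))
  rwa [hy.toStRel.inv hr, hy.add r hr, ← sub_eq_add_neg, ← sub_mul, ← e, div_mul_cancel₀ _ ht] at this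

include hU

theorem exists_mem_of_sep {r : ℕ} (hr : D.IsPosRoot r)
    (hs : ∀ s ∈ lcSet R r, SepR F D r s ∨ xSub y s ≤ X) (T : Finset ℕ) (h1 : ∀ s ∈ T, s ∈ lcSet R r)
    (h2 : ∀ s ∈ T, ∀ k, k < D.nroots → R.ht s < R.ht k → k ∈ T) {t : F} (ht : t ≠ 0) {v : G}
    (hv : v ∈ spanX (xSub y) T) (h : y r t * v ∈ X) : ∃ t : F, t ≠ 0 ∧ y r t ∈ X := by
  induction T using Finset.strongInduction generalizing t v with | H T ih => ?_
  rcases T.eq_empty_or_nonempty with rfl | hT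
  · rw [Finset.coe_empty, spanX_empty, Subgroup.mem_bot] at hv
    exact ⟨t, ht, by simpa [hv] using h⟩
  obtain ⟨s, hsT, hmin⟩ := T.exists_min_image R.ht hT
  have h0 := R.ht_pos hr
  have h3 := h1 s hsT
  have h4 : 0 < R.ht s := h0.trans_le h3.2.1
  have h5 : htLev R y (R.ht s + 1) ≤ spanX (xSub y) (T.erase s) := spanX_mono _ fun k hk => by
    have h : R.ht s + 1 ≤ R.ht k := R.stHt_empty_eq k ▸ hk.2
    exact Finset.mem_erase.2 ⟨fun e => by rw [e] at h; omega, h2 s hsT k (R.weyl_mem.1 hk.1) h⟩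
  have h6 : ∀ a ∈ spanX (xSub y) (T.erase s), ∀ b ∈ htLev R y 1,
      b⁻¹ * a * b ∈ spanX (xSub y) (T.erase s) := fun a ha b hb => by
    rw [show b⁻¹ * a * b = a * (a⁻¹ * b⁻¹ * a * b) by group]
    exact mul_mem ha (h5 (hy.comm_htLev h4 one_pos (spanX_mono _ (fun k hk => And.intro
      (R.weyl_mem.2 (h1 k (Finset.mem_of_mem_erase hk)).1)
      ((R.stHt_empty_eq k).symm ▸ hmin k (Finset.mem_of_mem_erase hk))) ha) hb))
  obtain ⟨a, ha, b, hb, rfl⟩ := (hy.toStRel.rcomm R).exists_mul_of_union (S := T)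
    (fun k hk => R.weyl_mem.2 (h1 k hk).1) (fun k hk l hl m hm => by
      obtain ⟨hm, i, j, hi, hj, e⟩ := hm
      have h7 := R.ht_of_rc_eq e
      have := hmin k hk
      have := hmin l hl
      have : (1 : ℤ) ≤ i := by exact_mod_cast hi
      have : (1 : ℤ) ≤ j := by exact_mod_cast hj
      exact h2 s hsT m (R.weyl_mem.1 hm) (by nlinarith)) (R.weyl.stHt ∅)
    (fun k hk => (R.stHt_empty_eq k).symm ▸ h4.trans_le (hmin k hk)) (S₁ := {s}) (S₂ := T.erase s)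
    (by rw [Finset.coe_erase, Set.union_sdiff_cancel (by simpa using hsT)]) hv
  rw [spanX_singleton] at ha
  obtain ⟨d, rfl⟩ := (hy.toStRel.mem_xSub_iff h3.1).1 ha
  have h7 := x_mem_htLev (y := y) hr.1 (k := 1) h0 t
  have h8 := x_mem_htLev (y := y) h3.1 (k := 1) h4 d
  have ih' := fun (t : F) (ht : t ≠ 0) v (hv : v ∈ spanX (xSub y) (T.erase s)) => ih _ (Finset.erase_ssubset hsT)
    (fun k hk => h1 k (Finset.mem_of_mem_erase hk)) (fun k hk l hl e => Finset.mem_erase.2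
      ⟨fun e' => (hmin k (Finset.mem_of_mem_erase hk)).not_gt (e' ▸ e),
        h2 k (Finset.mem_of_mem_erase hk) l hl e⟩) ht hv
  rcases hs s h3 with ⟨k, hk, c, hc, e1, e2⟩ | hX
  · have h9 := hel_mem_hSub y hk hc
    have h10 := mul_mem (conj_mem_of_mem_normalizer (hH h9) h) (inv_mem h)
    have h11 := hy.toStRelW.hel_conj R hk hr.1 hc t
    have h12 := hy.toStRelW.hel_conj R hk h3.1 hc d
    rw [e1, zpow_zero, one_mul] at h12
    refine ih' ((c ^ D.pairing k r - 1) * t) (mul_ne_zero (sub_ne_zero.2 e2) ht) _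
      (h6 _ (mul_mem (conj_mem_of_mem_normalizer ((hy.toStRelW.rgd R).H_le_normalizer_spanX
        (fun k hk => R.weyl_mem.2 (h1 k (Finset.mem_of_mem_erase hk)).1) h9) hb) (inv_mem hb)) _
        (inv_mem (mul_mem h7 h8))) ?_
    convert h10 using 1
    rw [sub_mul, one_mul, sub_eq_add_neg, ← hy.add r hr.1, ← hy.toStRel.inv hr.1, ← h11,
      show hel D y k c * (y r t * (y s d * b)) * (hel D y k c)⁻¹ = hel D y k c * y r t *
        (hel D y k c)⁻¹ * (hel D y k c * y s d * (hel D y k c)⁻¹) * (hel D y k c * b *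
          (hel D y k c)⁻¹) by group, h12]
    group
  · have h9 := hy.comm_htLev one_pos h4 h7 (x_mem_htLev h3.1 le_rfl d)
    rw [add_comm] at h9
    refine ih' t ht _ (mul_mem (h5 h9) hb) ?_
    convert mul_mem (inv_mem (hX ha)) h using 1
    group

theorem xSub_le_of_sep [Finite F] {r : ℕ} (hr : D.IsPosRoot r)
    (hs : ∀ s ∈ lcSet R r, SepR F D r s ∨ xSub y s ≤ X) {t : F} (ht : t ≠ 0) {v : G}
    (hv : v ∈ spanX (xSub y) (lcSet R r)) (h : y r t * v ∈ X) : xSub y r ≤ X := by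
  classical
  obtain ⟨t, ht, h⟩ := hy.exists_mem_of_sep hU hH hr hs ((Finset.range D.nroots).filter (· ∈ lcSet R r))
    (fun s hs => (Finset.mem_filter.1 hs).2) (fun s hs k hk e => by
      have := (Finset.mem_filter.1 hs).2.2.1
      exact Finset.mem_filter.2 ⟨Finset.mem_range.2 hk, hk, by omega, fun e' => by
        rw [e'] at e; omega⟩) ht (spanX_mono _ (fun s hs => by simpa [hs] using hs.1) hv) h
  exact hy.xSub_le_of_mem hH hr.1 ht h

/-- A subgroup normalised by `B` contains the unipotent radical given by its simple components. -/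
theorem UJ_le_of_coef [Finite F] (hX : X ≤ (hy.toStRelW.rgd R).U) {J : Set (Fin D.rank)}
    (hJ : ∀ i ∉ J, ∃ u ∈ X, coef R y i u ≠ 0)
    (h1 : ∀ i : Fin D.rank, ∀ s, D.IsPosRoot s → s ≠ D.simple i →
      SepR F D (D.simple i) s ∨ xSub y s ≤ X)
    (h2 : ∀ r, D.IsPosRoot r → R.ht r ≠ 1 → ∃ a b L₁ c L₂, D.IsPosRoot a ∧ D.IsPosRoot b ∧ b ≠ a ∧
      D.commTerms a b = L₁ ++ c :: L₂ ∧ c.1 = r ∧ c.2.1.natAbs = 1 ∧ (∀ d ∈ L₁, R.ht d.1 < R.ht r) ∧
      (∀ d ∈ L₂, d.1 ∈ lcSet R r) ∧ (L₂ = [] ∨ ∀ s ∈ lcSet R r, SepR F D r s ∨ xSub y s ≤ X)) :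
    (hy.toStRelW.rgd R).UJ J ≤ X := by
  have key : ∀ n : ℕ, ∀ r, D.IsPosRoot r → ¬ R.weyl.InJ J r → R.ht r ≤ n → xSub y r ≤ X := by
    intro n
    induction n with
    | zero => exact fun r hr _ h => absurd (R.ht_pos hr) (by omega)
    | succ n ih =>
      intro r hr hrJ hn
      by_cases h3 : R.ht r = 1
      · obtain ⟨i, hi, rfl⟩ := R.eq_simple_of_ht_eq_one hr.1 h3
        obtain ⟨u, hu, h0⟩ := hJ ⟨i, hi⟩ (mt R.weyl.inJ_simple_iff.2 hrJ)
        exact hy.xSub_le_of_sep hU hH hr (fun s hs => h1 ⟨i, hi⟩ s ((R.pos_iff_ht hs.1).2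
          ((R.ht_pos hr).trans_le hs.2.1)) hs.2.2) h0 (spanX_mono _ (fun s hs =>
            And.intro (R.weyl_mem.1 hs.1.1) ⟨h3 ▸ R.ht_pos (R.weyl_pos.1 hs.1), hs.2⟩)
            (hy.coef_spec ⟨i, hi⟩ (hX hu))) (by simpa using hu)
      obtain ⟨a, b, L₁, c, L₂, ha, hb, hab, e, rfl, h4, h5, h6, h7⟩ := h2 r hr h3
      have h8 : ∀ d ∈ D.commTerms a b, D.IsPosRoot d.1 ∧ R.ht a < R.ht d.1 ∧ R.ht b < R.ht d.1 ∧
          (R.weyl.InJ J d.1 ↔ R.weyl.InJ J a ∧ R.weyl.InJ J b) := fun d hd => by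
        obtain ⟨c1, c2, c3, c4⟩ := R.commTerms_spec ha.1 hb.1 hd
        have c5 := R.ht_of_rc_eq c4
        have c6 : (1 : ℤ) ≤ d.2.2.1 := by exact_mod_cast c2
        have c7 : (1 : ℤ) ≤ d.2.2.2 := by exact_mod_cast c3
        have := R.ht_pos ha
        have := R.ht_pos hb
        refine ⟨(R.pos_iff_ht c1).2 (by nlinarith), by nlinarith, by nlinarith, fun h => ?_,
          fun h => ⟨R.weyl_mem.2 c1, fun i hi => by
            rw [RootData.weyl_rc, c4]
            simp [show R.rc a i = 0 from h.1.2 i hi, show R.rc b i = 0 from h.2.2 i hi]⟩⟩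
        have c8 : ∀ i ∉ J, R.rc a i = 0 ∧ R.rc b i = 0 := fun i hi => by
          have c9 := h.2 i hi
          rw [RootData.weyl_rc, c4] at c9
          simp only [Pi.add_apply, Pi.smul_apply, smul_eq_mul] at c9
          have : 0 ≤ R.rc a i := R.rc_nonneg a ha i
          have : 0 ≤ R.rc b i := R.rc_nonneg b hb i
          constructor <;> nlinarith
        exact ⟨⟨R.weyl_mem.2 ha.1, fun i hi => (c8 i hi).1⟩, R.weyl_mem.2 hb.1, fun i hi => (c8 i hi).2⟩
      have h9 := h8 c (by simp [e])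
      have h10 : (y b 1)⁻¹ * (y a 1)⁻¹ * y b 1 * y a 1 ∈ X := by
        rcases not_and_or.1 (mt h9.2.2.2.2 hrJ) with h | h
        · have := ih a ha h (by omega) (x_mem_xSub y a 1)
          exact mul_mem (inv_conj_mem_of_mem_normalizer (hU (x_mem_htLev hb.1 (R.ht_pos hb) 1))
            (inv_mem this)) this
        · have := ih b hb h (by omega) (x_mem_xSub y b 1)
          simpa [mul_assoc] using mul_mem (inv_mem this)
            (inv_conj_mem_of_mem_normalizer (hU (x_mem_htLev ha.1 (R.ht_pos ha) 1)) this)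
      rw [hy.toStRel.comm_eq ha.1 hb.1 hab (fun e => by
        have := R.ht_pos ha; have := R.ht_pos hb; rw [e, R.ht_neg ha.1] at this; omega),
        ChevalleyDatum.commWord, e, List.map_append, word_append, List.map_cons, word_cons,
        X.mul_mem_cancel_left (word_mem _ (List.forall_mem_map.2 fun d hd => by
          have := h8 d (by simp [e, hd])
          exact ih d.1 this.1 (fun h => hrJ (h9.2.2.2.2 (this.2.2.2.1 h)))
            (by have := h5 d hd; omega) (x_mem_xSub y _ _)))] at h10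
      have h11 : (c.2.1 : F) * (-1) ^ c.2.2.1 * 1 ^ c.2.2.2 ≠ 0 := by
        simpa using sign_cast_ne_zero (F := F) (Int.natAbs_eq_iff.1 h4)
      rcases h7 with rfl | h7
      · exact hy.xSub_le_of_mem hH hr.1 h11 (by simpa using h10)
      · exact hy.xSub_le_of_sep hU hH hr h7 h11 (word_mem _ (List.forall_mem_map.2 fun d hd =>
          mem_spanX (T := lcSet R c.1) _ (h6 d hd) (x_mem_xSub y _ _))) h10
  exact spanX_le_iff.2 fun r hr => key (R.ht r).toNat r (R.weyl_pos.1 hr.1) hr.2 (by omega)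

omit hU hH in
/-- A subgroup of `U` whose conjugates inside `U` coincide with it. -/
theorem eq_UJ_of_weaklyClosed (hX : X ≤ (hy.toStRelW.rgd R).U)
    (hwc : ∀ g ∈ (hy.toStRelW.rgd R).G0, (∀ u ∈ X, g * u * g⁻¹ ∈ (hy.toStRelW.rgd R).U) →
      g ∈ Subgroup.normalizer (X : Set G))
    (h : ∀ J, htLev R y 1 ≤ Subgroup.normalizer (X : Set G) → hSub D y ≤ Subgroup.normalizer (X : Set G) →
      (∀ i ∉ J, ∃ u ∈ X, coef R y i u ≠ 0) → (hy.toStRelW.rgd R).UJ J ≤ X) :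
    ∃ J, X = (hy.toStRelW.rgd R).UJ J := by
  set Y := hy.toStRelW.rgd R with hY
  have hB : Y.B ≤ Subgroup.normalizer (X : Set G) := fun b hb => hwc b (Y.B_le_G0 hb) fun u hu =>
    conj_mem_of_mem_normalizer (Y.B_le_normalizer_U hb) (hX hu)
  refine ⟨{i | X ≤ Y.UJ {i}}, le_antisymm (fun u hu => ?_) (h _ ((RGD.U_eq_lev (Y := Y)).ge.trans
    (Y.U_le_B.trans hB)) (Y.H_le_B.trans hB) fun i hi => ?_)⟩
  · have key : ∀ w ∈ R.weyl.WJ {i | X ≤ Y.UJ {i}}, ∀ {m}, Y.Lifts m w →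
        m ∈ Subgroup.normalizer (X : Set G) := fun w hw => by
      refine R.weyl.WJ_induction (p := fun w => ∀ {m}, Y.Lifts m w →
        m ∈ Subgroup.normalizer (X : Set G)) hw (fun hm => hB (Y.H_le_B (RGD.lifts_one_iff.1 hm)))
        fun i hi w _ ih m hm => ?_
      have h1 := (Y.lifts_n i).inv.mul hm
      rw [R.weyl.s_inv, R.weyl.s_mul_s_mul] at h1
      have h2 := hwc _ (Y.N_le_G0 (Y.lifts_n i).mem_N) fun u hu => Y.UJ_le_U _
        (conj_mem_of_mem_normalizer (Y.P_le_normalizer_UJ {i} ((Y.lifts_n i).mem_P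
          (R.weyl.s_mem_WJ (Set.mem_singleton i)))) (hi hu))
      simpa using mul_mem h2 (ih h1)
    obtain ⟨m, hm⟩ := Y.exists_lifts (R.weyl.w0 {i | X ≤ Y.UJ {i}})
    obtain ⟨a, ha, b, hb, rfl⟩ := Y.exists_Upos_mul_Uneg (R.weyl.w0 {i | X ≤ Y.UJ {i}}) (hX hu)
    have h1 := hX (conj_mem_of_mem_normalizer (key _ (R.weyl.w0_mem _) hm) hu)
    have h2 := hy.faithful.eq_one_of_mem_U_of_mem_V (by
      simpa [mul_assoc] using mul_mem (inv_mem (hm.conj_Upos ha)) h1) (by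
      simpa [mul_assoc] using hm.conj_Uneg hb : m * (b * m⁻¹) ∈ Y.V)
    rwa [show b = 1 by simpa [← mul_assoc] using h2, mul_one, ← RGD.Upos_w0]
  · obtain ⟨u, hu, h0⟩ := SetLike.not_le_iff_exists.1 (show ¬ X ≤ Y.UJ {i} from hi)
    exact ⟨u, hu, mt (hy.coef_eq_zero_iff' i (hX hu)).1 h0⟩

end Model

theorem RootData.SL.exists_terms (hs : R.SL) {P : Prop} (r : ℕ) (hr : D.IsPosRoot r)
    (h : R.ht r ≠ 1) : ∃ a b L₁ c L₂, D.IsPosRoot a ∧ D.IsPosRoot b ∧ b ≠ a ∧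
      D.commTerms a b = L₁ ++ c :: L₂ ∧ c.1 = r ∧ c.2.1.natAbs = 1 ∧ (∀ d ∈ L₁, R.ht d.1 < R.ht r) ∧
      (∀ d ∈ L₂, d.1 ∈ lcSet R r) ∧ (L₂ = [] ∨ P) := by
  obtain ⟨i, s, h1, -, -, -, h2⟩ := R.exists_sub_simple hr fun i hi e => h (e ▸ R.ht_simple ⟨i, hi⟩)
  have d : R.Dec r s (D.simple i) := ⟨hr.1, h1.1, R.simple_lt i i.2, h2⟩
  obtain ⟨m, hm, e⟩ := hs.commTerms d
  exact ⟨s, _, [], _, [], h1, R.simple_pos i.2, (R.chainRoot_spec d.ha d.hb le_rfl d.chainRoot).1, e,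
    rfl, Int.natAbs_eq_iff.2 hm, by simp, by simp, .inl rfl⟩

/-- Check of the generation of a root subgroup by commutators. -/
def termChk (R : RootData D) (Q : ℕ → ℕ → Bool) (r : ℕ) : Bool :=
  (List.range D.nroots).any fun a => (List.range D.nroots).any fun b =>
    decide (D.nroots / 2 ≤ a ∧ D.nroots / 2 ≤ b ∧ b ≠ a) &&
    (List.range (D.commTerms a b).length).any fun n => (D.commTerms a b)[n]?.any fun c =>
      decide (c.1 = r ∧ c.2.1.natAbs = 1 ∧ (∀ d ∈ (D.commTerms a b).take n, R.ht d.1 < R.ht r) ∧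
        (∀ d ∈ (D.commTerms a b).drop (n + 1), d.1 < D.nroots ∧ R.ht r ≤ R.ht d.1 ∧ d.1 ≠ r) ∧
        ((D.commTerms a b).drop (n + 1) = [] ∨
          ∀ s, s < D.nroots → R.ht r ≤ R.ht s → s ≠ r → Q r s = true))

theorem termChk_eq_1' : type_of% @termChk.eq_1 := @termChk.eq_1

theorem exists_terms_of_chk {Q : ℕ → ℕ → Bool} {r : ℕ} (h : termChk R Q r = true) {P : ℕ → Prop}
    (hP : ∀ s, Q r s = true → P s) : ∃ a b L₁ c L₂, D.IsPosRoot a ∧ D.IsPosRoot b ∧ b ≠ a ∧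
      D.commTerms a b = L₁ ++ c :: L₂ ∧ c.1 = r ∧ c.2.1.natAbs = 1 ∧ (∀ d ∈ L₁, R.ht d.1 < R.ht r) ∧
      (∀ d ∈ L₂, d.1 ∈ lcSet R r) ∧ (L₂ = [] ∨ ∀ s ∈ lcSet R r, P s) := by
  simp only [termChk, List.any_eq_true, List.mem_range, Bool.and_eq_true, decide_eq_true_eq,
    Option.any_eq_true] at h
  obtain ⟨a, ha, b, hb, ⟨h1, h2, h3⟩, n, hn, c, hc, h4, h5, h6, h7, h8⟩ := h
  refine ⟨a, b, _, c, _, (R.pos_iff a).2 ⟨h1, ha⟩, (R.pos_iff b).2 ⟨h2, hb⟩, h3, ?_, h4, h5, h6, h7,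
    h8.imp_right fun h s hs => hP s (h s hs.1 hs.2.1 hs.2.2)⟩
  rw [List.getElem?_eq_getElem hn, Option.some.injEq] at hc
  rw [← hc, ← List.drop_eq_getElem_cons hn, List.take_append_drop]

theorem Model.UJ_le_of_chk [Fintype F] (hy : Model R y) {X : Subgroup G}
    (hX : X ≤ (hy.toStRelW.rgd R).U) (N : List ℕ) (hN : ∀ n ∈ N, n ≠ 0 ∧ n + 1 < Fintype.card F)
    (E : List ℕ) (hE : ∀ s ∈ E, xSub y s ≤ X)
    (c1 : ∀ i : Fin D.rank, ∀ s, s < D.nroots → D.nroots / 2 ≤ s → s ≠ D.simple i →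
      (sepRChk D N (D.simple i) s || E.contains s) = true)
    (c2 : R.SL ∨ ∀ r, r < D.nroots → D.nroots / 2 ≤ r → R.ht r ≠ 1 →
      termChk R (fun r s => sepRChk D N r s || E.contains s) r = true) (J : Set (Fin D.rank))
    (hU : htLev R y 1 ≤ Subgroup.normalizer (X : Set G)) (hH : hSub D y ≤ Subgroup.normalizer (X : Set G))
    (hJ : ∀ i ∉ J, ∃ u ∈ X, coef R y i u ≠ 0) : (hy.toStRelW.rgd R).UJ J ≤ X := by
  have key : ∀ r s, (sepRChk D N r s || E.contains s) = true → SepR F D r s ∨ xSub y s ≤ X :=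
    fun r s h => (Bool.or_eq_true_iff.1 h).imp (sepR_of_chk hN) fun h => hE s (by simpa using h)
  refine hy.UJ_le_of_coef hU hH hX hJ (fun i s hs h => key _ _ (c1 i s hs.1 ((R.pos_iff s).1 hs).1 h))
    fun r hr h => c2.elim (fun hs => hs.exists_terms r hr h) fun c2 =>
      exists_terms_of_chk (c2 r hr.1 ((R.pos_iff r).1 hr).1 h) (key r)

theorem Model.UJ_le_G2 [Fintype F] {y : ℕ → F → G} (hy : Model rootG2 y) {X : Subgroup G}
    (hX : X ≤ (hy.toStRelW.rgd rootG2).U) (h4 : 3 < Fintype.card F) (J : Set (Fin chevG2.rank))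
    (hU : htLev rootG2 y 1 ≤ Subgroup.normalizer (X : Set G))
    (hH : hSub chevG2 y ≤ Subgroup.normalizer (X : Set G))
    (hJ : ∀ i ∉ J, ∃ u ∈ X, coef rootG2 y i u ≠ 0) : (hy.toStRelW.rgd rootG2).UJ J ≤ X := by
  rcases (Nat.succ_le_of_lt h4).eq_or_lt with h | h
  swap
  · exact hy.UJ_le_of_chk hX [1, 2, 3] (by simp; omega) [] (by simp) (by decide +kernel)
      (.inr (by decide +kernel)) J hU hH hJ
  have hN : ∀ n ∈ [1, 2], n ≠ 0 ∧ n + 1 < Fintype.card F := by simp; omega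
  have hZ : htLev rootG2 y 1 ≤ Subgroup.normalizer (htLev rootG2 y 4 : Set G) :=
    (hy.toStRel.rcomm _).lev_le_normalizer _ zero_le_one (by decide)
  have hX' := hX.trans (RGD.U_eq_lev (Y := hy.toStRelW.rgd rootG2)).le
  have h1 := hy.UJ_le_of_chk (X := X ⊔ htLev rootG2 y 4) (sup_le hX ((lev_anti _ _ _ (by decide)).trans
    (RGD.U_eq_lev (Y := hy.toStRelW.rgd rootG2)).ge)) _ hN [10, 11] (fun s hs =>
      (le_spanX (T := {r | r ∈ rootG2.weyl.Φ ∧ 4 ≤ rootG2.weyl.stHt ∅ (rootG2.weyl.rc r)}) _ (by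
        rw [Set.mem_ofPred_eq, RootData.weyl_rc, rootG2.stHt_empty_eq, rootG2.weyl_mem]
        revert s; decide +kernel)).trans le_sup_right) (by decide +kernel) (.inr (by decide +kernel)) J
    ((le_inf hU hZ).trans (Subgroup.normalizer_inf_normalizer_le_normalizer_sup _ _))
    ((le_inf hH ((hy.toStRelW.rgd rootG2).H_le_normalizer_spanX fun _ h => h.1)).trans
      (Subgroup.normalizer_inf_normalizer_le_normalizer_sup _ _))
    fun i hi => (hJ i hi).imp fun u hu => ⟨Subgroup.mem_sup_left hu.1, hu.2⟩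
  by_cases hJ' : J = Set.univ
  · exact spanX_le_iff.2 fun r hr => absurd (hJ' ▸ rootG2.weyl.inJ_univ hr.1.1) hr.2
  obtain ⟨i, hi⟩ := (Set.ne_univ_iff_exists_notMem J).1 hJ'
  have c : ∀ r ∈ [9, 10, 11, 7, 6], chevG2.IsPosRoot r := by decide +kernel
  have h2 := h1 (mem_spanX (T := {r | rootG2.weyl.Pos r ∧ ¬ rootG2.weyl.InJ J r}) _
    ⟨rootG2.weyl_pos.2 (c 9 (by simp)), fun h => absurd (h.2 i hi)
      ((by decide +kernel : ∀ i, rootG2.rc 9 i ≠ 0) i)⟩ (x_mem_xSub y 9 1))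
  rw [← SetLike.mem_coe, Subgroup.coe_mul_of_left_le_normalizer_right _ _ (hX'.trans hZ)] at h2
  obtain ⟨u, hu, z, hz, e⟩ := h2
  have h3 : xSub y 9 ≤ X := hy.xSub_le_of_sep hU hH (c 9 (by simp)) (fun s hs => .inl (sepR_of_chk hN
      ((by decide +kernel : ∀ s, s < chevG2.nroots → rootG2.ht 9 ≤ rootG2.ht s → s ≠ 9 →
        sepRChk chevG2 [1, 2] 9 s = true) s hs.1 hs.2.1 hs.2.2))) one_ne_zero
    (Model.htLev_le_lcSet (lev_anti _ _ _ (by decide +kernel) (inv_mem hz))) (by rw [← e]; simpa using hu)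
  have h5 : ∀ {a b k : ℕ} {m : ℤ}, xSub y a ≤ X → chevG2.IsPosRoot a ∧ chevG2.IsPosRoot b ∧ b ≠ a ∧
      b ≠ chevG2.neg a ∧ chevG2.commTerms a b = [(k, m, 1, 1)] ∧ k < chevG2.nroots → (m : F) ≠ 0 →
      xSub y k ≤ X := fun {a b k m} ha ⟨c1, c2, c3, c4, c5, c6⟩ hm => by
    have := mul_mem (inv_conj_mem_of_mem_normalizer (hU (x_mem_htLev c2.1 (rootG2.ht_pos c2) 1))
      (inv_mem (ha (x_mem_xSub y a 1)))) (ha (x_mem_xSub y a 1))
    rw [hy.toStRel.comm_eq c1.1 c2.1 c3 c4, ChevalleyDatum.commWord, c5] at this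
    exact hy.xSub_le_of_mem hH c6 (neg_ne_zero.2 hm) (by simpa using this)
  have h6 : (3 : F) ≠ 0 := fun e => by
    have := FiniteField.cast_card_eq_zero F
    rw [← h, show ((Nat.succ 3 : ℕ) : F) = 3 + 1 by norm_num, e, zero_add] at this
    exact one_ne_zero this
  have h7 := h5 (b := 7) (k := 10) (m := -3) h3 (by decide +kernel) (by simpa using h6)
  have h8 := h5 (b := 6) (k := 11) (m := -1) h7 (by decide +kernel) (by simp)
  refine h1.trans (sup_le le_rfl (spanX_le_iff.2 fun r hr => ?_))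
  rcases (by decide +kernel : ∀ r, r < chevG2.nroots → 4 ≤ rootG2.ht r → r = 10 ∨ r = 11) r
    (rootG2.weyl_mem.1 hr.1) (rootG2.stHt_empty_eq r ▸ hr.2) with rfl | rfl <;> assumption

end Cfsg.Lib.Chev
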